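import Mathlib
import Cfsg.Prelude.Def_RootSubgroups

/-! Definitions and statements for the fixed space bound `dim V / 6`. -/

set_option autoImplicit false

namespace Cfsg.Agent.H91.LIN

open Module

universe u v w

/-- `SL₂` over the prime field. -/
abbrev S2 (p : ℕ) : Type := Matrix.SpecialLinearGroup (Fin 2) (ZMod p)

/-- The dimension of the fixed space of `g`. -/
noncomputable def fx {K : Type u} {G : Type v} {V : Type w} [Field K] [Group G] [AddCommGroup V]
    [Module K V] (ρ : Representation K G V) (g : G) : ℕ :=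
  finrank K (LinearMap.ker (ρ g - 1))

/-- An element of order three permuting three commuting conjugates. -/
def RStmt : Prop :=
  ∀ (K : Type u) (G : Type v) (V : Type w) [Field K] [IsAlgClosed K] [Group G] [AddCommGroup V]
    [Module K V] [FiniteDimensional K V] (ρ : Representation K G V), (3 : K) ≠ 0 →
    ∀ x y : G, x ^ 3 = 1 → Commute y (x * y * x⁻¹) → Commute y (x⁻¹ * y * x) →
      finrank K V ≤ 2 * fx ρ (y * (x * y * x⁻¹)⁻¹) + 4 * fx ρ x

/-- Three elementary bounds. -/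
def EStmt : Prop :=
  ∀ (K : Type u) (G : Type v) (V : Type w) [Field K] [Group G] [AddCommGroup V]
    [Module K V] [FiniteDimensional K V] (ρ : Representation K G V),
    (∀ t t' : G, t ^ 2 = 1 → t' ^ 2 = 1 → finrank K V ≤ fx ρ t + fx ρ t' + fx ρ (t * t')) ∧
    (∀ (r : ℕ) (g : G), r.Prime → (r : K) = 0 → g ^ r = 1 → finrank K V ≤ r * fx ρ g) ∧
    (∀ (r : ℕ) (a b : G), r.Prime → (r : K) ≠ 0 → Commute a b → a ^ r = 1 → b ^ r = 1 →
      finrank K V ≤ fx ρ b + ∑ i ∈ Finset.range r, fx ρ (a * b ^ i))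

/-- Extension of the ground field. -/
def BStmt : Prop :=
  ∀ (K : Type u) (G : Type v) (V : Type w) [Field K] [Group G] [AddCommGroup V]
    [Module K V] [FiniteDimensional K V] (ρ : Representation K G V),
    ∃ σ : Representation (AlgebraicClosure K) G (Fin (finrank K V) → AlgebraicClosure K),
      ∀ g : G, fx σ g = fx ρ g

/-- The group theoretic reduction to `SL₂(p)`. -/
def GStmt : Prop :=
  ∀ (H : Type v) [Group H] [Finite H], 120 < (Cfsg.solvableRadical H).index →
    (∀ t t' : H, t ^ 2 = 1 → t' ^ 2 = 1 → t ≠ 1 → t' ≠ 1 → t = t') →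
    (∀ r : ℕ, r = 3 ∨ r = 5 → ∀ a b : H, Commute a b → a ^ r = 1 → b ^ r = 1 → b ≠ 1 →
      a ∈ Subgroup.zpowers b) →
    (∀ x y : H, x ^ 3 = 1 → x ≠ 1 → Commute y (x * y * x⁻¹) → Commute y (x⁻¹ * y * x) →
      x * y * x⁻¹ = y) →
    ∃ p : ℕ, p.Prime ∧ 11 ≤ p ∧ p % 3 = 2 ∧ ∃ f : S2 p →* H, Function.Injective f

/-- `SL₂(p)` in characteristic different from `p`. -/
def XStmt : Prop :=
  ∀ (p : ℕ) [Fact p.Prime], 11 ≤ p → p % 3 = 2 →
    ∀ (K : Type u) (V : Type w) [Field K] [IsAlgClosed K] [AddCommGroup V] [Module K V]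
      [FiniteDimensional K V] (ρ : Representation K (S2 p) V), (p : K) ≠ 0 → (3 : K) ≠ 0 →
      ∃ h : S2 p, h ≠ 1 ∧ finrank K V ≤ 6 * fx ρ h

/-- `SL₂(p)` in characteristic `p`. -/
def DStmt : Prop :=
  ∀ (p : ℕ) [Fact p.Prime], 11 ≤ p →
    ∀ (K : Type u) (V : Type w) [Field K] [IsAlgClosed K] [AddCommGroup V] [Module K V]
      [FiniteDimensional K V] (ρ : Representation K (S2 p) V), (p : K) = 0 →
      ∃ h : S2 p, h ≠ 1 ∧ finrank K V ≤ 6 * fx ρ h

end Cfsg.Agent.H91.LIN
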