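import Cfsg.Agent.H35.S4Defs

/-! `N(⟨t⟩ U)` acts semilinearly on `⟨t⟩ U` modulo its centre (piece STB1, type `Sp₄(q)`). -/

set_option autoImplicit false
set_option linter.unusedSectionVars false

namespace Cfsg.Agent.H91.S4Stb1

open Cfsg Cfsg.Agent.H63 Cfsg.Agent.H63.SL Cfsg.Agent.H35.S4 Subgroup
open scoped commutatorElement

universe u v

section Alg

variable {F : Type*} [Field F]

theorem autotop [Finite F] (f1 f2 f3 : F → F)
    (a1 : ∀ a b, f1 (a + b) = f1 a + f1 b) (n1 : f1 1 ≠ 0) (n2 : f2 1 ≠ 0)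
    (h : ∀ a b, f3 (a * b) = f1 a * f2 b) :
    ∃ (φ : F ≃+* F) (c1 c2 : F), (∀ a, f1 a = c1 * φ a) ∧ ∀ a, f2 a = c2 * φ a := by
  have e1 : ∀ a, f3 a = f1 a * f2 1 := fun a => by rw [← h, mul_one]
  have e2 : ∀ a, f3 a = f1 1 * f2 a := fun a => by rw [← h, one_mul]
  have z : f1 0 = 0 := by simpa using a1 0 0
  let ψ : F →+* F :=
    { toFun := fun a => f1 a / f1 1
      map_one' := div_self n1
      map_zero' := by rw [z, zero_div]
      map_add' := fun a b => by rw [a1, add_div]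
      map_mul' := fun a b => by
        have := h a b
        rw [e1] at this
        have h2 := (e1 b).symm.trans (e2 b)
        field_simp
        apply mul_right_cancel₀ n2
        linear_combination f1 1 * this - f1 a * h2 }
  refine ⟨RingEquiv.ofBijective ψ (Finite.injective_iff_bijective.1 ψ.injective), f1 1, f2 1,
    fun a => ?_, fun a => ?_⟩
  · change _ = f1 1 * (f1 a / f1 1)
    field_simp
  · change _ = f2 1 * (f1 a / f1 1)
    have h2 := (e1 a).symm.trans (e2 a)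
    field_simp
    linear_combination -h2

theorem pow_inj (two : (2 : F) = 0) {e : ℕ} (he : e = 1 ∨ e = 2) {a b : F} (h : a ^ e = b ^ e) :
    a = b := by
  rcases he with rfl | rfl
  · simpa using h
  · have : (a - b) ^ 2 = 0 := by linear_combination h + (b ^ 2 - a * b) * two
    exact sub_eq_zero.1 (pow_eq_zero_iff two_ne_zero |>.1 this)

theorem core [Finite F] (two : (2 : F) = 0) {e : ℕ} (he : e = 1 ∨ e = 2) (u v f : F → F)
    (av : ∀ a b, v (a + b) = v a + v b) (nu : u 1 ≠ 0) (nv : v 1 ≠ 0)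
    (h : ∀ s r, f (s * r) = v s * u r ^ e) (α β : Fˣ) :
    ∃ μ ν : Fˣ, (∀ r, u (μ * r) = α * u r) ∧ ∀ s, v (ν * s) = β * v s := by
  obtain ⟨φ, c1, c2, p1, p2⟩ := autotop v (fun r => u r ^ e) f av nv (pow_ne_zero _ nu) h
  refine ⟨Units.mk0 (φ.symm ((α : F) ^ e)) (by simp), Units.mk0 (φ.symm β) (by simp),
    fun r => pow_inj two he ?_, fun s => ?_⟩
  · have q1 := p2 (φ.symm ((α : F) ^ e) * r)
    have q2 := p2 r
    simp only [map_mul, RingEquiv.apply_symm_apply] at q1 q2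
    rw [Units.val_mk0, q1, mul_pow, q2]
    ring
  · rw [Units.val_mk0, p1, p1, map_mul, RingEquiv.apply_symm_apply]
    ring

theorem axis (f1 f2 : F → F) (a1 : ∀ a b, f1 (a + b) = f1 a + f1 b)
    (a2 : ∀ a b, f2 (a + b) = f2 a + f2 b) (h : ∀ a, f1 a * f2 a = 0) :
    (∀ a, f1 a = 0) ∨ ∀ a, f2 a = 0 := by
  by_contra hn
  push Not at hn
  obtain ⟨⟨a, ha⟩, b, hb⟩ := hn
  have h1 := (mul_eq_zero.1 (h a)).resolve_left ha
  have h2 := (mul_eq_zero.1 (h b)).resolve_right hb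
  have := h (a + b)
  rw [a1, a2, h1, h2, add_zero, zero_add] at this
  exact mul_ne_zero ha hb this

theorem qsurj {b c : F} (hb : b ≠ 0) (hc : c ≠ 0) : ∃ a d : F, a ^ 2 * d = b ∧ a * d = c :=
  ⟨b / c, c ^ 2 / b, by field_simp, by field_simp⟩

theorem alg [Finite F] (two : (2 : F) = 0) (A1 A2 D1 D2 : F → F → F)
    (aA : ∀ a d a' d', A1 (a + a') (d + d') = A1 a d + A1 a' d' ∧
      A2 (a + a') (d + d') = A2 a d + A2 a' d')
    (aD : ∀ a d a' d', D1 (a + a') (d + d') = D1 a d + D1 a' d' ∧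
      D2 (a + a') (d + d') = D2 a d + D2 a' d')
    (sA : ∀ a' d', ∃ a d, A1 a d = a' ∧ A2 a d = d')
    (iD : ∀ b c b' c', D1 b c = D1 b' c' → D2 b c = D2 b' c' → b = b' ∧ c = c')
    (hq : ∀ a d, D1 (a ^ 2 * d) (a * d) = A1 a d ^ 2 * A2 a d ∧
      D2 (a ^ 2 * d) (a * d) = A1 a d * A2 a d) (α' β' : Fˣ) :
    ∃ α β : Fˣ, ∀ a d, A1 (α * a) (β * d) = α' * A1 a d ∧ A2 (α * a) (β * d) = β' * A2 a d := by
  have z1 : D1 0 0 = 0 := by simpa using (aD 0 0 0 0).1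
  have z2 : D2 0 0 = 0 := by simpa using (aD 0 0 0 0).2
  have s1 : ∀ a d, a * d = 0 → A1 a d * A2 a d = 0 := fun a d h => by
    have := (hq a d).2
    rw [show a ^ 2 * d = a * (a * d) by ring, h, mul_zero, z2] at this
    exact this.symm
  have s2 : ∀ a d, A1 a d * A2 a d = 0 → a * d = 0 := fun a d h => by
    refine (iD (a ^ 2 * d) (a * d) 0 0 ?_ ?_).2
    · rw [(hq a d).1, z1]
      linear_combination A1 a d * h
    · rw [(hq a d).2, z2, h]
  have s3 : ∀ b, D1 b 0 * D2 b 0 = 0 := fun b => by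
    by_contra hn
    obtain ⟨a', d', e1, e2⟩ := qsurj (left_ne_zero_of_mul hn) (right_ne_zero_of_mul hn)
    obtain ⟨a, d, rfl, rfl⟩ := sA a' d'
    have := (iD _ _ _ _ ((hq a d).1.trans e1) ((hq a d).2.trans e2)).2
    exact right_ne_zero_of_mul hn (e2 ▸ s1 a d this)
  obtain ⟨e, he, f, hf⟩ : ∃ e : ℕ, (e = 1 ∨ e = 2) ∧ ∃ f : F → F, ∀ a d,
      f (a * d) = A2 a d * A1 a d ^ e := by
    rcases axis (fun b => D1 b 0) (fun b => D2 b 0) (fun a b => by simpa using (aD a 0 b 0).1)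
      (fun a b => by simpa using (aD a 0 b 0).2) s3 with h | h
    · refine ⟨2, Or.inr rfl, fun c => D1 0 c, fun a d => ?_⟩
      have := (aD (a ^ 2 * d) 0 0 (a * d)).1
      rw [add_zero, zero_add, (hq a d).1, h, zero_add] at this
      exact this.symm.trans (mul_comm _ _)
    · refine ⟨1, Or.inl rfl, fun c => D2 0 c, fun a d => ?_⟩
      have := (aD (a ^ 2 * d) 0 0 (a * d)).2
      rw [add_zero, zero_add, (hq a d).2, h, zero_add] at this
      exact this.symm.trans (by rw [pow_one, mul_comm])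
  have d1 : ∀ a d, A1 a d = A1 a 0 + A1 0 d := fun a d => by simpa using (aA a 0 0 d).1
  have d2 : ∀ a d, A2 a d = A2 a 0 + A2 0 d := fun a d => by simpa using (aA a 0 0 d).2
  have n11 : A1 1 1 * A2 1 1 ≠ 0 := fun h => by simpa using s2 1 1 h
  have n1 := left_ne_zero_of_mul n11
  have n2 := right_ne_zero_of_mul n11
  rw [d1] at n1
  rw [d2] at n2
  rcases axis (fun a => A1 a 0) (fun a => A2 a 0) (fun a b => by simpa using (aA a 0 b 0).1)
    (fun a b => by simpa using (aA a 0 b 0).2) (fun a => s1 a 0 (mul_zero a)) with h | h <;>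
  rcases axis (fun a => A1 0 a) (fun a => A2 0 a) (fun a b => by simpa using (aA 0 a 0 b).1)
    (fun a b => by simpa using (aA 0 a 0 b).2) (fun a => s1 0 a (zero_mul a)) with h' | h'
  · exact absurd (by rw [h 1, h' 1, add_zero]) n1
  · rw [h 1, zero_add] at n1
    rw [h' 1, add_zero] at n2
    obtain ⟨μ, ν, p1, p2⟩ := core two he (fun d => A1 0 d) (fun a => A2 a 0) f
      (fun a b => by simpa using (aA a 0 b 0).2) n1 n2
      (fun s r => by rw [hf, d1, d2, h s, h' r, add_zero, zero_add]) α' β'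
    refine ⟨ν, μ, fun a d => ⟨?_, ?_⟩⟩
    · rw [d1, d1 a, h, h, zero_add, zero_add, p1]
    · rw [d2, d2 a, h', h', add_zero, add_zero, p2]
  · rw [h' 1, add_zero] at n1
    rw [h 1, zero_add] at n2
    obtain ⟨μ, ν, p1, p2⟩ := core two he (fun a => A1 a 0) (fun d => A2 0 d) f
      (fun a b => by simpa using (aA 0 a 0 b).2) n1 n2
      (fun s r => by rw [mul_comm s, hf, d1, d2, h r, h' s, add_zero, zero_add]) α' β'
    refine ⟨μ, ν, fun a d => ⟨?_, ?_⟩⟩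
    · rw [d1, d1 a, h', h', add_zero, add_zero, p1]
    · rw [d2, d2 a, h, h, zero_add, zero_add, p2]
  · exact absurd (by rw [h 1, h' 1, add_zero]) n2

end Alg

section Grp

variable {F : Type v} [Field F] {G : Type u} [Group G] {L : Subgroup G} {x : ZMod 8 → F → G}
  {t : G}

/-- The coordinates of an element of `⟨t⟩ U` modulo `⟨t⟩ Z(U)`. -/
def P (x : ZMod 8 → F → G) (t w : G) (a d : F) : Prop :=
  ∃ z ∈ zpowers t ⊔ Zp x, w = x 1 a * x 4 d * z

theorem x0 (hC : Ctx L x t) (i : ZMod 8) : x i 0 = 1 := by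
  simpa using hC.mod.pin.add i 0 0

theorem xx (hC : Ctx L x t) (i : ZMod 8) (a : F) : x i a * x i a = 1 := by
  rw [← hC.mod.pin.add, ← two_mul, hC.mod.pin.two, zero_mul, x0 hC]

theorem xi (hC : Ctx L x t) (i : ZMod 8) (a : F) : (x i a)⁻¹ = x i a :=
  inv_eq_of_mul_eq_one_right (xx hC i a)

theorem c0 (hC : Ctx L x t) (i : ZMod 8) (a b : F) : Commute (x i a) (x i b) := by
  change _ = _
  rw [← hC.mod.pin.add, ← hC.mod.pin.add, add_comm]

theorem tt (hC : Ctx L x t) : t * t = 1 := by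
  rw [← pow_two, ← hC.tc.t2, pow_orderOf_eq_one]

theorem r14 (hC : Ctx L x t) (a d : F) : ⁅x 1 a, x 4 d⁆ = x 2 (a ^ 2 * d) * x 3 (a * d) :=
  hC.mod.pin.rs 1 (by decide) a d

theorem zZ (hC : Ctx L x t) (b c : F) : x 2 b * x 3 c ∈ zpowers t ⊔ Zp x :=
  mem_sup_right ((hC.kp.memZ _).2 ⟨b, c, rfl⟩)

theorem uW (hC : Ctx L x t) (a b c d : F) :
    x 1 a * x 2 b * x 3 c * x 4 d ∈ zpowers t ⊔ Up x :=
  mem_sup_right ((hC.kp.memU _).2 ⟨a, b, c, d, rfl⟩)

theorem w14 (hC : Ctx L x t) (a d : F) : x 1 a * x 4 d ∈ zpowers t ⊔ Up x := by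
  simpa [x0 hC] using uW hC a 0 0 d

theorem w23 (hC : Ctx L x t) (b c : F) : x 2 b * x 3 c ∈ zpowers t ⊔ Up x := by
  simpa [x0 hC] using uW hC 0 b c 0

theorem cenW (hC : Ctx L x t) {y : G} (h0 : Commute y t) (h1 : ∀ a, Commute y (x 1 a))
    (h2 : ∀ a, Commute y (x 2 a)) (h3 : ∀ a, Commute y (x 3 a)) (h4 : ∀ a, Commute y (x 4 a)) :
    ∀ w ∈ zpowers t ⊔ Up x, Commute y w := by
  have : zpowers t ⊔ Up x ≤ C1[y] := by
    refine sup_le (zpowers_le.2 (mem_centralizer_singleton_iff.2 h0.symm.eq)) fun u hu => ?_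
    obtain ⟨a, b, c, d, rfl⟩ := (hC.kp.memU _).1 hu
    exact mem_centralizer_singleton_iff.2
      ((((h1 a).mul_right (h2 b)).mul_right (h3 c)).mul_right (h4 d)).symm.eq
  exact fun w hw => (show Commute w y from mem_centralizer_singleton_iff.1 (this hw)).symm

theorem zP (hC : Ctx L x t) {z : G} (hz : z ∈ zpowers t ⊔ Zp x) :
    z ∈ zpowers t ⊔ Up x ∧ (∀ w ∈ zpowers t ⊔ Up x, Commute z w) ∧ z * z = 1 := by
  let K : Subgroup G :=
    { carrier := {z | z ∈ zpowers t ⊔ Up x ∧ (∀ w ∈ zpowers t ⊔ Up x, Commute z w) ∧ z * z = 1}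
      one_mem' := ⟨one_mem _, fun w _ => Commute.one_left w, one_mul 1⟩
      mul_mem' := fun {a b} ha hb => ⟨mul_mem ha.1 hb.1,
        fun w hw => (ha.2.1 w hw).mul_left (hb.2.1 w hw), by
          rw [(ha.2.1 b hb.1).symm.mul_mul_mul_comm, ha.2.2, hb.2.2, one_mul]⟩
      inv_mem' := fun {a} ha => ⟨inv_mem ha.1, fun w hw => (ha.2.1 w hw).inv_left, by
        rw [← mul_inv_rev, ha.2.2, inv_one]⟩ }
  have pin := hC.mod.pin
  have tx : ∀ i a, Commute t (x i a) := fun i a => hC.kb.tL _ (hC.kb.xL i a)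
  have : zpowers t ⊔ Zp x ≤ K := by
    refine sup_le (zpowers_le.2 ⟨mem_sup_left (mem_zpowers t),
      cenW hC (Commute.refl t) (tx 1) (tx 2) (tx 3) (tx 4), tt hC⟩) fun u hu => ?_
    obtain ⟨b, c, rfl⟩ := (hC.kp.memZ _).1 hu
    refine mul_mem ⟨?_, cenW hC (tx 2 b).symm (fun a => (pin.c1 1 a b).symm) (c0 hC 2 b)
      (pin.c1 2 b) (pin.c2 2 b), xx hC 2 b⟩ ⟨?_, cenW hC (tx 3 c).symm
      (fun a => (pin.c2 1 a c).symm) (fun a => (pin.c1 2 a c).symm) (c0 hC 3 c) (pin.c1 3 c),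
      xx hC 3 c⟩
    · simpa [x0 hC] using w23 hC b 0
    · simpa [x0 hC] using w23 hC 0 c
  exact this hz

theorem P.mem (hC : Ctx L x t) {w : G} {a d : F} (h : P x t w a d) : w ∈ zpowers t ⊔ Up x := by
  obtain ⟨z, hz, rfl⟩ := h
  exact mul_mem (w14 hC a d) (zP hC hz).1

theorem P14 (a d : F) : P x t (x 1 a * x 4 d) a d := ⟨1, one_mem _, (mul_one _).symm⟩

theorem P1 (hC : Ctx L x t) (a : F) : P x t (x 1 a) a 0 := by
  simpa [x0 hC] using P14 (x := x) (t := t) a 0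

theorem P4 (hC : Ctx L x t) (d : F) : P x t (x 4 d) 0 d := by
  simpa [x0 hC] using P14 (x := x) (t := t) 0 d

theorem P0 (hC : Ctx L x t) {z : G} : P x t z 0 0 ↔ z ∈ zpowers t ⊔ Zp x :=
  ⟨fun ⟨y, hy, e⟩ => by rw [e, x0 hC, x0 hC, one_mul, one_mul]; exact hy,
    fun h => ⟨z, h, by rw [x0 hC, x0 hC, one_mul, one_mul]⟩⟩

theorem P.mul (hC : Ctx L x t) {w w' : G} {a d a' d' : F} (h : P x t w a d)
    (h' : P x t w' a' d') : P x t (w * w') (a + a') (d + d') := by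
  obtain ⟨z, hz, rfl⟩ := h
  obtain ⟨z', hz', rfl⟩ := h'
  have hk : ⁅x 1 a', x 4 d⁆ ∈ zpowers t ⊔ Zp x := r14 hC a' d ▸ zZ hC _ _
  refine ⟨⁅x 1 a', x 4 d⁆⁻¹ * z * z', mul_mem (mul_mem (inv_mem hk) hz) hz', ?_⟩
  have e1 := ((zP hC hz).2.1 _ (w14 hC a' d')).eq
  have e2 := ((zP hC (inv_mem hk)).2.1 _ (mul_mem (w14 hC a' d) ((P4 hC d').mem hC))).eq
  rw [hC.mod.pin.add, hC.mod.pin.add]
  calc _ = x 1 a * x 4 d * (z * (x 1 a' * x 4 d')) * z' := by group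
    _ = x 1 a * (⁅x 1 a', x 4 d⁆⁻¹ * (x 1 a' * x 4 d * x 4 d')) * z * z' := by
      rw [e1, commutatorElement_def]; group
    _ = _ := by rw [e2]; group

theorem P.sq (hC : Ctx L x t) {w : G} {a d : F} (h : P x t w a d) :
    w * w = x 2 (a ^ 2 * d) * x 3 (a * d) := by
  obtain ⟨z, hz, rfl⟩ := h
  rw [((zP hC hz).2.1 _ (w14 hC a d)).mul_mul_mul_comm, (zP hC hz).2.2, mul_one, ← r14 hC,
    commutatorElement_def, xi hC, xi hC]
  group

theorem P.inv (hC : Ctx L x t) {w : G} {a d : F} (h : P x t w a d) : P x t w⁻¹ a d := by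
  have h2 : (w * w)⁻¹ ∈ zpowers t ⊔ Zp x := inv_mem (h.sq hC ▸ zZ hC _ _)
  have := h.mul hC ((P0 hC).2 h2)
  rwa [add_zero, add_zero, show w * (w * w)⁻¹ = w⁻¹ by group] at this

theorem exP (hC : Ctx L x t) {w : G} (hw : w ∈ zpowers t ⊔ Up x) : ∃ a d, P x t w a d := by
  let K : Subgroup G :=
    { carrier := {w | ∃ a d, P x t w a d}
      one_mem' := ⟨0, 0, (P0 hC).2 (one_mem _)⟩
      mul_mem' := fun ⟨_, _, ha⟩ ⟨_, _, hb⟩ => ⟨_, _, ha.mul hC hb⟩
      inv_mem' := fun ⟨_, _, ha⟩ => ⟨_, _, ha.inv hC⟩ }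
  have : zpowers t ⊔ Up x ≤ K := by
    refine sup_le (zpowers_le.2 ⟨0, 0, (P0 hC).2 (mem_sup_left (mem_zpowers t))⟩) fun u hu => ?_
    obtain ⟨a, b, c, d, rfl⟩ := (hC.kp.memU _).1 hu
    exact ⟨_, _, by
      simpa only [mul_assoc] using ((P1 hC a).mul hC ((P0 hC).2 (zZ hC b c))).mul hC (P4 hC d)⟩
  exact this hw

theorem zinj (hC : Ctx L x t) {b c b' c' : F} (h : x 2 b * x 3 c = x 2 b' * x 3 c') :
    b = b' ∧ c = c' := by
  have pin := hC.mod.pin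
  have e : x 2 (b + b') * x (2 + 1) (c + c') * x (2 + 2) 0 * x (2 + 3) 0 = 1 := by
    rw [x0 hC, x0 hC, mul_one, mul_one, pin.add, pin.add]
    change x 2 b * x 2 b' * (x 3 c * x 3 c') = 1
    have c23 : Commute (x 2 b') (x 3 c) := pin.c1 2 b' c
    rw [c23.mul_mul_mul_comm, h]
    exact (zP hC (zZ hC b' c')).2.2
  obtain ⟨e1, e2, -⟩ := hC.kp.uniq 2 _ _ _ _ e
  exact ⟨by linear_combination e1 - b' * pin.two, by linear_combination e2 - c' * pin.two⟩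

theorem zadd (hC : Ctx L x t) (b c b' c' : F) :
    x 2 (b + b') * x 3 (c + c') = x 2 b * x 3 c * (x 2 b' * x 3 c') := by
  have c23 : Commute (x 2 b') (x 3 c) := hC.mod.pin.c1 2 b' c
  rw [hC.mod.pin.add, hC.mod.pin.add, c23.mul_mul_mul_comm]

theorem P.uniq (hC : Ctx L x t) {w : G} {a d a' d' : F} (h : P x t w a d) (h' : P x t w a' d') :
    a = a' ∧ d = d' := by
  have e0 := (zinj hC ((h.sq hC).symm.trans (h'.sq hC))).2
  have e1 := (zinj hC (((h.mul hC (P4 hC 1)).sq hC).symm.trans ((h'.mul hC (P4 hC 1)).sq hC))).2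
  have e2 := (zinj hC (((h.mul hC (P1 hC 1)).sq hC).symm.trans ((h'.mul hC (P1 hC 1)).sq hC))).2
  exact ⟨by linear_combination e1 - e0, by linear_combination e2 - e0⟩

theorem cjW {g w : G} (hg : g ∈ N[zpowers t ⊔ Up x]) (hw : w ∈ zpowers t ⊔ Up x) :
    g * w * g⁻¹ ∈ zpowers t ⊔ Up x := (mem_normalizer_iff.1 hg w).1 hw

theorem cjZ (hC : Ctx L x t) {g z : G} (hg : g ∈ N[zpowers t ⊔ Up x])
    (hz : z ∈ zpowers t ⊔ Zp x) : g * z * g⁻¹ ∈ zpowers t ⊔ Zp x := by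
  obtain ⟨a, d, h⟩ := exP hC (cjW hg (zP hC hz).1)
  have key : ∀ y a' d', P x t y a' d' → y * y = 1 → (a + a') * (d + d') = 0 := by
    intro y a' d' hy y2
    have c := ((zP hC hz).2.1 _ (cjW (inv_mem hg) (hy.mem hC))).eq
    have e : g * z * g⁻¹ * y * (g * z * g⁻¹ * y) = x 2 0 * x 3 0 := by
      rw [x0 hC, x0 hC]
      calc _ = g * z * (g⁻¹ * y * g⁻¹⁻¹ * z) * g⁻¹ * y := by group
        _ = g * (z * z) * g⁻¹ * (y * y) := by rw [← c]; group
        _ = _ := by rw [(zP hC hz).2.2, y2]; group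
    exact (zinj hC (((h.mul hC hy).sq hC).symm.trans e)).2
  have e0 := key 1 0 0 ((P0 hC).2 (one_mem _)) (one_mul 1)
  have e1 := key _ _ _ (P4 hC 1) (xx hC 4 1)
  have e2 := key _ _ _ (P1 hC 1) (xx hC 1 1)
  have ha : a = 0 := by linear_combination e1 - e0
  have hd : d = 0 := by linear_combination e2 - e0
  rw [ha, hd] at h
  exact (P0 hC).1 h

theorem P.tor (hC : Ctx L x t) {h w : G} (hL : h ∈ L) {α β : Fˣ} (hT : Tor x h α β) {a d : F}
    (hw : P x t w a d) : P x t (h * w * h⁻¹) (α * a) (β * d) := by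
  obtain ⟨z, hz, rfl⟩ := hw
  have hz' : zpowers t ⊔ Zp x ≤ (zpowers t ⊔ Zp x).comap (MulAut.conj h).toMonoidHom := by
    refine sup_le (zpowers_le.2 ?_) fun u hu => ?_
    · change h * t * h⁻¹ ∈ zpowers t ⊔ Zp x
      rw [← (hC.kb.tL h hL).eq, mul_inv_cancel_right]
      exact mem_sup_left (mem_zpowers t)
    · obtain ⟨b, c, rfl⟩ := (hC.kp.memZ _).1 hu
      change h * (x 2 b * x 3 c) * h⁻¹ ∈ zpowers t ⊔ Zp x
      rw [← conj_mul, hT, hT]
      exact zZ hC _ _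
  refine ⟨h * z * h⁻¹, hz' hz, ?_⟩
  have e1 : h * x 1 a * h⁻¹ = x 1 (α * a) := hT 1 a
  have e4 : h * x 4 d * h⁻¹ = x 4 (β * d) := hT 4 d
  rw [← e1, ← e4]
  group

theorem two_sq (hC : Ctx L x t) (b c : F) : ∃ w w', w ∈ zpowers t ⊔ Up x ∧
    w' ∈ zpowers t ⊔ Up x ∧ x 2 b * x 3 c = w * w * (w' * w') := by
  obtain ⟨γ, h1, -⟩ := hC.kb.ne1
  have key : ∀ b : F, ∃ r s : F, r ≠ 0 ∧ s ≠ 0 ∧ b = r + s := fun b => by
    by_cases h : b = 1
    · exact ⟨γ, 1 - γ, γ.ne_zero, fun e => h1 (Units.ext (sub_eq_zero.1 e).symm), by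
        rw [h]; ring⟩
    · exact ⟨1, b - 1, one_ne_zero, sub_ne_zero.2 h, by ring⟩
  obtain ⟨r, s, hr, hs, rfl⟩ := key b
  obtain ⟨r', s', hr', hs', rfl⟩ := key c
  obtain ⟨a, d, rfl, rfl⟩ := qsurj hr hr'
  obtain ⟨a', d', rfl, rfl⟩ := qsurj hs hs'
  exact ⟨_, _, w14 hC a d, w14 hC a' d', by rw [(P14 a d).sq hC, (P14 a' d').sq hC, zadd hC]⟩

end Grp

theorem stB1 : StB1Stmt.{u, v} := by
  intro F _ _ G _ _ L x t hC g hg h' hh'
  have hA : ∀ a d : F, ∃ a' d', P x t (g * (x 1 a * x 4 d) * g⁻¹) a' d' := fun a d =>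
    exP hC (cjW hg (w14 hC a d))
  choose A1 A2 hA using hA
  have cA : ∀ {w a d}, P x t w a d → P x t (g * w * g⁻¹) (A1 a d) (A2 a d) := by
    rintro _ a d ⟨z, hz, rfl⟩
    have := (hA a d).mul hC ((P0 hC).2 (cjZ hC hg hz))
    rwa [add_zero, add_zero, conj_mul] at this
  have hD : ∀ b c : F, ∃ b' c', g * (x 2 b * x 3 c) * g⁻¹ = x 2 b' * x 3 c' := fun b c => by
    obtain ⟨w, w', hw, hw', e⟩ := two_sq hC b c
    obtain ⟨a, d, p⟩ := exP hC (cjW hg hw)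
    obtain ⟨a', d', p'⟩ := exP hC (cjW hg hw')
    refine ⟨a ^ 2 * d + a' ^ 2 * d', a * d + a' * d', ?_⟩
    rw [zadd hC, ← p.sq hC, ← p'.sq hC, e, conj_mul, conj_mul, conj_mul]
  choose D1 D2 hD using hD
  obtain ⟨α', β', hT'⟩ := hC.kp.memH h' hh'
  obtain ⟨α, β, hab⟩ := alg hC.mod.pin.two A1 A2 D1 D2
    (fun a d a' d' => (cA ((P14 a d).mul hC (P14 a' d'))).uniq hC
      (by rw [← conj_mul]; exact (hA a d).mul hC (hA a' d')))
    (fun a d a' d' => zinj hC (by rw [← hD, zadd hC, ← conj_mul, hD, hD, zadd hC]))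
    (fun a' d' => by
      obtain ⟨a, d, p⟩ := exP hC (cjW (inv_mem hg) (w14 hC a' d'))
      refine ⟨a, d, (cA p).uniq hC ?_⟩
      rw [show g * (g⁻¹ * (x 1 a' * x 4 d') * g⁻¹⁻¹) * g⁻¹ = x 1 a' * x 4 d' by group]
      exact P14 a' d')
    (fun b c b' c' e1 e2 => zinj hC (by
      have := hD b c
      rw [e1, e2, ← hD] at this
      simpa using this))
    (fun a d => zinj hC (by rw [← hD, ← (P14 a d).sq hC, ← conj_mul, (hA a d).sq hC])) α' β'
  obtain ⟨h, hh, hT⟩ := hC.kp.tor α β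
  have key : ∀ w ∈ zpowers t ⊔ Up x, ∃ a d, P x t w a d ∧
      P x t (g * h * g⁻¹ * h'⁻¹ * w * (g * h * g⁻¹ * h'⁻¹)⁻¹) a d := by
    intro w hw
    obtain ⟨a, d, p⟩ := exP hC hw
    obtain ⟨α'', β'', hT''⟩ := hC.kp.memH _ (inv_mem hh')
    have p1 := (p.tor hC (inv_mem hh').1 hT'').mem hC
    obtain ⟨a0, d0, p0⟩ := exP hC (cjW (inv_mem hg) p1)
    have q1 := (cA p0).tor hC hh'.1 hT'
    have q2 := cA (p0.tor hC hh.1 hT)
    rw [(hab a0 d0).1, (hab a0 d0).2] at q2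
    refine ⟨α' * A1 a0 d0, β' * A2 a0 d0, ?_, ?_⟩
    · convert q1 using 1
      group
    · convert q2 using 1
      group
  refine ⟨h, hh, ?_, fun u hu => ?_⟩
  · generalize g * h * g⁻¹ * h'⁻¹ = n at key
    have sq : ∀ w ∈ zpowers t ⊔ Up x, Commute (w * w) n := fun w hw => by
      obtain ⟨a, d, p, q⟩ := key w hw
      have := (q.sq hC).trans (p.sq hC).symm
      rw [conj_mul, mul_inv_eq_iff_eq_mul] at this
      exact this.symm
    refine mem_centralizer_iff.2 fun z hz => ?_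
    obtain ⟨b, c, rfl⟩ := (hC.kp.memZ _).1 hz
    obtain ⟨w, w', hw, hw', e⟩ := two_sq hC b c
    rw [e]
    exact ((sq w hw).mul_left (sq w' hw')).eq
  · obtain ⟨a, d, p, q⟩ := key u (mem_sup_right hu)
    have := q.mul hC (p.inv hC)
    rw [← two_mul, ← two_mul, hC.mod.pin.two, zero_mul, zero_mul] at this
    exact (P0 hC).1 this

end Cfsg.Agent.H91.S4Stb1
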