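import Mathlib

/-!
Gauss' identity `4 Φ_ℓ = Y² + ℓ Z²`, and the isotropy of the sum of four squares over
`ℚ(√5, ζ_p)`.
-/

set_option autoImplicit false

namespace Cfsg.Agent.H91

open Polynomial Finset

theorem gauss_identity_aux (l : ℕ) [hl : Fact l.Prime] (h3 : l % 4 = 3) {L : Type*} [Field L]
    [Algebra ℚ L] [IsGalois ℚ L] [FiniteDimensional ℚ L] {ζ : L} (hζ : IsPrimitiveRoot ζ l) :
    ∃ Y Z : ℚ[X], (Y ^ 2 + C (l : ℚ) * Z ^ 2) * (X - 1) = 4 * (X ^ l - 1) := by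
  classical
  have := algebraRat.charZero L
  let ψ : AddChar (ZMod l) L := AddChar.zmodChar l ((IsPrimitiveRoot.iff_def ζ l).mp hζ).left
  let χ := quadraticChar (ZMod l)
  let χ' := χ.ringHomComp (Int.castRingHom L)
  have hc : ringChar (ZMod l) ≠ 2 := by rw [ZMod.ringChar_zmod_n]; omega
  have hg : gaussSum χ' ψ ^ 2 = -l := by
    rw [gaussSum_sq (χ := χ') (ψ := ψ) ((MulChar.ringHomComp_ne_one_iff (RingHom.injective_int _)).mpr
      (quadraticChar_ne_one hc)) ((quadraticChar_isQuadratic _).comp _)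
      (AddChar.zmodChar_primitive_of_primitive_root l hζ), ZMod.card]
    simp [χ', χ, quadraticChar_neg_one hc, ZMod.χ₄_nat_three_mod_four h3]
  set g := gaussSum χ' ψ with hgdef
  have hg0 : g ≠ 0 := fun e => by
    rw [e, zero_pow two_ne_zero, eq_comm, neg_eq_zero, Nat.cast_eq_zero] at hg
    exact hl.out.ne_zero hg
  let A : ℤ → L[X] := fun ε => ∏ j ∈ univ.filter fun j => χ j = ε, (X - C (ψ j))
  have hσ : ∀ σ : Gal(L/ℚ), ∃ e : ℤ, (e = 1 ∨ e = -1) ∧ σ g = e * g ∧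
      ∀ ε, (A ε).map (σ : L →+* L) = A (e * ε) := by
    intro σ
    have h1 := hζ.map_of_injective σ.injective
    obtain ⟨a, ha, h2⟩ := hζ.eq_pow_of_pow_eq_one h1.pow_eq_one
    have ha0 : (a : ZMod l) ≠ 0 := fun e => by
      rw [Nat.eq_zero_of_dvd_of_lt ((ZMod.natCast_eq_zero_iff a l).mp e) ha, pow_zero] at h2
      exact h1.ne_one hl.out.one_lt h2.symm
    have h4 : ∀ j, σ (ψ j) = ψ (a * j) := fun j => by
      conv_rhs => rw [← ZMod.natCast_zmod_val j, ← Nat.cast_mul, AddChar.zmodChar_apply', pow_mul, h2]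
      rw [AddChar.zmodChar_apply, map_pow]
    have h5 := quadraticChar_dichotomy ha0
    have h6 : χ a * χ a = 1 := by rcases h5 with h | h <;> simp [χ, h]
    refine ⟨χ a, h5, ?_, fun ε => ?_⟩
    · have h7 := gaussSum_mulShift χ' ψ (Units.mk0 _ ha0)
      have h8 : σ g = gaussSum χ' (ψ.mulShift (Units.mk0 _ ha0 : (ZMod l)ˣ)) := by
        simp [hgdef, gaussSum, h4, χ']
      rw [← h8, ← hgdef] at h7
      conv_rhs => rw [← h7]
      rw [← mul_assoc]
      change _ = ((χ a : ℤ) : L) * ((χ a : ℤ) : L) * _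
      rw [← Int.cast_mul, h6, Int.cast_one, one_mul]
    · simp only [A, Polynomial.map_prod, Polynomial.map_sub, map_X, map_C, RingHom.coe_coe, h4]
      refine prod_bij (fun j _ => (a : ZMod l) * j) (fun j hj => ?_)
        (fun i _ j _ e => mul_left_cancel₀ ha0 e) (fun j hj => ⟨(a : ZMod l)⁻¹ * j, ?_, ?_⟩)
        fun _ _ => rfl
      · rw [mem_filter] at hj ⊢
        exact ⟨mem_univ _, by rw [map_mul, hj.2]⟩
      · rw [mem_filter] at hj ⊢
        refine ⟨mem_univ _, ?_⟩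
        have h7 : χ j = χ a * χ ((a : ZMod l)⁻¹ * j) := by
          rw [← map_mul, mul_inv_cancel_left₀ ha0]
        rw [← one_mul (χ _), ← h6, mul_assoc, ← h7, hj.2, ← mul_assoc, h6, one_mul]
      · exact mul_inv_cancel_left₀ ha0 j
  have lift : ∀ P : L[X], (∀ σ : Gal(L/ℚ), P.map (σ : L →+* L) = P) →
      ∃ Q : ℚ[X], Q.map (algebraMap ℚ L) = P := fun P hP =>
    (mem_lifts P).mp ((lifts_iff_coeff_lifts P).mpr fun n =>
      (IsGalois.mem_range_algebraMap_iff_fixed _).mpr fun σ => by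
        conv_rhs => rw [← hP σ, coeff_map]
        rfl)
  obtain ⟨Y, hY⟩ := lift (A 1 + A (-1)) fun σ => by
    obtain ⟨e, rfl | rfl, -, h⟩ := hσ σ <;> simp [h, add_comm]
  obtain ⟨Z, hZ⟩ := lift (C g⁻¹ * (A 1 - A (-1))) fun σ => by
    obtain ⟨e, rfl | rfl, h1, h⟩ := hσ σ
    · simp [h, h1]
    · simp only [Polynomial.map_mul, Polynomial.map_sub, map_C, h, RingHom.coe_coe, map_inv₀, h1]
      simp only [Int.cast_neg, Int.cast_one, neg_mul, one_mul, inv_neg, map_neg, neg_neg, mul_one]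
      ring
  have hprod : A 1 * A (-1) * (X - 1) = X ^ l - 1 := by
    have h1 : ∏ j : ZMod l, (X - C (ψ j)) = X ^ l - 1 := by
      rw [← C_1, X_pow_sub_C_eq_prod hζ hl.out.pos (one_pow l)]
      refine prod_bij (fun j _ => j.val) (fun j _ => mem_range.mpr (ZMod.val_lt j))
        (fun i _ j _ e => ZMod.val_injective l e)
        (fun j hj => ⟨j, mem_univ _, ZMod.val_cast_of_lt (mem_range.mp hj)⟩) fun j _ => ?_
      rw [mul_one, AddChar.zmodChar_apply]
    rw [← h1, ← prod_fiberwise_of_maps_to (t := {1, -1, 0}) (g := χ) fun j _ => by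
      rcases quadraticChar_isQuadratic (ZMod l) j with h | h | h <;> simp [χ, h],
      prod_insert (by decide), prod_pair (by decide), mul_assoc]
    congr 2
    rw [show univ.filter (fun j => χ j = 0) = {0} by ext j; simp [χ, quadraticCharFun_eq_zero_iff]]
    simp
  refine ⟨Y, Z, map_injective (algebraMap ℚ L) (algebraMap ℚ L).injective ?_⟩
  have h1 : C (l : L) * C g⁻¹ ^ 2 = -1 := by
    rw [← C_pow, ← C_mul, ← C_1, ← C_neg, inv_pow, hg, inv_neg, mul_neg,
      mul_inv_cancel₀ (Nat.cast_ne_zero.mpr hl.out.ne_zero)]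
  simp only [Polynomial.map_mul, Polynomial.map_add, Polynomial.map_pow, Polynomial.map_sub, map_X,
    Polynomial.map_one, hY, hZ, Polynomial.map_ofNat, map_natCast, Polynomial.map_natCast]
  rw [← map_natCast C]
  linear_combination 4 * hprod + (A 1 - A (-1)) ^ 2 * (X - 1) * h1

theorem gauss_identity (l : ℕ) [hl : Fact l.Prime] (h3 : l % 4 = 3) :
    ∃ Y Z : ℚ[X], (Y ^ 2 + C (l : ℚ) * Z ^ 2) * (X - 1) = 4 * (X ^ l - 1) := by
  have : NeZero (l : ℚ) := ⟨Nat.cast_ne_zero.mpr hl.out.ne_zero⟩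
  obtain ⟨L, _, _, _⟩ : ∃ (L : Type) (_ : Field L) (_ : Algebra ℚ L),
      IsCyclotomicExtension {l} ℚ L := ⟨_, _, _, CyclotomicField.isCyclotomicExtension l ℚ⟩
  have := IsCyclotomicExtension.isGalois {l} ℚ L
  have := IsCyclotomicExtension.finiteDimensional {l} ℚ L
  exact gauss_identity_aux l h3 (IsCyclotomicExtension.zeta_spec l ℚ L)

theorem thue {l : ℕ} (hl : l.Prime) (r : ZMod l) :
    ∃ x y : ℤ, (x : ZMod l) = r * y ∧ x ^ 2 < l ∧ y ^ 2 < l ∧ (x ≠ 0 ∨ y ≠ 0) := by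
  have := Fact.mk hl
  obtain ⟨a, ha, b, hb, hab, h⟩ := exists_ne_map_eq_of_card_lt_of_maps_to
    (s := range (l.sqrt + 1) ×ˢ range (l.sqrt + 1)) (t := (univ : Finset (ZMod l)))
    (f := fun a => (a.1 : ZMod l) - r * a.2)
    (by rw [card_univ, ZMod.card, card_product, card_range]; exact Nat.lt_succ_sqrt l)
    fun _ _ => mem_univ _
  have h1 : l.sqrt * l.sqrt < l := lt_of_le_of_ne (Nat.sqrt_le l) fun e =>
    hl.prime.irreducible.not_isSquare ⟨_, e.symm⟩
  have key : ∀ u v : ℕ, u < l.sqrt + 1 → v < l.sqrt + 1 → ((u : ℤ) - v) ^ 2 < l := fun u v hu hv => by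
    have h2 : ((u : ℤ) - v) ^ 2 ≤ (l.sqrt : ℤ) ^ 2 := sq_le_sq' (by omega) (by omega)
    have h3 : (l.sqrt : ℤ) * l.sqrt < l := by exact_mod_cast h1
    nlinarith
  rw [mem_product, mem_range, mem_range] at ha hb
  refine ⟨a.1 - b.1, a.2 - b.2, by push_cast; linear_combination h, key _ _ ha.1 hb.1,
    key _ _ ha.2 hb.2, ?_⟩
  by_contra h2
  push Not at h2
  exact hab (Prod.ext (by omega) (by omega))

theorem exists_sq_add_five_sq {l : ℕ} (hl : l.Prime) (h : l % 20 = 3) :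
    ∃ u v k : ℤ, 0 < k ∧ k < 6 ∧ k * l = u ^ 2 + 5 * v ^ 2 := by
  have := Fact.mk hl
  have h35 : ¬ IsSquare ((3 : ℕ) : ZMod 5) := by decide
  have : Fact (Nat.Prime 5) := ⟨by norm_num⟩
  have h5 : ¬ IsSquare ((5 : ℕ) : ZMod l) := by
    rwa [← ZMod.exists_sq_eq_prime_iff_of_mod_four_eq_one (p := 5) (q := l) rfl (by omega),
      ← ZMod.natCast_mod, show l % 5 = 3 by omega]
  have h1 : ¬ IsSquare (-1 : ZMod l) := by rw [ZMod.exists_sq_eq_neg_one_iff]; omega
  have h2 : IsSquare (-5 : ZMod l) := by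
    have h0 : (-5 : ZMod l) ≠ 0 := fun e => h5 (by rw [Nat.cast_ofNat, neg_eq_zero.mp e]; exact IsSquare.zero)
    rw [← quadraticChar_one_iff_isSquare h0, ← neg_one_mul, map_mul,
      quadraticChar_neg_one_iff_not_isSquare.mpr h1,
      quadraticChar_neg_one_iff_not_isSquare.mpr (by exact_mod_cast h5)]
    rfl
  obtain ⟨r, hr⟩ := h2
  obtain ⟨x, y, h3, h4, h6, h7⟩ := thue hl r
  obtain ⟨k, hk⟩ := (ZMod.intCast_zmod_eq_zero_iff_dvd (x ^ 2 + 5 * y ^ 2) l).mp (by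
    push_cast
    rw [h3]
    linear_combination -(y : ZMod l) ^ 2 * hr)
  have h8 : 0 < x ^ 2 + 5 * y ^ 2 := by rcases h7 with h | h <;> positivity
  have h9 : (0 : ℤ) < l := by exact_mod_cast hl.pos
  exact ⟨x, y, k, by nlinarith, by nlinarith, by rw [hk, mul_comm]⟩

theorem exists_sum_four_sq {K : Type*} [CommRing K] [IsDomain K] [Algebra ℚ K] {s η : K} {p : ℕ}
    (hs : s * s = 5) (hp : p.Prime) (hp2 : p ≠ 2) (hp5 : p ≠ 5) (hη : η ^ p = 1) (hη1 : η ≠ 1) :
    ∃ a b c d : K, a * a + b * b + c * c + d * d = 0 ∧ a ≠ 0 := by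
  have := algebraRat.charZero K
  have hc : Nat.Coprime 20 p := Nat.Coprime.mul_left (m := 2 ^ 2) (n := 5)
    (((Nat.coprime_primes Nat.prime_two hp).mpr hp2.symm).pow_left 2)
    ((Nat.coprime_primes (by norm_num) hp).mpr hp5.symm)
  obtain ⟨m, h1, h2⟩ := Nat.chineseRemainder hc 3 (p - 1)
  have hp1 := hp.one_le
  obtain ⟨l, -, hl, h3⟩ := Nat.forall_exists_prime_gt_and_modEq 0 (q := 20 * p) (a := m)
    (mul_ne_zero (by norm_num) hp.ne_zero) (Nat.Coprime.mul_right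
      (by rw [Nat.Coprime, h1.gcd_eq]; rfl)
      (by rw [Nat.Coprime, h2.gcd_eq]; exact (Nat.coprime_self_sub_left hp1).mpr (by simp)))
  have h4 : l % 20 = 3 := (h3.of_mul_right p).trans h1
  have h5 : η ^ l = η ^ (p - 1) := by
    rw [pow_eq_pow_mod l hη, ((h3.of_mul_left 20).trans h2 :), ← pow_eq_pow_mod _ hη]
  have := Fact.mk hl
  obtain ⟨Y, Z, h6⟩ := gauss_identity l (by omega)
  obtain ⟨u, v, k, k0, k6, h7⟩ := exists_sq_add_five_sq hl h4
  obtain ⟨n, rfl⟩ := hp.odd_of_ne_two hp2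
  have h8 := congrArg (aeval η) h6
  simp only [map_mul, map_add, map_pow, map_sub, aeval_X, map_one, map_natCast, map_ofNat, h5,
    Nat.add_sub_cancel] at h8
  generalize aeval η Y = y at h8
  generalize aeval η Z = z at h8
  have h9 : y ^ 2 + l * z ^ 2 = -4 * (η ^ n) ^ 2 :=
    mul_right_cancel₀ (sub_ne_zero.mpr hη1) (by linear_combination h8 + 4 * hη)
  have h10 : (k : K) * l = u ^ 2 + 5 * v ^ 2 := by exact_mod_cast congrArg (Int.cast : ℤ → K) h7
  obtain ⟨c, d, h11⟩ : ∃ c d : K, 4 * (k : K) = c ^ 2 + d ^ 2 := by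
    interval_cases k
    · exact ⟨2, 0, by norm_num⟩
    · exact ⟨2, 2, by norm_num⟩
    · exact ⟨s + 1, s - 1, by push_cast; linear_combination -2 * hs⟩
    · exact ⟨4, 0, by norm_num⟩
    · exact ⟨4, 2, by norm_num⟩
  refine ⟨4 * k * η ^ n, 2 * k * y, (u * c - s * v * d) * z, (u * d + s * v * c) * z, ?_, ?_⟩
  · linear_combination 4 * (k : K) ^ 2 * h9 - z ^ 2 * 4 * k * h10 -
      z ^ 2 * (u ^ 2 + 5 * v ^ 2) * h11 + z ^ 2 * v ^ 2 * (c ^ 2 + d ^ 2) * hs
  · refine mul_ne_zero (mul_ne_zero (by norm_num) (Int.cast_ne_zero.mpr k0.ne')) fun e => ?_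
    rw [pow_succ, two_mul, pow_add, e, zero_mul, zero_mul] at hη
    exact zero_ne_one hη

end Cfsg.Agent.H91
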