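import Mathlib
import Cfsg.Agent.H42.FvDefs

/-! The rational points of a proper parabolic subgroup form a proper subgroup. -/

set_option autoImplicit false

namespace Cfsg.Agent.H91.FvProp2

open Equiv Cfsg.Lie H37 H40 H34 H29 Module H50.E83 H42.Fv
open scoped Matrix

theorem aux {α : Type*} (π : Perm α) (a : α) : π⁻¹ (π a) = a := by simp

theorem prop2 (ent : EntStmt) (ad : AddRStmt) : Prop2Stmt := by
  rintro l hl ⟨r, hr⟩ m₀ n hn htop
  obtain ⟨hs, hneg, -⟩ := ad l hl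
  obtain ⟨cf, hcf, he⟩ := ent
  have h1 : m₀ * C8.xg (ZMod 3) (P8.ν n (C8.R.neg r)) 1 * m₀⁻¹ ∈ rat (ι m₀ * n) (Pst l) := by
    rw [htop]; exact Subgroup.mem_top _
  have h2 : ι (C8.xg (ZMod 3) (P8.ν n (C8.R.neg r)) 1) = C8.xg K (P8.ν n (C8.R.neg r)) 1 := by
    have := C8.V.fieldHom_xE (algebraMap (ZMod 3) K) (P8.ν n (C8.R.neg r)) 1
    rw [map_one] at this
    exact this
  have h3 := Split.conj' hn (Cert.xg_mem_X (C := C8) (F := K) (P8.ν n (C8.R.neg r)) 1)
  rw [aux (P8.ν n) (C8.R.neg r)] at h3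
  obtain ⟨c, hc⟩ := Cert.mem_X.1 h3
  have hc0 : c ≠ 0 := fun e => by
    rw [(Cert.xg_eq_one_iff (C8.R.neg r).2).2 e, eq_comm, mul_assoc, inv_mul_eq_one,
      eq_comm, mul_eq_right, Cert.xg_eq_one_iff (P8.ν n (C8.R.neg r)).2] at hc
    exact one_ne_zero hc
  rw [mem_rat, map_mul, map_mul, map_inv, h2] at h1
  have h4 : (ι m₀ * n)⁻¹ * (ι m₀ * C8.xg K (P8.ν n (C8.R.neg r)) 1 * (ι m₀)⁻¹) * (ι m₀ * n) =
      C8.xg K (C8.R.neg r) c := by
    rw [hc]; group
  rw [h4, mem_Pst] at h1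
  let v : V := Pi.single (Sum.inr r) 1
  have hv : Vge l (l r) v := by
    refine ⟨fun _ i => Pi.single_eq_of_ne Sum.inl_ne_inr _, fun s hs => ?_⟩
    exact Pi.single_eq_of_ne (fun e => by rw [Sum.inr_injective e] at hs; exact lt_irrefl _ hs) _
  have hlt : l (C8.R.neg r) < l r := by rw [hneg]; linarith
  have hne : C8.R.neg r ≠ r := fun e => by rw [e] at hlt; exact lt_irrefl _ hlt
  have h5 := ((h1 (l r) v).2 hv).2 (C8.R.neg r) hlt
  have hnn : C8.R.neg (C8.R.neg r) = r := C8.R.neg_neg r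
  rw [act_apply, xg_eq, (he K (C8.R.neg r) c v).2, if_pos rfl, hnn,
    Finset.sum_eq_zero] at h5
  · have e1 : v (Sum.inr (C8.R.neg r)) = 0 := Pi.single_eq_of_ne (fun e => hne (Sum.inr_injective e)) _
    have e2 : v (Sum.inr r) = 1 := Pi.single_eq_same _ _
    have e3 : al (C8.R.neg r) v = 0 := Finset.sum_eq_zero fun i _ => by
      rw [show v (Sum.inl i) = 0 from Pi.single_eq_of_ne Sum.inl_ne_inr _, zero_mul]
    rw [e1, e2, e3] at h5
    exact hc0 (pow_eq_zero_iff two_ne_zero |>.1 (by linear_combination -h5))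
  · intro s _
    by_cases e : s = r
    · have : cf (C8.R.neg r) s (C8.R.neg r) = 0 := by
        by_contra h
        have := hs _ _ _ (hcf _ _ _ h)
        rw [e] at this
        linarith
      rw [this, Int.cast_zero, zero_mul, zero_mul]
    · rw [show v (Sum.inr s) = 0 from Pi.single_eq_of_ne (fun e' => e (Sum.inr_injective e')) _,
        mul_zero]

end Cfsg.Agent.H91.FvProp2
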