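import Cfsg.Agent.H53.DgDefs

/-!
# A character of the six dimensional orthogonal group of minus type over the field of two elements
-/

set_option autoImplicit false

namespace Cfsg.Agent.H91.DgM2a

open Module Cfsg.Agent.H26 Cfsg.Agent.H26.PForm Cfsg.Agent.H78 Cfsg.Agent.H53.Dg Cfsg.Agent.H11
open scoped ComplexConjugate

/-! ### Characters -/

theorem split2 {G : Type} [Group G] [Fintype G] {ρ : G → ℂ} (hρ : IsCharacter G ρ)
    (h2 : classInner ρ ρ = 2) {n : ℕ} (hn : ρ 1 = n) (ho : Odd n) :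
    ∃ (φ φ' : G → ℂ) (m : ℕ), IsIrrCharacter G φ ∧ IsCharacter G φ' ∧ ρ = φ + φ' ∧ φ 1 = m ∧
      Even m := by
  obtain ⟨χ, h1, h3⟩ := exists_irr_constituent hρ (fun e => by
    rw [e, classInner_zero_left] at h2; norm_num at h2)
  have h4 := isCharacter_sub_irr hρ h1 h3
  obtain ⟨k, hk⟩ := exists_nat_classInner hρ (isCharacter_of_irr h1)
  obtain ⟨l, hl⟩ := exists_nat_classInner h4 h4
  have h5 : classInner (ρ - χ) (ρ - χ) = 1 := by
    have e := hl
    rw [classInner_sub_left, classInner_sub_right, classInner_sub_right, h2,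
      classInner_comm_of_isCharacter (isCharacter_of_irr h1) hρ, hk, classInner_irr_self h1] at e
    have e' : ((l + 2 * k : ℕ) : ℂ) = (3 : ℕ) := by push_cast; rw [← e]; ring
    have e'' := Nat.cast_injective (R := ℂ) e'
    have : k ≠ 0 := fun e => h3 (by rw [hk, e, Nat.cast_zero])
    rw [hl, show l = 1 by omega, Nat.cast_one]
  have h6 := isIrrCharacter_of_classInner_self h4 h5
  obtain ⟨a, ha⟩ := exists_nat_degree (isCharacter_of_irr h1)
  obtain ⟨b, hb⟩ := exists_nat_degree h4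
  have e : ((a + b : ℕ) : ℂ) = n := by push_cast; rw [← ha, ← hb, ← hn]; simp
  have e' := Nat.cast_injective (R := ℂ) e
  rcases Nat.even_or_odd a with h | h
  · exact ⟨χ, ρ - χ, a, h1, h4, by abel, ha, h⟩
  · exact ⟨ρ - χ, χ, b, h6, isCharacter_of_irr h1, by abel, hb, by
      rw [← e'] at ho
      exact (Nat.odd_add.1 ho).1 h⟩

theorem sum_zero {G : Type} [Group G] [Finite G] (p : G → Prop) (t : G)
    (hp : ∀ h, p (h * t) ↔ p h) (f : G → ℂ) {c : ℂ} (hc : c ≠ 1)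
    (hf : ∀ h, p h → f (h * t) = c * f h) : ∑ᶠ h : {h // p h}, f h = 0 := by
  have := Fintype.ofFinite {h // p h}
  rw [finsum_eq_sum_of_fintype]
  have e := Equiv.sum_comp ((Equiv.mulRight t).subtypeEquiv (p := p) (q := p) fun h => (hp h).symm)
    fun h => f h
  have e' : ∑ h : {h // p h}, f h = c * ∑ h : {h // p h}, f h := by
    rw [Finset.mul_sum]
    exact e.symm.trans (Finset.sum_congr rfl fun h _ => hf h h.2)
  have : (1 - c) * ∑ h : {h // p h}, f h = 0 := by rw [sub_mul, one_mul, ← e', sub_self]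
  exact (mul_eq_zero.1 this).resolve_left (sub_ne_zero.2 hc.symm)

theorem exists_lam {H : Type} [Group H] [Finite H] (K : Subgroup H)
    (h23 : ∀ g : H, g * g = 1 ∨ g * g * g = 1) (hsq : ∀ g, g * g ∈ K) {τ : H} (h1 : τ ≠ 1)
    (h3 : τ * τ * τ = 1) {s0 : H} (hs0 : s0 ∉ K) :
    ∃ lam : H → ℂ, lam 1 = 1 ∧ (∀ a ∈ K, ∀ b ∈ K, lam (a * b) = lam a * lam b) ∧
      (∀ a ∈ K, lam a * conj (lam a) = 1) ∧
      (∀ s, s ∉ K → ∀ k ∈ K, lam (s * k * s⁻¹) = conj (lam k)) ∧ τ ∈ K ∧ lam τ * lam τ ≠ 1 := by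
  classical
  have k3 : ∀ g : H, g * g * g = 1 → g ∈ K := fun g hg => by
    have := hsq (g * g)
    rwa [← mul_assoc, hg, one_mul] at this
  have k2 : ∀ s, s ∉ K → s * s = 1 := fun s hs => (h23 s).resolve_right fun e => hs (k3 s e)
  have ki : ∀ s, s ∉ K → ∀ k ∈ K, s * k * s⁻¹ = k⁻¹ := fun s hs k hk => by
    rw [inv_eq_of_mul_eq_one_right (k2 s hs), eq_inv_iff_mul_eq_one, mul_assoc]
    exact k2 _ fun e => hs ((K.mul_mem_cancel_right hk).1 e)
  have kc : ∀ a b : K, a * b = b * a := fun a b => Subtype.ext (inv_injective (by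
    rw [← ki s0 hs0 _ (a * b).2, Subgroup.coe_mul, Subgroup.coe_mul, mul_inv_rev, ← ki s0 hs0 _ a.2,
      ← ki s0 hs0 _ b.2]
    group))
  have := Fintype.ofFinite K
  obtain ⟨χ, c1, c2⟩ : ∃ χ, IsIrrCharacter K χ ∧ χ ⟨τ, k3 τ h3⟩ ≠ χ 1 := by
    by_contra hc
    push Not at hc
    exact h1 (congrArg Subtype.val (eq_one_of_forall_irr hc))
  have c3 := irr_apply_one_of_comm kc c1
  have c4 := map_mul_of_apply_one_eq_one (isCharacter_of_irr c1) c3
  have c5 := conj_apply (isCharacter_of_irr c1)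
  refine ⟨fun g => if h : g ∈ K then χ ⟨g, h⟩ else 0, ?_, fun a ha b hb => ?_, fun a ha => ?_,
    fun s hs k hk => ?_, k3 τ h3, fun e => c2 ?_⟩
  · simp only [dif_pos K.one_mem]; exact c3
  · simp only [dif_pos ha, dif_pos hb, dif_pos (K.mul_mem ha hb)]
    exact c4 ⟨a, ha⟩ ⟨b, hb⟩
  · simp only [dif_pos ha]
    rw [c5, ← c4, mul_inv_cancel, c3]
  · simp only [ki s hs k hk, dif_pos hk, dif_pos (K.inv_mem hk)]
    rw [c5]; rfl
  · simp only [dif_pos (k3 τ h3)] at e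
    have : (⟨τ, k3 τ h3⟩ : K) * ⟨τ, k3 τ h3⟩ * ⟨τ, k3 τ h3⟩ = 1 := Subtype.ext h3
    rw [← this, c4, c4, e, one_mul]

/-! ### The field with two elements -/

variable {F V : Type} [Field F] [AddCommGroup V] [Module F V]

theorem f01 (hF : Nat.card F = 2) (c : F) : c = 0 ∨ c = 1 := by
  obtain ⟨y, -, hy⟩ := (Nat.card_eq_two_iff' (0 : F)).1 hF
  by_cases h : c = 0
  · exact Or.inl h
  · exact Or.inr ((hy c h).trans (hy 1 one_ne_zero).symm)

theorem add_self' (hF : Nat.card F = 2) (x : V) : x + x = 0 := by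
  have : (1 : F) + 1 = 0 := (f01 hF _).resolve_right fun e => one_ne_zero (add_eq_left.1 e)
  rw [← one_smul F x, ← add_smul, this, zero_smul]

theorem four (hF : Nat.card F = 2) (b : Basis (Fin 2) F V) (x : V) :
    x = 0 ∨ x = b 0 ∨ x = b 1 ∨ x = b 0 + b 1 := by
  have := b.sum_repr x
  rw [Fin.sum_univ_two] at this
  rcases f01 hF (b.repr x 0) with h | h <;> rcases f01 hF (b.repr x 1) with h' | h' <;>
    rw [h, h'] at this <;> simp [← this]

theorem gl2 (hF : Nat.card F = 2) (b : Basis (Fin 2) F V) (g : V ≃ₗ[F] V) :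
    g * g = 1 ∨ g * g * g = 1 := by
  have ext : ∀ k : V ≃ₗ[F] V, k (b 0) = b 0 → k (b 1) = b 1 → k = 1 := fun k h0 h1 =>
    b.ext' fun i => by fin_cases i; exacts [h0, h1]
  have a1 : ∀ x y : V, x + (x + y) = y := fun x y => by rw [← add_assoc, add_self' hF, zero_add]
  have a2 : ∀ x y : V, x + (y + x) = y := fun x y => by rw [add_comm y, a1]
  have a3 : ∀ x y : V, x + y + x = y := fun x y => by rw [add_comm, a1]
  have a4 : ∀ x y : V, x + y + y = x := fun x y => by rw [add_comm, a2]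
  have n0 : g (b 0) ≠ 0 := fun e => b.ne_zero 0 (g.injective (e.trans (map_zero g).symm))
  have n1 : g (b 1) ≠ 0 := fun e => b.ne_zero 1 (g.injective (e.trans (map_zero g).symm))
  have n2 : g (b 0) ≠ g (b 1) := fun e => absurd (b.injective (g.injective e)) (by decide)
  rcases four hF b (g (b 0)) with h | h | h | h <;> rcases four hF b (g (b 1)) with h' | h' | h' | h'
  all_goals first
    | exact absurd h n0
    | exact absurd h' n1
    | exact absurd (h.trans h'.symm) n2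
    | (refine Or.inl (ext _ ?_ ?_) <;>
        (simp only [mul_apply', h, h', map_add, a1, a2, a3, a4]; done))
    | (refine Or.inr (ext _ ?_ ?_) <;>
        (simp only [mul_apply', h, h', map_add, a1, a2, a3, a4]; done))

theorem exists_three (hF : Nat.card F = 2) (b : Basis (Fin 2) F V) :
    ∃ τ : V ≃ₗ[F] V, τ ≠ 1 ∧ τ * τ * τ = 1 := by
  have a2 : ∀ x y : V, x + (y + x) = y := fun x y => by
    rw [add_comm y, ← add_assoc, add_self' hF, zero_add]
  have a3 : ∀ x y : V, x + y + x = y := fun x y => by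
    rw [add_comm, ← add_assoc, add_self' hF, zero_add]
  let τ : V ≃ₗ[F] V := LinearEquiv.ofLinearMap (b.constr F ![b 1, b 0 + b 1])
    (b.constr F ![b 0 + b 1, b 0])
    (b.ext fun i => by fin_cases i <;> simp [a2]) (b.ext fun i => by fin_cases i <;> simp [a3])
  have h0 : τ (b 0) = b 1 := by simp [τ]
  have h1 : τ (b 1) = b 0 + b 1 := by simp [τ]
  refine ⟨τ, fun e => ?_, b.ext' fun i => ?_⟩
  · rw [e] at h0
    exact absurd (b.injective h0) (by decide)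
  · fin_cases i
    · change τ (τ (τ (b 0))) = b 0
      rw [h0, h1, map_add, h0, h1, a2]
    · change τ (τ (τ (b 1))) = b 1
      rw [h1, map_add, h0, h1, a2, h0]

theorem isom_top {P : PForm F V} (hF : Nat.card F = 2) (hT : Ty P false 0 2) (g : V ≃ₗ[F] V) :
    g ∈ P.isom := by
  obtain ⟨-, hΛ, -, -⟩ := hT.orth rfl
  obtain ⟨Fr, -, hA⟩ := hT.frame
  have h1 : ∀ x, P.h (g x) = P.h x := fun x => by
    by_cases e : x = 0
    · rw [e, map_zero]
    have k : ∀ y, y ≠ 0 → P.h y = 1 := fun y hy => (f01 hF _).resolve_left fun e' =>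
      hy (hA y (Frame.mem_V0.2 fun a => a.1.elim0) (by rw [Sing, e']; exact zero_mem _))
    rw [k x e, k _ fun e' => e (g.injective (e'.trans (map_zero g).symm))]
  refine ⟨fun x y => ?_, fun x => by rw [h1, sub_self]; exact zero_mem _⟩
  have a := P.h_add x y
  have b := P.h_add (g x) (g y)
  rw [← map_add, h1, h1, h1] at b
  rw [hΛ, AddSubgroup.mem_bot] at a b
  linear_combination a - b

theorem no_fix [Finite V] (hF : Nat.card F = 2) (hV : finrank F V = 4) {B : V ≃ₗ[F] V}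
    (hB : orderOf B = 5) {v : V} (hv : B v = v) : v = 0 := by
  have : Finite F := Nat.finite_of_card_ne_zero (by omega)
  have : Fact (Nat.Prime 5) := ⟨by decide⟩
  let N : Submodule F V := LinearMap.ker ((B : V →ₗ[F] V) - LinearMap.id)
  have hN : ∀ x, x ∈ N ↔ B x = x := fun x => by simp [N, sub_eq_zero]
  have hp : IsPGroup 5 (Subgroup.zpowers B) :=
    IsPGroup.of_card (n := 1) (by rw [Nat.card_zpowers, hB, pow_one])
  have h1 := hp.card_modEq_card_fixedPoints V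
  have h2 : Nat.card (MulAction.fixedPoints (Subgroup.zpowers B) V) = Nat.card N :=
    Nat.card_congr (Equiv.subtypeEquivRight fun x => by
      rw [hN]
      refine ⟨fun h => h ⟨B, Subgroup.mem_zpowers B⟩, fun h g => ?_⟩
      exact (Subgroup.zpowers_le (g := B) (H := MulAction.stabilizer _ x)).2 h g.2)
  rw [h2, Module.natCard_eq_pow_finrank (K := F) (V := V),
    Module.natCard_eq_pow_finrank (K := F) (V := N), hF, hV] at h1
  have h3 : finrank F N ≤ 4 := hV ▸ Submodule.finrank_le N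
  have h4 : finrank F N ≠ 4 := fun e => by
    have := Submodule.eq_top_of_finrank_eq (e.trans hV.symm)
    have e1 : B = 1 := LinearEquiv.ext fun x => (hN x).1 (this ▸ Submodule.mem_top)
    rw [e1, orderOf_one] at hB
    omega
  have h5 : finrank F N = 0 := by
    generalize finrank F N = k at h1 h3 h4
    interval_cases k <;> first | rfl | exact absurd h1 (by decide) | exact absurd rfl h4
  have := (hN v).2 hv
  rwa [Submodule.finrank_eq_zero.1 h5, Submodule.mem_bot] at this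

/-! ### Levi decompositions -/

section Levi

variable [Finite F] [Finite V] {P : PForm F V} {k : ℕ} (L : Lev P k)

omit [Finite F] [Finite V] in
theorem W_le : L.W ≤ P.perp L.X := perp_anti le_sup_left

omit [Finite F] [Finite V] in
theorem W_le' : L.W ≤ P.perp L.X' := perp_anti le_sup_right

omit [Finite F] [Finite V] in
theorem eq_zero {x : V} (h1 : x ∈ L.X) (h2 : x ∈ P.perp L.X') : x = 0 :=
  (Submodule.mem_bot F).1 (L.opp ▸ ⟨h1, h2⟩)

omit [Finite F] in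
theorem sup_top : L.X ⊔ P.perp L.X' = ⊤ := by
  have h1 := Submodule.finrank_sup_add_finrank_inf_eq L.X (P.perp L.X')
  have h2 := P.finrank_perp L.X'
  rw [L.opp, finrank_bot, L.dim] at h1
  rw [L.dim'] at h2
  exact Submodule.eq_top_of_finrank_eq (by omega)

omit [Finite F] in
theorem eq_zero' {x : V} (h1 : x ∈ L.X') (h2 : x ∈ P.perp L.X) : x = 0 := by
  have : x ∈ P.perp (L.X ⊔ P.perp L.X') := by
    rw [perp_sup]; exact ⟨h2, le_perp_perp _ h1⟩
  rwa [sup_top, perp_top, Submodule.mem_bot] at this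

omit [Finite F] in
theorem sup_top' : L.X' ⊔ P.perp L.X = ⊤ := by
  have h1 := Submodule.finrank_sup_add_finrank_inf_eq L.X' (P.perp L.X)
  have h2 := P.finrank_perp L.X
  rw [(Submodule.eq_bot_iff (L.X' ⊓ P.perp L.X)).2 fun x hx => eq_zero' L hx.1 hx.2, finrank_bot,
    L.dim'] at h1
  rw [L.dim] at h2
  exact Submodule.eq_top_of_finrank_eq (by omega)

omit [Finite F] in
theorem dec {v : V} (hv : v ∈ P.perp L.X) : ∃ x ∈ L.X, ∃ w ∈ L.W, x + w = v := by
  obtain ⟨x, hx, y, hy, rfl⟩ := Submodule.mem_sup.1 (sup_top L ▸ Submodule.mem_top : v ∈ _)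
  refine ⟨x, hx, y, ?_, rfl⟩
  rw [Lev.W, perp_sup]
  exact ⟨by simpa using sub_mem hv (L.ts.2 hx), hy⟩

omit [Finite F] in
theorem top_of {g : V ≃ₗ[F] V} (h2 : g ∈ stabSub L.X) (h3 : ∀ w ∈ L.W, g w - w ∈ L.X) :
    Top P L.X g := fun v hv => by
  obtain ⟨x, hx, w, hw, rfl⟩ := dec L hv
  have := add_mem (sub_mem ((h2 x).1 hx) hx) (h3 w hw)
  rwa [show g x - x + (g w - w) = g (x + w) - (x + w) by rw [map_add]; abel] at this

omit [Finite F] in
theorem top_of_pr {g : V ≃ₗ[F] V} (h1 : g ∈ P.isom) (h2 : g ∈ stabSub L.X) (h3 : L.pr g = 1) :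
    Top P L.X g := top_of L h2 fun w hw => by
  have := L.pr_spec g h1 h2 ⟨w, hw⟩
  rwa [h3] at this

omit [Finite F] in
theorem stab_of_top {g : V ≃ₗ[F] V} (h : Top P L.X g) : g ∈ stabSub L.X :=
  mem_stabSub.2 fun x hx => by simpa using add_mem (h x (L.ts.2 hx)) hx

omit [Finite F] [Finite V] in
theorem pr_eq {g : V ≃ₗ[F] V} (h1 : g ∈ P.isom) (h2 : g ∈ stabSub L.X) {B : L.PW.isom}
    (h3 : ∀ w : L.W, g w - (B.1 w : V) ∈ L.X) : L.pr g = B := by
  refine Subtype.ext (LinearEquiv.ext fun w => Subtype.ext (sub_eq_zero.1 (eq_zero L ?_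
    (W_le' L (sub_mem ((L.pr g).1 w).2 (B.1 w).2)))))
  simpa using sub_mem (h3 w) (L.pr_spec g h1 h2 w)

omit [Finite F] in
theorem pr_of_top {g : V ≃ₗ[F] V} (h1 : g ∈ P.isom) (h : Top P L.X g) : L.pr g = 1 :=
  pr_eq L h1 (stab_of_top L h) fun w => h w (W_le L w.2)

omit [Finite F] [Finite V] in
theorem pr_one : L.pr 1 = 1 := pr_eq L (one_mem _) (one_mem _) fun w => by simp

omit [Finite F] [Finite V] in
theorem pr_inv {g : V ≃ₗ[F] V} (h1 : g ∈ P.isom) (h2 : g ∈ stabSub L.X) :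
    L.pr g⁻¹ = (L.pr g)⁻¹ :=
  eq_inv_of_mul_eq_one_left (by
    rw [← L.pr_mul _ (inv_mem h1) (inv_mem h2) _ h1 h2, inv_mul_cancel, pr_one])

omit [Finite F] [Finite V] in
theorem perp_map {g : V ≃ₗ[F] V} (h1 : g ∈ P.isom) {Y : Submodule F V} (h2 : g ∈ stabSub Y) {v : V}
    (hv : v ∈ P.perp Y) : g v ∈ P.perp Y :=
  map_perp h1 (fun w hw => ((inv_mem h2 : g⁻¹ ∈ stabSub Y) w).1 hw) hv

omit [Finite F] [Finite V] in
theorem pr_apply {g : V ≃ₗ[F] V} (h1 : g ∈ P.isom) (h2 : g ∈ stabSub L.X) (h3 : g ∈ stabSub L.X')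
    (w : L.W) : g w = ((L.pr g).1 w : V) :=
  sub_eq_zero.1 (eq_zero L (L.pr_spec g h1 h2 w)
    (sub_mem (perp_map h1 h3 (W_le' L w.2)) (W_le' L ((L.pr g).1 w).2)))

omit [Finite F] [Finite V] in
theorem mp_iff {g : V ≃ₗ[F] V} {Y Z : Submodule F V} (h : mp g Y = Z) (x : V) : g x ∈ Z ↔ x ∈ Y := by
  rw [← h]
  exact ⟨fun ⟨y, hy, e⟩ => g.injective e ▸ hy, fun hx => ⟨x, hx, rfl⟩⟩

theorem top_mem (hO : OppStmt) (hF : Nat.card F = 2) (hσ : ∀ a, P.σ a = a) {g : V ≃ₗ[F] V}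
    (h1 : g ∈ P.isom) (h : Top P L.X g) : g ∈ P.E :=
  (hO F V P L.X hσ L.ts).2.2 g h1 h
    ((f01 hF _).resolve_left (LinearEquiv.isUnit_det' (rs L.X g)).ne_zero)

end Levi

variable [Finite F] [Finite V] {P : PForm F V}

theorem w0_mem (hO : OppStmt) (hF : Nat.card F = 2) (hσ : ∀ a, P.σ a = a) (hε : P.ε = 1)
    (L : Lev P 2) : L.w0 ∈ P.E := by
  let b := Module.finBasisOfFinrankEq F L.X L.dim
  have dual : ∀ i l : Fin 2, i ≠ l → ∃ y ∈ L.X', P.f (b i) y = 1 ∧ P.f (b l) y = 0 := by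
    intro i l hil
    have hn : (b i : V) ∉ F ∙ (b l : V) := fun h => by
      obtain ⟨c, hc⟩ := Submodule.mem_span_singleton.1 h
      have := congrArg (fun x => b.repr x i) (show c • b l = b i from Subtype.ext hc)
      simp [hil.symm] at this
    obtain ⟨y, h1, h2⟩ := P.exists_perp_f_right hn 1
    obtain ⟨y', hy, z, hz, rfl⟩ := Submodule.mem_sup.1 (sup_top' L ▸ Submodule.mem_top : y ∈ _)
    have h3 := f_symm_zero (mem_perp_span_singleton.1 h1)
    rw [f_add_right, f_of_mem_perp' hz (b _).2, add_zero] at h2 h3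
    exact ⟨y', hy, h2, h3⟩
  obtain ⟨f0, m0, a0, a1⟩ := dual 0 1 (by decide)
  obtain ⟨f1, m1, b1, b0⟩ := dual 1 0 (by decide)
  have e0 := (b 0).2
  have e1 := (b 1).2
  generalize (b 0 : V) = x0, (b 1 : V) = x1 at a0 a1 b0 b1 e0 e1
  have xx : ∀ {x y}, x ∈ L.X → y ∈ L.X → P.f x y = 0 := fun hx hy => L.ts.2 hx _ hy
  have yy : ∀ {x y}, x ∈ L.X' → y ∈ L.X' → P.f x y = 0 := fun hx hy => L.ts'.2 hx _ hy
  have a0' := (f_symm_one a0).trans hε
  have b1' := (f_symm_one b1).trans hε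
  have a1' := f_symm_zero a1
  have b0' := f_symm_zero b0
  have s0 : P.Sing (x0 + f1) := (L.ts.1 _ e0).add (L.ts'.1 _ m1) b0
  have s1 : P.Sing (x1 - f0) := (L.ts.1 _ e1).sub (L.ts'.1 _ m0) a1
  have s2 : P.f (x0 + f1) (x1 - f0) = 0 := by
    rw [P.f_add_left, f_sub_right, f_sub_right, xx e0 e1, a0, b1', yy m1 m0]; ring
  have z1 : ∀ c d : F, c • (x0 + f1) + d • (x1 - f0) ∈ P.perp L.X' → c = 0 ∧ d = 0 := by
    intro c d h
    have h0 := h _ m0
    have h1 := h _ m1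
    simp only [P.f_add_left, P.f_smul_left, f_sub_left, a0, a1, b0, b1, yy m0 m0, yy m0 m1,
      yy m1 m0, yy m1 m1] at h0 h1
    exact ⟨by simpa using h0, by simpa using h1⟩
  have z2 : ∀ c d : F, c • (x0 + f1) + d • (x1 - f0) ∈ P.perp L.X → c = 0 ∧ d = 0 := by
    intro c d h
    have h0 := h _ e0
    have h1 := h _ e1
    simp only [P.f_add_left, P.f_smul_left, f_sub_left, a0', a1', b0', b1', xx e0 e0, xx e0 e1,
      xx e1 e0, xx e1 e1] at h0 h1
    exact ⟨by simpa using h1, by simpa using h0⟩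
  have hle : Submodule.span F {x0 + f1, x1 - f0} ≤ L.X ⊔ L.X' := Submodule.span_le.2
    (Set.insert_subset (add_mem (Submodule.mem_sup_left e0) (Submodule.mem_sup_right m1))
      (Set.singleton_subset_iff.2
        (sub_mem (Submodule.mem_sup_left e1) (Submodule.mem_sup_right m0))))
  generalize x0 + f1 = u0, x1 - f0 = u1 at s0 s1 s2 z1 z2 hle
  have ts : TS P (Submodule.span F {u0, u1}) := by
    refine ⟨fun x hx => ?_, Submodule.span_le.2 (Set.insert_subset ?_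
      (Set.singleton_subset_iff.2 ?_))⟩
    · obtain ⟨c, d, rfl⟩ := Submodule.mem_span_pair.1 hx
      exact (s0.smul c).add (s1.smul d) (by rw [P.f_smul_left, f_smul_right, s2]; ring)
    · exact mem_perp_span.2 (by simp [s0.f_self, s2])
    · exact mem_perp_span.2 (by simp [s1.f_self, f_symm_zero s2])
  have fr : finrank F (Submodule.span F {u0, u1}) = 2 := by
    have := finrank_span_eq_card (R := F) (b := ![u0, u1])
      (LinearIndependent.pair_iff.2 fun c d e => z1 c d (e ▸ zero_mem _))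
    rwa [Matrix.range_cons_cons_empty] at this
  have zz : ∀ Y : Submodule F V, (∀ c d : F, c • u0 + d • u1 ∈ Y → c = 0 ∧ d = 0) →
      Submodule.span F {u0, u1} ⊓ Y = ⊥ := fun Y h => (Submodule.eq_bot_iff _).2 fun x hx => by
    obtain ⟨c, d, rfl⟩ := Submodule.mem_span_pair.1 hx.1
    obtain ⟨rfl, rfl⟩ := h c d hx.2
    simp
  obtain ⟨u, h1, h2, h3⟩ := (hO F V P _ hσ ts).1 L.X L.X' L.ts L.ts' (L.dim.trans fr.symm)
    (L.dim'.trans fr.symm) (zz _ z2) (zz _ z1)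
  have h4 : ∀ w ∈ L.W, u w = w := fun w hw => sub_eq_zero.1 ((Submodule.mem_bot F).1
    (zz _ z1 ▸ ⟨h2.2 w (perp_anti hle hw), sub_mem (map_perp (E_le_isom h1) (fun y hy =>
      (mp_iff h3 _).1 (by rwa [apply_inv_apply])) (W_le L hw)) (W_le' L hw)⟩))
  have h5 : L.w0⁻¹ * u ∈ P.E := top_mem L hO hF hσ (mul_mem (inv_mem L.w0_mem) (E_le_isom h1))
    (top_of L (fun x => by
      rw [← mp_iff h3, ← mp_iff L.w0_X, mul_apply', apply_inv_apply]) fun w hw => by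
      rw [mul_apply', h4 w hw, ← L.w0_W w hw, inv_apply_apply, L.w0_W w hw, sub_self]
      exact zero_mem _)
  simpa using mul_mem h1 (inv_mem h5)

omit [Finite F] in
theorem mem_UU' {G : Subgroup (V ≃ₗ[F] V)} (hG : G ≤ P.isom) {Y : Submodule F V} {u : G} :
    u ∈ UU P G Y ↔ Rad P Y u := ⟨fun h => h.1, fun h =>
  have h1 : u.1 ∈ stabSub Y := mem_stabSub.2 fun x hx => by rwa [h.1 x hx]
  ⟨h, fun _ hv => ⟨perp_map (hG u.2) h1 hv, perp_map (inv_mem (hG u.2)) (inv_mem h1) hv⟩⟩⟩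

omit [Finite F] in
theorem ext_lev {k : ℕ} (L : Lev P k) {g : V ≃ₗ[F] V} (h1 : ∀ x ∈ L.X, g x = x)
    (h2 : ∀ x ∈ L.X', g x = x) (h3 : ∀ x ∈ L.W, g x = x) : g = 1 := LinearEquiv.ext fun v => by
  obtain ⟨y, hy, z, hz, rfl⟩ := Submodule.mem_sup.1 (sup_top' L ▸ Submodule.mem_top : v ∈ _)
  obtain ⟨x, hx, w, hw, rfl⟩ := dec L hz
  rw [map_add, map_add, h1 x hx, h2 y hy, h3 w hw]; rfl

omit [Finite F] [Finite V] in
theorem fix_line (hF : Nat.card F = 2) {Y : Submodule F V} (hY : finrank F Y = 1)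
    {g : V ≃ₗ[F] V} (hg : g ∈ stabSub Y) {y : V} (hy : y ∈ Y) : g y = y := by
  by_cases e : y = 0
  · rw [e, map_zero]
  obtain ⟨c, hc⟩ := (finrank_eq_one_iff_of_nonzero' (⟨y, hy⟩ : Y)
    (fun h => e (congrArg Subtype.val h))).1 hY ⟨g y, (hg y).1 hy⟩
  replace hc : c • y = g y := congrArg Subtype.val hc
  rcases f01 hF c with rfl | rfl
  · exact absurd (g.injective (by rw [← hc, zero_smul, map_zero])) e
  · rw [← hc, one_smul]

theorem five (hL : LeviStmt) (hC : CountStmt) (hF : Nat.card F = 2) (hT : Ty P false 2 2)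
    (hsq : ∀ g ∈ P.isom, g * g ∈ P.E) :
    ∃ (Y : Submodule F V) (x : P.E), TS P Y ∧ finrank F Y = 1 ∧ orderOf x = 5 ∧
      (∀ u ∈ UU P P.E Y, x * u * x⁻¹ ∈ UU P P.E Y) ∧
      ∀ u ∈ UU P P.E Y, x * u = u * x → u = 1 := by
  have : Fact (Nat.Prime 5) := ⟨by decide⟩
  obtain ⟨L, hW⟩ := hL F V P false 2 2 1 hT (by decide)
  obtain ⟨L', -⟩ := hL F _ L.PW false 1 2 1 hW le_rfl
  have hc := hC F _ L.PW false 1 2 L'.X hW L'.ts
  rw [L'.dim, hF] at hc
  obtain ⟨B, hB⟩ := exists_prime_orderOf_dvd_card' (G := L.PW.isom) 5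
    ((Dvd.intro 1 (hc.trans (by decide)).symm.symm : (stab L.PW.isom L'.X).index ∣ 5).antisymm
      (Dvd.intro_left 1 (by
        have : (stab L.PW.isom L'.X).index * 1 = 5 := hc.trans (by decide)
        omega)) ▸ Subgroup.index_dvd_card _)
  obtain ⟨x, x1, x2, x3, -, x5⟩ := L.surj 1 B
  have fx : ∀ y ∈ L.X, x y = y := fun y hy => fix_line hF L.dim x2 hy
  have fx' : ∀ y ∈ L.X', x y = y := fun y hy => fix_line hF L.dim' x3 hy
  have fw : ∀ w : L.W, x w = (B.1 w : V) := fun w => x5 ▸ pr_apply L x1 x2 x3 w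
  have hB' : orderOf B.1 = 5 := by rw [Subgroup.orderOf_coe, hB]
  have nf : ∀ w : L.W, B.1 w = w → w = 0 := fun w => no_fix hF (hW.orth rfl).2.2.2 hB'
  have fp : ∀ n : ℕ, ∀ w : L.W, (x ^ n) w = ((B.1 ^ n) w : V) := fun n => by
    induction n with
    | zero => exact fun w => rfl
    | succ n ih => exact fun w => by rw [pow_succ, pow_succ, mul_apply', mul_apply', fw, ih]
  have x6 : x ^ 5 = 1 := ext_lev L (fun y hy => fix_line hF L.dim (pow_mem x2 5) hy)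
    (fun y hy => fix_line hF L.dim' (pow_mem x3 5) hy) fun w hw => by
      rw [fp 5 ⟨w, hw⟩, ← hB', pow_orderOf_eq_one]; rfl
  have xE : x ∈ P.E := by
    have := hsq _ (pow_mem x1 3)
    rwa [← pow_add, show 3 + 3 = 5 + 1 from rfl, pow_succ, x6, one_mul] at this
  refine ⟨L.X, ⟨x, xE⟩, L.ts, L.dim, orderOf_eq_prime (Subtype.ext x6) fun e => ?_,
    fun u hu => (mem_UU' E_le_isom).2 ⟨fun y hy => ?_, fun v hv => ?_⟩, fun u hu e => ?_⟩
  · replace e : x = 1 := congrArg Subtype.val e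
    rw [e, pr_one] at x5
    rw [← x5, orderOf_one] at hB
    omega
  · exact fix_line hF L.dim (mul_mem (mul_mem x2 (stab_of_top L hu.1.2)) (inv_mem x2)) hy
  · have := (x2 _).1 (hu.1.2 _ (perp_map (inv_mem x1) (inv_mem x2) hv))
    rwa [map_sub, apply_inv_apply] at this
  have e' : ∀ v, x (u.1 v) = u.1 (x v) := fun v => congrArg (fun g : P.E => g.1 v) e
  have u1 := E_le_isom u.2
  have uw : ∀ w ∈ L.W, u.1 w = w := fun w hw => by
    obtain ⟨a, ha⟩ := Finite.injective_iff_surjective.1 ((injective_iff_map_eq_zero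
      ((B.1 : L.W →ₗ[F] L.W) - LinearMap.id)).2 fun a ha => nf a (sub_eq_zero.1 ha)) ⟨w, hw⟩
    replace ha : (B.1 a : V) - a = w := congrArg Subtype.val ha
    have h1 := fx _ (hu.1.2 a (W_le L a.2))
    rw [map_sub, e', fw] at h1
    rw [← ha, map_sub]
    exact sub_eq_sub_iff_sub_eq_sub.1 h1
  have up : ∀ v ∈ P.perp L.X, u.1 v = v := fun v hv => by
    obtain ⟨y, hy, w, hw, rfl⟩ := dec L hv
    rw [map_add, hu.1.1 y hy, uw w hw]
  refine Subtype.ext (ext_lev L hu.1.1 (fun y hy => ?_) uw)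
  have h1 : u.1 y - y ∈ L.X := mem_of_forall_perp (P := P) fun v hv => by
    rw [f_sub_left, ← isom_f u1 y v, up v hv, sub_self]
  obtain ⟨hε, hΛ, -, -⟩ := hT.orth rfl
  have h2 := P.h_add (u.1 y - y) y
  have h3 := L.ts.1 _ h1
  have h4 := L.ts'.1 _ hy
  have h5 := h4.map u1
  rw [sub_add_cancel] at h2
  rw [Sing] at h3 h4 h5
  rw [hΛ, AddSubgroup.mem_bot] at h2 h3 h4 h5
  rw [h3, h4, h5] at h2
  by_cases y0 : y = 0
  · rw [y0, map_zero]
  refine sub_eq_zero.1 (eq_zero L h1 fun z hz => ?_)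
  obtain ⟨c, hc⟩ := (finrank_eq_one_iff_of_nonzero' (⟨y, hy⟩ : L.X')
    (fun h => y0 (congrArg Subtype.val h))).1 L.dim' ⟨z, hz⟩
  replace hc : c • y = z := congrArg Subtype.val hc
  rw [← hc, f_smul_right, show P.f (u.1 y - y) y = 0 by simpa using h2, mul_zero]

/-! ### The induced characters -/

/-- Conjugation by an isometry. -/
def cE {σ : V ≃ₗ[F] V} (hσ : σ ∈ P.isom) : P.E ≃* P.E where
  toFun g := ⟨σ * g * σ⁻¹, E_conj hσ g.2⟩
  invFun g := ⟨σ⁻¹ * g * σ, by simpa using E_conj (inv_mem hσ) g.2⟩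
  left_inv g := Subtype.ext (by simp [mul_assoc])
  right_inv g := Subtype.ext (by simp [mul_assoc])
  map_mul' a b := Subtype.ext (by simp [mul_assoc])

/-- The image of the stabilizer. -/
def KK {k : ℕ} (L : Lev P k) : Subgroup L.PW.isom where
  carrier := {B | ∃ g ∈ P.E, g ∈ stabSub L.X ∧ L.pr g = B}
  one_mem' := ⟨1, one_mem _, one_mem _, pr_one L⟩
  mul_mem' := by
    rintro _ _ ⟨a, a1, a2, rfl⟩ ⟨b, b1, b2, rfl⟩
    exact ⟨a * b, mul_mem a1 b1, mul_mem a2 b2, L.pr_mul _ (E_le_isom a1) a2 _ (E_le_isom b1) b2⟩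
  inv_mem' := by
    rintro _ ⟨a, a1, a2, rfl⟩
    exact ⟨a⁻¹, inv_mem a1, inv_mem a2, pr_inv L (E_le_isom a1) a2⟩

theorem mem_E_of (hO : OppStmt) (hF : Nat.card F = 2) (hσ : ∀ a, P.σ a = a) {k : ℕ} (L : Lev P k)
    {g : V ≃ₗ[F] V} (h1 : g ∈ P.isom) (h2 : g ∈ stabSub L.X) (h3 : L.pr g ∈ KK L) : g ∈ P.E := by
  obtain ⟨a, a1, a2, e⟩ := h3
  have a3 := inv_mem (E_le_isom a1)
  have := top_mem L hO hF hσ (mul_mem a3 h1) (top_of_pr L (mul_mem a3 h1) (mul_mem (inv_mem a2) h2)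
    (by rw [L.pr_mul _ a3 (inv_mem a2) _ h1 h2, pr_inv L (E_le_isom a1) a2, e, inv_mul_cancel]))
  exact (mul_mem_cancel_left (inv_mem a1)).1 this

omit [Finite F] [Finite V] in
theorem rs_inv {Y : Submodule F V} {g : V ≃ₗ[F] V} (h : g ∈ stabSub Y) : rs Y g⁻¹ = (rs Y g)⁻¹ :=
  eq_inv_of_mul_eq_one_left (by rw [← rs_mul (inv_mem h) h, inv_mul_cancel, rs_one])

section Main

variable {L : Lev P 2} {ψ : (L.X ≃ₗ[F] L.X) → ℂ} {μ μ' : L.PW.isom → ℂ}

omit [Finite F] [Finite V] in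
theorem mem_KK {h : P.E} (hh : h ∈ stab P.E L.X) : L.pr h ∈ KK L := ⟨h, h.2, hh, rfl⟩

omit [Finite F] [Finite V] in
theorem xi_mul (p1 : ∀ a b, ψ (a * b) = ψ a * ψ b)
    (m1 : ∀ a ∈ KK L, ∀ b ∈ KK L, μ (a * b) = μ a * μ b) {a b : P.E} (ha : a ∈ stab P.E L.X)
    (hb : b ∈ stab P.E L.X) : ψ (rs L.X (a * b : P.E)) * μ (L.pr (a * b : P.E)) =
      ψ (rs L.X a) * μ (L.pr a) * (ψ (rs L.X b) * μ (L.pr b)) := by
  rw [Subgroup.coe_mul, rs_mul (g := a.1) (k := b.1) ha hb, L.pr_mul _ (E_le_isom a.2) ha _ (E_le_isom b.2) hb, p1,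
    m1 _ (mem_KK ha) _ (mem_KK hb)]
  ring

omit [Finite F] [Finite V] in
theorem xi_one (p0 : ψ 1 = 1) (m0 : μ 1 = 1) :
    ψ (rs L.X (1 : P.E)) * μ (L.pr (1 : P.E)) = 1 := by
  rw [OneMemClass.coe_one, rs_one, pr_one, p0, m0, one_mul]

omit [Finite F] [Finite V] in
theorem xi_cl (p0 : ψ 1 = 1) (p1 : ∀ a b, ψ (a * b) = ψ a * ψ b) (m0 : μ 1 = 1)
    (m1 : ∀ a ∈ KK L, ∀ b ∈ KK L, μ (a * b) = μ a * μ b) :
    ClOn (stab P.E L.X) fun h => ψ (rs L.X h) * μ (L.pr h) := fun g hg h hh => by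
  have e := xi_mul p1 m1 hg (inv_mem hg)
  rw [mul_inv_cancel, xi_one p0 m0] at e
  beta_reduce
  rw [xi_mul p1 m1 (mul_mem hg hh) (inv_mem hg), xi_mul p1 m1 hg hh, mul_right_comm, ← e, one_mul]

omit [Finite F] in
theorem pr_top {h : P.E} (hh : h ∈ stab P.E L.X) {g : P.E} (hg : Top P L.X g) :
    L.pr (h * g : P.E) = L.pr h := by
  rw [Subgroup.coe_mul, L.pr_mul _ (E_le_isom h.2) hh _ (E_le_isom g.2) (stab_of_top L hg),
    pr_of_top L (E_le_isom g.2) hg, mul_one]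

theorem norm_eq (hN : NormStmt) (hσ : ∀ a, P.σ a = a) (hw : ∀ T, TS P T → finrank F T ≤ 2)
    (h0 : L.w0 ∈ P.E) (hψ : CuspFn ψ true 1) (p0 : ψ 1 = 1) (m0 : μ 1 = 1)
    (m1 : ∀ a ∈ KK L, ∀ b ∈ KK L, μ (a * b) = μ a * μ b) (m0' : μ' 1 = 1)
    (m1' : ∀ a ∈ KK L, ∀ b ∈ KK L, μ' (a * b) = μ' a * μ' b) :
    ip (ind (stab P.E L.X) fun h => ψ (rs L.X h) * μ (L.pr h))
      (ind (stab P.E L.X) fun h => ψ (rs L.X h) * μ' (L.pr h)) =
    (Nat.card (stab P.E L.X) : ℂ)⁻¹ *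
      ∑ᶠ h : {h : P.E // h ∈ stab P.E L.X}, μ (L.pr h) * conj (μ' (L.pr h)) +
    (Nat.card {h : P.E // h ∈ stab P.E L.X ∧ h ∈ stab P.E L.X'} : ℂ)⁻¹ *
      ∑ᶠ h : {h : P.E // h ∈ stab P.E L.X ∧ h ∈ stab P.E L.X'},
        μ (L.pr h) * conj (μ' (L.pr h)) := by
  have c1 := isCharacter_of_irr hψ.irr
  have p1 := map_mul_of_apply_one_eq_one c1 p0
  have p2 : ∀ a, ψ a * conj (ψ a) = 1 := fun a => by
    rw [conj_apply c1, ← p1, mul_inv_cancel, p0]
  have key := hN F V P P.E L.X ψ (fun h => μ (L.pr h)) (fun h => ψ (rs L.X h) * μ' (L.pr h))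
    ⟨L.w0, h0⟩ hσ le_rfl (fun g hg => ⟨fun x y e => by rw [isom_f (E_le_isom hg), e],
      fun x hx => hx.map (E_le_isom hg)⟩) L.ts
    (fun e => by have := L.dim; rw [e, finrank_bot] at this; omega) hψ.cusp
    (xi_cl p0 p1 m0 m1) (xi_cl p0 p1 m0' m1') (fun h hh g _ hg => by simp only [pr_top hh hg])
    (fun h hh g hg => by
      have : rs L.X g = 1 := LinearEquiv.ext fun x => Subtype.ext
        ((rs_apply (stab_of_top L hg.2) x).trans (hg.1 x x.2))
      beta_reduce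
      rw [pr_top hh hg.2, Subgroup.coe_mul, rs_mul (g := h.1) hh (stab_of_top L hg.2), this, mul_one])
    (by rw [L.w0_X]; exact L.opp) fun x h1 h2 => by
      exfalso
      have x1 := E_le_isom x.2
      have t1 : TS P (mp x.1 L.X) := ⟨by rintro _ ⟨y, hy, rfl⟩; exact (L.ts.1 y hy).map x1, by
        rintro _ ⟨y, hy, rfl⟩ _ ⟨z, hz, rfl⟩
        exact (isom_f x1 y z).trans (L.ts.2 hy z hz)⟩
      have t2 : TS P (L.X ⊔ mp x.1 L.X) := ⟨fun v hv => by
        obtain ⟨y, hy, z, hz, rfl⟩ := Submodule.mem_sup.1 hv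
        exact (L.ts.1 y hy).add (t1.1 z hz) (f_of_mem_perp' (h1 hz) hy), by
        rw [perp_sup]
        exact sup_le (le_inf L.ts.2 (le_perp_comm.1 h1)) (le_inf h1 t1.2)⟩
      have h3 := Submodule.finrank_sup_add_finrank_inf_eq L.X (mp x.1 L.X)
      have h4 := hw _ t2
      rw [h2, finrank_bot, LinearEquiv.finrank_map_eq, L.dim] at h3
      omega
  have hi : ∀ h : P.E, (⟨L.w0, h0⟩ : P.E)⁻¹ * h * ⟨L.w0, h0⟩ ∈ stab P.E L.X ↔
      h ∈ stab P.E L.X' := fun h => by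
    change (∀ x, x ∈ L.X ↔ L.w0⁻¹ (h.1 (L.w0 x)) ∈ L.X) ↔ ∀ x, x ∈ L.X' ↔ h.1 x ∈ L.X'
    refine ⟨fun H x => ?_, fun H x => ?_⟩
    · have := H (L.w0⁻¹ x)
      rwa [← mp_iff L.w0_X, ← mp_iff L.w0_X, apply_inv_apply, apply_inv_apply] at this
    · rw [← mp_iff L.w0_X, ← mp_iff L.w0_X, apply_inv_apply, H]
  let e : {h : P.E // h ∈ stab P.E L.X ∧ (⟨L.w0, h0⟩ : P.E)⁻¹ * h * ⟨L.w0, h0⟩ ∈ stab P.E L.X} ≃
      {h : P.E // h ∈ stab P.E L.X ∧ h ∈ stab P.E L.X'} :=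
    Equiv.subtypeEquivRight fun h => and_congr_right fun _ => hi h
  rw [key, Nat.card_congr e, ip, @classInner_def _ _ (Fintype.ofFinite _), mT, ← finsum_comp_equiv e,
    ← @finsum_eq_sum_of_fintype _ _ _ (Fintype.ofFinite _)]
  congr 2
  · refine finsum_congr fun h => ?_
    rw [map_mul, mul_mul_mul_comm, p2, one_mul]
  refine finsum_congr fun ⟨h, h1, h2⟩ => ?_
  have h3 := (hi h).1 h2
  have h4 := E_le_isom h.2
  have e1 : ψ (rs L.X (L.w0⁻¹ * h * L.w0)) = ψ (rs L.X h) := by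
    rw [classFun_of_isConj (isClassFunction_of_isCharacter c1) (L.dual h h4 h1 h3),
      ← conj_apply c1, hψ.real rfl]
  have e2 : L.pr (L.w0⁻¹ * h * L.w0) = L.pr h :=
    pr_eq L (mul_mem (mul_mem (inv_mem L.w0_mem) h4) L.w0_mem) h2 fun w => by
      rw [mul_apply', mul_apply', L.w0_W w w.2, pr_apply L h4 h1 h3,
        ← L.w0_W _ ((L.pr h).1 w).2, inv_apply_apply, L.w0_W _ ((L.pr h).1 w).2, sub_self]
      exact zero_mem _
  change ψ (rs L.X h) * μ (L.pr h) *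
    conj (ψ (rs L.X (L.w0⁻¹ * h * L.w0)) * μ' (L.pr (L.w0⁻¹ * h * L.w0))) =
      μ (L.pr h) * conj (μ' (L.pr h))
  rw [e1, e2, map_mul, mul_mul_mul_comm, p2, one_mul]

end Main

omit [Finite F] [Finite V] in
theorem avg_one {α : Type} [Finite α] [Nonempty α] :
    (Nat.card α : ℂ)⁻¹ * ∑ᶠ _ : α, (1 : ℂ) = 1 := by
  have := Fintype.ofFinite α
  rw [finsum_eq_sum_of_fintype, Finset.sum_const, Finset.card_univ, nsmul_eq_mul, mul_one,
    ← Nat.card_eq_fintype_card, inv_mul_cancel₀ (by exact_mod_cast Nat.card_pos.ne')]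

theorem m2a (hL : LeviStmt) (hN : NormStmt) (hX : NofixStmt) (hS : SubStmt) (hV : VlStmt)
    (hO : OppStmt) (hW : WittStmt) (hC : CountStmt) (hZ : ZenStmt) : M2aStmt := by
  intro F V _ _ _ _ _ P hT hF hcu
  obtain ⟨hε, -, -, hd⟩ := hT.orth rfl
  have hσ := hT.sig
  have hw := (hW F V P false 2 2 hT).1
  obtain ⟨L, hTW⟩ := hL F V P false 2 2 2 hT le_rfl
  obtain ⟨ψ, hψ⟩ := hcu L.X L.dim
  have p0 : ψ 1 = 1 := by rw [hψ.deg, hF, L.dim]; simp [cd]
  have c1 := isCharacter_of_irr hψ.irr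
  have p1 := map_mul_of_apply_one_eq_one c1 p0
  have i2 : (P.E.subgroupOf P.isom).index = 2 := by
    rw [(hZ F V P false 2 2 hT).2.1 (Or.inr (by omega)), hF]; rfl
  have hsq : ∀ g ∈ P.isom, g * g ∈ P.E := fun g hg =>
    Subgroup.mul_self_mem_of_index_two i2 ⟨g, hg⟩
  have i45 : (stab P.isom L.X).index = 45 := by
    have := hC F V P false 2 2 L.X hT L.ts
    rw [L.dim, hF] at this
    have h : (stab P.isom L.X).index * 3 = 135 := this.trans (by decide)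
    omega
  obtain ⟨σ0, s1, s2, s3⟩ : ∃ g ∈ P.isom, g ∈ stabSub L.X ∧ g ∉ P.E := by
    by_contra hc
    push Not at hc
    have := Subgroup.index_dvd_of_le (H := stab P.isom L.X) (K := P.E.subgroupOf P.isom)
      fun g hg => hc g g.2 hg
    rw [i2, i45] at this
    omega
  have iS : (stab P.E L.X).index = 45 := by
    have : (P.E.subgroupOf P.isom).Normal := Subgroup.normal_of_index_eq_two i2
    have a := Subgroup.relIndex_mul_index (inf_le_right : stab P.isom L.X ⊓ P.E.subgroupOf P.isom ≤ _)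
    have b := Subgroup.relIndex_mul_index (inf_le_left : stab P.isom L.X ⊓ P.E.subgroupOf P.isom ≤ _)
    have c := Subgroup.relIndex_dvd_index_of_normal (P.E.subgroupOf P.isom) (stab P.isom L.X)
    rw [Subgroup.inf_relIndex_right, Subgroup.relIndex_subgroupOf E_le_isom, i2] at a
    rw [Subgroup.inf_relIndex_left, i45, ← a] at b
    rw [i2, Nat.dvd_prime Nat.prime_two] at c
    change (stabSub L.X).relIndex P.E = 45
    omega
  let b := Module.finBasisOfFinrankEq F L.W (hTW.orth rfl).2.2.2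
  obtain ⟨τ, t1, t3⟩ := exists_three hF b
  obtain ⟨lam, l0, l1, l2, l3, l4, l5⟩ := exists_lam (KK L)
    (fun g => (gl2 hF b g.1).imp (fun e => Subtype.ext e) fun e => Subtype.ext e)
    (fun B => by
      obtain ⟨g, g1, g2, -, -, g5⟩ := L.surj 1 B
      exact ⟨g * g, hsq g g1, mul_mem g2 g2, by rw [L.pr_mul g g1 g2 g g1 g2, g5]⟩)
    (τ := ⟨τ, isom_top hF hTW τ⟩) (fun e => t1 (congrArg Subtype.val e)) (Subtype.ext t3)
    fun e => s3 (mem_E_of hO hF hσ L s1 s2 e)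
  generalize (⟨τ, isom_top hF hTW τ⟩ : L.PW.isom) = T at l4 l5
  obtain ⟨t, u1, u2, u3, -, u5⟩ := L.surj 1 T
  have u6 := mem_E_of hO hF hσ L u1 u2 (u5 ▸ l4)
  have h0 := w0_mem hO hF hσ hε L
  have l0' : conj (lam 1) = 1 := by rw [l0, map_one]
  have l1' : ∀ a ∈ KK L, ∀ b ∈ KK L, conj (lam (a * b)) = conj (lam a) * conj (lam b) :=
    fun a ha b hb => by rw [l1 a ha b hb, map_mul]
  have n1 := norm_eq hN hσ hw h0 hψ p0 l0 l1 l0 l1
  have n2 := norm_eq (μ' := fun a => conj (lam a)) hN hσ hw h0 hψ p0 l0 l1 l0' l1'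
  have : Nonempty {h : P.E // h ∈ stab P.E L.X ∧ h ∈ stab P.E L.X'} :=
    ⟨⟨1, one_mem _, one_mem _⟩⟩
  rw [finsum_congr fun h : {h : P.E // h ∈ stab P.E L.X} => l2 _ (mem_KK h.2),
    finsum_congr fun h : {h : P.E // h ∈ stab P.E L.X ∧ h ∈ stab P.E L.X'} => l2 _ (mem_KK h.2.1),
    avg_one, avg_one, one_add_one_eq_two] at n1
  have z : ∀ h : P.E, h ∈ stab P.E L.X → lam (L.pr (h * ⟨t, u6⟩ : P.E)) *
      conj (conj (lam (L.pr (h * ⟨t, u6⟩ : P.E)))) =
      lam T * lam T * (lam (L.pr h) * conj (conj (lam (L.pr h)))) := fun h hh => by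
    rw [Subgroup.coe_mul, L.pr_mul _ (E_le_isom h.2) hh _ u1 u2, u5, l1 _ (mem_KK hh) _ l4,
      Complex.conj_conj, Complex.conj_conj]
    ring
  rw [sum_zero (fun h : P.E => h ∈ stab P.E L.X) ⟨t, u6⟩
      (fun h => Subgroup.mul_mem_cancel_right _ u2)
      (fun h => lam (L.pr h) * conj (conj (lam (L.pr h)))) l5 z,
    sum_zero (fun h : P.E => h ∈ stab P.E L.X ∧ h ∈ stab P.E L.X') ⟨t, u6⟩
      (fun h => and_congr (Subgroup.mul_mem_cancel_right _ u2) (Subgroup.mul_mem_cancel_right _ u3))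
      (fun h => lam (L.pr h) * conj (conj (lam (L.pr h)))) l5 fun h hh => z h hh.1,
    mul_zero, mul_zero, add_zero] at n2
  let := Fintype.ofFinite P.E
  have r1 : IsCharacter P.E (ind (stab P.E L.X) fun h => ψ (rs L.X h) * lam (L.pr h)) :=
    H14.IsCharacter.indFun _ (isCharacter_of_irr (isIrrCharacter_of_map_mul (xi_one p0 l0)
      fun a b => xi_mul p1 l1 a.2 b.2))
  have r2 : (ind (stab P.E L.X) fun h => ψ (rs L.X h) * lam (L.pr h)) 1 = (45 : ℕ) := by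
    rw [ind, H14.indFun_one, iS]
    exact (congrArg _ (xi_one p0 l0)).trans (mul_one _)
  obtain ⟨φ, φ₂, m, q1, q2, q3, q4, q5⟩ := split2 r1 n1 r2 (by decide)
  have nf : ∀ Y, TS P Y → finrank F Y = 1 → ∑ᶠ u : UU P P.E Y, φ u = 0 := fun Y h1 h2 => by
    have := hX F V P P.E L.X Y ψ (fun h => lam (L.pr h)) hσ le_rfl E_le_isom L.ts h1 hψ.cusp
      (fun h hh g _ hg => by simp only [pr_top hh hg]) (by rw [h2, L.dim]; decide)
      fun T hT => by have := hw T hT; rw [h2, L.dim]; omega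
    rw [q3] at this
    exact hS _ φ φ₂ _ (isCharacter_of_irr q1) q2 this
  obtain ⟨Y, x, y1, y2, y3, y4, y5⟩ := five hL hC hF hT hsq
  have d5 := hV _ φ _ x 5 m (isCharacter_of_irr q1) q4 (by decide) y3 y4 y5 (nf Y y1 y2)
  refine ⟨φ, m, q1, q4, by have := even_iff_two_dvd.1 q5; omega, nf, fun σ v1 v2 φ' v3 => ?_⟩
  obtain rfl : φ' = fun g => φ (cE v1 g) := funext fun g => v3 g _ rfl
  have v4 : σ0⁻¹ * σ ∈ P.E := (Subgroup.mul_mem_iff_of_index_two i2 (a := ⟨σ0⁻¹, inv_mem s1⟩)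
    (b := ⟨σ, v1⟩)).2 (iff_of_false (fun e => s3 (inv_mem_iff.1 e)) v2)
  have v5 := H14.indFun_comp_mulEquiv (cE s1) (stab P.E L.X) (stab P.E L.X)
    (fun g => show g.1 ∈ stabSub L.X ↔ σ0 * g.1 * σ0⁻¹ ∈ stabSub L.X by
      rw [Subgroup.mul_mem_cancel_right _ (inv_mem s2), Subgroup.mul_mem_cancel_left _ s2])
    (fun h => ψ (rs L.X h) * lam (L.pr h)) (fun h => ψ (rs L.X h) * conj (lam (L.pr h)))
    fun k => by
      have k1 := E_le_isom k.1.2
      have k2 : k.1.1 ∈ stabSub L.X := k.2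
      change _ = ψ (rs L.X (σ0 * k.1.1 * σ0⁻¹)) * lam (L.pr (σ0 * k.1.1 * σ0⁻¹))
      rw [rs_mul (mul_mem s2 k2) (inv_mem s2), rs_mul s2 k2, rs_inv s2,
        isClassFunction_of_isCharacter c1, L.pr_mul _ (mul_mem s1 k1) (mul_mem s2 k2) _ (inv_mem s1)
          (inv_mem s2), L.pr_mul _ s1 s2 _ k1 k2, pr_inv L s1 s2,
        l3 _ (fun e => s3 (mem_E_of hO hF hσ L s1 s2 e)) _ (mem_KK k.2)]
  have v6 : (ind (stab P.E L.X) fun h => ψ (rs L.X h) * conj (lam (L.pr h))) =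
      (fun g => φ (cE v1 g)) + fun g => φ₂ (cE v1 g) := funext fun g => by
    rw [ind, ← H14.indFun_conj_apply _ _ g ⟨_, v4⟩, v5]
    exact (congrArg _ (Subtype.ext (by simp [cE, mul_assoc]))).trans (congrFun q3 (cE v1 g))
  have w1 := isCharacter_comp (isCharacter_of_irr q1) (cE v1).toMonoidHom
  have w2 := isCharacter_comp q2 (cE v1).toMonoidHom
  by_contra hc
  rw [v6] at n2
  exact classInner_add_ne_zero w1 w2 r1 ((classInner_ne_zero_comm _ _).1
    (q3 ▸ classInner_add_ne_zero (isCharacter_of_irr q1) q2 w1 hc))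
    ((classInner_eq_zero_comm _ _).1 n2)

end Cfsg.Agent.H91.DgM2a
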