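import Cfsg.Agent.H79.R3Defs

/-! Point sets with two intersection numbers with respect to lines. -/

set_option autoImplicit false

namespace Cfsg.Agent.H91.R3Zb

open Module Cfsg.Agent.H79.R3

universe u

variable {F V : Type u} [Field F] [AddCommGroup V] [Module F V] [Finite V]
  {A B D P Q : Submodule F V} {s : Submodule F V → Prop}

local instance : Finite (Submodule F V) := Finite.of_injective _ SetLike.coe_injective

theorem eq_of (h : A ≤ B) (e : dm B ≤ dm A) : A = B := Submodule.eq_of_le_of_finrank_le h e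

theorem dm_sup (hP : P ∈ Cov A D) (hB : A ≤ B) (h : ¬ P ≤ B) : dm (P ⊔ B) = dm B + 1 := by
  have h1 := Submodule.finrank_sup_add_finrank_inf_eq P B
  have h2 : dm A ≤ dm (P ⊓ B) := Submodule.finrank_mono (le_inf hP.1 hB)
  have h3 : dm (P ⊓ B) < dm P := Submodule.finrank_lt_finrank_of_lt (inf_lt_left.2 h)
  have := hP.2.2
  unfold dm at *
  omega

theorem pt {v : V} (hD : A ≤ D) (hv : v ∈ D) (h : v ∉ A) : A ⊔ F ∙ v ∈ Cov A D :=
  ⟨le_sup_left, sup_le hD ((Submodule.span_singleton_le_iff_mem _ _).2 hv),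
    Submodule.finrank_sup_span_singleton h⟩

theorem exists_cov (hD : A ≤ D) (h : dm A < dm D) : ∃ P, P ∈ Cov A D := by
  obtain ⟨v, h1, h2⟩ := SetLike.exists_of_lt (hD.lt_of_ne fun e => h.ne (congrArg dm e))
  exact ⟨_, pt hD h1 h2⟩

theorem cnt_add (s : Submodule F V → Prop) (A D : Submodule F V) :
    cnt s A D + cnt (fun P => ¬ s P) A D = (Cov A D).ncard := by
  rw [cnt, cnt, ← Set.ncard_union_eq (Set.disjoint_left.2 fun P h h' => h'.2 h.2)]
  congr 1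
  ext P
  simp only [Set.mem_union, Set.mem_ofPred_eq]
  tauto

theorem cnt_split (hD : B ≤ D) :
    cnt s A D = cnt s A B + cnt (fun P => s P ∧ ¬ P ≤ B) A D := by
  rw [cnt, cnt, cnt, ← Set.ncard_union_eq (Set.disjoint_left.2 fun P h h' => h'.2.2 h.1.2.1)]
  congr 1
  ext P
  refine ⟨fun h => ?_, fun h => h.elim (fun h => ⟨⟨h.1.1, h.1.2.1.trans hD, h.1.2.2⟩, h.2⟩)
    fun h => ⟨h.1, h.2.1⟩⟩
  by_cases e : P ≤ B
  exacts [.inl ⟨⟨h.1.1, e, h.1.2.2⟩, h.2⟩, .inr ⟨h.1, h.2, e⟩]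

theorem part (hB : A ≤ B) (hD : B ≤ D) : cnt s A D =
    cnt s A B + ∑ X ∈ (Cov B D).toFinite.toFinset, (cnt s A X - cnt s A B) := by
  classical
  rw [cnt_split hD, Nat.add_left_cancel_iff, cnt, Set.ncard_eq_toFinset_card,
    Finset.card_eq_sum_card_fiberwise (f := fun P => P ⊔ B) (t := (Cov B D).toFinite.toFinset)]
  · refine Finset.sum_congr rfl fun X hX => ?_
    rw [Set.Finite.mem_toFinset] at hX
    rw [cnt_split (D := X) hX.1, Nat.add_sub_cancel_left, cnt, Set.ncard_eq_toFinset_card]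
    congr 1
    ext P
    simp only [Finset.mem_filter, Set.Finite.mem_toFinset, Set.mem_ofPred_eq]
    refine ⟨fun ⟨h, e⟩ => ⟨⟨h.1.1, e ▸ le_sup_left, h.1.2.2⟩, h.2⟩, fun h =>
      ⟨⟨⟨h.1.1, h.1.2.1.trans hX.2.1, h.1.2.2⟩, h.2⟩, eq_of (sup_le h.1.2.1 hX.1) ?_⟩⟩
    rw [dm_sup h.1 hB h.2.2, hX.2.2]
  · intro P h
    simp only [Set.Finite.coe_toFinset, Set.mem_ofPred_eq] at h ⊢
    exact ⟨le_sup_right, sup_le h.1.2.1 hD, dm_sup h.1 hB h.2.2⟩

theorem cnt_pos (hP : P ∈ Cov A D) (h : s P) : cnt s A D ≠ 0 :=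
  Set.ncard_ne_zero_of_mem (a := P) ⟨hP, h⟩ (Set.toFinite _)

theorem cnt_self (hP : P ∈ Cov A D) (h : s P) : cnt s A P = 1 :=
  Set.ncard_eq_one.2 ⟨P, Set.eq_singleton_iff_unique_mem.2 ⟨⟨⟨hP.1, le_rfl, hP.2.2⟩, h⟩,
    fun Q hQ => eq_of hQ.1.2.1 (by rw [hP.2.2, hQ.1.2.2])⟩⟩

theorem br_two (q : ℕ) : br q 2 = q + 1 := by simp [br, Finset.sum_range_succ, add_comm]

theorem zs (cov : CovStmt.{u}) : ZsStmt.{u} := by
  intro F V _ _ _ _ _ A s h
  let W : Submodule F V :=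
    { carrier := {v | v ∈ A ∨ ∃ P ∈ Cov A ⊤, s P ∧ v ∈ P}
      zero_mem' := .inl A.zero_mem
      smul_mem' := fun c v hv => hv.imp (A.smul_mem c) fun ⟨P, a, b, e⟩ => ⟨P, a, b, P.smul_mem c e⟩
      add_mem' := by
        rintro v w (hv | ⟨P, a, b, c⟩) (hw | ⟨Q, a', b', c'⟩)
        · exact .inl (add_mem hv hw)
        · exact .inr ⟨Q, a', b', add_mem (a'.1 hv) c'⟩
        · exact .inr ⟨P, a, b, add_mem c (a.1 hw)⟩
        by_cases e : P ≤ Q
        · exact .inr ⟨Q, a', b', add_mem (e c) c'⟩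
        refine or_iff_not_imp_left.2 fun hA => ?_
        have d : dm (P ⊔ Q) = dm A + 2 := by rw [dm_sup a a'.1 e, a'.2.2]
        have l : A ≤ P ⊔ Q := a.1.trans le_sup_left
        have h1 : 1 < cnt s A (P ⊔ Q) := (Set.one_lt_ncard (Set.toFinite _)).2
          ⟨P, ⟨⟨a.1, le_sup_left, a.2.2⟩, b⟩, Q, ⟨⟨a'.1, le_sup_right, a'.2.2⟩, b'⟩,
            fun k => e k.le⟩
        have h2 := cnt_add s A (P ⊔ Q)
        rw [cov F V _ _ l, d, Nat.add_sub_cancel_left, br_two] at h2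
        have h3 := h _ l d
        have h4 := pt l (Submodule.add_mem_sup c c') hA
        refine ⟨_, pt le_top trivial hA, by_contra fun k => cnt_pos (s := fun P => ¬ s P) h4 k ?_,
          Submodule.mem_sup_right (Submodule.mem_span_singleton_self _)⟩
        omega }
  refine ⟨W, fun v hv => .inl hv, fun P hP => ⟨fun k v hv => .inr ⟨P, hP, k, hv⟩, fun k => ?_⟩⟩
  obtain ⟨v, h1, h2⟩ := SetLike.exists_of_lt (hP.1.lt_of_ne fun e => by
    have := hP.2.2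
    rw [← e] at this
    omega)
  obtain ⟨Q, a, b, c⟩ := (k h1).resolve_left h2
  have e : ∀ R ∈ Cov A ⊤, v ∈ R → A ⊔ F ∙ v = R := fun R hR hv =>
    eq_of (pt hR.1 hv h2).2.1 (by rw [hR.2.2, (pt hR.1 hv h2).2.2])
  rwa [← e P hP h1, e Q a c]

theorem zb (cov : CovStmt.{u}) : ZbStmt.{u} := by
  intro F V _ _ _ _ _ A s b hn hb h ⟨l, l1, l2, l3⟩ ⟨P, hP, sP⟩
  have ht : dm (⊤ : Submodule F V) = finrank F V := finrank_top F V
  have ln : ∀ {P D}, P ∈ Cov A ⊤ → s P → ∀ X ∈ Cov P D, cnt s A X = b := fun hP sP X hX =>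
    (h X (hP.1.trans hX.1) (by rw [hX.2.2, hP.2.2])).resolve_left
      (cnt_pos ⟨hP.1, hX.1, hP.2.2⟩ sP)
  have key : ∀ {P D}, P ∈ Cov A ⊤ → s P → P ≤ D →
      cnt s A D = 1 + br (Nat.card F) (dm D - (dm A + 1)) * (b - 1) := fun {P D} hP sP hD => by
    rw [part hP.1 hD, cnt_self hP sP, Finset.sum_const_nat (m := b - 1) fun X hX => by
      rw [ln hP sP X ((Set.Finite.mem_toFinset _).1 hX)], ← Set.ncard_eq_toFinset_card,
      cov F V _ _ hD, hP.2.2]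
  have b1 : b ≠ 0 := by
    obtain ⟨X, hX⟩ := exists_cov (le_top (a := P)) (by rw [hP.2.2, ht]; omega)
    exact ln hP sP X hX ▸ cnt_pos ⟨hP.1, hX.1, hP.2.2⟩ sP
  by_cases e1 : b = 1
  · have := key hP sP le_top
    rw [e1, Nat.sub_self, mul_zero, add_zero] at this
    obtain ⟨Q, hQ⟩ := Set.ncard_eq_one.1 this
    rw [Set.eq_singleton_iff_unique_mem] at hQ
    exact .inl ⟨Q, hQ.1.1, fun R hR => ⟨fun k => hQ.2 R ⟨hR, k⟩, fun k => k ▸ hQ.1.2⟩⟩
  by_cases e2 : b = Nat.card F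
  · have h' : ∀ L, A ≤ L → dm L = dm A + 2 → cnt (fun P => ¬ s P) A L = 1 ∨
        cnt (fun P => ¬ s P) A L = Nat.card F + 1 := fun L a d => by
      have h2 := cnt_add s A L
      rw [cov F V _ _ a, d, Nat.add_sub_cancel_left, br_two] at h2
      have := h L a d
      omega
    obtain ⟨W, w1, w2⟩ := zs cov F V A (fun P => ¬ s P) fun L a d => .inr (h' L a d)
    refine .inr ⟨W, w1, ?_, fun R hR => by rw [← w2 R hR, not_not]⟩
    have p1 : ¬ P ≤ W := fun k => (w2 P hP).2 k sP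
    have d := dm_sup hP w1 p1
    have d1 : dm (P ⊔ W) ≤ finrank F V := Submodule.finrank_le _
    by_contra k
    obtain ⟨v, -, hv⟩ := SetLike.exists_of_lt (lt_top_iff_ne_top.2 fun e : P ⊔ W = ⊤ => k (by
      rw [← d, e, ht]))
    have h4 := pt (le_top (a := P)) trivial fun k => hv (Submodule.mem_sup_left k)
    have h5 : cnt (fun P => ¬ s P) A (P ⊔ F ∙ v) = 0 := by
      refine (Set.ncard_eq_zero (Set.toFinite _)).2 (Set.eq_empty_of_forall_notMem fun R hR => ?_)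
      have r1 : R ≤ W := (w2 R ⟨hR.1.1, le_top, hR.1.2.2⟩).1 hR.2
      have r2 : P ⊔ R = P ⊔ F ∙ v := eq_of (sup_le le_sup_left hR.1.2.1) (by
        rw [dm_sup hP hR.1.1 fun k => p1 (k.trans r1), h4.2.2, hP.2.2, hR.1.2.2])
      exact hv (sup_le_sup_left r1 P (r2.ge
        (Submodule.mem_sup_right (Submodule.mem_span_singleton_self _))))
    have := h' _ (hP.1.trans h4.1) (by rw [h4.2.2, hP.2.2])
    omega
  exfalso
  have d := dm_sup hP l1 fun k => cnt_pos ⟨hP.1, k, hP.2.2⟩ sP l3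
  obtain ⟨S, hS⟩ := exists_cov (le_top (a := P ⊔ l)) (by rw [d, l2, ht]; omega)
  have h1 : 1 + br (Nat.card F) 2 * (b - 1) ∣ cnt s A S := by
    rw [part l1 (le_sup_right.trans hS.1), l3, zero_add]
    refine Finset.dvd_sum fun X hX => ?_
    rw [Set.Finite.mem_toFinset] at hX
    by_cases z : cnt s A X = 0
    · simp [z]
    obtain ⟨Q, hQ, sQ⟩ := Set.nonempty_of_ncard_ne_zero z
    rw [key ⟨hQ.1, le_top, hQ.2.2⟩ sQ hQ.2.1, hX.2.2, l2,
      show dm A + 2 + 1 - (dm A + 1) = 2 by omega]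
    rfl
  rw [key hP sP (le_sup_left.trans hS.1), hS.2.2, d, l2,
    show dm A + 2 + 1 + 1 - (dm A + 1) = 3 by omega] at h1
  obtain ⟨c, rfl⟩ : ∃ c, b = c + 2 := ⟨b - 2, by omega⟩
  obtain ⟨e, he⟩ : ∃ e, Nat.card F = c + 2 + e + 1 := ⟨Nat.card F - c - 3, by omega⟩
  have h2 : Nat.card F * (1 + br (Nat.card F) 2 * (c + 2 - 1)) =
      1 + br (Nat.card F) 3 * (c + 2 - 1) + (e + 1) := by
    simp only [br, Finset.sum_range_succ, Finset.sum_range_zero, he,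
      show c + 2 - 1 = c + 1 from rfl]
    ring
  have h3 := Nat.le_of_dvd e.succ_pos ((Nat.dvd_add_right h1).1 (h2 ▸ dvd_mul_left _ _))
  rw [br_two, he, show c + 2 - 1 = c + 1 from rfl] at h3
  nlinarith

end Cfsg.Agent.H91.R3Zb
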