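import Mathlib
import Cfsg.Agent.H6.E82Defs

/-! Basic formulas for the basis vectors of the Lie algebra of type `E₈` in characteristic two. -/

set_option autoImplicit false

namespace Cfsg.Agent.H91.E82Brc

open Equiv Cfsg.Lie H37 H40 H34 H29 Module H82 H50.SL2S Finset H6.E82
open scoped Matrix MatrixGroups

theorem hr_inl (r : Rt) (i : Ix) : hr r (Sum.inl i) = (C8.R.co r i : K) := by
  rw [C8.co_eq]; rfl

theorem hr_inr (r s : Rt) : hr r (Sum.inr s) = 0 := rfl

theorem ee_inl (r : Rt) (i : Ix) : ee r (Sum.inl i) = 0 := rfl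

theorem ee_inr (r s : Rt) : ee r (Sum.inr s) = if s = r then 1 else 0 :=
  if_congr Fin.val_inj rfl rfl

theorem neg_eq (a : K) : -a = a := CharTwo.neg_eq a

theorem cast_sq (n : ℤ) : (n : K) ^ 2 = n := by
  have := map_intCast (frobenius K 2) n
  rwa [frobenius_def] at this

theorem rc_tau {r s : Rt} (h : pr r s = -1) : C8.R.rc (C8.R.τ r s) = C8.R.rc r + C8.R.rc s := by
  rw [RS.rc_τ, show C8.R.pair r s = -1 from h, neg_smul, one_smul, sub_neg_eq_add, add_comm]

theorem brc (rf : RfStmt) : BrcStmt := by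
  obtain ⟨-, -, h3, h4, h5, -, -, h8, -⟩ := rf
  have kh : ∀ r v, kap v (hr r) = H6.E82.ev r v := fun r v => by
    rw [kap_apply, H6.E82.ev]
    simp only [hr_inr, hr_inl, mul_zero, sum_const_zero, zero_add]
    refine sum_congr rfl fun i _ => ?_
    rw [RS.wt_def, Int.cast_sum, mul_sum]
    refine sum_congr rfl fun j _ => ?_
    rw [h4, Int.cast_mul, mul_assoc]
  refine ⟨fun r s => rfl, fun r s => ?_, fun r => ?_, fun r s h => ?_, ee_inr, ee_inl,
    fun r s => ?_, fun r v => ?_, fun r s v h => ?_, fun v => ?_, fun r v => ?_,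
    fun r => ⟨C8.R.neg_neg r, C8.R.neg_ne r, fun e => ?_⟩,
    fun r s => ⟨C8.R.pair_neg_right r s, C8.R.pair_neg_left r s⟩, kh,
    fun r s => ⟨C8.R.τ_τ r s, C8.R.pair_τ_right r s⟩, fun r s h => ⟨?_, fun u => ?_⟩,
    fun g g' e => ?_⟩
  · rw [H6.E82.ev, pr, RS.pair_def, Int.cast_sum]
    exact sum_congr rfl fun i _ => by rw [hr_inl, Int.cast_mul]
  · funext j
    rcases j with i | u
    · rw [hr_inl, hr_inl, RS.co_neg, Pi.neg_apply, Int.cast_neg, neg_eq]
    · rw [hr_inr, hr_inr]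
  · funext j
    rcases j with i | u
    · rw [Pi.add_apply, hr_inl, hr_inl, hr_inl, h4, h4, h4, rc_tau h, Pi.add_apply, Int.cast_add]
    · rw [Pi.add_apply, hr_inr, hr_inr, hr_inr, add_zero]
  · exact sum_eq_zero fun i _ => by rw [ee_inl, zero_mul]
  · exact sum_congr rfl fun i _ => by rw [RS.wt_neg, Int.cast_neg, neg_eq]
  · rw [H6.E82.ev, H6.E82.ev, H6.E82.ev, ← sum_add_distrib]
    refine sum_congr rfl fun i _ => ?_
    rw [RS.wt, rc_tau h, map_add, Int.cast_add, mul_add]
    rfl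
  · refine ⟨Sum.elim (fun i => v (Sum.inl i)) fun _ => 0, fun _ => rfl, fun _ => rfl, ?_⟩
    funext j
    rw [Pi.add_apply, Finset.sum_apply]
    rcases j with i | u
    · rw [sum_eq_zero fun r _ => by rw [Pi.smul_apply, ee_inl, smul_zero], add_zero]
      rfl
    · rw [sum_eq_single u (fun r _ hr => by rw [Pi.smul_apply, ee_inr, if_neg hr.symm, smul_zero])
        (fun h => absurd (mem_univ u) h), Pi.smul_apply, ee_inr, if_pos rfl, smul_eq_mul, mul_one]
      exact (zero_add _).symm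
  · rw [H6.E82.ev, H6.E82.ev, sum_pow_char 2]
    exact sum_congr rfl fun i _ => by rw [mul_pow, cast_sq]; rfl
  · obtain ⟨h, -, hh⟩ := h8 r
    rw [← kh, e, map_zero] at hh
    exact zero_ne_one hh
  · exact C8.R.rc_inj (by rw [rc_tau h, rc_tau ((h3 s r).trans h), add_comm])
  · rw [pr, RS.pair, rc_tau h, map_add]
    rfl
  · refine Subtype.ext (Units.ext ?_)
    refine Matrix.toLin'.injective (LinearMap.ext fun v => ?_)
    rw [Matrix.toLin'_apply, Matrix.toLin'_apply, ← act_apply, ← act_apply, e]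

end Cfsg.Agent.H91.E82Brc
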