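import Mathlib
import Cfsg.Agent.H91.ElN4x

/-!
# A class of subgroups of order 11: the case of an odd centraliser with an inverting element
-/

set_option autoImplicit false
open Subgroup

namespace Cfsg.Agent.H91.ElN2

open Cfsg.Agent.H11.EL Cfsg.Agent.H91.ElN4x

universe u

theorem n2 (b : Base.{u}) (ha : N2aStmt.{u}) (hz : N2zStmt.{u}) (hg : ZGStmt.{u})
    (ht : TWStmt.{u}) (hs : SPStmt.{u}) : N2Stmt.{u} := by
  intro G _ _ D A B P hodd g gA gB hex
  have N := P.ne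
  have := N.simple
  have h1 : g * g ∈ Ct A := by
    rw [mem_centralizer_iff]
    intro a haA
    have := ex_pow hex 2 a haA
    rw [sq] at this
    simp only [even_two, Even.neg_pow, one_pow, zpow_one] at this
    rw [mul_inv_eq_iff_eq_mul] at this
    exact this.symm
  have h2 := N.cen A P.hA B P.hB _ h1 (mul_mem gB gB)
  have h3 : (g * g) ^ Nat.card (Ct (A ⊔ B)) = 1 := by
    have := pow_card_eq_one' (G := Ct (A ⊔ B)) (x := ⟨_, h2⟩)
    exact congrArg Subtype.val this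
  obtain ⟨y, hy⟩ : ∃ y, y = g ^ Nat.card (Ct (A ⊔ B)) := ⟨_, rfl⟩
  have yy : y * y = 1 := by rw [hy, ← h3, (Commute.refl g).mul_pow]
  have yA : Ex y A (-1) := by
    have := ex_pow hex (Nat.card (Ct (A ⊔ B)))
    rwa [hodd.neg_one_pow, ← hy] at this
  have yN : y ∈ Nm A := hy ▸ pow_mem gA _
  have yB : y ∈ Nm B := hy ▸ pow_mem gB _
  have Q : N2 D A B y := ⟨P, hodd, yy, yA, yN, yB⟩
  obtain ⟨q1, q2, ⟨e, e1, e5, ec⟩, q4⟩ := ha D A B y Q
  have y1 : y ≠ 1 := fun h => q1 1 (by rw [h, one_mul])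
  have oy : orderOf y = 2 := orderOf_eq_prime (by rw [sq, yy]) y1
  have lp := N.lp A P.hA B P.hB P.AB
  obtain ⟨f, s, lc1⟩ := b.lc1 A B lp
  obtain ⟨v, -, hv⟩ := (b.ld A B y lp yN yB yA).sqs yy s lc1.sL lc1.so
  have ov : orderOf v = 4 := by
    have s1 : s ≠ 1 := fun h => by
      have := lc1.so
      rw [h, orderOf_one] at this
      omega
    have s2 : s ^ 2 = 1 := by rw [← lc1.so, pow_orderOf_eq_one]
    have := orderOf_eq_prime_pow (x := v) (p := 2) (n := 1) (by rw [pow_one, sq, hv]; exact s1)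
      (by rw [← s2, ← hv, ← sq v, ← pow_mul]; norm_num)
    simpa using this
  by_cases hc : (Fx D y).ncard ≤ 2
  · exact ht y v N.nc oy q1 (q4 hc) ov
  · have h4 := (hg D A B y f s e N.toCls ⟨P.hA, yN⟩ ⟨P.hB, yB⟩ lp (b.lc A B f s lp lc1) oy
      (hz D A B y Q) (not_le.1 hc) ec).2 e1 q2
    refine hs y v N.nc oy q1 h4 ?_ ov
    exact (e5.mul_left 2).trans (ec ▸ card_dvd_of_le inf_le_left)

end Cfsg.Agent.H91.ElN2
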