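import Mathlib
import Cfsg.Agent.H98.GbG

/-! Project GB: the numerical estimate with partition numbers. -/

set_option autoImplicit false

namespace Cfsg.Agent.H91.GbNumb

open Finset Cfsg.Agent.H19 Cfsg.Agent.H98.GB

theorem pn_five : pn 5 = 7 := by rw [← card_Lam (N := 5) le_rfl]; decide +kernel

theorem pn_fib (m : ℕ) : pn (m + 2) ≤ pn (m + 1) + pn m := by
  classical
  have h1 : ∀ μ ∈ Par (m + 2), ∃ r, r ∈ μ := by
    intro μ hμ
    apply Multiset.exists_mem_of_ne_zero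
    rintro rfl
    have := (mem_Par.1 hμ).1
    simp at this
  choose! r hr using h1
  simp only [pn]
  rw [← card_filter_add_card_filter_not (s := Par (m + 2)) (fun μ => 1 ∈ μ)]
  refine add_le_add ?_ ?_
  · refine card_le_card_of_injOn (fun μ => μ.erase 1) (fun μ hμ => ?_) fun μ hμ ν hν h => ?_
    · obtain ⟨h1, h2⟩ := mem_filter.1 hμ
      obtain ⟨h3, h4⟩ := mem_Par.1 h1
      have h5 := Multiset.sum_erase h2
      exact mem_coe.2 (mem_Par.2 ⟨by dsimp only; omega,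
        fun s hs => h4 s (Multiset.mem_of_mem_erase hs)⟩)
    · simp only at h
      rw [← Multiset.cons_erase (mem_filter.1 hμ).2, h, Multiset.cons_erase (mem_filter.1 hν).2]
  · have key : ∀ μ ∈ Par (m + 2), 1 ∉ μ → 2 ≤ r μ := fun μ h1 h2 => by
      have h3 := (mem_Par.1 h1).2 _ (hr μ h1)
      have h4 : r μ ≠ 1 := fun e => h2 (e ▸ hr μ h1)
      omega
    refine card_le_card_of_injOn (fun μ => μ.erase (r μ) + Multiset.replicate (r μ - 2) 1)
      (fun μ hμ => ?_) fun μ hμ ν hν h => ?_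
    · obtain ⟨h1, h2⟩ := mem_filter.1 hμ
      obtain ⟨h3, h4⟩ := mem_Par.1 h1
      have h5 := Multiset.sum_erase (hr μ h1)
      have h6 := key μ h1 h2
      refine mem_coe.2 (mem_Par.2 ⟨?_, fun s hs => ?_⟩)
      · rw [Multiset.sum_add, Multiset.sum_replicate, smul_eq_mul]
        omega
      · rcases Multiset.mem_add.1 hs with hs | hs
        · exact h4 s (Multiset.mem_of_mem_erase hs)
        · rw [Multiset.eq_of_mem_replicate hs]; exact one_pos
    · obtain ⟨h1, h2⟩ := mem_filter.1 hμ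
      obtain ⟨h3, h4⟩ := mem_filter.1 hν
      simp only at h
      have h5 := congrArg (Multiset.count 1) h
      rw [Multiset.count_add, Multiset.count_add, Multiset.count_replicate_self,
        Multiset.count_replicate_self,
        Multiset.count_eq_zero.2 fun e => h2 (Multiset.mem_of_mem_erase e),
        Multiset.count_eq_zero.2 fun e => h4 (Multiset.mem_of_mem_erase e)] at h5
      have h6 := key μ h1 h2
      have h7 := key ν h3 h4
      have h8 : r μ = r ν := by omega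
      rw [h8, add_left_inj] at h
      rw [← Multiset.cons_erase (hr μ h1), h8, h, Multiset.cons_erase (hr ν h3)]

theorem pn_small : pn 6 ≤ 12 ∧ pn 8 ≤ 31 ∧ pn 10 ≤ 81 ∧ pn 12 ≤ 212 ∧ pn 14 ≤ 555 ∧
    pn 15 ≤ 898 := by
  have h4 := pn_four
  have h5 := pn_five
  have h6 : pn 6 ≤ _ := pn_fib 4
  have h7 : pn 7 ≤ _ := pn_fib 5
  have h8 : pn 8 ≤ _ := pn_fib 6
  have h9 : pn 9 ≤ _ := pn_fib 7
  have h10 : pn 10 ≤ _ := pn_fib 8
  have h11 : pn 11 ≤ _ := pn_fib 9
  have h12 : pn 12 ≤ _ := pn_fib 10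
  have h13 : pn 13 ≤ _ := pn_fib 11
  have h14 : pn 14 ≤ _ := pn_fib 12
  have h15 : pn 15 ≤ _ := pn_fib 13
  norm_num at *
  omega

theorem pn_big (k : ℕ) : 2 * (k + 14) * pn (k + 14) ≤ 2 ^ (k + 14) ∧
    2 * (k + 15) * pn (k + 15) ≤ 2 ^ (k + 15) := by
  induction k with
  | zero =>
    obtain ⟨-, -, -, -, h1, h2⟩ := pn_small
    norm_num
    omega
  | succ k ih =>
    refine ⟨ih.2, ?_⟩
    obtain ⟨h1, h2⟩ := ih
    have h3 : pn (k + 1 + 15) ≤ pn (k + 15) + pn (k + 14) := pn_fib (k + 14)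
    rw [show 2 ^ (k + 15) = 2 * 2 ^ (k + 14) by ring] at h2
    rw [show 2 ^ (k + 1 + 15) = 4 * 2 ^ (k + 14) by ring]
    generalize 2 ^ (k + 14) = y at *
    generalize pn (k + 1 + 15) = a at *
    generalize pn (k + 15) = b at *
    generalize pn (k + 14) = c at *
    have h4 : 2 * (k + 1 + 15) * a ≤ 2 * (k + 1 + 15) * (b + c) := Nat.mul_le_mul_left _ h3
    nlinarith

theorem pn_le_two (m : ℕ) (hm : 0 < m) : pn m ≤ 2 ^ (m - 1) := by
  obtain rfl | rfl | h := show m = 1 ∨ m = 2 ∨ 3 ≤ m by omega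
  · simp [pn_one]
  · simp [pn_two]
  · have := pn_add_lt_two h
    omega

theorem pn_three_le {m : ℕ} (hm : 4 ≤ m) : 3 * pn m ≤ 2 ^ m := by
  have key : ∀ k, 3 * pn (k + 4) ≤ 2 ^ (k + 4) ∧ 3 * pn (k + 5) ≤ 2 ^ (k + 5) := fun k => by
    induction k with
    | zero => simp [pn_four, pn_five]
    | succ k ih =>
      refine ⟨ih.2, ?_⟩
      have h3 : pn (k + 1 + 5) ≤ pn (k + 5) + pn (k + 4) := pn_fib (k + 4)
      obtain ⟨h1, h2⟩ := ih
      rw [show 2 ^ (k + 5) = 2 * 2 ^ (k + 4) by ring] at h2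
      rw [show 2 ^ (k + 1 + 5) = 4 * 2 ^ (k + 4) by ring]
      omega
  obtain ⟨k, rfl⟩ : ∃ k, m = k + 4 := ⟨m - 4, by omega⟩
  exact (key k).1

/-- the exceptional pairs -/
def Exc (c m : ℕ) : Prop := (c = 1 ∧ m = 2) ∨ (c = 1 ∧ m = 4) ∨ (c = 2 ∧ m = 4) ∨ (c = 3 ∧ m = 8)

theorem two_one {c m : ℕ} (hm : 0 < m) (hc : 2 ^ c ∣ m) : 2 ^ c * 2 * pn m ≤ 2 ^ m ∨ Exc c m := by
  have h1 := Nat.le_of_dvd hm hc
  by_cases h : 14 ≤ m
  · obtain ⟨k, rfl⟩ : ∃ k, m = k + 14 := ⟨m - 14, by omega⟩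
    refine Or.inl (le_trans (Nat.mul_le_mul_right _ ?_) (pn_big k).1)
    omega
  have h2 : c < 4 := by
    by_contra h3
    have := Nat.pow_le_pow_right two_pos (not_lt.1 h3)
    omega
  obtain ⟨a6, a8, a10, a12, -⟩ := pn_small
  have a4 := pn_four
  have a0 := pn_le_two m hm
  unfold Exc
  interval_cases c
  · left
    obtain ⟨k, rfl⟩ : ∃ k, m = k + 1 := ⟨m - 1, by omega⟩
    rw [pow_succ 2 k]
    simp only [Nat.add_sub_cancel] at a0
    omega
  all_goals
    have h3 : m < 14 := by omega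
    interval_cases m <;> omega

/-- the local factor -/
def SS (x t : ℕ) : ℕ := x ^ t + (t - 1) * x ^ (t / 2)

theorem SS_mono {x y : ℕ} (h : x ≤ y) (t : ℕ) : SS x t ≤ SS y t :=
  add_le_add (Nat.pow_le_pow_left h _) (Nat.mul_le_mul_left _ (Nat.pow_le_pow_left h _))

theorem SS_le {m t : ℕ} (hm : 0 < m) (ht : 0 < t) : SS (pn m) t ≤ 2 ^ (t * m - 1) := by
  refine (SS_mono (pn_le_two m hm) t).trans ?_
  obtain ⟨m, rfl⟩ : ∃ k, m = k + 1 := ⟨m - 1, by omega⟩
  obtain ⟨t, rfl⟩ : ∃ k, t = k + 1 := ⟨t - 1, by omega⟩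
  simp only [SS, Nat.add_sub_cancel]
  have h1 : (2 ^ m) ^ ((t + 1) / 2) ≤ (2 ^ m) ^ (t + 1) :=
    Nat.pow_le_pow_right (by positivity) (by omega)
  have h2 : t + 1 ≤ 2 ^ t := Nat.lt_two_pow_self
  have h3 : 2 ^ ((t + 1) * (m + 1) - 1) = 2 ^ t * (2 ^ m) ^ (t + 1) := by
    rw [← pow_mul, ← pow_add]
    congr 1
    rw [show (t + 1) * (m + 1) = t + m * (t + 1) + 1 by ring, Nat.add_sub_cancel]
  rw [h3]
  nlinarith [Nat.mul_le_mul_left t h1, Nat.mul_le_mul_right ((2 ^ m) ^ (t + 1)) h2]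

theorem SS_odd {y : ℕ} (hy : 2 ≤ y) (s : ℕ) : SS y (2 * s + 1) ≤ 2 * y ^ (2 * s + 1) := by
  have h1 : 2 * s ≤ y ^ (s + 1) := by
    have : s < 2 ^ s := Nat.lt_two_pow_self
    have h2 := Nat.pow_le_pow_left hy (s + 1)
    rw [pow_succ] at h2
    omega
  simp only [SS, Nat.add_sub_cancel]
  rw [show (2 * s + 1) / 2 = s by omega, show y ^ (2 * s + 1) = y ^ (s + 1) * y ^ s by ring]
  have := Nat.mul_le_mul_right (y ^ s) h1
  omega

theorem two_pow_le {c N : ℕ} (h : 3 * c + 1 ≤ N) : 2 ^ (N - 1) ≤ 3 ^ (N - c - 1) := by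
  obtain ⟨k, rfl⟩ := Nat.exists_eq_add_of_le h
  rw [show 3 * c + 1 + k - 1 = 3 * c + k by omega, show 3 * c + 1 + k - c - 1 = 2 * c + k by omega,
    pow_add, pow_add, pow_mul, pow_mul]
  exact Nat.mul_le_mul (Nat.pow_le_pow_left (by norm_num) _) (Nat.pow_le_pow_left (by norm_num) _)

theorem one_orbit {p c m t : ℕ} (hp : p.Prime) (hm : 0 < m) (ht : ¬ p ∣ t) (hc : p ^ c ∣ m) :
    p ^ c * p * SS (pn m) t ≤ p ^ (t * m) ∨ (p = 2 ∧ t = 1 ∧ Exc c m) := by
  have ht0 : 0 < t := Nat.pos_of_ne_zero fun e => ht (e ▸ dvd_zero p)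
  have h1 := Nat.le_of_dvd hm hc
  have h2 := SS_le hm ht0
  have h3 : m ≤ t * m := Nat.le_mul_of_pos_left _ ht0
  rcases Nat.eq_zero_or_pos c with rfl | hc0
  · left
    have h4 := h2.trans (Nat.pow_le_pow_left hp.two_le _)
    rw [pow_zero, one_mul, show t * m = (t * m - 1) + 1 by omega, pow_succ']
    exact Nat.mul_le_mul_left _ h4
  rcases hp.eq_two_or_odd' with rfl | hodd
  · obtain ⟨s, rfl⟩ : ∃ s, t = 2 * s + 1 := ⟨t / 2, by omega⟩
    rcases Nat.eq_zero_or_pos s with rfl | hs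
    · rcases two_one hm hc with h | h
      · left
        simpa [SS] using h
      · exact Or.inr ⟨rfl, rfl, h⟩
    left
    obtain ⟨s, rfl⟩ : ∃ k, s = k + 1 := ⟨s - 1, by omega⟩
    have hm2 : 2 ≤ m := le_trans (by simpa using Nat.pow_le_pow_right two_pos hc0) h1
    rcases (show c = 1 ∨ 2 ≤ c by omega) with rfl | hc2
    · have h4 : 2 ≤ 2 ^ (m - 1) := by
        simpa using Nat.pow_le_pow_right two_pos (show 1 ≤ m - 1 by omega)
      have h5 := (SS_mono (pn_le_two m hm) _).trans (SS_odd h4 (s + 1))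
      refine (Nat.mul_le_mul_left _ h5).trans ?_
      rw [← pow_mul, ← pow_succ, ← pow_succ', ← pow_add]
      refine Nat.pow_le_pow_right two_pos ?_
      obtain ⟨m, rfl⟩ : ∃ k, m = k + 1 := ⟨m - 1, by omega⟩
      simp only [Nat.add_sub_cancel]
      nlinarith
    · have hm4 : 4 ≤ m := le_trans (by simpa using Nat.pow_le_pow_right two_pos hc2) h1
      have h16 : 16 ≤ 2 ^ m := by simpa using Nat.pow_le_pow_right two_pos hm4
      have h4 : 3 * max (pn m) 2 ≤ 2 ^ m := by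
        have := pn_three_le hm4
        omega
      have h5 : 2 ^ c * max (pn m) 2 ≤ 2 * 2 ^ m := by
        have h6 : m < 2 ^ m := Nat.lt_two_pow_self
        have h7 : 2 ^ c * pn m ≤ 2 * 2 ^ m := by
          rcases two_one hm hc with h | h
          · nlinarith
          · obtain ⟨-, a8, -⟩ := pn_small
            have a4 := pn_four
            rcases h with ⟨rfl, rfl⟩ | ⟨rfl, rfl⟩ | ⟨rfl, rfl⟩ | ⟨rfl, rfl⟩ <;> omega
        rcases le_total (pn m) 2 with h | h
        · rw [max_eq_right h]; omega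
        · rwa [max_eq_left h]
      have h6 := (SS_mono (le_max_left (pn m) 2) _).trans (SS_odd (le_max_right _ _) (s + 1))
      generalize max (pn m) 2 = y at *
      refine (Nat.mul_le_mul_left _ h6).trans ?_
      have h7 : y ^ (2 * s) ≤ (2 ^ m) ^ (2 * s) := Nat.pow_le_pow_left (by omega) _
      rw [mul_comm _ m, pow_mul, show (2 ^ m) ^ (2 * (s + 1) + 1) =
        (2 ^ m * 2 ^ m * 2 ^ m) * (2 ^ m) ^ (2 * s) by ring,
        show 2 ^ c * 2 * (2 * y ^ (2 * (s + 1) + 1)) = (4 * (2 ^ c * y) * y * y) * y ^ (2 * s) by ring]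
      refine Nat.mul_le_mul ?_ h7
      generalize 2 ^ c * y = z at *
      generalize 2 ^ m = w at *
      have h8 : 9 * (y * y) ≤ w * w := by nlinarith
      have h9 : z * (9 * (y * y)) ≤ (2 * w) * (w * w) := Nat.mul_le_mul h5 h8
      nlinarith
  · left
    have h4 : 3 ≤ p := by
      have := hp.two_le
      rcases hodd with ⟨k, rfl⟩
      omega
    by_cases h5 : 3 * c + 1 ≤ t * m
    · have h6 := (h2.trans (two_pow_le h5)).trans (Nat.pow_le_pow_left h4 _)
      refine (Nat.mul_le_mul_left _ h6).trans ?_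
      rw [← pow_succ, ← pow_add]
      exact Nat.pow_le_pow_right hp.pos (by omega)
    · have h6 : ∀ k, 3 * (k + 2) + 1 ≤ 3 ^ (k + 2) := fun k => by
        induction k with
        | zero => norm_num
        | succ k ih => rw [show k + 1 + 2 = k + 2 + 1 by ring, pow_succ]; omega
      have h7 : c = 1 := by
        by_contra h
        obtain ⟨k, rfl⟩ : ∃ k, c = k + 2 := ⟨c - 2, by omega⟩
        have := (h6 k).trans (Nat.pow_le_pow_left h4 _)
        omega
      subst h7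
      rw [pow_one] at h1 hc
      have h8 : m = 3 := by omega
      have h9 : p = 3 := by omega
      subst h8 h9
      have h10 : t = 1 := by omega
      subst h10
      simp [SS, pn_three]

theorem sum_orbits {A I : Type} [Group A] [Fintype I] [MulAction A I]
    [Fintype (MulAction.orbitRel.Quotient A I)] (f : I → ℕ) (hf : ∀ (g : A) i, f (g • i) = f i) :
    ∑ i, f i = ∑ O : MulAction.orbitRel.Quotient A I,
      Nat.card (MulAction.orbit A O.out) * f O.out := by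
  classical
  rw [← sum_fiberwise (s := univ) (g := fun i => (Quotient.mk _ i : MulAction.orbitRel.Quotient A I))]
  refine sum_congr rfl fun O _ => ?_
  have h1 : ∀ i, (Quotient.mk _ i : MulAction.orbitRel.Quotient A I) = O ↔
      i ∈ MulAction.orbit A O.out := fun i => by
    rw [← MulAction.orbitRel_apply]
    exact Quotient.mk_eq_iff_out
  rw [sum_congr rfl (g := fun _ => f O.out) fun i hi => by
    obtain ⟨g, rfl⟩ := (h1 i).1 (mem_filter.1 hi).2
    exact hf g _, sum_const, smul_eq_mul, Nat.card_eq_fintype_card, Fintype.card_subtype]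
  simp only [h1]

theorem split {Q : Type} [Fintype Q] {p r : ℕ} (S N : Q → ℕ) (h : ∀ O, S O ≤ p ^ N O) (s : Finset Q)
    (hs : r * ∏ O ∈ s, S O ≤ p ^ ∑ O ∈ s, N O) : r * ∏ O, S O ≤ p ^ ∑ O, N O := by
  classical
  rw [← prod_mul_prod_compl s, ← sum_add_sum_compl s, pow_add, ← mul_assoc,
    ← prod_pow_eq_pow_sum sᶜ]
  exact Nat.mul_le_mul hs (prod_le_prod' fun O _ => h O)

theorem numb (hG : NUMGStmt) : NUMBStmt := by
  intro A I _ _ _ _ _ p hp hA X m c hX hm hm0 hXm hc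
  classical
  have := Fintype.ofFinite (MulAction.orbitRel.Quotient A I)
  have h1 := hG A I X (fun i => MulAction.stabilizer A i) (fun _ => 1) hX (fun g i => by
    ext h
    simp only [MulAction.mem_stabilizer_iff]
    rw [smul_comm, smul_left_cancel_iff]) (fun _ => le_rfl) (fun _ => by simp)
  rw [finprod_eq_prod_of_fintype] at h1
  simp only [one_mul, hXm] at h1
  set k := Nat.card (⨅ i : I, MulAction.stabilizer A i : Subgroup A)
  let T : MulAction.orbitRel.Quotient A I → ℕ := fun O => Nat.card (MulAction.orbit A O.out)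
  let S : MulAction.orbitRel.Quotient A I → ℕ := fun O => SS (pn (m O.out)) (T O)
  change _ ≤ k * ∏ O, S O at h1
  have hT : ∀ O, ¬ p ∣ T O := fun O h => hA (h.trans (by
    rw [← Nat.card_eq_fintype_card]
    have := (MulAction.stabilizer A O.out).index_dvd_card
    rwa [MulAction.index_stabilizer, ← Nat.card_coe_set_eq] at this))
  have hT0 : ∀ O, 0 < T O := fun O => Nat.pos_of_ne_zero fun e => hT O (e ▸ dvd_zero p)
  have hS : ∀ O, S O ≤ p ^ (T O * m O.out) := fun O =>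
    ((SS_le (hm0 _) (hT0 O)).trans (Nat.pow_le_pow_left hp.two_le _)).trans
      (Nat.pow_le_pow_right hp.pos (Nat.sub_le _ _))
  have hn : ∑ i, m i = ∑ O, T O * m O.out := sum_orbits m hm
  have hn0 : 0 < ∑ i, m i := sum_pos (fun i _ => hm0 i) univ_nonempty
  have fin : ∀ s : Finset (MulAction.orbitRel.Quotient A I),
      p ^ c * p * ∏ O ∈ s, S O ≤ p ^ ∑ O ∈ s, T O * m O.out →
      p ^ c * ∑ ν : A, fixN X ν ≤ k * p ^ (∑ i, m i - 1) := fun s hs => by
    have h2 := split S _ hS s hs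
    rw [← hn, show ∑ i, m i = (∑ i, m i - 1) + 1 by omega, pow_succ, mul_right_comm] at h2
    have h3 := Nat.le_of_mul_le_mul_right h2 hp.pos
    calc _ ≤ p ^ c * (k * ∏ O, S O) := Nat.mul_le_mul_left _ h1
      _ = k * (p ^ c * ∏ O, S O) := by ring
      _ ≤ _ := Nat.mul_le_mul_left _ h3
  by_cases h2 : ∃ O, p ^ c * p * S O ≤ p ^ (T O * m O.out)
  · obtain ⟨O, hO⟩ := h2
    exact Or.inl (fin {O} (by simpa using hO))
  have h3 : ∀ O, p = 2 ∧ T O = 1 ∧ Exc c (m O.out) := fun O =>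
    (one_orbit hp (hm0 _) (hT O) (hc _)).resolve_left fun h => h2 ⟨O, h⟩
  have h4 : ∀ O, S O = pn (m O.out) := fun O => by simp [S, (h3 O).2.1, SS]
  obtain ⟨-, a8, -⟩ := pn_small
  have a2 := pn_two
  have a4 := pn_four
  let O : MulAction.orbitRel.Quotient A I := Quotient.mk _ (Classical.arbitrary I)
  obtain ⟨rfl, t1, e1⟩ := h3 O
  by_cases h5 : ∃ O', O' ≠ O
  · obtain ⟨O', hO⟩ := h5
    obtain ⟨-, t2, e2⟩ := h3 O'
    refine Or.inl (fin {O', O} ?_)
    rw [prod_pair hO, sum_pair hO, h4, h4, t1, t2, one_mul, one_mul]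
    generalize m O.out = a at *
    generalize m O'.out = b at *
    have a88 := Nat.mul_le_mul a8 a8
    rcases e1 with ⟨rfl, rfl⟩ | ⟨rfl, rfl⟩ | ⟨rfl, rfl⟩ | ⟨rfl, rfl⟩ <;>
      rcases e2 with ⟨h, rfl⟩ | ⟨h, rfl⟩ | ⟨h, rfl⟩ | ⟨h, rfl⟩ <;>
      first | omega | (rw [a2, a4]; norm_num) | (rw [a4, a2]; norm_num) | (rw [a2]; norm_num) |
        (rw [a4]; norm_num)
  · push Not at h5
    have h6 : (univ : Finset (MulAction.orbitRel.Quotient A I)) = {O} :=
      eq_singleton_iff_unique_mem.2 ⟨mem_univ _, fun x _ => h5 x⟩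
    have h7 : Fintype.card I = 1 := by
      have := sum_orbits (A := A) (fun _ : I => 1) fun _ _ => rfl
      rw [h6, sum_singleton, mul_one] at this
      simpa using this.trans t1
    rw [h6, sum_singleton, t1, one_mul] at hn
    rw [h6, prod_singleton, h4] at h1
    have fin2 : ∀ j, 2 ^ c * pn (m O.out) ≤ 2 ^ j → 2 ^ c * ∑ ν : A, fixN X ν ≤ k * 2 ^ j :=
      fun j hj => calc _ ≤ 2 ^ c * (k * pn (m O.out)) := Nat.mul_le_mul_left _ h1
        _ = k * (2 ^ c * pn (m O.out)) := by ring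
        _ ≤ _ := Nat.mul_le_mul_left _ hj
    refine Or.inr ⟨rfl, h7, ?_⟩
    rw [hn]
    generalize m O.out = a at *
    rcases e1 with ⟨rfl, rfl⟩ | ⟨rfl, rfl⟩ | ⟨rfl, rfl⟩ | ⟨rfl, rfl⟩
    · exact ⟨2, fin2 2 (by omega), by simp⟩
    · exact ⟨4, fin2 4 (by omega), by simp⟩
    · exact ⟨5, fin2 5 (by omega), by simp⟩
    · exact ⟨8, fin2 8 (by omega), by simp⟩

end Cfsg.Agent.H91.GbNumb
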