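import Mathlib
import Cfsg.Agent.H98.GbL
import Cfsg.Agent.H40.GbDec
import Cfsg.Agent.H11.PermChar

/-! Skewing the twisted Steinberg type functions. -/

set_option autoImplicit false
open Cfsg Finset
open scoped ComplexConjugate MatrixGroups

namespace Cfsg.Agent.H91.GbTh1b

open Cfsg.Agent.H98.GB Cfsg.Agent.H11

universe u

variable {F : Type u} [Field F] [Fintype F] [DecidableEq F]

omit [Fintype F] [DecidableEq F] in
theorem tw_one {n : ℕ} {f : GL (Fin n) F → ℂ} (h : IsClassFunction _ f) :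
    Tw (dl (1 : Fˣ →* ℂˣ) n) f := fun x g => by
  rw [h g x, dl_one, MonoidHom.one_apply, Units.val_one, one_mul]

theorem p0 {G : Type u} [Group G] (l : G →* ℂˣ) : l ^ 0 = 1 := by ext; simp

theorem perp_single {m n N : ℕ} (h : m + n = N) (P : GL (Fin m) F → ℂ) (f : GL (Fin N) F → ℂ) :
    perp1 rfl P ((Pi.single N f : Fn F) (m + n)) = perp1 h P f := by
  subst h
  rw [Pi.single_eq_same]

theorem perp_zero {m n N : ℕ} (h : m + n = N) (P : GL (Fin m) F → ℂ) : perp1 h P 0 = 0 := by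
  funext v
  have : (fun u => res h (0 : GL (Fin N) F → ℂ) u v) = 0 := funext fun u => by simp [res]
  rw [perp1, this, classInner_zero_left, Pi.zero_apply]

theorem inner_cmp (hF : FOCKStmt.{u}) (hE : ECOPStmt.{u}) (hY : SYSStmt.{u}) (hL : LABStmt.{u})
    (C : Ctx F) (φ : C.Φ) {a b k : ℕ} (h : a + b = C.dg φ * k) {f : GL (Fin a) F → ℂ}
    {f' : GL (Fin b) F → ℂ} (hf : IsClassFunction _ f) (hf' : IsClassFunction _ f') :
    classInner (cmp 1 h f f') (C.eC φ k) = if C.dg φ ∣ a then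
      classInner f (C.H.ev (ee (C.pp φ) (a / C.dg φ)) a) *
        classInner f' (C.H.ev (ee (C.pp φ) (k - a / C.dg φ)) b) else 0 := by
  have e1 := C.H.ev_sg (tw_one hf)
  have e2 := C.H.ev_sg (tw_one hf')
  have g1 : C.H.Hg a (C.H.sg a f) := fun n hn => by rw [e1, Pi.single_eq_of_ne hn]
  have g2 : C.H.Hg b (C.H.sg b f') := fun n hn => by rw [e2, Pi.single_eq_of_ne hn]
  have := (hE F 1 C.H (C.dg φ) k (C.pp φ) ((hL F C).dg_pos φ)
    (fun i hi _ => (hY F C).1 φ i hi) k le_rfl).2.2.1 a b _ _ h g1 g2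
  rw [Hall.ip, Hall.ip, Hall.ip, (hF F 1 C.H).ev_mul_hg _ h g1, e1, e2, Pi.single_eq_same,
    Pi.single_eq_same] at this
  exact this

theorem inner_cmp' (hF : FOCKStmt.{u}) (hE : ECOPStmt.{u}) (hY : SYSStmt.{u}) (hL : LABStmt.{u})
    (C : Ctx F) (φ : C.Φ) {i r : ℕ} (h : C.dg φ * i + C.dg φ * r = C.dg φ * (i + r))
    {f : GL (Fin (C.dg φ * i)) F → ℂ} {f' : GL (Fin (C.dg φ * r)) F → ℂ}
    (hf : IsClassFunction _ f) (hf' : IsClassFunction _ f') :
    classInner (cmp 1 h f f') (C.eC φ (i + r)) =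
      classInner f (C.eC φ i) * classInner f' (C.eC φ r) := by
  rw [inner_cmp hF hE hY hL C φ h hf hf', if_pos (dvd_mul_right _ _),
    Nat.mul_div_cancel_left _ ((hL F C).dg_pos φ), Nat.add_sub_cancel_left]
  rfl

theorem th1b (hF : FOCKStmt.{u}) (hT : TWCStmt.{u}) (hA : ADJStmt.{u}) (hO : ONEStmt.{u})
    (hS : SUPPStmt.{u}) (hV : AVMStmt.{u}) (hD : DELCStmt.{u}) (hE : ECOPStmt.{u})
    (hY : SYSStmt.{u}) (h0 : TH0aStmt.{u}) (h1 : TH0bStmt.{u}) (hL : LABStmt.{u}) :
    TH1bStmt.{u} := by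
  intro F _ _ _ C c hc HH φ hφ θ hθ
  have dp := (hL F C).dg_pos φ
  let χ : ∀ k, IrrCharacter (GL (Fin (C.dg φ * k)) F) := fun k => ⟨C.eC φ k, (h0 F C φ k).2.1⟩
  have one := fun k => hO _ (dl (C.eta c) (C.dg φ * k)) (χ k) ((h0 F C φ k).2.2.2.1 c hc hφ) (θ k)
    (hθ k).1
  obtain ⟨E, hEq⟩ : ∃ E : ℕ → ∀ k, GL (Fin (C.dg φ * k)) F → ℂ,
      ∀ j k, av _ (dl (C.eta c) (C.dg φ * k) ^ j) (θ k).1 = E j k := ⟨_, fun _ _ => rfl⟩
  have tw : ∀ j k, Tw (dl (C.eta c ^ j) (C.dg φ * k)) (E j k) := fun j k => by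
    rw [dl_pow, ← hEq]; exact ((one k).2.2.2 j).1.1
  have inE : ∀ j k, InE {χ k} (E j k) := fun j k => by
    rw [← hEq]; exact ((one k).2.2.2 j).1.2
  have nrm : ∀ j k, classInner (E j k) (E j k) = 1 := fun j k => by
    rw [← hEq]; exact ((one k).2.2.2 j).2.1
  have uni : ∀ j k f, Tw (dl (C.eta c ^ j) (C.dg φ * k)) f → InE {χ k} f →
      ∃ a : ℂ, f = a • E j k := fun j k f a b => by
    rw [← hEq]; exact ((one k).2.2.2 j).2.2 f ⟨by rwa [← dl_pow], b⟩
  have E0 : ∀ k, E 0 k = C.eC φ k := fun k => by rw [← hEq, p0]; exact (one k).1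
  have cf : ∀ k, IsClassFunction _ (C.eC φ k) := fun k => isClassFunction_of_irr (χ k).2
  have zer : ∀ j a b k (h : a + b = C.dg φ * k), ¬ C.dg φ ∣ a → ∀ v,
      (fun u => res h (E j k) u v) = 0 := fun j a b k h hd v => by
    have := (hS F a b _ h (χ k) _ (inE j k) ∅ ∅ fun χ₁ χ₂ e => absurd ((inner_cmp hF hE hY hL C φ h
      (isClassFunction_of_irr χ₁.2) (isClassFunction_of_irr χ₂.2)).trans (if_neg hd)) e).1 v
    exact classInner_self_eq_zero.1 ((H40.GbDec.dec _).2.1 ∅ ∅ _ _ this this disjoint_bot_left)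
  have rs : ∀ j i r (h : C.dg φ * i + C.dg φ * r = C.dg φ * (i + r)) u v,
      res h (E j (i + r)) u v = E j i u * E j r v := fun j i r h => by
    obtain ⟨s1, s2⟩ := hS F _ _ _ h (χ (i + r)) _ (inE j _) {χ i} {χ r} fun χ₁ χ₂ e => by
      have e' := inner_cmp' hF hE hY hL C φ h (isClassFunction_of_irr χ₁.2)
        (isClassFunction_of_irr χ₂.2)
      obtain ⟨a1, a2⟩ := mul_ne_zero_iff.1 (e' ▸ e)
      exact ⟨Subtype.ext (irr_eq_of_classInner_ne_zero χ₁.2 (χ i).2 a1),
        Subtype.ext (irr_eq_of_classInner_ne_zero χ₂.2 (χ r).2 a2)⟩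
    have t := (hT F (C.eta c ^ j)).2.1 _ _ _ h _ (tw j (i + r))
    choose a ha using fun v => uni j i _ (fun s u => by
      simpa using t s 1 u v) (s1 v)
    choose b hb using fun u => uni j r _ (fun s v => by
      simpa using t 1 s u v) (s2 u)
    obtain ⟨u₀, hu⟩ : ∃ u₀, E j i u₀ ≠ 0 := by
      by_contra! h'
      have := nrm j i
      rw [show E j i = 0 from funext h', classInner_zero_left] at this
      exact zero_ne_one this
    have k1 : ∀ u v, res h (E j (i + r)) u v = b u₀ / E j i u₀ * (E j i u * E j r v) := fun u v => by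
      have p1 : res h (E j (i + r)) u v = a v * E j i u := congrFun (ha v) u
      have p2 : res h (E j (i + r)) u₀ v = a v * E j i u₀ := congrFun (ha v) u₀
      have p3 : res h (E j (i + r)) u₀ v = b u₀ * E j r v := congrFun (hb u₀) v
      rw [p1]
      field_simp
      linear_combination E j i u * (p2.symm.trans p3)
    obtain ⟨Θ, hΘ, hch, -⟩ := hV F (C.eta c) _ _ _ h (θ i).1 (θ r).1
    simp only [hEq] at hΘ
    have k2 := (h1 F C.ψ C.hψ (C.eta c) _).2 Θ (θ (i + r))
      (hch (isCharacter_of_irr (θ i).2) (isCharacter_of_irr (θ r).2)) (hθ _).2.1 (fun j' => by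
        rw [hΘ, (hD F C.ψ C.hψ).1 _ _ _ _ h _ _ (tw j' i) (tw j' r), ← hEq, ← hEq, (hθ i).2.2,
          (hθ r).2.2, one_mul]) (by
        have := hΘ 0
        rw [p0, p0, E0, E0] at this
        rw [this, (one _).1]
        refine (inner_cmp' hF hE hY hL C φ h (cf i) (cf r)).trans ?_
        rw [classInner_irr_self (χ i).2, classInner_irr_self (χ r).2, one_mul]) j
    rw [hΘ, hEq, (hA F _ _ _ _ h _ _ _ (tw j _)).2,
      show (fun y : GL (Fin (C.dg φ * i)) F × GL (Fin (C.dg φ * r)) F =>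
        res h (E j (i + r)) y.1 y.2) = (b u₀ / E j i u₀) • fun y => E j i y.1 * E j r y.2 from
        funext fun y => k1 y.1 y.2, classInner_smul_right, classInner_prod_mul, nrm, nrm, mul_one,
      mul_one, map_eq_one_iff _ (RingHom.injective _)] at k2
    intro u v
    rw [k1, k2, one_mul]
  simp only [hEq]
  intro j m y hy
  have fk := hF F _ (HH j)
  have evD : ∀ k n, (HH j).ev ((HH j).D m y ((HH j).sg _ (E j k))) n =
      if h : m + n = C.dg φ * k then perp1 h ((HH j).ev y m) (E j k) else 0 := fun k n => by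
    rw [fk.ev_D, (HH j).ev_sg (tw j k)]
    split_ifs with h
    · exact perp_single h _ _
    · rw [Pi.single_eq_of_ne h, perp_zero]
  by_cases hd : C.dg φ ∣ m
  · obtain ⟨i, rfl⟩ := hd
    refine ⟨classInner (E j i) ((HH j).ev y _), fun k => (HH j).inj (funext fun n => ?_)⟩
    rw [evD, Nat.mul_div_cancel_left _ dp]
    by_cases hk : i ≤ k
    · obtain ⟨r, rfl⟩ := Nat.exists_eq_add_of_le hk
      rw [if_pos ⟨dvd_mul_right _ _, hk⟩, Nat.add_sub_cancel_left, map_smul, (HH j).ev_sg (tw j r),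
        Pi.smul_apply]
      by_cases hn : n = C.dg φ * r
      · subst hn
        rw [dif_pos (mul_add _ _ _).symm, Pi.single_eq_same]
        funext v
        rw [perp1, show (fun u => res _ (E j (i + r)) u v) = E j r v • E j i from
          funext fun u => (rs j i r _ u v).trans (mul_comm _ _), classInner_smul_left, mul_comm]
        rfl
      · rw [dif_neg fun e => hn (by rw [mul_add] at e; omega), Pi.single_eq_of_ne hn, smul_zero]
    · rw [if_neg fun e => hk e.2, map_zero, Pi.zero_apply, dif_neg fun e => hk ?_]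
      exact Nat.le_of_mul_le_mul_left (by omega) dp
  · refine ⟨0, fun k => (HH j).inj (funext fun n => ?_)⟩
    rw [evD, if_neg fun e => hd e.1, map_zero, Pi.zero_apply]
    split_ifs with h
    · funext v
      rw [perp1, zer j _ _ _ h hd, classInner_zero_left, Pi.zero_apply]
    · rfl

end Cfsg.Agent.H91.GbTh1b
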