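import Cfsg.Agent.H45.GdDefs
import Cfsg.Agent.H90.CyUex

/-! Project CY, chapter IV: an element acting linearly, in a mixed system. -/

set_option autoImplicit false

namespace Cfsg.Agent.H91.GdUx

open Subgroup Cfsg.Agent.H11.Cy Cfsg.Agent.H45.Iv Cfsg.Agent.H45.Gd Cfsg.Agent.H90.CyUex
open scoped commutatorElement

theorem ux : UxStmt := by
  intro G _ _ Ω _ _ p A mx Ψ d hd ga x y hxy r hr s hs c nr ns nrs hinv
  have st := mx.bs
  have sk := mx.sk
  have ls := mx.ls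
  obtain ⟨la, lb, lc, -⟩ := ls x y hxy
  have : Fact p.Prime := ⟨st.pp⟩
  have := isCyclic_of_prime_card (st.card d)
  obtain ⟨a, ha⟩ := IsCyclic.exists_generator (α := A d)
  have AM : A d ≤ Ms A Ψ := le_iSup₂_of_le (f := fun w (_ : w ∈ Ψ) => A w) d hd le_rfl
  have TM : Ts A Ψ ≤ Ms A Ψ := commutator_le.2 fun g hg k hk =>
    mul_mem (mul_mem (mul_mem hg hk) (inv_mem hg)) (inv_mem hk)
  have MN : Ms A Ψ ≤ normalizer (Ts A Ψ : Set G) := fun m hm => mem_normalizer_fintype fun t ht => by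
    have := (Ts A Ψ).mul_mem (commutator_mem_commutator hm (TM ht)) ht
    simpa [commutatorElement_def] using this
  let U : Subgroup G := Rl A x y ⊓ centralizer {r}
  have mU : ∀ u ∈ U, r * u = u * r := fun u hu => (mem_centralizer_singleton_iff.1 hu.2).symm
  have nU : ∀ u ∈ U, _ := fun u hu => sk.nrm Ψ u (hinv u hu.1 (mU u hu))
  have UN : U ≤ normalizer (Ts A Ψ : Set G) := fun u hu => mem_normalizer_fintype (nU u hu).2.1
  let π := QuotientGroup.mk' ((Ts A Ψ).subgroupOf (normalizer (Ts A Ψ : Set G)))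
  have kπ : ∀ n, π n = 1 ↔ (n : G) ∈ Ts A Ψ := fun n => QuotientGroup.eq_one_iff n
  let ι : A d →* normalizer (Ts A Ψ : Set G) := inclusion (AM.trans MN)
  have zA : ∀ b : A d, π (ι b) ∈ zpowers (π (ι a)) := fun b => by
    obtain ⟨n, rfl⟩ := ha b
    rw [map_zpow, map_zpow]
    exact zpow_mem (mem_zpowers _) n
  have rU : r ∈ U := ⟨hr, mem_centralizer_singleton_iff.2 rfl⟩
  have sU : s ∈ U := ⟨hs, mem_centralizer_singleton_iff.2 c.symm⟩
  have fin : ∀ u : U, Commute (π (ι a)) (π (inclusion UN u)) → ∀ b ∈ A d, ⁅(u : G), b⁆ ∈ Ts A Ψ := by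
    intro u h b hb
    obtain ⟨n, hn⟩ := zA ⟨b, hb⟩
    refine (kπ ⁅inclusion UN u, ι ⟨b, hb⟩⁆).1 ?_
    rw [map_commutatorElement, commutatorElement_eq_one_iff_commute, ← hn]
    exact (h.zpow_left n).symm
  by_cases h1 : π (ι a) = 1
  · exact ⟨r, hr, nr, rfl, fin ⟨r, rU⟩ (h1 ▸ Commute.one_left _)⟩
  have ho : orderOf (π (ι a)) = p := orderOf_eq_prime (by
    rw [← map_pow, ← map_pow, ← st.card d, pow_card_eq_one', map_one, map_one]) h1
  obtain ⟨w, hw, z, hz, h⟩ := act (π.comp (inclusion UN)) (π (ι a)) (ho ▸ st.pp) (fun u => by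
      obtain ⟨t, ht, b, hb, e⟩ := ga.dec _ ((nU u u.2).1 a (AM a.2))
      have e' : inclusion UN u * ι a * (inclusion UN u)⁻¹ = ⟨t, MN (TM ht)⟩ * ι ⟨b, hb⟩ :=
        Subtype.ext e
      rw [MonoidHom.comp_apply, ← map_inv, ← map_mul, ← map_mul, e', map_mul,
        (kπ ⟨t, MN (TM ht)⟩).2 ht, one_mul]
      exact zA _)
    ((Zl A x y).subgroupOf U) (fun z hz => Subtype.ext (lc.zsq z hz))
    (r := ⟨r, rU⟩) (s := ⟨s, sU⟩) (lb.sq r hr) (lb.sq s hs)
  refine ⟨(w * z : U), (w * z).2.1, fun hm => ?_, mU _ (w * z).2, fin _ h⟩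
  have hw' : (w : G) ∈ Zl A x y := (mul_mem_cancel_right (show (z : G) ∈ Zl A x y from hz)).1 hm
  rcases hw with rfl | rfl | rfl
  exacts [nr hw', ns hw', nrs hw']

end Cfsg.Agent.H91.GdUx
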