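import Cfsg.Agent.H99.HNSet
import Cfsg.Agent.H54.Comm

/-! Project HN3: the module `Q / ⟨z⟩`. -/

set_option autoImplicit false
set_option linter.unusedSectionVars false

namespace Cfsg.Agent.H91.HnS2

open Cfsg Subgroup Cfsg.Agent.H63 Cfsg.Agent.H67 Cfsg.Agent.H67.T3 Cfsg.Agent.H99.HN

universe u

theorem sl4 : ∀ k : SL25, k ^ 4 = 1 → k = 1 ∨ k = -1 ∨ k * k = -1 := by decide +kernel

theorem slo : ∀ k : SL25, k ^ 3 = 1 ∨ k ^ 1 = -1 ∨ k ^ 2 = -1 ∨ k ^ 3 = -1 ∨ k ^ 5 = -1 ∨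
    k ^ 5 = 1 := by decide +kernel

theorem sl3 : ∀ k : SL25, k ^ 3 = 1 → (k * slX) ^ 3 = 1 → (k * slX⁻¹) ^ 3 = 1 →
    k = 1 ∨ k = slX ∨ k = slX⁻¹ := by decide +kernel

theorem ordF : orderOf slF = 4 :=
  orderOf_eq_prime_pow (p := 2) (n := 1) (by decide +kernel) (by decide +kernel)

variable {G : Type u} [Group G] [Finite G] {z : G} {Q : Subgroup G} {ι : SL25 →* G}

omit [Finite G] in
theorem dvd_free (ι : SL25 →* G) (k : SL25) (S : Set G)
    (hS : ∀ g ∈ zpowers k, ∀ c ∈ S, ι g * c * (ι g)⁻¹ ∈ S)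
    (hf : ∀ g ∈ zpowers k, ∀ c ∈ S, ι g * c * (ι g)⁻¹ = c → g = 1) : orderOf k ∣ S.ncard := by
  let _ : MulAction SL25 G := MulAction.compHom G (MulAut.conj.comp ι)
  let T : SubMulAction (zpowers k) G := ⟨S, fun g _ hc => hS g g.2 _ hc⟩
  have e := MulAction.selfEquivOrbitsQuotientProd (G := zpowers k) (X := T) fun c =>
    (Subgroup.eq_bot_iff_forall _).2 fun g hg =>
      Subtype.ext (hf g g.2 c c.2 (congrArg Subtype.val hg))
  have := Nat.card_congr e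
  rw [Nat.card_prod, Nat.card_zpowers] at this
  exact Dvd.intro_left _ this.symm

theorem ncard_diff {A B : Subgroup G} (h : A ≤ B) :
    ((B : Set G) \ A).ncard = Nat.card B - Nat.card A := Set.ncard_sdiff h

variable (h : T0 z Q ι)
include h

theorem cZ : Nat.card (zpowers z) = 3 := by
  rw [Nat.card_zpowers, orderOf_eq_prime h.z3 h.z1]

theorem ZQ : zpowers z ≤ Q := zpowers_le.2 h.zQ

theorem cjZ (k : SL25) {c : G} (hc : c ∈ zpowers z) : ι k * c * (ι k)⁻¹ = c :=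
  mul_inv_eq_iff_eq_mul.2 (comm_of_zp (h.ιz k) hc)

theorem cjQ (k : SL25) {q : G} (hq : q ∈ Q) : ι k * q * (ι k)⁻¹ ∈ Q :=
  h.nQ _ (by rw [cjZ h k (mem_zpowers z)]; exact mem_zpowers z) q hq

theorem nB {B : Subgroup G} (h1 : zpowers z ≤ B) (h2 : B ≤ Q) {a b : G} (ha : a ∈ Q)
    (hb : b ∈ B) : a * b * a⁻¹ ∈ B := by
  simpa using mul_mem (h1 (h.QQ a ha b (h2 hb))) hb

/-- the elements fixed by `k` modulo `B` -/
def Fx (k : SL25) {B : Subgroup G} (h1 : zpowers z ≤ B) (h2 : B ≤ Q) : Subgroup G where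
  carrier := {q | q ∈ Q ∧ ι k * q * (ι k)⁻¹ * q⁻¹ ∈ B}
  one_mem' := ⟨one_mem _, by simp⟩
  mul_mem' := by
    rintro a b ⟨a1, a2⟩ ⟨b1, b2⟩
    refine ⟨mul_mem a1 b1, ?_⟩
    convert mul_mem a2 (nB h h1 h2 a1 b2) using 1
    group
  inv_mem' := by
    rintro a ⟨a1, a2⟩
    refine ⟨inv_mem a1, ?_⟩
    convert nB h h1 h2 (inv_mem a1) (inv_mem a2) using 1
    group

theorem Z_Fx (k : SL25) {B : Subgroup G} (h1 : zpowers z ≤ B) (h2 : B ≤ Q) :
    zpowers z ≤ Fx h k h1 h2 := fun c hc => ⟨ZQ h hc, by simp [cjZ h k hc]⟩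

theorem cases {B : Subgroup G} (h1 : zpowers z ≤ B) (h2 : B ≤ Q) : B = zpowers z ∨
    Nat.card B = 9 ∨ Nat.card B = 27 ∨ Nat.card B = 81 ∨ B = Q := by
  have h3 := card_le_of_le h1
  rw [cZ h] at h3
  rcases dvd243 (h.cQ ▸ card_dvd_of_le' h2) with e | e | e | e | e | e
  · omega
  · exact Or.inl (eq_of_le_of_card_ge h1 (by rw [e, cZ h])).symm
  · simp [e]
  · simp [e]
  · simp [e]
  · simp [eq_of_le_of_card_ge h2 (by rw [e, h.cQ])]

theorem neg_fix {q : G} (hq : q ∈ Q) (e : ι (-1) * q * (ι (-1))⁻¹ * q⁻¹ ∈ zpowers z) :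
    q ∈ zpowers z := by
  refine mem_of_sq_cube ?_ (h.Qe q hq)
  convert mul_mem (inv_mem e) (h.inv q hq) using 1
  group

theorem even {B : Subgroup G} (h1 : zpowers z ≤ B) (h2 : B ≤ Q)
    (hd : ∀ b ∈ B, ι slF * b * (ι slF)⁻¹ ∈ B) : B = zpowers z ∨ Nat.card B = 27 ∨ B = Q := by
  have hN : zpowers slF ≤ N[B].comap ι := zpowers_le.2 (mem_normalizer_fintype hd)
  have := dvd_free ι slF ((B : Set G) \ zpowers z) (fun g hg c hc =>
    ⟨(mem_normalizer_iff.1 (hN hg) c).1 hc.1, fun e => hc.2 (by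
      have := cjZ h g⁻¹ e
      simp only [map_inv, mul_assoc, inv_mul_cancel_left, inv_inv, inv_mul_cancel, mul_one] at this
      rw [this]
      simpa only [mul_assoc] using e)⟩) fun g hg c hc e => by
    rcases sl4 g (orderOf_dvd_iff_pow_eq_one.1 (ordF ▸ orderOf_dvd_of_mem_zpowers hg)) with
      e' | rfl | e'
    · exact e'
    · exact absurd (neg_fix h (h2 hc.1) (by simp [e])) hc.2
    · refine absurd (neg_fix h (h2 hc.1) ?_) hc.2
      rw [← e', map_mul, mul_inv_rev, show ι g * ι g * c * ((ι g)⁻¹ * (ι g)⁻¹) =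
        ι g * (ι g * c * (ι g)⁻¹) * (ι g)⁻¹ by group, e, e]
      simp
  rw [ordF, ncard_diff h1, cZ h] at this
  rcases cases h h1 h2 with e | e | e | e | e <;> simp_all

theorem faith {k : SL25} (hk : ∀ q ∈ Q, ι k * q * (ι k)⁻¹ * q⁻¹ ∈ zpowers z) : k = 1 := by
  let N : Subgroup SL25 := ⨅ q ∈ Q, (Kq z q).comap ι
  have m : ∀ k, k ∈ N ↔ ∀ q ∈ Q, ι k * q * (ι k)⁻¹ * q⁻¹ ∈ zpowers z := fun k => by
    simp only [N, mem_iInf]
    exact forall₂_congr fun q _ => ⟨fun e => e.2, fun e => ⟨h.ιz k, e⟩⟩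
  have : N.Normal := ⟨fun k hk g => (m _).2 fun q hq => by
    have e := (m k).1 hk _ (cjQ h g⁻¹ hq)
    rw [← cjZ h g e] at e
    convert e using 1
    simp only [map_mul, map_inv]
    group⟩
  have n : -1 ∉ N := fun e => by
    have := card_le_of_le (show Q ≤ zpowers z from fun q hq => neg_fix h hq ((m _).1 e q hq))
    rw [h.cQ, cZ h] at this
    omega
  rcases normal_sl25 N with e | e
  · exact absurd (e ▸ mem_top _) n
  · exact (mem_center_sl25.1 (e ((m k).2 hk))).resolve_right fun e' => n (e' ▸ (m k).2 hk)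

theorem five {k : SL25} (hk : k ^ 5 = 1) {q : G} (hq : q ∈ Q) (hz : q ∉ zpowers z)
    (e : ι k * q * (ι k)⁻¹ * q⁻¹ ∈ zpowers z) : k = 1 := by
  by_contra k1
  have o5 := orderOf_eq_prime hk k1
  have inv : ∀ g ∈ zpowers k, ∀ c ∈ Fx h k le_rfl (ZQ h),
      ι g * c * (ι g)⁻¹ ∈ Fx h k le_rfl (ZQ h) := fun g hg c hc => ⟨cjQ h g hc.1, by
    have e1 : ι k * ι g = ι g * ι k := by rw [← map_mul, comm_of_zp rfl hg, map_mul]
    have e2 := hc.2
    rw [← cjZ h g e2] at e2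
    convert e2 using 1
    calc _ = (ι k * ι g) * c * (ι k * ι g)⁻¹ * (ι g * c * (ι g)⁻¹)⁻¹ := by group
      _ = _ := by rw [e1]; group⟩
  have := dvd_free ι k ((Q : Set G) \ Fx h k le_rfl (ZQ h)) (fun g hg c hc =>
    ⟨cjQ h g hc.1, fun e => hc.2 (by simpa [mul_assoc] using inv g⁻¹ (inv_mem hg) _ e)⟩)
    fun g hg c hc e => by
      by_contra g1
      have e1 : zpowers g = zpowers k := eq_of_le_of_card_ge (zpowers_le.2 hg) (by
        rw [Nat.card_zpowers, Nat.card_zpowers, o5, orderOf_eq_prime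
          (orderOf_dvd_iff_pow_eq_one.1 (o5 ▸ orderOf_dvd_of_mem_zpowers hg)) g1])
      have e2 : zpowers g ≤ C1[c].comap ι :=
        zpowers_le.2 (mem_centralizer_singleton_iff.2 (mul_inv_eq_iff_eq_mul.1 e))
      refine hc.2 ⟨hc.1, ?_⟩
      rw [mem_centralizer_singleton_iff.1 (e2 (e1.ge (mem_zpowers k)))]
      simp
  rw [o5, ncard_diff (B := Q) (A := Fx h k le_rfl (ZQ h)) fun _ h => h.1, h.cQ] at this
  rcases cases h (Z_Fx h k le_rfl (ZQ h)) fun _ h => h.1 with e' | e' | e' | e' | e'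
  · exact hz (e'.le ⟨hq, e⟩)
  · simp [e'] at this
  · simp [e'] at this
  · simp [e'] at this
  · exact k1 (faith h fun q hq => (e'.ge hq).2)

theorem three {q : G} (hq : q ∈ Q) (hz : q ∉ zpowers z) {k : SL25} (hk : k ∈ (Kq z q).comap ι) :
    k ^ 3 = 1 := by
  have n : ∀ i : ℕ, k ^ i ≠ -1 := fun i e => hz (neg_fix h hq (e ▸ pow_mem hk i).2)
  rcases slo k with e | e | e | e | e | e
  · exact e
  any_goals exact absurd e (n _)
  rw [five h e hq hz hk.2, one_pow]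

theorem Fx_d {B : Subgroup G} (h1 : zpowers z ≤ B) (h2 : B ≤ Q)
    (hx : ∀ b ∈ B, (ι slX)⁻¹ * b * ι slX ∈ B) (hd : ∀ b ∈ B, ι slF * b * (ι slF)⁻¹ ∈ B) :
    ∀ q ∈ Fx h slX h1 h2, ι slF * q * (ι slF)⁻¹ ∈ Fx h slX h1 h2 := fun q hq =>
  ⟨cjQ h _ hq.1, by
    have e : ι slX = (ι slF * ι slX * (ι slF)⁻¹)⁻¹ := by
      rw [← map_inv, ← map_mul, ← map_mul, slF_X, map_inv, inv_inv]
    convert hd _ (hx _ (inv_mem hq.2)) using 1
    generalize ι slX = x at e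
    generalize ι slF = d at e
    calc _ = (d * x * d⁻¹)⁻¹ * (d * q * d⁻¹) * (d * x * d⁻¹)⁻¹⁻¹ * (d * q * d⁻¹)⁻¹ := by rw [← e]
      _ = _ := by group⟩

theorem ex_fix {B : Subgroup G} (h1 : zpowers z ≤ B) (h2 : B ≤ Q) (h3 : ¬ Q ≤ B) :
    ∃ q ∈ Fx h slX h1 h2, q ∉ B := by
  obtain ⟨q, hq, hB, e⟩ := H54.exists_not_mem_commutator_mem_of_isPGroup (p := 3)
    (IsPGroup.of_card (n := 5) h.cQ) (H := zpowers (ι slX))
    (fun g => ⟨1, Subtype.ext (orderOf_dvd_iff_pow_eq_one.1 ((orderOf_dvd_of_mem_zpowers g.2).trans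
      (orderOf_dvd_of_pow_eq_one (by rw [← map_pow]; exact (congrArg ι slX_pow).trans ι.map_one))))⟩)
    (zpowers_le.2 (mem_normalizer_fintype fun _ => cjQ h _)) h3
  refine ⟨q, ⟨hq, ?_⟩, hB⟩
  simpa [commutatorElement_def, mul_assoc] using inv_mem (e _ (mem_sup_left (mem_zpowers _)))

theorem AA_eq : Fx h slX le_rfl (ZQ h) = AA Q ι := by
  refine le_antisymm (fun a ha => ⟨ha.1, mem_centralizer_singleton_iff.2 ?_⟩) fun a ha =>
    ⟨ha.1, by simp [← mem_centralizer_singleton_iff.1 ha.2]⟩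
  have e1 : ι slX * ι (-1) = ι (-1) * ι slX := by rw [← map_mul, ← map_mul]; simp
  have e2 := cjZ h (-1) ha.2
  have e3 := cjZ h slX (h.inv a ha.1)
  have e4 := comm_of_zp (h.Qz _ (inv_mem ha.1)) ha.2
  have e5 := comm_of_zp (h.Qz _ (ZQ h (h.inv a ha.1))) ha.2
  have e6 := h.Qe _ (ZQ h ha.2)
  generalize ι slX = x at *
  generalize ι (-1) = u at *
  obtain ⟨c, hc⟩ : ∃ c, c = x * a * x⁻¹ * a⁻¹ := ⟨_, rfl⟩
  obtain ⟨c', hc'⟩ : ∃ c', c' = u * a * u⁻¹ * a := ⟨_, rfl⟩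
  rw [← hc] at e2 e4 e5 e6
  rw [← hc'] at e3 e5
  have e7 : c * c = 1 := by
    have : c * (c' * a⁻¹) * (c * a) = c' := by
      calc _ = (u * c * u⁻¹) * (c' * a⁻¹) * (c * a) := by rw [e2]
        _ = (u * x) * a * (u * x)⁻¹ * (x * a * x⁻¹) := by rw [hc, hc']; group
        _ = x * (u * a * u⁻¹ * a) * x⁻¹ := by rw [← e1]; group
        _ = c' := by rw [← hc', e3]
    refine mul_left_cancel (a := c') ?_
    calc c' * (c * c) = c * (c' * (c * a⁻¹) * a) := by rw [← mul_assoc, e5]; group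
      _ = c * (c' * a⁻¹) * (c * a) := by rw [← e4]; group
      _ = c' * 1 := by rw [this, mul_one]
  rw [eq_one_of_sq_cube e7 e6] at hc
  exact (mul_inv_eq_iff_eq_mul.1 (mul_inv_eq_one.1 hc.symm)).symm

theorem Z_A : zpowers z ≤ AA Q ι := AA_eq h ▸ Z_Fx h _ _ _

theorem A_d : ∀ a ∈ AA Q ι, ι slF * a * (ι slF)⁻¹ ∈ AA Q ι :=
  AA_eq h ▸ Fx_d h _ _ (fun b hb => by
    rwa [mul_assoc, ← comm_of_zp (h.ιz _) hb, inv_mul_cancel_left]) fun b hb => by rwa [cjZ h _ hb]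

theorem ex_nf : ∃ q ∈ Q, ι slX * q * (ι slX)⁻¹ * q⁻¹ ∉ zpowers z := by
  by_contra hn
  push Not at hn
  exact slX_ne_one (faith h hn)

theorem cA : Nat.card (AA Q ι) = 27 := by
  rcases even h (Z_A h) inf_le_left (A_d h) with e | e | e
  · obtain ⟨q, h1, h2⟩ := ex_fix h le_rfl (ZQ h) fun e => by
      have := card_le_of_le e
      rw [h.cQ, cZ h] at this
      omega
    exact absurd (e.le ((AA_eq h).le h1)) h2
  · exact e
  · obtain ⟨q, h1, h2⟩ := ex_nf h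
    exact absurd ((AA_eq h).ge (e.ge h1)).2 h2

theorem quad {q : G} (hq : q ∈ Q) : ι slX * q * (ι slX)⁻¹ * q⁻¹ ∈ AA Q ι := by
  have hx : ∀ b ∈ AA Q ι, (ι slX)⁻¹ * b * ι slX = b := fun b hb => by
    rw [mul_assoc, mem_centralizer_singleton_iff.1 hb.2, inv_mul_cancel_left]
  obtain ⟨a, h1, h2⟩ := ex_fix h (Z_A h) inf_le_left fun e => by
    have := card_le_of_le e
    rw [h.cQ, cA h] at this
    omega
  have h3 := card_lt_of_lt (lt_of_le_of_ne (show AA Q ι ≤ Fx h slX (Z_A h) inf_le_left from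
    fun b hb => ⟨hb.1, Z_A h ((AA_eq h).ge hb).2⟩) fun e => h2 (e.ge h1))
  rw [cA h] at h3
  rcases even h (Z_Fx h _ _ _) (fun _ h => h.1) (Fx_d h (Z_A h) inf_le_left
    (fun b hb => (hx b hb).symm ▸ hb) (A_d h)) with e | e | e
  · rw [e, cZ h] at h3
    omega
  · omega
  · exact (e.ge hq).2

theorem cen_eq : Q ⊓ C[AA Q ι] = AA Q ι := by
  have h1 : zpowers z ≤ Q ⊓ C[AA Q ι] := fun c hc => ⟨ZQ h hc, fun a ha => comm_of_zp (h.Qz a ha.1) hc⟩
  have h2 : ∀ b ∈ Q ⊓ C[AA Q ι], ι slF * b * (ι slF)⁻¹ ∈ Q ⊓ C[AA Q ι] := fun b hb =>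
    ⟨cjQ h _ hb.1, conj_mem_of_mem_normalizer (normalizer_le_normalizer_centralizer _
      (mem_normalizer_fintype (A_d h))) hb.2⟩
  obtain ⟨q, hq, hz⟩ := ex_nf h
  have h3 : ι slX * q * (ι slX)⁻¹ * q⁻¹ ∈ Q ⊓ C[AA Q ι] := ⟨(quad h hq).1, fun a ha => by
    have e1 := cjZ h slX (h.QQ q hq a ha.1)
    have e2 := mem_centralizer_singleton_iff.1 ha.2
    have e3 := comm_of_zp (h.Qz _ (mul_mem (cjQ h slX hq) (inv_mem hq))) (h.QQ q hq a ha.1)
    have e4 := comm_of_zp (h.Qz _ (inv_mem hq)) (h.QQ q hq a ha.1)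
    generalize ι slX = x at *
    obtain ⟨c, hc⟩ : ∃ c, c = q * a * q⁻¹ * a⁻¹ := ⟨_, rfl⟩
    rw [← hc] at e1 e3 e4
    have e5 : x * q * x⁻¹ * a = c * a * (x * q * x⁻¹) := by
      calc _ = x * q * x⁻¹ * (a * x) * x⁻¹ := by group
        _ = (x * c * x⁻¹) * (x * a) * x⁻¹ * (x * q * x⁻¹) := by rw [e2, hc]; group
        _ = _ := by rw [e1, ← e2]; group
    refine mul_left_cancel (a := c) ?_
    calc c * (a * (x * q * x⁻¹ * q⁻¹)) = (c * a * (x * q * x⁻¹)) * q⁻¹ := by group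
      _ = x * q * x⁻¹ * q⁻¹ * c * a := by rw [← e5, hc]; group
      _ = _ := by rw [e3]; group⟩
  have n : ∀ B : Subgroup G, B ≤ C[AA Q ι] → B ≠ Q := fun B hB e => by
    have := card_le_of_le (show AA Q ι ≤ zpowers z from fun a ha =>
      h.QZ a ha.1 fun b hb => hB (e.ge hb) a ha)
    rw [cA h, cZ h] at this
    omega
  have h4 : Nat.card ↥(Q ⊓ C[AA Q ι] ⊓ AA Q ι) = 27 :=
    ((even h (le_inf h1 (Z_A h)) (inf_le_left.trans inf_le_left) fun b hb =>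
      ⟨h2 b hb.1, A_d h b hb.2⟩).resolve_left fun e => hz (e.le ⟨h3, quad h hq⟩)).resolve_right
      (n _ (inf_le_left.trans inf_le_right))
  have h5 := ((even h h1 inf_le_left h2).resolve_left fun e => hz (e.le h3)).resolve_right
    (n _ inf_le_right)
  exact (eq_of_le_of_card_ge inf_le_left (by rw [h4, h5])).symm.trans
    (eq_of_le_of_card_ge inf_le_right (by rw [h4, cA h]))

theorem cov {q : G} (hq : q ∈ Q) : ∃ k, ι k * q * (ι k)⁻¹ ∈ AA Q ι := by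
  by_cases hz : q ∈ zpowers z
  · exact ⟨1, by simpa using Z_A h hz⟩
  have hc : Nat.card (Q ⧸ (zpowers z).subgroupOf Q) < Nat.card SL25 := by
    have := ((zpowers z).subgroupOf Q).index_mul_card
    rw [card_subgroupOf (ZQ h), cZ h, h.cQ, index_eq_card] at this
    rw [card_sl25]
    omega
  obtain ⟨k, k', e, ne⟩ := Function.not_injective_iff.1 fun hi : Function.Injective fun k =>
      (QuotientGroup.mk ⟨_, cjQ h k hq⟩ : Q ⧸ (zpowers z).subgroupOf Q) =>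
    absurd (Nat.card_le_card_of_injective _ hi) (not_le.2 hc)
  have e1 : (ι k * q * (ι k)⁻¹)⁻¹ * (ι k' * q * (ι k')⁻¹) ∈ zpowers z :=
    (QuotientGroup.eq (s := (zpowers z).subgroupOf Q)).1 e
  rw [← cjZ h k⁻¹ e1] at e1
  have e2 : ι (k⁻¹ * k') * q * (ι (k⁻¹ * k'))⁻¹ * q⁻¹ ∈ zpowers z := by
    convert nB h le_rfl (ZQ h) hq e1 using 1
    simp only [map_mul, map_inv]
    group
  obtain ⟨g, hg⟩ := sl_three _ (three h hq hz ⟨h.ιz _, e2⟩) fun e => ne (inv_mul_eq_one.1 e)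
  refine ⟨g, (AA_eq h).le ⟨cjQ h g hq, ?_⟩⟩
  rw [← cjZ h g e2] at e2
  convert e2 using 1
  rw [eq_mul_inv_of_mul_eq hg.symm]
  simp only [map_mul, map_inv]
  group

theorem card_le_cent {A : Subgroup G} (hA : A ≤ Q) {q : G} (hq : q ∈ Q) :
    Nat.card A ≤ 3 * Nat.card ↥(A ⊓ C1[q]) := by
  let φ : A →* G := MonoidHom.mk' (fun a => (a : G) * q * (a : G)⁻¹ * q⁻¹) fun a b => by
    have e := comm_of_zp (h.Qz _ (mul_mem hq (mul_mem (inv_mem (hA a.2)) (inv_mem hq))))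
      (h.QQ _ (hA b.2) q hq)
    calc ((a * b : A) : G) * q * ((a * b : A) : G)⁻¹ * q⁻¹
        = a * ((b * q * (b : G)⁻¹ * q⁻¹) * (q * ((a : G)⁻¹ * q⁻¹))) := by push_cast; group
      _ = _ := by rw [← e]; group
  have h1 : φ.range ≤ zpowers z := by
    rintro _ ⟨a, rfl⟩
    exact h.QQ _ (hA a.2) q hq
  have h2 : φ.ker = (A ⊓ C1[q]).subgroupOf A := by
    ext a
    rw [mem_subgroupOf, mem_inf, mem_centralizer_singleton_iff, MonoidHom.mem_ker]
    show (a : G) * q * (a : G)⁻¹ * q⁻¹ = 1 ↔ _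
    rw [mul_inv_eq_one, mul_inv_eq_iff_eq_mul]
    exact ⟨fun e => ⟨a.2, e⟩, fun e => e.2⟩
  rw [← φ.ker.card_mul_index, index_ker, h2, card_subgroupOf inf_le_left, mul_comm]
  exact Nat.mul_le_mul_right _ (cZ h ▸ card_le_of_le h1)

theorem cq {q : G} (hq : q ∈ Q) (hz : q ∉ zpowers z) : Nat.card ↥(Q ⊓ C1[q]) = 81 := by
  have h1 := card_le_cent h le_rfl hq
  rw [h.cQ] at h1
  rcases cases h (B := Q ⊓ C1[q]) (fun c hc => ⟨ZQ h hc, mem_centralizer_singleton_iff.2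
    (comm_of_zp (h.Qz q hq) hc).symm⟩) inf_le_left with e | e | e | e | e
  · rw [e, cZ h] at h1
    omega
  · omega
  · omega
  · exact e
  · exact absurd (h.QZ q hq fun b hb => (mem_centralizer_singleton_iff.1 (e.ge hb).2).symm) hz

theorem ab {B : Subgroup G} (hB : B ≤ Q) (hc : ∀ a ∈ B, ∀ b ∈ B, a * b = b * a) :
    Nat.card B ≤ 27 := by
  by_contra hlt
  have hZ : ∀ X : Subgroup G, X ≤ Q → Q ≤ C[X] → Nat.card X ≤ 3 := fun X h1 h2 =>
    cZ h ▸ card_le_of_le fun a ha => h.QZ a (h1 ha) fun b hb => h2 hb a ha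
  obtain ⟨q, hq, hq'⟩ := SetLike.not_le_iff_exists.1 fun e => by
    have := hZ B hB e
    omega
  have h81 : 81 ≤ Nat.card B := by
    rcases dvd243 (h.cQ ▸ card_dvd_of_le' hB) with e | e | e | e | e | e <;> omega
  have h1 := card_le_cent h hB hq
  have h2 : B < Q ⊓ C[B ⊓ C1[q]] := lt_of_le_of_ne
    (fun a ha => ⟨hB ha, fun b hb => hc b hb.1 a ha⟩) fun e => hq' fun b hb =>
      hc b hb q (e.ge ⟨hq, fun b hb => mem_centralizer_singleton_iff.1 hb.2⟩)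
  have h3 := card_lt_of_lt h2
  have h4 : Q ⊓ C[B ⊓ C1[q]] = Q := eq_of_le_of_card_ge inf_le_left (by
    rcases dvd243 (h.cQ ▸ card_dvd_of_le' (inf_le_left : Q ⊓ C[B ⊓ C1[q]] ≤ Q)) with
      e | e | e | e | e | e <;> rw [h.cQ] <;> omega)
  have := hZ _ (inf_le_left.trans hB) (h4.ge.trans inf_le_right)
  omega

omit h in
/-- **S2** -/
theorem s2 : S2Stmt.{u} := fun G _ _ z Q ι h =>
  { h with
    cA := cA h
    Ac := fun a ha b hb => ((cen_eq h).ge hb).2 a ha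
    cAQ := fun q hq e => (cen_eq h).le ⟨hq, fun a ha => (e a ha).symm⟩
    fix := fun q hq e => (AA_eq h).le ⟨hq, e⟩
    quad := fun _ => quad h
    stab := fun a ha hz k e => by
      have h1 : k ∈ (Kq z a).comap ι := ⟨h.ιz k, e⟩
      have h2 : slX ∈ (Kq z a).comap ι := ⟨h.ιz _, ((AA_eq h).ge ha).2⟩
      exact (mem_zp3 slX_pow).2 (sl3 k (three h ha.1 hz h1) (three h ha.1 hz (mul_mem h1 h2))
        (three h ha.1 hz (mul_mem h1 (inv_mem h2))))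
    cov := fun _ => cov h
    cq := fun _ => cq h
    ab := fun _ => ab h }

end Cfsg.Agent.H91.HnS2
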