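import Cfsg.Agent.H91.LinDefs

/-! `SL₂(p)` in characteristic `p`: the Steinberg idempotent. -/

set_option autoImplicit false
set_option linter.unusedSectionVars false

namespace Cfsg.Agent.H91.LIN

open Module Matrix

universe u v w w' w''

section Lin

variable {K : Type u} [Field K] {V : Type w} {V' : Type w'} {V'' : Type w''} [AddCommGroup V]
  [Module K V] [AddCommGroup V'] [Module K V'] [AddCommGroup V''] [Module K V'']

theorem finrank_le_of_map [FiniteDimensional K V] [FiniteDimensional K V'] (A : Submodule K V)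
    (f : V →ₗ[K] V') (B : Submodule K V') (C : Submodule K V) (h : ∀ v ∈ A, f v ∈ B)
    (hC : ∀ v ∈ A, f v = 0 → v ∈ C) : finrank K A ≤ finrank K C + finrank K B := by
  have h1 := LinearMap.finrank_range_add_finrank_ker (f.domRestrict A)
  have h2 : finrank K (LinearMap.range (f.domRestrict A)) ≤ finrank K B :=
    Submodule.finrank_mono (by rintro _ ⟨v, rfl⟩; exact h v v.2)
  have h3 : finrank K (LinearMap.ker (f.domRestrict A)) ≤ finrank K C := by
    rw [← Submodule.finrank_map_subtype_eq]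
    exact Submodule.finrank_mono (by rintro _ ⟨v, hv, rfl⟩; exact hC v v.2 hv)
  omega

/-- The rank of an idempotent is additive on short exact sequences. -/
theorem rank_idem_add [FiniteDimensional K V] (i : V' →ₗ[K] V) (q : V →ₗ[K] V'')
    (hi : Function.Injective i) (hq : Function.Surjective q)
    (he : LinearMap.range i = LinearMap.ker q) (π' : End K V') (π : End K V) (π'' : End K V'')
    (h1 : ∀ v, π (i v) = i (π' v)) (h2 : ∀ v, q (π v) = π'' (q v)) (hπ : ∀ v, π (π v) = π v) :
    finrank K (LinearMap.range π) =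
      finrank K (LinearMap.range π') + finrank K (LinearMap.range π'') := by
  have h3 := LinearMap.finrank_range_add_finrank_ker (q.domRestrict (LinearMap.range π))
  have h4 : LinearMap.range (q.domRestrict (LinearMap.range π)) = LinearMap.range π'' := by
    ext y
    constructor
    · rintro ⟨⟨_, v, rfl⟩, rfl⟩
      exact ⟨q v, (h2 v).symm⟩
    · rintro ⟨y, rfl⟩
      obtain ⟨v, rfl⟩ := hq y
      exact ⟨⟨π v, v, rfl⟩, h2 v⟩
  have h5 : (LinearMap.ker (q.domRestrict (LinearMap.range π))).map (LinearMap.range π).subtype =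
      (LinearMap.range π').map i := by
    ext y
    constructor
    · rintro ⟨⟨_, v, rfl⟩, hv, rfl⟩
      have : π v ∈ LinearMap.range i := he ▸ hv
      obtain ⟨v', hv'⟩ := this
      exact ⟨π' v', ⟨v', rfl⟩, by rw [← h1, hv']; exact hπ v⟩
    · rintro ⟨_, ⟨v', rfl⟩, rfl⟩
      refine ⟨⟨i (π' v'), i v', h1 v'⟩, ?_, rfl⟩
      have : i (π' v') ∈ LinearMap.ker q := he ▸ ⟨_, rfl⟩
      exact this
  have h6 := congrArg (fun A : Submodule K V => finrank K A) h5
  simp only [Submodule.finrank_map_subtype_eq] at h6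
  rw [← (Submodule.equivMapOfInjective i hi _).finrank_eq] at h6
  rw [h4] at h3
  omega

theorem sum_finrank_le [FiniteDimensional K V] (f : End K V) {ι : Type} (s : Finset ι)
    (μ : ι → K) (hμ : Set.InjOn μ s) (A : ι → Submodule K V) (Y : Submodule K V)
    (hA : ∀ i ∈ s, ∀ v ∈ A i, f v = μ i • v) (hY : ∀ i ∈ s, A i ≤ Y) :
    ∑ i ∈ s, finrank K (A i) ≤ finrank K Y := by
  classical
  have hind : iSupIndep fun i : s => A i :=
    ((Module.End.eigenspaces_iSupIndep f).comp (f := fun i : s => μ i)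
      fun i j h => Subtype.ext (hμ i.2 j.2 h)).mono fun i v hv =>
        Module.End.mem_eigenspace_iff.2 (hA i i.2 v hv)
  have hinj := hind.dfinsupp_lsum_injective
  have h1 := LinearMap.finrank_range_of_inj hinj
  have h2 : finrank K (Π₀ i : s, A i) = ∑ i : s, finrank K (A i) :=
    Module.finrank_directSum K fun i : s => A i
  rw [← Finset.sum_coe_sort s, ← h2, ← h1]
  refine Submodule.finrank_mono ?_
  rw [← Submodule.iSup_eq_range_dfinsupp_lsum]
  exact iSup_le fun i => hY i i.2

/-- The iterates of a vector under an operator that eventually kills it are independent. -/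
theorem indep_pow (E : End K V) (w : V) (j : ℕ) (h0 : (E ^ (j + 1)) w = 0) (h1 : (E ^ j) w ≠ 0) :
    LinearIndependent K fun a : Fin (j + 1) => (E ^ (a : ℕ)) w := by
  rw [Fintype.linearIndependent_iff]
  intro c hc
  have key : ∀ n : ℕ, ∀ a : Fin (j + 1), (a : ℕ) = n → c a = 0 := by
    intro n
    induction n using Nat.strong_induction_on with | _ n ih =>
    intro a ha
    have h2 := congrArg (E ^ (j - n)) hc
    rw [map_sum, map_zero, Finset.sum_eq_single a] at h2
    · rw [map_smul, ← End.mul_apply, ← pow_add, ha, show j - n + n = j by omega] at h2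
      exact (smul_eq_zero.1 h2).resolve_right h1
    · intro b _ hb
      rcases lt_or_gt_of_ne (fun h => hb (Fin.ext h) : (b : ℕ) ≠ a) with h | h
      · rw [ih b (ha ▸ h) b rfl, zero_smul, map_zero]
      · rw [map_smul, ← End.mul_apply, ← pow_add,
          show j - n + b = (j - n + b - (j + 1)) + (j + 1) by omega, pow_add, End.mul_apply, h0,
          map_zero, smul_zero]
    · simp
  exact fun a => key _ a rfl

end Lin

section Group

variable {F : Type} [Field F]

/-- The upper unitriangular matrices. -/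
def uu (k : F) : SpecialLinearGroup (Fin 2) F := ⟨!![1, k; 0, 1], by simp [det_fin_two]⟩

/-- The diagonal matrices. -/
def tt (a : Fˣ) : SpecialLinearGroup (Fin 2) F :=
  ⟨!![(a : F), 0; 0, (a : F)⁻¹], by simp [det_fin_two]⟩

/-- The Weyl element. -/
def ss : SpecialLinearGroup (Fin 2) F := ⟨!![0, 1; -1, 0], by simp [det_fin_two]⟩

/-- An element of order three. -/
def xx : SpecialLinearGroup (Fin 2) F := ⟨!![0, -1; 1, -1], by simp [det_fin_two]⟩

@[simp] theorem coe_uu (k : F) : (uu k : Matrix (Fin 2) (Fin 2) F) = !![1, k; 0, 1] := rfl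

@[simp] theorem coe_tt (a : Fˣ) :
    (tt a : Matrix (Fin 2) (Fin 2) F) = !![(a : F), 0; 0, (a : F)⁻¹] := rfl

@[simp] theorem coe_ss : ((ss : SpecialLinearGroup (Fin 2) F) : Matrix (Fin 2) (Fin 2) F) =
    !![0, 1; -1, 0] := rfl

@[simp] theorem coe_xx : ((xx : SpecialLinearGroup (Fin 2) F) : Matrix (Fin 2) (Fin 2) F) =
    !![0, -1; 1, -1] := rfl

theorem uu_add (k l : F) : uu k * uu l = uu (k + l) :=
  Subtype.ext (by simp [add_comm])

theorem uu_zero : uu (0 : F) = 1 :=
  Subtype.ext (by simp [one_fin_two])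

theorem uu_pow (n : ℕ) : uu (1 : F) ^ n = uu (n : F) := by
  induction n with
  | zero => simp [uu_zero]
  | succ n ih => rw [pow_succ, ih, uu_add, Nat.cast_succ]

theorem uu_ne : uu (1 : F) ≠ 1 := fun h => by
  simpa using congrArg (fun g : SpecialLinearGroup (Fin 2) F => g.1 0 1) h

theorem xx_ne : (xx : SpecialLinearGroup (Fin 2) F) ≠ 1 := fun h => by
  simpa using congrArg (fun g : SpecialLinearGroup (Fin 2) F => g.1 1 0) h

theorem xx_pow : (xx : SpecialLinearGroup (Fin 2) F) ^ 3 = 1 :=
  Subtype.ext (by simp [pow_succ, one_fin_two])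

theorem tt_mul (a b : Fˣ) : tt a * tt b = tt (a * b) :=
  Subtype.ext (by simp [mul_comm])

theorem tt_one : tt (1 : Fˣ) = 1 :=
  Subtype.ext (by simp [one_fin_two])

theorem tt_uu (a : Fˣ) (k : F) : tt a * uu k = uu ((a : F) ^ 2 * k) * tt a :=
  Subtype.ext (by simp; field_simp)

theorem tt_ss (a : Fˣ) : tt a * ss = ss * tt a⁻¹ :=
  Subtype.ext (by simp)

theorem ss_ss : (ss : SpecialLinearGroup (Fin 2) F) * ss = tt (-1) :=
  Subtype.ext (by simp)

theorem ss_uu_ss (k : Fˣ) : ss * uu (k : F) * ss =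
    uu (-(k : F)⁻¹) * ss * tt (-k) * uu (-(k : F)⁻¹) :=
  Subtype.ext (by simp)

theorem bruhat (g : SpecialLinearGroup (Fin 2) F) :
    (g.1 1 0 = 0 ∧ ∃ k a, g = uu k * tt a) ∨
      (g.1 1 0 ≠ 0 ∧ ∃ k a l, g = uu k * tt a * ss * uu l) := by
  have hd := g.det_coe
  rw [det_fin_two] at hd
  by_cases hc : g.1 1 0 = 0
  · have h0 : g.1 0 0 * g.1 1 1 = 1 := by simpa [hc] using hd
    have ha : g.1 0 0 ≠ 0 := left_ne_zero_of_mul_eq_one h0
    refine Or.inl ⟨hc, g.1 0 1 * g.1 0 0, Units.mk0 _ ha, Subtype.ext ?_⟩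
    ext i j; fin_cases i <;> fin_cases j <;> simp [hc, ha]
    exact eq_inv_of_mul_eq_one_right h0
  · refine Or.inr ⟨hc, g.1 0 0 / g.1 1 0, (Units.mk0 _ (neg_ne_zero.2 hc))⁻¹, g.1 1 1 / g.1 1 0,
      Subtype.ext ?_⟩
    ext i j; fin_cases i <;> fin_cases j <;> simp [hc]
    · field_simp
      linear_combination (-1 : F) * hd
    · field_simp

end Group

end Cfsg.Agent.H91.LIN
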