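import Cfsg.Agent.H91.LinD1

/-! The Steinberg idempotent: `dim W^B - dim W^G` is additive. -/

set_option autoImplicit false
set_option linter.unusedSectionVars false

namespace Cfsg.Agent.H91.LIN

open Module Matrix

universe u v w w' w''

variable {F : Type} [Field F] [Fintype F] [DecidableEq F] {K : Type u} [Field K]
  {V : Type w} {V' : Type w'} {V'' : Type w''} {P : Type v} [AddCommGroup V]
  [Module K V] [AddCommGroup V'] [Module K V'] [AddCommGroup V''] [Module K V'']
  [AddCommGroup P] [Module K P]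

/-- `SL₂` over `F`. -/
abbrev SG (F : Type) [Field F] : Type := SpecialLinearGroup (Fin 2) F

theorem rep_mul (ρ : Representation K (SG F) V) (g h : SG F) (v : V) : ρ g (ρ h v) = ρ (g * h) v := by
  rw [map_mul]; rfl

/-- The vectors fixed by the Borel subgroup. -/
def BF (ρ : Representation K (SG F) V) : Submodule K V where
  carrier := {v | (∀ k, ρ (uu k) v = v) ∧ ∀ a, ρ (tt a) v = v}
  add_mem' ha hb := ⟨fun k => by rw [map_add, ha.1, hb.1], fun k => by rw [map_add, ha.2, hb.2]⟩
  zero_mem' := ⟨fun _ => map_zero _, fun _ => map_zero _⟩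
  smul_mem' c v hv := ⟨fun k => by rw [map_smul, hv.1], fun k => by rw [map_smul, hv.2]⟩

/-- The sum over the Borel subgroup times the Weyl element. -/
noncomputable def Th (ρ : Representation K (SG F) V) : End K V :=
  ∑ k : F, ∑ a : Fˣ, ρ (uu k * tt a * ss)

theorem Th_apply (ρ : Representation K (SG F) V) (v : V) :
    Th ρ v = ∑ k : F, ∑ a : Fˣ, ρ (uu k * tt a * ss) v := by
  simp [Th, LinearMap.sum_apply]

theorem Th_mem (ρ : Representation K (SG F) V) (v : V) : Th ρ v ∈ BF ρ := by
  refine ⟨fun l => ?_, fun b => ?_⟩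
  · simp only [Th_apply, map_sum, rep_mul, ← mul_assoc, uu_add]
    exact Fintype.sum_equiv (Equiv.addLeft l) _ _ fun _ => rfl
  · simp only [Th_apply, map_sum, rep_mul, ← mul_assoc, tt_uu]
    simp only [mul_assoc _ (tt b), tt_mul]
    refine Fintype.sum_equiv (Equiv.mulLeft₀ ((b : F) ^ 2) (pow_ne_zero 2 b.ne_zero)) _ _
      fun k => ?_
    exact Fintype.sum_equiv (Equiv.mulLeft b) _ _ fun _ => rfl

theorem sum_units {M : Type*} [AddCommGroup M] (f : F → M) :
    ∑ k : F, f k = f 0 + ∑ a : Fˣ, f a := by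
  rw [← Finset.add_sum_erase _ _ (Finset.mem_univ 0)]
  congr 1
  refine (Finset.sum_bij (fun (a : Fˣ) _ => (a : F)) (by simp) (fun _ _ _ _ h => Units.ext h)
    (fun b hb => ⟨Units.mk0 b (Finset.ne_of_mem_erase hb), Finset.mem_univ _, rfl⟩)
    fun _ _ => rfl).symm

variable (hF : (Fintype.card F : K) = 0)
include hF

theorem sum_const_F (v : V) : ∑ _k : F, v = 0 := by
  rw [Finset.sum_const, Finset.card_univ, ← Nat.cast_smul_eq_nsmul K, hF, zero_smul]

theorem sum_const_units (v : V) : ∑ _a : Fˣ, v = -v := by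
  have := sum_units fun _ : F => v
  rw [sum_const_F hF] at this
  exact (neg_eq_of_add_eq_zero_right this.symm).symm

theorem Th_of_mem (ρ : Representation K (SG F) V) {v : V} (hv : v ∈ BF ρ) :
    Th ρ v = -∑ k : F, ρ (uu k * ss) v := by
  rw [Th_apply, ← Finset.sum_neg_distrib]
  refine Finset.sum_congr rfl fun k _ => ?_
  rw [← sum_const_units hF]
  refine Finset.sum_congr rfl fun a _ => ?_
  rw [mul_assoc, tt_ss, ← mul_assoc, ← rep_mul, hv.2]

theorem Th_of_inv (ρ : Representation K (SG F) V) {v : V} (hv : v ∈ ρ.invariants) : Th ρ v = 0 := by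
  rw [Th_of_mem hF ρ ⟨fun _ => hv _, fun _ => hv _⟩]
  simp only [hv _, sum_const_F hF, neg_zero]

theorem sub_Th_mem (ρ : Representation K (SG F) V) {v : V} (hv : v ∈ BF ρ) :
    v - Th ρ v ∈ ρ.invariants := by
  have h1 : v - Th ρ v ∈ BF ρ := sub_mem hv (Th_mem ρ v)
  have h2 : ρ ss (v - Th ρ v) = v - Th ρ v := by
    rw [Th_of_mem hF ρ hv, sub_neg_eq_add, map_add, map_sum, sum_units (F := F),
      sum_units (F := F) fun k => ρ (uu k * ss) v]
    simp only [rep_mul, uu_zero, one_mul, ss_ss, hv.2, ← mul_assoc, ss_uu_ss]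
    simp only [← rep_mul _ _ (uu _), hv.1, ← rep_mul _ _ (tt _), hv.2]
    rw [add_left_comm]
    congr 2
    refine Fintype.sum_equiv ((Equiv.inv Fˣ).trans (Equiv.neg Fˣ)) _ _ fun a => ?_
    simp
  intro g
  rcases bruhat g with ⟨-, k, a, rfl⟩ | ⟨-, k, a, l, rfl⟩
  · rw [← rep_mul, h1.2, h1.1]
  · rw [← rep_mul, ← rep_mul, ← rep_mul, h1.1, h2, h1.2, h1.1]

theorem Th_Th (ρ : Representation K (SG F) V) {v : V} (hv : v ∈ BF ρ) : Th ρ (Th ρ v) = Th ρ v := by
  have := Th_of_inv hF ρ (sub_Th_mem hF ρ hv)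
  rw [map_sub, sub_eq_zero] at this
  exact this.symm

omit hF in
/-- The multiplicity of the Steinberg module. -/
noncomputable def Phi (ρ : Representation K (SG F) V) : ℕ :=
  finrank K (LinearMap.range (Th ρ * Th ρ))

theorem Phi_add_inv [FiniteDimensional K V] (ρ : Representation K (SG F) V) :
    Phi ρ + finrank K ρ.invariants = finrank K (BF ρ) := by
  have h3 := LinearMap.finrank_range_add_finrank_ker ((Th ρ).domRestrict (BF ρ))
  have h4 : LinearMap.range ((Th ρ).domRestrict (BF ρ)) = LinearMap.range (Th ρ * Th ρ) := by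
    ext y
    constructor
    · rintro ⟨v, rfl⟩
      exact ⟨v, Th_Th hF ρ v.2⟩
    · rintro ⟨v, rfl⟩
      exact ⟨⟨_, Th_mem ρ v⟩, rfl⟩
  have h5 : (LinearMap.ker ((Th ρ).domRestrict (BF ρ))).map (BF ρ).subtype = ρ.invariants := by
    ext y
    constructor
    · rintro ⟨v, hv, rfl⟩
      have h0 : Th ρ v = 0 := hv
      simpa [h0] using sub_Th_mem hF ρ v.2
    · intro hy
      exact ⟨⟨y, fun _ => hy _, fun _ => hy _⟩, Th_of_inv hF ρ hy, rfl⟩
  rw [← h5, Submodule.finrank_map_subtype_eq, Phi, ← h4, h3]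

omit hF in
/-- A short exact sequence of representations. -/
structure SES (ρ' : Representation K (SG F) V') (ρ : Representation K (SG F) V)
    (ρ'' : Representation K (SG F) V'') (i : V' →ₗ[K] V) (q : V →ₗ[K] V'') : Prop where
  inj : Function.Injective i
  surj : Function.Surjective q
  ex : LinearMap.range i = LinearMap.ker q
  hi : ∀ g v, ρ g (i v) = i (ρ' g v)
  hq : ∀ g v, q (ρ g v) = ρ'' g (q v)

variable {ρ' : Representation K (SG F) V'} {ρ : Representation K (SG F) V}
  {ρ'' : Representation K (SG F) V''} {i : V' →ₗ[K] V} {q : V →ₗ[K] V''}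

theorem SES.Phi_add [FiniteDimensional K V] (h : SES ρ' ρ ρ'' i q) : Phi ρ = Phi ρ' + Phi ρ'' := by
  have h1 : ∀ v, Th ρ (i v) = i (Th ρ' v) := fun v => by simp only [Th_apply, map_sum, h.hi]
  have h2 : ∀ v, q (Th ρ v) = Th ρ'' (q v) := fun v => by simp only [Th_apply, map_sum, h.hq]
  refine rank_idem_add i q h.inj h.surj h.ex _ _ _ (fun v => ?_) (fun v => ?_) fun v => ?_
  · simp only [End.mul_apply, h1]
  · simp only [End.mul_apply, h2]
  · simp only [End.mul_apply]
    rw [Th_Th hF ρ (Th_mem ρ _), Th_Th hF ρ (Th_mem ρ _)]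

omit hF in
theorem SES.hom (h : SES ρ' ρ ρ'' i q) (σ : Representation K (SG F) P) :
    SES (σ.linHom ρ') (σ.linHom ρ) (σ.linHom ρ'') (LinearMap.llcomp K P V' V i)
      (LinearMap.llcomp K P V V'' q) where
  inj f g e := LinearMap.ext fun y => h.inj (LinearMap.congr_fun e y)
  surj f := by
    obtain ⟨r, hr⟩ := q.exists_rightInverse_of_surjective (LinearMap.range_eq_top.2 h.surj)
    exact ⟨r ∘ₗ f, LinearMap.ext fun y => LinearMap.congr_fun hr (f y)⟩
  ex := by
    ext f
    constructor
    · rintro ⟨f, rfl⟩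
      refine LinearMap.ext fun y => ?_
      have : i (f y) ∈ LinearMap.ker q := h.ex ▸ ⟨_, rfl⟩
      exact this
    · intro hf
      obtain ⟨r, hr⟩ := i.exists_leftInverse_of_injective (LinearMap.ker_eq_bot.2 h.inj)
      refine ⟨r ∘ₗ f, LinearMap.ext fun y => ?_⟩
      have : f y ∈ LinearMap.range i := h.ex ▸ LinearMap.congr_fun hf y
      obtain ⟨z, hz⟩ := this
      have h2 : r (i z) = z := LinearMap.congr_fun hr z
      simp [← hz, h2]
  hi g f := LinearMap.ext fun y => h.hi _ _
  hq g f := LinearMap.ext fun y => h.hq _ _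

omit hF in
theorem SES.finrank_add [FiniteDimensional K V] (h : SES ρ' ρ ρ'' i q) :
    finrank K V = finrank K V' + finrank K V'' := by
  have := rank_idem_add i q h.inj h.surj h.ex LinearMap.id LinearMap.id LinearMap.id
    (fun _ => rfl) (fun _ => rfl) fun _ => rfl
  rwa [LinearMap.range_id, LinearMap.range_id, LinearMap.range_id, finrank_top, finrank_top,
    finrank_top] at this

omit hF in
theorem fx_eq_rank (h3 : (3 : K) ≠ 0) (ρ : Representation K (SG F) V) :
    fx ρ xx = finrank K (LinearMap.range ((3 : K)⁻¹ • (1 + ρ xx + ρ xx * ρ xx))) := by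
  have hx : ∀ v, ρ xx (ρ xx (ρ xx v)) = v := fun v => by
    rw [rep_mul, rep_mul, ← pow_two, ← pow_succ, xx_pow, map_one]; rfl
  refine congrArg (fun A : Submodule K V => finrank K A) ?_
  ext v
  simp only [LinearMap.mem_ker, LinearMap.sub_apply, End.one_apply, sub_eq_zero]
  constructor
  · intro hv
    refine ⟨v, ?_⟩
    simp only [LinearMap.smul_apply, LinearMap.add_apply, End.one_apply, End.mul_apply, hv]
    rw [show v + v + v = (3 : K) • v by module, smul_smul, inv_mul_cancel₀ h3, one_smul]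
  · rintro ⟨v, rfl⟩
    simp only [LinearMap.smul_apply, LinearMap.add_apply, End.one_apply, End.mul_apply, map_smul,
      map_add, hx]
    module

omit hF in
theorem SES.fx_add [FiniteDimensional K V] (h : SES ρ' ρ ρ'' i q) (h3 : (3 : K) ≠ 0) :
    fx ρ xx = fx ρ' xx + fx ρ'' xx := by
  have hx : ∀ v : V, ρ xx (ρ xx (ρ xx v)) = v := fun v => by
    rw [rep_mul, rep_mul, ← pow_two, ← pow_succ, xx_pow, map_one]; rfl
  simp only [fx_eq_rank h3]
  refine rank_idem_add i q h.inj h.surj h.ex _ _ _ (fun v => ?_) (fun v => ?_) fun v => ?_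
  · simp [h.hi]
  · simp [h.hq]
  · simp only [LinearMap.smul_apply, LinearMap.add_apply, End.one_apply, End.mul_apply, map_smul,
      map_add, hx]
    match_scalars <;> field_simp <;> norm_num

end Cfsg.Agent.H91.LIN
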