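import Cfsg.Agent.H91.LinD2

/-! Weights, the raising operator and string modules. -/

set_option autoImplicit false
set_option linter.unusedSectionVars false

namespace Cfsg.Agent.H91.LIN

open Module Matrix Polynomial

universe u v w

variable {p : ℕ} [hp : Fact p.Prime] {K : Type u} [Field K] {V : Type w} {P : Type v}
  [AddCommGroup V] [Module K V] [AddCommGroup P] [Module K P]

section Cyc

theorem hom_pow {E : End K P} {E' : End K V} {f : P →ₗ[K] V} (h : ∀ y, f (E y) = E' (f y))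
    (n : ℕ) (y : P) : f ((E ^ n) y) = (E' ^ n) (f y) := by
  induction n with
  | zero => rfl
  | succ n ih => rw [pow_succ', pow_succ', End.mul_apply, End.mul_apply, h, ih]

variable {E : End K P} {w : P} {j : ℕ} (h0 : (E ^ (j + 1)) w = 0) (h1 : (E ^ j) w ≠ 0)
  (hd : finrank K P = j + 1)

/-- The basis of iterates. -/
noncomputable def cb : Basis (Fin (j + 1)) K P :=
  basisOfLinearIndependentOfCardEqFinrank (indep_pow E w j h0 h1) (by simp [hd])

theorem cb_apply (a : Fin (j + 1)) : cb h0 h1 hd a = (E ^ (a : ℕ)) w := by simp [cb]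

include h0 h1 hd

theorem hom_ext {E' : End K V} {f g : P →ₗ[K] V} (hf : ∀ y, f (E y) = E' (f y))
    (hg : ∀ y, g (E y) = E' (g y)) (h : f w = g w) : f = g :=
  (cb h0 h1 hd).ext fun a => by rw [cb_apply, hom_pow hf, hom_pow hg, h]

theorem exists_hom (E' : End K V) (v : V) (hv : (E' ^ (j + 1)) v = 0) :
    ∃ f : P →ₗ[K] V, f w = v ∧ ∀ y, f (E y) = E' (f y) := by
  have hf : ∀ a : ℕ, a ≤ j + 1 → (cb h0 h1 hd).constr K (fun a => (E' ^ (a : ℕ)) v) ((E ^ a) w) =
      (E' ^ a) v := fun a ha => by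
    rcases ha.lt_or_eq with h | rfl
    · rw [← cb_apply h0 h1 hd ⟨a, h⟩, Basis.constr_basis]
    · rw [h0, hv, map_zero]
  refine ⟨(cb h0 h1 hd).constr K fun a => (E' ^ (a : ℕ)) v, hf 0 (by omega), fun y => ?_⟩
  set f := (cb h0 h1 hd).constr K fun a => (E' ^ (a : ℕ)) v
  refine LinearMap.congr_fun (f := f ∘ₗ E) (g := E' ∘ₗ f) ((cb h0 h1 hd).ext fun a => ?_) y
  rw [LinearMap.comp_apply, LinearMap.comp_apply, cb_apply, hf a (by omega), ← End.mul_apply,
    ← End.mul_apply, ← pow_succ', ← pow_succ', hf _ (by omega)]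

end Cyc

variable (ι : ZMod p →+* K)

include ι in
theorem card_zero : (Fintype.card (ZMod p) : K) = 0 := by
  rw [ZMod.card, ← map_natCast ι, ZMod.natCast_self, map_zero]

theorem uu_eq (k : ZMod p) : uu k = uu 1 ^ k.val := by rw [uu_pow, ZMod.natCast_zmod_val]

/-- The raising operator. -/
noncomputable def DD (ρ : Representation K (SG (ZMod p)) V) : End K V :=
  ∑ k : ZMod p, ι k⁻¹ • ρ (uu k)

/-- The weight spaces of the diagonal subgroup. -/
def Wt (ρ : Representation K (SG (ZMod p)) V) (i : ℕ) : Submodule K V where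
  carrier := {v | ∀ a : (ZMod p)ˣ, ρ (tt a) v = ι a ^ i • v}
  add_mem' ha hb a := by rw [map_add, ha, hb, smul_add]
  zero_mem' a := by simp
  smul_mem' c v hv a := by rw [map_smul, hv, smul_comm]

variable {ι} {ρ : Representation K (SG (ZMod p)) V} {σ : Representation K (SG (ZMod p)) P}

theorem DD_apply (v : V) : DD ι ρ v = ∑ k : ZMod p, ι k⁻¹ • ρ (uu k) v := by
  simp [DD, LinearMap.sum_apply]

theorem DD_mem {i : ℕ} {v : V} (hv : v ∈ Wt ι ρ i) : DD ι ρ v ∈ Wt ι ρ (i + 2) := fun a => by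
  simp only [DD_apply, map_sum, map_smul, rep_mul, tt_uu, Finset.smul_sum]
  simp only [← rep_mul, hv a, map_smul, smul_smul]
  refine Fintype.sum_equiv (Equiv.mulLeft₀ ((a : ZMod p) ^ 2) (pow_ne_zero 2 a.ne_zero)) _ _
    fun k => ?_
  have ha : ι a ≠ 0 := (map_ne_zero ι).2 a.ne_zero
  simp only [Equiv.mulLeft₀_apply, mul_inv, map_mul, map_inv₀, map_pow]
  congr 1
  field_simp
  ring

theorem DD_pow_mem {i : ℕ} {v : V} (hv : v ∈ Wt ι ρ i) (m : ℕ) :
    (DD ι ρ ^ m) v ∈ Wt ι ρ (i + 2 * m) := by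
  induction m with
  | zero => exact hv
  | succ m ih => rw [pow_succ', End.mul_apply]; exact DD_mem ih

theorem pow_modEq (a : (ZMod p)ˣ) {i j : ℕ} (h : i ≡ j [MOD p - 1]) : ι a ^ i = ι a ^ j := by
  have : a ^ i = a ^ j := pow_eq_pow_of_modEq h (ZMod.units_pow_card_sub_one_eq_one p a)
  rw [← map_pow, ← map_pow, ← Units.val_pow_eq_pow_val, this, Units.val_pow_eq_pow_val]

theorem Wt_congr {i j : ℕ} (h : i ≡ j [MOD p - 1]) : Wt ι ρ i = Wt ι ρ j := by
  ext v
  exact forall_congr' fun a => by rw [pow_modEq a h]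

theorem exists_gen (ι : ZMod p →+* K) :
    ∃ g : (ZMod p)ˣ, (∀ a, a ∈ Submonoid.powers g) ∧
      ∀ i j : ℕ, ι g ^ i = ι g ^ j → i ≡ j [MOD p - 1] := by
  obtain ⟨g, hg⟩ := IsCyclic.exists_generator (α := (ZMod p)ˣ)
  refine ⟨g, fun a => (mem_powers_iff_mem_zpowers).2 (hg a), fun i j h => ?_⟩
  rw [← map_pow, ← map_pow, ← Units.val_pow_eq_pow_val, ← Units.val_pow_eq_pow_val] at h
  have h2 := pow_eq_pow_iff_modEq.1 (Units.ext (ι.injective h))
  rwa [orderOf_eq_card_of_forall_mem_zpowers hg, Nat.card_eq_fintype_card, ZMod.card_units] at h2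

theorem sum_inv (h3 : 3 ≤ p) : ∑ k : ZMod p, k⁻¹ = 0 := by
  rw [← FiniteField.sum_pow_lt_card_sub_one (ZMod p) 1 (by rw [ZMod.card]; omega)]
  exact Fintype.sum_equiv (Equiv.inv _) _ _ fun k => by simp

theorem sum_inv_mul : ∑ k : ZMod p, k⁻¹ * k = -1 := by
  rw [sum_units]
  simp only [mul_zero, zero_add, inv_mul_cancel₀ (Units.ne_zero _)]
  exact sum_const_units (K := ZMod p) (card_zero (RingHom.id _)) 1

theorem DD_eq (h3 : 3 ≤ p) : ∃ η : End K V, IsUnit η ∧ Commute η (ρ (uu 1) - 1) ∧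
    DD ι ρ = η * (ρ (uu 1) - 1) ∧ (ρ (uu 1) - 1) ^ p = 0 := by
  have : CharP K p := (ι.charP_iff_charP p).1 inferInstance
  set f : K[X] := ∑ k : ZMod p, C (ι k⁻¹) * X ^ k.val with hf
  have e1 : aeval (ρ (uu 1)) f = DD ι ρ := by
    simp only [hf, map_sum, map_mul, aeval_C, map_pow, aeval_X, DD, ← Algebra.smul_def]
    exact Finset.sum_congr rfl fun k _ => by rw [uu_eq k, map_pow]
  have r1 : f.IsRoot 1 := by
    simp only [IsRoot, hf, eval_finsetSum, eval_mul, eval_C, eval_pow, eval_X, one_pow, mul_one]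
    rw [← map_sum, sum_inv h3, map_zero]
  obtain ⟨h, hh⟩ := dvd_iff_isRoot.2 r1
  have r2 : (h + 1).IsRoot 1 := by
    have d1 : (derivative f).eval 1 = h.eval 1 := by rw [hh]; simp
    have d2 : (derivative f).eval 1 = -1 := by
      simp only [hf, derivative_sum, derivative_C_mul, derivative_X_pow, eval_finsetSum, eval_mul,
        eval_C, eval_pow, eval_X, one_pow, mul_one]
      rw [← map_one ι, ← map_neg, ← sum_inv_mul, map_sum]
      exact Finset.sum_congr rfl fun k _ => by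
        rw [map_mul, ← map_natCast ι, ZMod.natCast_zmod_val]
    simp [IsRoot, ← d1, d2]
  obtain ⟨r, hr⟩ := dvd_iff_isRoot.2 r2
  have e0 : aeval (ρ (uu 1)) (X - C 1 : K[X]) = ρ (uu 1) - 1 := by simp
  have hc : ∀ a b : K[X], Commute (aeval (ρ (uu 1)) a) (aeval (ρ (uu 1)) b) := fun a b =>
    (Commute.all a b).map _
  have hn : (ρ (uu 1) - 1) ^ p = 0 := by
    rw [← e0, ← map_pow, sub_pow_char, map_sub, map_pow, aeval_X, ← map_pow, uu_pow,
      ZMod.natCast_self, uu_zero]
    simp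
  refine ⟨aeval (ρ (uu 1)) h, ?_, e0 ▸ hc _ _, ?_, hn⟩
  · rw [eq_sub_of_add_eq hr, map_sub, map_mul, map_one (aeval (ρ (uu 1)))]
    exact IsNilpotent.isUnit_sub_one ((hc _ _).isNilpotent_mul_right ⟨p, e0 ▸ hn⟩)
  · rw [← e1, hh, mul_comm, map_mul, e0]

theorem DD_pow_eq_zero (h3 : 3 ≤ p) (m : ℕ) (v : V) :
    (DD ι ρ ^ m) v = 0 ↔ ((ρ (uu 1) - 1) ^ m) v = 0 := by
  obtain ⟨η, hu, hc, e, -⟩ := DD_eq (ι := ι) (ρ := ρ) h3
  rw [e, hc.mul_pow, End.mul_apply]
  exact map_eq_zero_iff _ ((End.isUnit_iff _).1 (hu.pow m)).1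

theorem linHom_eq_iff (g : SG (ZMod p)) (f : P →ₗ[K] V) :
    σ.linHom ρ g f = f ↔ ∀ y, f (σ g y) = ρ g (f y) := by
  constructor
  · intro h y
    have := LinearMap.congr_fun h (σ g y)
    simp only [Representation.linHom_apply, LinearMap.comp_apply, rep_mul, inv_mul_cancel,
      map_one, End.one_apply] at this
    exact this.symm
  · intro h
    ext y
    simp only [Representation.linHom_apply, LinearMap.comp_apply, ← h, rep_mul, mul_inv_cancel,
      map_one, End.one_apply]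

theorem hom_DD {f : P →ₗ[K] V} (h : ∀ k y, f (σ (uu k) y) = ρ (uu k) (f y)) (y : P) :
    f (DD ι σ y) = DD ι ρ (f y) := by
  simp only [DD_apply, map_sum, map_smul, h]

variable (ι σ) in
/-- A module with a basis of iterates of a lowest weight vector. -/
structure Str (j : ℕ) (w : P) : Prop where
  le : j + 1 ≤ p
  dim : finrank K P = j + 1
  wt : w ∈ Wt ι σ (p - 1 - j)
  top0 : (DD ι σ ^ (j + 1)) w = 0
  top1 : (DD ι σ ^ j) w ≠ 0
  gen : ∃ c : K, w = c • σ ss ((DD ι σ ^ j) w)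

variable {j : ℕ} {w : P}

theorem Str.fd (s : Str ι σ j w) : FiniteDimensional K P :=
  Module.finite_of_finrank_eq_succ s.dim

theorem Str.BF_eq (s : Str ι σ j w) (h3 : 3 ≤ p) : finrank K (BF (σ.linHom ρ)) =
    finrank K (Wt ι ρ (p - 1 - j) ⊓ LinearMap.ker (DD ι ρ ^ (j + 1)) : Submodule K V) := by
  have h0 := (DD_pow_eq_zero h3 _ _).1 s.top0
  have h1 := mt (DD_pow_eq_zero h3 _ _).2 s.top1
  have hinj : Function.Injective ((LinearMap.applyₗ w).domRestrict (BF (σ.linHom ρ))) :=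
    fun f g h => Subtype.ext (hom_ext s.top0 s.top1 s.dim
      (hom_DD fun k => (linHom_eq_iff _ _).1 (f.2.1 k))
      (hom_DD fun k => (linHom_eq_iff _ _).1 (g.2.1 k)) h)
  rw [← LinearMap.finrank_range_of_inj hinj]
  refine congrArg (fun A : Submodule K V => finrank K A) ?_
  ext v
  constructor
  · rintro ⟨f, rfl⟩
    refine ⟨fun a => ?_, ?_⟩
    · change ρ _ (f.1 w) = _ • f.1 w
      rw [← (linHom_eq_iff _ _).1 (f.2.2 a), s.wt a, map_smul]
    · change (DD ι ρ ^ (j + 1)) (f.1 w) = 0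
      rw [← hom_pow (hom_DD fun k => (linHom_eq_iff _ _).1 (f.2.1 k)), s.top0, map_zero]
  · rintro ⟨hv1, hv2⟩
    obtain ⟨f, hw, hf⟩ := exists_hom h0 h1 s.dim _ v ((DD_pow_eq_zero h3 _ _).1 hv2)
    have hu : ∀ k y, f (σ (uu k) y) = ρ (uu k) (f y) := fun k y => by
      rw [uu_eq k, map_pow, map_pow]
      exact hom_pow (fun y => by simpa using hf y) _ y
    refine ⟨⟨f, fun k => (linHom_eq_iff _ _).2 (hu k), fun a => (linHom_eq_iff _ _).2 ?_⟩, hw⟩
    refine LinearMap.congr_fun (hom_ext h0 h1 s.dim (E' := ρ (uu ((a : ZMod p) ^ 2 * 1)) - 1)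
      (f := f ∘ₗ σ (tt a)) (g := ρ (tt a) ∘ₗ f) (fun y => ?_) (fun y => ?_) ?_)
    · simp only [LinearMap.comp_apply, LinearMap.sub_apply, End.one_apply, map_sub, rep_mul, tt_uu]
      rw [← rep_mul, hu]
    · simp only [LinearMap.comp_apply, LinearMap.sub_apply, End.one_apply, map_sub, hu, rep_mul,
        tt_uu]
    · simp only [LinearMap.comp_apply, s.wt a, map_smul, hw, hv1 a]

theorem Str.inv_le [FiniteDimensional K V] (s : Str ι σ j w) :
    finrank K (σ.linHom ρ).invariants ≤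
      finrank K (Wt ι ρ j ⊓ LinearMap.ker (DD ι ρ ^ 1) : Submodule K V) := by
  have hG : ∀ f : (σ.linHom ρ).invariants, ∀ g y, f.1 (σ g y) = ρ g (f.1 y) := fun f g =>
    (linHom_eq_iff _ _).1 (f.2 g)
  have hinj : Function.Injective
      ((LinearMap.applyₗ ((DD ι σ ^ j) w)).domRestrict (σ.linHom ρ).invariants) := fun f g h => by
    obtain ⟨c, hc⟩ := s.gen
    have h' : f.1 ((DD ι σ ^ j) w) = g.1 ((DD ι σ ^ j) w) := h
    refine Subtype.ext (hom_ext s.top0 s.top1 s.dim (hom_DD fun k => hG f _)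
      (hom_DD fun k => hG g _) ?_)
    rw [hc, map_smul, map_smul, hG, hG, h']
  rw [← LinearMap.finrank_range_of_inj hinj]
  refine Submodule.finrank_mono ?_
  rintro _ ⟨f, rfl⟩
  refine ⟨fun a => ?_, ?_⟩
  · change ρ _ (f.1 _) = _ • f.1 _
    have h1 := DD_pow_mem s.wt j
    rw [Wt_congr (j := j) (by
      rw [show p - 1 - j + 2 * j = j + (p - 1) by have := s.le; omega]
      exact Nat.add_modEq_right)] at h1
    rw [← hG, h1 a, map_smul]
  · change (DD ι ρ ^ 1) (f.1 _) = 0
    rw [← hom_pow (hom_DD fun k => hG f _), ← End.mul_apply, ← pow_add, add_comm, s.top0, map_zero]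

theorem Str.one_le_inv (s : Str ι σ j w) : 1 ≤ finrank K (σ.linHom σ).invariants := by
  have := s.fd
  refine Module.finrank_pos_iff_exists_ne_zero.2
    ⟨⟨LinearMap.id, fun g => (linHom_eq_iff _ _).2 fun _ => rfl⟩, fun h => s.top1 ?_⟩
  exact LinearMap.congr_fun (congrArg Subtype.val h) _

theorem Str.dimX (s : Str ι σ j w) (i m : ℕ) :
    finrank K (Wt ι σ i ⊓ LinearMap.ker (DD ι σ ^ m) : Submodule K P) =
      (Finset.univ.filter fun a : Fin (j + 1) =>
        p - 1 - j + 2 * a ≡ i [MOD p - 1] ∧ j < a + m).card := by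
  set A := Finset.univ.filter fun a : Fin (j + 1) => p - 1 - j + 2 * a ≡ i [MOD p - 1] ∧ j < a + m
  set b := cb s.top0 s.top1 s.dim
  have hb : ∀ a, b a = (DD ι σ ^ (a : ℕ)) w := cb_apply _ _ _
  have hz : ∀ n, j < n → (DD ι σ ^ n) w = 0 := fun n hn => by
    rw [show n = (n - (j + 1)) + (j + 1) by omega, pow_add, End.mul_apply, s.top0, map_zero]
  have e : (Wt ι σ i ⊓ LinearMap.ker (DD ι σ ^ m) : Submodule K P) =
      Submodule.span K (b '' (A : Set (Fin (j + 1)))) := by
    apply le_antisymm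
    · rintro v ⟨hv1, hv2⟩
      rw [b.mem_span_image]
      intro a ha
      have ha0 : b.repr v a ≠ 0 := Finsupp.mem_support_iff.1 ha
      refine Finset.mem_filter.2 ⟨Finset.mem_univ _, ?_, ?_⟩
      · obtain ⟨g, -, hg⟩ := exists_gen ι
        have h1 := hv1 g
        conv_lhs at h1 => rw [← b.sum_repr v]
        simp only [map_sum, map_smul, hb, DD_pow_mem s.wt _ g] at h1
        have h2 := congrArg (fun y => b.repr y a) h1
        simp only [← hb, map_sum, map_smul, Basis.repr_self, Finsupp.smul_apply, smul_eq_mul,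
          Finsupp.coe_finsetSum, Finset.sum_apply, Finsupp.single_apply, mul_ite, mul_one,
          mul_zero, Finset.sum_ite_eq', Finset.mem_univ, if_true] at h2
        exact hg _ _ (mul_left_cancel₀ ha0 (h2.trans (mul_comm _ _)))
      · by_contra hlt
        have h1 : (DD ι σ ^ m) v = 0 := hv2
        rw [← b.sum_repr v, map_sum] at h1
        have h2 := congrArg (fun y => b.repr y ⟨a + m, by omega⟩) h1
        simp only [map_sum, map_smul, Finsupp.coe_finsetSum, Finset.sum_apply, Finsupp.smul_apply,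
          map_zero, Finsupp.zero_apply, smul_eq_mul] at h2
        rw [Finset.sum_eq_single a] at h2
        · rw [hb, ← End.mul_apply, ← pow_add, add_comm m, ← hb ⟨a + m, by omega⟩] at h2
          simp [ha0] at h2
        · intro c _ hc
          rw [hb, ← End.mul_apply, ← pow_add, add_comm m]
          by_cases h : j < c + m
          · simp [hz _ h]
          · rw [← hb ⟨c + m, by omega⟩, Basis.repr_self, Finsupp.single_eq_of_ne, mul_zero]
            intro h'
            exact hc (Fin.ext (by simpa using (congrArg Fin.val h').symm))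
        · simp
    · rw [Submodule.span_le]
      rintro _ ⟨a, ha, rfl⟩
      obtain ⟨h1, h2⟩ := (Finset.mem_filter.1 ha).2
      refine ⟨?_, ?_⟩
      · rw [hb, ← Wt_congr h1]
        exact DD_pow_mem s.wt a
      · change (DD ι σ ^ m) (b a) = 0
        rw [hb, ← End.mul_apply, ← pow_add, hz _ (by omega)]
  rw [e, Set.image_eq_range]
  exact (finrank_span_eq_card
    (b.linearIndependent.comp (fun a : (A : Set (Fin (j + 1))) => (a : Fin (j + 1)))
      Subtype.val_injective)).trans (by simp)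

end Cfsg.Agent.H91.LIN
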