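import Cfsg.Agent.H91.LinD3

/-! The modules of homogeneous polynomial functions. -/

set_option autoImplicit false
set_option linter.unusedSectionVars false

namespace Cfsg.Agent.H91.LIN

open Module Matrix

universe u v w

section Alg

variable {K : Type u} [Field K] {A : Type v} [CommRing A] [Algebra K A]

variable (K) in
/-- The span of the monomials of degree `j` in two elements. -/
def QQ (l m : A) (j : ℕ) : Submodule K A :=
  Submodule.span K (Set.range fun a : Fin (j + 1) => l ^ (a : ℕ) * m ^ (j - a))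

theorem mon_mem (l m : A) {a b j : ℕ} (h : a + b = j) : l ^ a * m ^ b ∈ QQ K l m j :=
  Submodule.subset_span ⟨⟨a, by omega⟩, by simp [← h]⟩

theorem mul_mem_QQ {l m f : A} {j : ℕ} (α β : K) (hf : f ∈ QQ K l m j) :
    (α • l + β • m) * f ∈ QQ K l m (j + 1) := by
  induction hf using Submodule.span_induction with
  | mem x hx =>
    obtain ⟨a, rfl⟩ := hx
    have e : (α • l + β • m) * (l ^ (a : ℕ) * m ^ (j - a)) =
        α • (l ^ (a + 1 : ℕ) * m ^ (j - a)) + β • (l ^ (a : ℕ) * m ^ (j - a + 1)) := by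
      simp only [Algebra.smul_def]; ring
    rw [e]
    exact add_mem (Submodule.smul_mem _ _ (mon_mem l m (by omega)))
      (Submodule.smul_mem _ _ (mon_mem l m (by omega)))
  | zero => simp
  | add x y _ _ hx hy => rw [mul_add]; exact add_mem hx hy
  | smul c x _ hx => rw [mul_smul_comm]; exact Submodule.smul_mem _ _ hx

theorem pow_mem_QQ (l m : A) (α β γ δ : K) (a b : ℕ) :
    (α • l + β • m) ^ a * (γ • l + δ • m) ^ b ∈ QQ K l m (a + b) := by
  induction a with
  | zero =>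
    rw [pow_zero, one_mul, zero_add]
    induction b with
    | zero => simpa using mon_mem (K := K) l m (a := 0) (b := 0) rfl
    | succ b ih => rw [pow_succ']; exact mul_mem_QQ _ _ ih
  | succ a ih =>
    rw [pow_succ', mul_assoc, add_right_comm]
    exact mul_mem_QQ _ _ ih

theorem QQ_le {l m l' m' : A} (α β γ δ : K) (h1 : l' = α • l + β • m) (h2 : m' = γ • l + δ • m)
    (j : ℕ) : QQ K l' m' j ≤ QQ K l m j := by
  rw [QQ, Submodule.span_le]
  rintro _ ⟨a, rfl⟩
  have := pow_mem_QQ l m α β γ δ a (j - a)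
  rwa [← h1, ← h2, show a + (j - a) = j by omega] at this

end Alg

variable {p : ℕ} [hp : Fact p.Prime] {K : Type u} [Field K]

variable (p K) in
/-- The right regular action on functions. -/
def RR : Representation K (SG (ZMod p)) (SG (ZMod p) → K) where
  toFun h := LinearMap.funLeft K K (· * h)
  map_one' := by ext f g; simp
  map_mul' h h' := by ext f g; simp [mul_assoc]

theorem RR_apply (h g : SG (ZMod p)) (f : SG (ZMod p) → K) : RR p K h f g = f (g * h) := rfl

theorem RR_mon (h : SG (ZMod p)) (f f' : SG (ZMod p) → K) (a b : ℕ) :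
    RR p K h (f ^ a * f' ^ b) = RR p K h f ^ a * RR p K h f' ^ b := rfl

variable (ι : ZMod p →+* K)

/-- The lower left entry. -/
def y1 : SG (ZMod p) → K := fun g => ι (g.1 1 0)

/-- The lower right entry. -/
def y2 : SG (ZMod p) → K := fun g => ι (g.1 1 1)

theorem RR_y1 (h : SG (ZMod p)) : RR p K h (y1 ι) = ι (h.1 0 0) • y1 ι + ι (h.1 1 0) • y2 ι := by
  ext g
  simp [RR_apply, y1, y2, Matrix.mul_apply, mul_comm]

theorem RR_y2 (h : SG (ZMod p)) : RR p K h (y2 ι) = ι (h.1 0 1) • y1 ι + ι (h.1 1 1) • y2 ι := by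
  ext g
  simp [RR_apply, y1, y2, Matrix.mul_apply, mul_comm]

/-- Homogeneous polynomial functions of degree `j`. -/
def PP (j : ℕ) : Submodule K (SG (ZMod p) → K) := QQ K (y1 ι) (y2 ι) j

theorem PP_inv (j : ℕ) (h : SG (ZMod p)) : PP ι j ≤ (PP ι j).comap (RR p K h) := by
  rw [PP, QQ, Submodule.span_le]
  rintro _ ⟨a, rfl⟩
  change RR p K h _ ∈ QQ K (y1 ι) (y2 ι) j
  have := pow_mem_QQ (y1 ι) (y2 ι) (ι (h.1 0 0)) (ι (h.1 1 0)) (ι (h.1 0 1)) (ι (h.1 1 1)) a (j - a)
  rwa [← RR_y1, ← RR_y2, show a + (j - a) = j by omega] at this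

/-- The representation on polynomial functions. -/
noncomputable def σP (j : ℕ) : Representation K (SG (ZMod p)) (PP ι j) :=
  (RR p K).subrepresentation (PP ι j) (PP_inv ι j)

theorem σP_coe (j : ℕ) (h : SG (ZMod p)) (f : PP ι j) :
    (σP ι j h f : SG (ZMod p) → K) = RR p K h f := rfl

/-- The lowest weight vector. -/
def wP (j : ℕ) : PP ι j := ⟨y1 ι ^ 0 * y2 ι ^ j, mon_mem _ _ (zero_add j)⟩

theorem sum_inv_pow (h3 : 3 ≤ p) {r : ℕ} (hr : r < p) :
    ∑ k : ZMod p, k⁻¹ * k ^ r = if r = 1 then -1 else 0 := by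
  rcases r with _ | _ | r
  · simpa using sum_inv h3
  · simpa using sum_inv_mul
  · rw [if_neg (by omega), ← FiniteField.sum_pow_lt_card_sub_one (ZMod p) (r + 1)
      (by rw [ZMod.card]; omega)]
    refine Finset.sum_congr rfl fun k _ => ?_
    by_cases hk : k = 0
    · simp [hk]
    · field_simp
      ring

theorem DD_mon (h3 : 3 ≤ p) (a : ℕ) {m : ℕ} (hm : m < p) :
    DD ι (RR p K) (y1 ι ^ a * y2 ι ^ m) = -(m : K) • (y1 ι ^ (a + 1) * y2 ι ^ (m - 1)) := by
  ext g
  simp only [DD_apply, RR_mon, RR_y1, RR_y2, coe_uu, Finset.sum_apply, Pi.smul_apply, Pi.mul_apply,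
    Pi.pow_apply, Pi.add_apply, smul_eq_mul, of_apply, cons_val', cons_val_zero, cons_val_one,
    cons_val_fin_one, map_one, map_zero, one_mul, zero_mul, add_zero]
  simp only [add_pow, Finset.mul_sum]
  rw [Finset.sum_comm]
  have e : ∀ r ∈ Finset.range (m + 1), ∑ k : ZMod p, ι k⁻¹ * (y1 ι g ^ a *
      ((ι k * y1 ι g) ^ r * y2 ι g ^ (m - r) * (m.choose r : K))) =
      if r = 1 then -(m : K) * (y1 ι g ^ (a + 1) * y2 ι g ^ (m - 1)) else 0 := fun r hr => by
    have := congrArg ι (sum_inv_pow h3 (r := r) (by have := Finset.mem_range.1 hr; omega))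
    rw [map_sum] at this
    rw [Finset.sum_congr rfl fun k _ => show _ = ι (k⁻¹ * k ^ r) *
      (y1 ι g ^ (a + r) * y2 ι g ^ (m - r) * (m.choose r : K)) by
        rw [map_mul, map_pow]; ring, ← Finset.sum_mul, this]
    split_ifs with h
    · subst h; simp; ring
    · simp
  rw [Finset.sum_congr rfl e, Finset.sum_ite_eq']
  split_ifs with h
  · rfl
  · have : m = 0 := by simpa using h
    simp [this]

theorem DD_pow_mon (h3 : 3 ≤ p) {j : ℕ} (hj : j < p) (a : ℕ) (ha : a ≤ j) :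
    ∃ c : K, c ≠ 0 ∧ (DD ι (RR p K) ^ a) (y1 ι ^ 0 * y2 ι ^ j) = c • (y1 ι ^ a * y2 ι ^ (j - a)) := by
  have : CharP K p := (ι.charP_iff_charP p).1 inferInstance
  induction a with
  | zero => exact ⟨1, one_ne_zero, by simp⟩
  | succ a ih =>
    obtain ⟨c, hc, e⟩ := ih (by omega)
    refine ⟨c * -((j - a : ℕ) : K), mul_ne_zero hc (neg_ne_zero.2 fun h => ?_), ?_⟩
    · have := Nat.le_of_dvd (by omega) ((CharP.cast_eq_zero_iff K p _).1 h)
      omega
    · rw [pow_succ', End.mul_apply, e, map_smul, DD_mon ι h3 a (by omega), smul_smul, Nat.sub_sub]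

theorem y1_pow_ne (j : ℕ) : y1 ι ^ j ≠ 0 := fun h => by
  simpa [y1] using congrFun h ss

theorem DD_top (h3 : 3 ≤ p) {j : ℕ} (hj : j < p) :
    (DD ι (RR p K) ^ (j + 1)) (y1 ι ^ 0 * y2 ι ^ j) = 0 ∧
      (DD ι (RR p K) ^ j) (y1 ι ^ 0 * y2 ι ^ j) ≠ 0 := by
  obtain ⟨c, hc, e⟩ := DD_pow_mon ι h3 hj j le_rfl
  constructor
  · rw [pow_succ', End.mul_apply, e, map_smul, DD_mon ι h3 j (by omega)]
    simp
  · rw [e]
    simpa [hc] using y1_pow_ne ι j

theorem finrank_PP (h3 : 3 ≤ p) {j : ℕ} (hj : j < p) : finrank K (PP ι j) = j + 1 := by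
  choose c hc e using fun a : Fin (j + 1) => DD_pow_mon ι h3 hj a (by omega)
  have h1 := (indep_pow _ _ j (DD_top ι h3 hj).1 (DD_top ι h3 hj).2).units_smul
    fun a => (Units.mk0 _ (hc a))⁻¹
  have h2 : LinearIndependent K fun a : Fin (j + 1) => y1 ι ^ (a : ℕ) * y2 ι ^ (j - a) := by
    refine (congrArg (fun v => LinearIndependent K v) (funext fun a => ?_)).mp h1
    rw [Pi.smul_apply', e, Units.smul_def, smul_smul, Units.val_inv_eq_inv_val, Units.val_mk0,
      inv_mul_cancel₀ (hc a), one_smul]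
  exact (finrank_span_eq_card h2).trans (by simp)

theorem DD_coe (j n : ℕ) (f : PP ι j) :
    ((DD ι (σP ι j) ^ n) f : SG (ZMod p) → K) = (DD ι (RR p K) ^ n) f :=
  hom_pow (f := (PP ι j).subtype) (hom_DD fun _ _ => rfl) n f

theorem RR_ss (j : ℕ) : RR p K ss (y1 ι ^ j * y2 ι ^ 0) = (-1 : K) ^ j • (y1 ι ^ 0 * y2 ι ^ j) := by
  rw [RR_mon, RR_y1]
  simp [neg_pow (y2 ι), Algebra.smul_def]

theorem str_PP (h3 : 3 ≤ p) {j : ℕ} (hj : j < p) : Str ι (σP ι j) j (wP ι j) where
  le := hj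
  dim := finrank_PP ι h3 hj
  wt a := Subtype.ext (by
    have ha : ι a ≠ 0 := (map_ne_zero ι).2 a.ne_zero
    have h1 : ι a ^ (p - 1 - j) * ι a ^ j = 1 := by
      rw [← pow_add, show p - 1 - j + j = p - 1 by omega, ← pow_zero (ι a)]
      exact pow_modEq a (Nat.modEq_zero_iff_dvd.2 dvd_rfl)
    rw [eq_inv_of_mul_eq_one_left h1]
    change RR p K _ (y1 ι ^ 0 * y2 ι ^ j) = _ • (y1 ι ^ 0 * y2 ι ^ j)
    rw [RR_mon, RR_y2]
    simp only [coe_tt, of_apply, cons_val', cons_val_zero, cons_val_one, cons_val_fin_one, map_zero,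
      zero_smul, zero_add, pow_zero, one_mul, smul_pow, map_inv₀, inv_pow])
  top0 := Subtype.ext ((DD_coe ι j _ _).trans (DD_top ι h3 hj).1)
  top1 h := (DD_top ι h3 hj).2 ((DD_coe ι j _ _).symm.trans (congrArg Subtype.val h))
  gen := by
    obtain ⟨c, hc, e⟩ := DD_pow_mon ι h3 hj j le_rfl
    refine ⟨(c * (-1) ^ j)⁻¹, Subtype.ext ?_⟩
    rw [Submodule.coe_smul, σP_coe, DD_coe]
    change _ = _ • RR p K ss ((DD ι (RR p K) ^ j) (y1 ι ^ 0 * y2 ι ^ j))
    rw [e, map_smul, Nat.sub_self, RR_ss, smul_smul, smul_smul, mul_assoc,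
      inv_mul_cancel₀ (mul_ne_zero hc (pow_ne_zero _ (by simp))), one_smul]
    rfl

theorem PP_le (h3 : 3 ≤ p) {j : ℕ} (hj : j < p) (R : Submodule K (SG (ZMod p) → K))
    (hR : ∀ g, ∀ f ∈ R, RR p K g f ∈ R) (h : y1 ι ^ j ∈ R) : PP ι j ≤ R := by
  have h1 : y1 ι ^ 0 * y2 ι ^ j ∈ R := by
    have := hR ss (y1 ι ^ j * y2 ι ^ 0) (by simpa using h)
    rw [RR_ss] at this
    exact (R.smul_mem_iff (pow_ne_zero _ (by simp))).1 this
  have h2 : ∀ a, (DD ι (RR p K) ^ a) (y1 ι ^ 0 * y2 ι ^ j) ∈ R := fun a => by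
    induction a with
    | zero => exact h1
    | succ a ih =>
      rw [pow_succ', End.mul_apply, DD_apply]
      exact R.sum_mem fun k _ => R.smul_mem _ (hR _ _ ih)
  rw [PP, QQ, Submodule.span_le]
  rintro _ ⟨a, rfl⟩
  obtain ⟨c, hc, e⟩ := DD_pow_mon ι h3 hj a (by omega)
  exact (R.smul_mem_iff hc).1 (e ▸ h2 a)

theorem fx_PP [IsAlgClosed K] (h5 : 5 ≤ p) {j : ℕ} (hj : j < p) :
    (j + 3 - 2 * j % 3) / 3 ≤ fx (σP ι j) xx := by
  have : CharP K p := (ι.charP_iff_charP p).1 inferInstance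
  have h3 : (3 : K) ≠ 0 := fun h => by
    have := Nat.le_of_dvd (by omega) ((CharP.cast_eq_zero_iff K p 3).1 (by exact_mod_cast h))
    omega
  obtain ⟨ω, hω⟩ : ∃ ω : K, ω ^ 2 + ω + 1 = 0 := by
    obtain ⟨z, hz⟩ := IsAlgClosed.exists_root (Polynomial.X ^ 2 + Polynomial.X + 1 : Polynomial K)
      (by rw [show (Polynomial.X ^ 2 + Polynomial.X + 1 : Polynomial K).degree = 2 by
        compute_degree!]; simp)
    exact ⟨z, by simpa using hz⟩
  have hω3 : ω ^ 3 = 1 := by linear_combination (ω - 1) * hω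
  obtain ⟨δ, hδ⟩ : ∃ δ : K, δ * (ω ^ 2 - ω) = 1 := ⟨_, inv_mul_cancel₀ fun h =>
    h3 (by linear_combination 4 * hω - (2 * ω + 1) * (hω - h))⟩
  set l1 : SG (ZMod p) → K := (1 : K) • y1 ι + (-ω) • y2 ι with hl1
  set l2 : SG (ZMod p) → K := (1 : K) • y1 ι + (-ω ^ 2) • y2 ι with hl2
  have e : QQ K l1 l2 j = PP ι j := le_antisymm (QQ_le _ _ _ _ hl1 hl2 j)
    (QQ_le (ω ^ 2 * δ) (-ω * δ) δ (-δ)
      (by rw [hl1, hl2]; match_scalars; exacts [by linear_combination -hδ, by ring])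
      (by rw [hl1, hl2]; match_scalars; exacts [by linear_combination -hδ, by ring]) j)
  have x1 : RR p K xx l1 = ω • l1 := by
    rw [hl1, map_add, map_smul, map_smul, RR_y1, RR_y2]
    simp only [coe_xx, of_apply, cons_val', cons_val_zero, cons_val_one, cons_val_fin_one, map_one,
      map_zero, map_neg]
    match_scalars
    · ring
    · linear_combination hω
  have x2 : RR p K xx l2 = ω ^ 2 • l2 := by
    rw [hl2, map_add, map_smul, map_smul, RR_y1, RR_y2]
    simp only [coe_xx, of_apply, cons_val', cons_val_zero, cons_val_one, cons_val_fin_one, map_one,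
      map_zero, map_neg]
    match_scalars
    · ring
    · linear_combination (ω ^ 2 - ω + 1) * hω
  have hind : LinearIndependent K fun a : Fin (j + 1) => l1 ^ (a : ℕ) * l2 ^ (j - a) := by
    rw [linearIndependent_iff_card_eq_finrank_span, Fintype.card_fin]
    exact (finrank_PP ι (by omega) hj).symm.trans (by rw [← e]; rfl)
  have := (str_PP ι (by omega) hj).fd
  set n := (j + 3 - 2 * j % 3) / 3
  let φ : Fin n → Fin (j + 1) := fun i => ⟨2 * j % 3 + 3 * i, by have := i.2; omega⟩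
  have hφ : Function.Injective φ := fun i i' h => Fin.ext (by
    have := congrArg Fin.val h
    simp only [φ] at this
    omega)
  let b : Fin n → LinearMap.ker (σP ι j xx - 1) := fun i =>
    ⟨⟨l1 ^ (φ i : ℕ) * l2 ^ (j - φ i), e ▸ mon_mem _ _ (by have := (φ i).2; omega)⟩, by
      rw [LinearMap.mem_ker, LinearMap.sub_apply, sub_eq_zero]
      refine Subtype.ext ?_
      change RR p K xx (l1 ^ (φ i : ℕ) * l2 ^ (j - φ i)) = l1 ^ (φ i : ℕ) * l2 ^ (j - φ i)
      obtain ⟨t, ht⟩ : 3 ∣ φ i + 2 * (j - φ i) := by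
        have := (φ i).2
        simp only [φ] at this ⊢
        omega
      rw [RR_mon, x1, x2, smul_pow, smul_pow, smul_mul_smul_comm, ← pow_mul, ← pow_add, ht, pow_mul,
        hω3, one_pow, one_smul]⟩
  have hb : LinearIndependent K b :=
    LinearIndependent.of_comp ((PP ι j).subtype ∘ₗ (LinearMap.ker (σP ι j xx - 1)).subtype)
      (hind.comp φ hφ)
  simpa [fx] using hb.fintype_card_le_finrank

end Cfsg.Agent.H91.LIN
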