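import Cfsg.Agent.H91.LinD4

/-! The simple modules of `SL₂(p)` in characteristic `p`. -/

set_option autoImplicit false
set_option linter.unusedSectionVars false

namespace Cfsg.Agent.H91.LIN

open Module Matrix

universe u v w

variable {p : ℕ} [hp : Fact p.Prime] {K : Type u} [Field K] {V : Type w} [AddCommGroup V]
  [Module K V] (ι : ZMod p →+* K)

theorem tt_pow {F : Type} [Field F] (a : Fˣ) (n : ℕ) : tt (a ^ n) = tt a ^ n := by
  induction n with
  | zero => rw [pow_zero, pow_zero, tt_one]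
  | succ n ih => rw [pow_succ, pow_succ, ← tt_mul, ih]

theorem entry_big {F : Type} [Field F] (k l : F) (a : Fˣ) :
    (uu k * (tt a * ss) * uu l).1 1 0 = -(a : F)⁻¹ := by
  simp [Matrix.mul_apply]

theorem exists_top [IsAlgClosed K] [FiniteDimensional K V] [Nontrivial V] (h3 : 3 ≤ p)
    (ρ : Representation K (SG (ZMod p)) V) :
    ∃ v : V, v ≠ 0 ∧ (∀ k, ρ (uu k) v = v) ∧ ∃ j, 1 ≤ j ∧ j < p ∧ v ∈ Wt ι ρ j := by
  obtain ⟨-, -, -, -, hn⟩ := DD_eq (ι := ι) (ρ := ρ) h3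
  obtain ⟨g, hg, hg'⟩ := exists_gen ι
  set Y := LinearMap.ker (ρ (uu 1) - 1)
  have hY : ∀ v ∈ Y, ∀ k, ρ (uu k) v = v := fun v hv k => by
    rw [uu_eq k, map_pow]
    rw [Module.End.pow_apply]
    exact Function.iterate_fixed (sub_eq_zero.1 hv) _
  have hne : Y ≠ ⊥ := fun h => by
    have h1 : IsUnit (ρ (uu 1) - 1) := (LinearMap.isUnit_iff_ker_eq_bot _).2 h
    exact not_isUnit_zero (hn ▸ h1.pow p)
  have : Nontrivial Y := Submodule.nontrivial_iff_ne_bot.2 hne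
  have hm : ∀ v ∈ Y, ρ (tt g) v ∈ Y := fun v hv => by
    change ρ (uu 1) (ρ (tt g) v) - ρ (tt g) v = 0
    have := tt_uu g ((g : ZMod p) ^ 2)⁻¹
    rw [mul_inv_cancel₀ (pow_ne_zero 2 g.ne_zero)] at this
    rw [rep_mul, ← this, ← rep_mul, hY v hv, sub_self]
  obtain ⟨μ, hμ⟩ := Module.End.exists_eigenvalue ((ρ (tt g)).restrict hm)
  obtain ⟨v, hv⟩ := hμ.exists_hasEigenvector
  have h1 : ρ (tt g) v = μ • (v : V) := congrArg Subtype.val hv.apply_eq_smul
  have h0 : (v : V) ≠ 0 := fun h => hv.2 (Subtype.ext h)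
  have h2 : ∀ n : ℕ, ρ (tt (g ^ n)) v = μ ^ n • (v : V) := fun n => by
    induction n with
    | zero => simp [tt_one]
    | succ n ih => rw [pow_succ, ← tt_mul, ← rep_mul, h1, map_smul, ih, smul_smul, pow_succ']
  have h4 : μ ^ (p - 1) = 1 := by
    have := h2 (p - 1)
    rw [ZMod.units_pow_card_sub_one_eq_one, tt_one, map_one, End.one_apply] at this
    exact smul_left_injective K h0 (this.symm.trans (one_smul K _).symm)
  have : NeZero (p - 1) := ⟨by omega⟩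
  have hprim : IsPrimitiveRoot (ι g) (p - 1) :=
    ⟨(pow_modEq g (Nat.modEq_zero_iff_dvd.2 dvd_rfl)).trans (pow_zero _), fun l hl =>
      Nat.modEq_zero_iff_dvd.1 (hg' l 0 (hl.trans (pow_zero _).symm))⟩
  obtain ⟨i, hi, rfl⟩ := hprim.eq_pow_of_pow_eq_one h4
  have h5 : (v : V) ∈ Wt ι ρ i := fun a => by
    obtain ⟨n, rfl⟩ := hg a
    simp only [h2, Units.val_pow_eq_pow_val, map_pow, ← pow_mul, mul_comm]
  refine ⟨v, h0, hY v v.2, ?_⟩
  rcases Nat.eq_zero_or_pos i with rfl | hi0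
  · exact ⟨p - 1, by omega, by omega,
      Wt_congr (ι := ι) (ρ := ρ) (Nat.modEq_zero_iff_dvd.2 dvd_rfl) ▸ h5⟩
  · exact ⟨i, hi0, by omega, h5⟩

variable {ι}

/-- Functions fixed by `U` on both sides with a weight on the left. -/
structure Bi (j : ℕ) (f : SG (ZMod p) → K) : Prop where
  lu : ∀ k g, f (uu k * g) = f g
  lt : ∀ a g, f (tt a * g) = (ι a)⁻¹ ^ j * f g
  ru : ∀ k g, f (g * uu k) = f g

theorem Bi.eq {j : ℕ} {f : SG (ZMod p) → K} (b : Bi (ι := ι) j f) (hj : 1 ≤ j) (h1 : f 1 = 0) :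
    f = (f ss * (-1) ^ j) • y1 ι ^ j := by
  ext g
  rcases bruhat g with ⟨hc, k, a, e⟩ | ⟨-, k, a, l, rfl⟩
  · have : f g = 0 := by rw [e, b.lu, ← mul_one (tt a), b.lt, h1, mul_zero]
    simp [this, y1, hc, show j ≠ 0 by omega]
  · rw [b.ru, mul_assoc, b.lu, b.lt]
    have : y1 ι (uu k * (tt a * ss) * uu l) = -(ι a)⁻¹ := by
      rw [y1, entry_big, map_neg, map_inv₀]
    rw [Pi.smul_apply, Pi.pow_apply, this, smul_eq_mul, mul_assoc, ← mul_pow, mul_comm]
    simp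

theorem exists_y1 (h3 : 3 ≤ p) (R : Submodule K (SG (ZMod p) → K))
    (hR : ∀ g, ∀ f ∈ R, RR p K g f ∈ R) {j : ℕ} (hj : 1 ≤ j) (hjp : j < p)
    (hu : ∀ f ∈ R, ∀ k g, f (uu k * g) = f g)
    (ht : ∀ f ∈ R, ∀ a g, f (tt a * g) = (ι a)⁻¹ ^ j * f g) {f : SG (ZMod p) → K} (hf : f ∈ R)
    (h0 : f ≠ 0) (hr : ∀ k g, f (g * uu k) = f g) : ∃ j', j' < p ∧ y1 ι ^ j' ∈ R := by
  have key : ∀ f ∈ R, (∀ k g, f (g * uu k) = f g) → f 1 = 0 → f ss ≠ 0 → y1 ι ^ j ∈ R :=
    fun f hf hr h1 hs => by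
      rw [(⟨hu f hf, ht f hf, hr⟩ : Bi j f).eq hj h1] at hf
      exact (R.smul_mem_iff (mul_ne_zero hs (pow_ne_zero _ (by simp)))).1 hf
  by_cases h1 : f 1 = 0
  · refine ⟨j, hjp, key f hf hr h1 fun hs => h0 ?_⟩
    rw [(⟨hu f hf, ht f hf, hr⟩ : Bi j f).eq hj h1, hs, zero_mul, zero_smul]
  set f' : SG (ZMod p) → K := ∑ k : ZMod p, RR p K (uu k * ss) f with hf'
  have e' : ∀ g, f' g = ∑ k : ZMod p, f (g * (uu k * ss)) := fun g => by
    rw [hf', Finset.sum_apply]; rfl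
  have m' : f' ∈ R := R.sum_mem fun k _ => hR _ _ hf
  have r' : ∀ k g, f' (g * uu k) = f' g := fun l g => by
    simp only [e', mul_assoc, ← mul_assoc (uu l), uu_add]
    exact Fintype.sum_equiv (Equiv.addLeft l) _ _ fun _ => rfl
  have o' : f' 1 = 0 := by
    simp only [e', one_mul, hu f hf]
    exact sum_const_F (card_zero ι) _
  have s' : f' ss = (ι (-1))⁻¹ ^ j * f 1 + (∑ a : (ZMod p)ˣ, ι a ^ j) * f ss := by
    rw [e', sum_units, uu_zero, one_mul, ss_ss, ← mul_one (tt _), ht f hf, Finset.sum_mul]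
    congr 1
    refine Fintype.sum_equiv (Equiv.neg _) _ _ fun a => ?_
    rw [← mul_assoc, ss_uu_ss, hr, mul_assoc, hu f hf, ← inv_inv (-a), ← tt_ss, ht f hf]
    simp only [Units.val_inv_eq_inv_val, map_inv₀, inv_inv, Equiv.neg_apply]
  by_cases hs : f' ss = 0
  · rcases (show j < p - 1 ∨ j = p - 1 by omega) with h | rfl
    · have : ∑ a : (ZMod p)ˣ, ι a ^ j = 0 := by
        have h2 := FiniteField.sum_pow_lt_card_sub_one (ZMod p) j (by rwa [ZMod.card])
        rw [sum_units, zero_pow (by omega), zero_add] at h2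
        simpa only [map_sum, map_pow, map_zero] using congrArg ι h2
      rw [s', this, zero_mul, add_zero] at hs
      exact absurd hs (mul_ne_zero (pow_ne_zero _ (by simp)) h1)
    · have h2 : ∀ a : (ZMod p)ˣ, ι a ^ (p - 1) = 1 := fun a =>
        (pow_modEq a (Nat.modEq_zero_iff_dvd.2 dvd_rfl)).trans (pow_zero _)
      have h4 := h2 (-1)
      rw [Units.val_neg, Units.val_one] at h4
      simp only [s', h2, inv_pow, h4, sum_const_units (K := K) (card_zero ι)] at hs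
      have h5 : f = f 1 • y1 ι ^ 0 := by
        ext g
        rw [pow_zero, Pi.smul_apply, Pi.one_apply, smul_eq_mul, mul_one]
        rcases bruhat g with ⟨-, k, a, rfl⟩ | ⟨-, k, a, l, rfl⟩
        · rw [hu f hf, ← mul_one (tt a), ht f hf, inv_pow, h2, inv_one, one_mul]
        · rw [hr, mul_assoc, hu f hf, ht f hf, inv_pow, h2]
          linear_combination -hs
      rw [h5] at hf
      exact ⟨0, by omega, (R.smul_mem_iff h1).1 hf⟩
  · exact ⟨j, hjp, key f' m' r' o' hs⟩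

theorem exists_iso [IsAlgClosed K] [FiniteDimensional K V] [Nontrivial V] (h3 : 3 ≤ p)
    (ρ : Representation K (SG (ZMod p)) V)
    (hs : ∀ U : Submodule K V, (∀ g, U ≤ U.comap (ρ g)) → U = ⊥ ∨ U = ⊤) :
    ∃ j, j < p ∧ ∃ i : PP ι j →ₗ[K] V, Function.Injective i ∧
      ∀ g v, ρ g (i v) = i (σP ι j g v) := by
  have : Nontrivial (Module.Dual K V) := (Module.nontrivial_dual_iff K).2 inferInstance
  obtain ⟨l, hl, hlu, j, hj, hjp, hlt⟩ := exists_top ι h3 ρ.dual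
  let φ : V →ₗ[K] SG (ZMod p) → K := LinearMap.pi fun g => l ∘ₗ ρ g
  have hφ : ∀ v g, φ v g = l (ρ g v) := fun _ _ => rfl
  have hG : ∀ g v, φ (ρ g v) = RR p K g (φ v) := fun g v => by
    ext h; rw [RR_apply, hφ, hφ, rep_mul]
  have hker : LinearMap.ker φ = ⊥ := by
    refine (hs _ fun g v hv => ?_).resolve_right fun h => hl ?_
    · change φ (ρ g v) = 0
      rw [hG, show φ v = 0 from hv, map_zero]
    · ext v
      have : φ v = 0 := by rw [← LinearMap.mem_ker, h]; trivial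
      simpa [hφ] using congrFun this 1
  have hinj := LinearMap.ker_eq_bot.1 hker
  have hR : ∀ g, ∀ f ∈ LinearMap.range φ, RR p K g f ∈ LinearMap.range φ := by
    rintro g _ ⟨v, rfl⟩
    exact ⟨_, hG g v⟩
  obtain ⟨v, hv, hvu, -⟩ := exists_top ι h3 ρ
  obtain ⟨j', hj', hy⟩ := exists_y1 (ι := ι) h3 (LinearMap.range φ) hR hj hjp
    (by
      rintro _ ⟨v, rfl⟩ k g
      have h1 : (uu (-k))⁻¹ = uu k := inv_eq_of_mul_eq_one_right (by
        rw [uu_add, neg_add_cancel, uu_zero])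
      have := LinearMap.congr_fun (hlu (-k)) (ρ g v)
      rw [Representation.dual_apply, h1] at this
      rw [hφ, hφ, ← rep_mul]
      exact this)
    (by
      rintro _ ⟨v, rfl⟩ a g
      have h1 : (tt a⁻¹)⁻¹ = tt a := inv_eq_of_mul_eq_one_right (by
        rw [tt_mul, inv_mul_cancel, tt_one])
      have := LinearMap.congr_fun (hlt a⁻¹) (ρ g v)
      rw [Representation.dual_apply, h1, Units.val_inv_eq_inv_val, map_inv₀] at this
      rw [hφ, hφ, ← rep_mul]
      exact this)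
    ⟨v, rfl⟩ (fun h => hv (hinj (h.trans (map_zero φ).symm)))
    (fun k g => by rw [hφ, hφ, ← rep_mul, hvu])
  have hle := PP_le ι h3 hj' _ hR hy
  obtain ⟨r, hr⟩ := φ.exists_leftInverse_of_injective hker
  have hr' : ∀ f : PP ι j', φ (r f) = f := fun f => by
    obtain ⟨v, hv⟩ := hle f.2
    rw [← hv, show r (φ v) = v from LinearMap.congr_fun hr v]
  refine ⟨j', hj', r ∘ₗ (PP ι j').subtype, fun f f' h => Subtype.ext ?_, fun g f => hinj ?_⟩
  · rw [← hr' f, ← hr' f']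
    exact congrArg φ h
  · rw [hG]
    exact (congrArg _ (hr' f)).trans (hr' (σP ι j' g f)).symm

end Cfsg.Agent.H91.LIN
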