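import Cfsg.Agent.H91.LinD5

/-! The fixed space bound for `SL₂(p)` in characteristic `p`. -/

set_option autoImplicit false
set_option linter.unusedSectionVars false

namespace Cfsg.Agent.H91.LIN

open Module Matrix

universe u v w w' w''

variable {p : ℕ} [hp : Fact p.Prime] {K : Type u} [Field K] {V : Type w} [AddCommGroup V]
  [Module K V] (ι : ZMod p →+* K)

/-- The multiplicity of the Steinberg module in `Hom (P k, V)`. -/
noncomputable def MM (k : ℕ) (ρ : Representation K (SG (ZMod p)) V) : ℕ :=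
  Phi ((σP ι k).linHom ρ)

/-- The dimension of the space of `U`-fixed vectors of weight `i`. -/
noncomputable def nn (i : ℕ) (ρ : Representation K (SG (ZMod p)) V) : ℕ :=
  finrank K (Wt ι ρ i ⊓ LinearMap.ker (DD ι ρ ^ 1) : Submodule K V)

theorem MM_add [FiniteDimensional K V] (h3 : 3 ≤ p) {k : ℕ} (hk : k < p)
    (ρ : Representation K (SG (ZMod p)) V) :
    MM ι k ρ + finrank K ((σP ι k).linHom ρ).invariants =
      finrank K (Wt ι ρ (p - 1 - k) ⊓ LinearMap.ker (DD ι ρ ^ (k + 1)) : Submodule K V) := by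
  have := (str_PP ι h3 hk).fd
  rw [MM, Phi_add_inv (card_zero ι), (str_PP ι h3 hk).BF_eq h3]

theorem MM_le [FiniteDimensional K V] {k : ℕ} (hk : k + 3 ≤ p)
    (ρ : Representation K (SG (ZMod p)) V) :
    MM ι (k + 2) ρ ≤ MM ι k ρ + nn ι (p - 3 - k) ρ +
      nn ι (p - 1 - (k + 2) + 2 * (k + 2)) ρ + nn ι k ρ := by
  have h1 := MM_add ι (by omega) (k := k + 2) (by omega) ρ
  have h2 := MM_add ι (by omega) (k := k) (by omega) ρ
  have h3 : finrank K ((σP ι k).linHom ρ).invariants ≤ nn ι k ρ :=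
    (str_PP ι (by omega) (by omega)).inv_le
  have h4 := finrank_le_of_map
    (Wt ι ρ (p - 1 - (k + 2)) ⊓ LinearMap.ker (DD ι ρ ^ (k + 2 + 1))) (DD ι ρ ^ (k + 2))
    (Wt ι ρ (p - 1 - (k + 2) + 2 * (k + 2)) ⊓ LinearMap.ker (DD ι ρ ^ 1))
    (Wt ι ρ (p - 1 - (k + 2)) ⊓ LinearMap.ker (DD ι ρ ^ (k + 2)))
    (fun v hv => ⟨DD_pow_mem hv.1 _, by
      change (DD ι ρ ^ 1) ((DD ι ρ ^ (k + 2)) v) = 0
      rw [← End.mul_apply, ← pow_add, add_comm]; exact hv.2⟩) fun v hv h => ⟨hv.1, h⟩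
  have h5 := finrank_le_of_map
    (Wt ι ρ (p - 1 - (k + 2)) ⊓ LinearMap.ker (DD ι ρ ^ (k + 2))) (DD ι ρ)
    (Wt ι ρ (p - 1 - k) ⊓ LinearMap.ker (DD ι ρ ^ (k + 1)))
    (Wt ι ρ (p - 3 - k) ⊓ LinearMap.ker (DD ι ρ ^ 1))
    (fun v hv => ⟨by
      rw [show p - 1 - k = p - 1 - (k + 2) + 2 by omega]; exact DD_mem hv.1, by
      change (DD ι ρ ^ (k + 1)) (DD ι ρ v) = 0
      rw [← End.mul_apply, ← pow_succ]; exact hv.2⟩)
    fun v hv h => ⟨by rw [show p - 3 - k = p - 1 - (k + 2) by omega]; exact hv.1, by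
      rw [pow_one]; exact h⟩
  unfold nn at h3 ⊢
  omega

theorem sum_nn_le [FiniteDimensional K V] (h3 : 3 ≤ p) (ρ : Representation K (SG (ZMod p)) V)
    (s : Finset ℕ) (hs : ∀ i ∈ s, i < p - 1) : ∑ i ∈ s, nn ι i ρ ≤ fx ρ (uu 1) := by
  obtain ⟨g, -, hg⟩ := exists_gen ι
  refine sum_finrank_le (ρ (tt g)) s (fun i => ι g ^ i) (fun i hi j hj h => ?_) _ _
    (fun i _ v hv => hv.1 g) fun i _ v hv => ?_
  · exact (hg i j h).eq_of_lt_of_lt (hs i hi) (hs j hj)
  · simpa using (DD_pow_eq_zero h3 1 v).1 hv.2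

theorem modEq_iff {n x i : ℕ} (hx : x ≤ 2 * n) (h1 : 1 ≤ i) (hi : i < n) :
    x ≡ i [MOD n] ↔ x = i ∨ x = i + n := by
  constructor
  · intro h
    rcases lt_or_ge x n with h2 | h2
    · exact Or.inl (h.eq_of_lt_of_lt h2 hi)
    · obtain ⟨y, rfl⟩ := Nat.exists_eq_add_of_le' h2
      have h3 : y ≡ i [MOD n] := (Nat.add_modEq_right.symm).trans h
      rcases lt_or_ge y n with h4 | h4
      · exact Or.inr (by rw [h3.eq_of_lt_of_lt h4 hi])
      · have h5 : 0 ≡ i [MOD n] :=
          (Nat.modEq_zero_iff_dvd.2 (by rw [show y = n by omega])).symm.trans h3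
        have := h5.eq_of_lt_of_lt (by omega) hi
        omega
  · rintro (rfl | rfl)
    · rfl
    · exact Nat.add_modEq_right

theorem card_one {j c : ℕ} (Q : Prop) [Decidable Q] :
    (Finset.univ.filter fun a : Fin (j + 1) => (a : ℕ) = c ∧ Q).card =
      if c ≤ j ∧ Q then 1 else 0 := by
  split_ifs with h
  · exact Finset.card_eq_one.2 ⟨⟨c, by omega⟩, by ext a; simp [h.2, Fin.ext_iff]⟩
  · refine Finset.card_eq_zero.2 (Finset.filter_eq_empty_iff.2 fun a _ h' => h ⟨?_, h'.2⟩)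
    have := a.2
    omega

theorem MM_PP (h3 : 3 ≤ p) {i k j : ℕ} (hik : i + k = p - 1) (hi : 1 ≤ i) (hk : 1 ≤ k)
    (hj : j < p) : MM ι k (σP ι j) = if i ≤ j ∧ (i + j) % 2 = 0 then 1 else 0 := by
  have s := str_PP ι h3 hj
  have := s.fd
  have h1 := MM_add ι h3 (k := k) (by omega) (σP ι j)
  have h2 : finrank K (Representation.invariants (k := K) (G := SG (ZMod p))
      (V := PP ι k →ₗ[K] PP ι j) ((σP ι k).linHom (σP ι j))) = if j = k then 1 else 0 := by
    have h4 := (str_PP ι h3 (j := k) (by omega)).inv_le (ρ := σP ι j)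
    rw [s.dimX, Finset.filter_congr (q := fun a : Fin (j + 1) => (a : ℕ) = j ∧ j = k)
      (fun a _ => by
        have := a.2
        rw [modEq_iff (by omega) hk (by omega)]
        omega), card_one] at h4
    split_ifs with h
    · subst h
      exact le_antisymm (h4.trans (by simp)) s.one_le_inv
    · simpa [h] using h4
  rw [h2, s.dimX, Finset.filter_congr (q := fun a : Fin (j + 1) =>
      ((a : ℕ) = (i + j) / 2 ∧ (i + j) % 2 = 0) ∨ ((a : ℕ) = 0 ∧ j = k))
      (fun a _ => by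
        have := a.2
        rw [modEq_iff (by omega) (by omega) (by omega)]
        omega), Finset.filter_or, Finset.card_union_of_disjoint (Finset.disjoint_filter.2
          fun a _ h h' => by omega), card_one, card_one] at h1
  split_ifs at h1 ⊢ <;> omega

/-- The additive form of the bound. -/
def Good (ρ : Representation K (SG (ZMod p)) V) : Prop :=
  finrank K V + 2 * MM ι (p - 4) ρ + MM ι (p - 7) ρ ≤
    4 * fx ρ xx + 2 * MM ι (p - 2) ρ + MM ι (p - 5) ρ

theorem good_PP [IsAlgClosed K] (h : 11 ≤ p) {j : ℕ} (hj : j < p) : Good ι (σP ι j) := by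
  have h1 := fx_PP ι (by omega) hj
  rw [Good, finrank_PP ι (by omega) hj, MM_PP ι (by omega) (i := 3) (by omega) (by omega)
    (by omega) hj, MM_PP ι (by omega) (i := 6) (by omega) (by omega) (by omega) hj,
    MM_PP ι (by omega) (i := 1) (by omega) (by omega) (by omega) hj,
    MM_PP ι (by omega) (i := 4) (by omega) (by omega) (by omega) hj]
  generalize fx (σP ι j) xx = b at h1
  obtain ⟨q, r, hr, rfl⟩ : ∃ q r, r < 6 ∧ j = 6 * q + r :=
    ⟨j / 6, j % 6, by omega, by omega⟩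
  interval_cases r <;> split_ifs <;> omega

theorem SES.good [FiniteDimensional K V] {V' : Type w'} {V'' : Type w''} [AddCommGroup V']
    [Module K V'] [AddCommGroup V''] [Module K V''] {ρ' : Representation K (SG (ZMod p)) V'}
    {ρ : Representation K (SG (ZMod p)) V} {ρ'' : Representation K (SG (ZMod p)) V''}
    {i : V' →ₗ[K] V} {q : V →ₗ[K] V''} (s : SES ρ' ρ ρ'' i q) (h : 11 ≤ p) (h3 : (3 : K) ≠ 0)
    (h' : Good ι ρ') (h'' : Good ι ρ'') : Good ι ρ := by
  have hM : ∀ k, k < p → MM ι k ρ = MM ι k ρ' + MM ι k ρ'' := fun k hk => by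
    have := (str_PP ι (by omega) hk).fd
    exact (s.hom (σP ι k)).Phi_add (card_zero ι)
  unfold Good at h' h'' ⊢
  rw [s.finrank_add, s.fx_add h3, hM _ (by omega), hM (p - 7) (by omega), hM (p - 2) (by omega),
    hM (p - 5) (by omega)]
  omega

theorem ses_of_inj {V' : Type w'} [AddCommGroup V'] [Module K V']
    {ρ' : Representation K (SG (ZMod p)) V'} {ρ : Representation K (SG (ZMod p)) V}
    (i : V' →ₗ[K] V) (hi : Function.Injective i) (hG : ∀ g v, ρ g (i v) = i (ρ' g v)) :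
    ∃ ρ'' : Representation K (SG (ZMod p)) (V ⧸ LinearMap.range i),
      SES ρ' ρ ρ'' i (LinearMap.range i).mkQ :=
  ⟨ρ.quotient _ fun g => by rintro _ ⟨v, rfl⟩; exact ⟨_, (hG g v).symm⟩,
    hi, Submodule.mkQ_surjective _, (Submodule.ker_mkQ _).symm, hG, fun _ _ => rfl⟩

theorem good [IsAlgClosed K] (h : 11 ≤ p) (h3 : (3 : K) ≠ 0) (n : ℕ) :
    ∀ (V : Type w) [AddCommGroup V] [Module K V] [FiniteDimensional K V]
      (ρ : Representation K (SG (ZMod p)) V), finrank K V = n → Good ι ρ := by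
  induction n using Nat.strong_induction_on with | _ n ih =>
  intro V _ _ _ ρ hn
  subst hn
  rcases subsingleton_or_nontrivial V with h0 | h0
  · have hM : ∀ k, k < p → MM ι k ρ = 0 := fun k hk => by
      have h1 := MM_add ι (by omega) hk ρ
      rw [finrank_zero_of_subsingleton (M := (Wt ι ρ _ ⊓ _ : Submodule K V))] at h1
      omega
    rw [Good, finrank_zero_of_subsingleton, hM _ (by omega), hM _ (by omega)]
    omega
  by_cases hs : ∀ U : Submodule K V, (∀ g, U ≤ U.comap (ρ g)) → U = ⊥ ∨ U = ⊤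
  · obtain ⟨j, hj, i, hi, hG⟩ := exists_iso (ι := ι) (by omega) ρ hs
    obtain ⟨ρ'', s⟩ := ses_of_inj i hi hG
    have := s.finrank_add
    rw [finrank_PP ι (by omega) hj] at this
    exact s.good ι h h3 (good_PP ι h hj) (ih _ (by omega) _ ρ'' rfl)
  · push Not at hs
    obtain ⟨U, hU, h1, h2⟩ := hs
    obtain ⟨ρ'', s⟩ := ses_of_inj (ρ' := ρ.subrepresentation U hU) (ρ := ρ) U.subtype
      U.injective_subtype fun _ _ => rfl
    have h4 := s.finrank_add
    have h5 := Submodule.finrank_lt h2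
    have h6 : finrank K U ≠ 0 := fun h => h1 (Submodule.finrank_eq_zero.1 h)
    exact s.good ι h h3 (ih _ h5 _ _ rfl) (ih _ (by omega) _ ρ'' rfl)

theorem bound [IsAlgClosed K] [FiniteDimensional K V] (h : 11 ≤ p) (h3 : (3 : K) ≠ 0)
    (ι : ZMod p →+* K) (ρ : Representation K (SG (ZMod p)) V) :
    finrank K V ≤ 2 * fx ρ (uu 1) + 4 * fx ρ xx := by
  have h1 := good ι h h3 _ V ρ rfl
  have h2 := MM_le ι (k := p - 4) (by omega) ρ
  have h4 := MM_le ι (k := p - 7) (by omega) ρ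
  have e : ∀ i, nn ι (i + (p - 1)) ρ = nn ι i ρ := fun i => by
    rw [nn, Wt_congr Nat.add_modEq_right, nn]
  rw [show p - 4 + 2 = p - 2 by omega, show p - 3 - (p - 4) = 1 by omega,
    show p - 1 - (p - 2) + 2 * (p - 2) = p - 2 + (p - 1) by omega, e] at h2
  rw [show p - 7 + 2 = p - 5 by omega, show p - 3 - (p - 7) = 4 by omega,
    show p - 1 - (p - 5) + 2 * (p - 5) = p - 5 + (p - 1) by omega, e] at h4
  have h5 := sum_nn_le ι (by omega) ρ {1, p - 2, p - 4, 4, p - 5} (by simp; omega)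
  have h6 := sum_nn_le ι (by omega) ρ {1, p - 2, p - 4, p - 7} (by simp; omega)
  rw [Finset.sum_insert (by simp; omega), Finset.sum_insert (by simp; omega),
    Finset.sum_insert (by simp; omega), Finset.sum_insert (by simp; omega),
    Finset.sum_singleton] at h5
  rw [Finset.sum_insert (by simp; omega), Finset.sum_insert (by simp; omega),
    Finset.sum_insert (by simp; omega), Finset.sum_singleton] at h6
  unfold Good at h1
  omega

theorem dStmt : DStmt.{u, w} := by
  intro p hp h K V _ _ _ _ _ ρ h0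
  have : CharP K p := (CharP.charP_iff_prime_eq_zero hp.out).2 h0
  have h3 : (3 : K) ≠ 0 := fun h' => by
    have := Nat.le_of_dvd (by omega) ((CharP.cast_eq_zero_iff K p 3).1 (by exact_mod_cast h'))
    omega
  have := bound h h3 (ZMod.castHom dvd_rfl K) ρ
  rcases le_total (fx ρ (uu 1)) (fx ρ xx) with h1 | h1
  · exact ⟨xx, xx_ne, by omega⟩
  · exact ⟨uu 1, uu_ne, by omega⟩

end Cfsg.Agent.H91.LIN
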