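import Cfsg.Agent.H42.N7Defs

/-! Project N7, piece FRAME: the Sylow subgroup of `C(t)` and its frame. -/

set_option autoImplicit false
set_option linter.unusedSectionVars false

namespace Cfsg.Agent.H91.N7Frame

open Subgroup Cfsg.Agent.H85 Equiv Cfsg.Agent.H42.N7

universe u

/-- `(0 1)(2 3)` -/
def z0 : Perm (Fin 7) := swap 0 1 * swap 2 3
/-- `(0 2)(1 3)` -/
def a0 : Perm (Fin 7) := swap 0 2 * swap 1 3
/-- `(0 1)(4 5)` -/
def b0 : Perm (Fin 7) := swap 0 1 * swap 4 5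
/-- `(4 5)` -/
def f0 : Perm (Fin 7) := swap 4 5
/-- a `3`-cycle -/
def r0 : Perm (Fin 7) := swap 0 1 * swap 1 2
/-- an element of type `3²` -/
def s0 : Perm (Fin 7) := swap 0 2 * swap 2 4 * (swap 1 3 * swap 3 5)

theorem sg0 : Perm.sign z0 = 1 ∧ Perm.sign a0 = 1 ∧ Perm.sign b0 = 1 ∧ Perm.sign f0 = -1 ∧
    Perm.sign r0 = 1 ∧ Perm.sign s0 = 1 := by
  simp [z0, a0, b0, f0, r0, s0]

theorem rel0 : z0 * z0 = 1 ∧ a0 * a0 = 1 ∧ b0 * b0 = 1 ∧ f0 * f0 = 1 ∧ z0 ≠ 1 ∧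
    cn z0 a0 = z0 ∧ cn z0 b0 = z0 ∧ cn a0 b0 = a0 * z0 ∧ cn z0 f0 = z0 ∧ cn a0 f0 = a0 ∧
    cn b0 f0 = b0 ∧ r0 * r0 * r0 = 1 ∧ s0 * s0 * s0 = 1 ∧ cn z0 r0 = a0 ∧ cn a0 r0 = a0 * z0 ∧
    cn z0 s0 = b0 ∧ cn b0 s0 = b0 * z0 ∧ cn r0 f0 = r0 ∧ cn s0 (f0 * z0) = s0 ∧
    a0 * b0 * a0 * b0 = z0 := by
  decide +kernel

theorem inj0 : Function.Injective fun x : Fin 2 × Fin 2 × Fin 2 =>
    a0 ^ x.1.val * b0 ^ x.2.1.val * (a0 * b0 * a0 * b0) ^ x.2.2.val := by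
  unfold Function.Injective
  decide +kernel

/-- `⟨a₀, b₀⟩` is a Sylow subgroup of `A₇` -/
theorem cov8 {P : Subgroup (Perm (Fin 7))} (hP : IsPGroup 2 P) (hA : P ≤ alternatingGroup (Fin 7))
    (ha : a0 ∈ P) (hb : b0 ∈ P) : closure {a0, b0} = P := by
  have h1 : closure {a0, b0} ≤ P := by
    rw [closure_le, Set.pair_subset_iff]; exact ⟨ha, hb⟩
  have ma : a0 ∈ closure {a0, b0} := subset_closure (by simp)
  have mb : b0 ∈ closure {a0, b0} := subset_closure (by simp)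
  have h2 : 8 ≤ Nat.card (closure {a0, b0}) := by
    have := Nat.card_le_card_of_injective (fun x : Fin 2 × Fin 2 × Fin 2 =>
      (⟨a0 ^ x.1.val * b0 ^ x.2.1.val * (a0 * b0 * a0 * b0) ^ x.2.2.val,
        mul_mem (mul_mem (pow_mem ma _) (pow_mem mb _))
          (pow_mem (mul_mem (mul_mem (mul_mem ma mb) ma) mb) _)⟩ : closure {a0, b0}))
      fun x y e => inj0 (congrArg Subtype.val e)
    simpa using this
  have h3 : Nat.card (alternatingGroup (Fin 7)) = 2520 := by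
    have := two_mul_nat_card_alternatingGroup (α := Fin 7)
    rw [Nat.card_perm, Nat.card_fin] at this
    simp only [Nat.factorial] at this
    omega
  obtain ⟨k, hk⟩ := hP.exists_card_eq
  have h4 := card_dvd_of_le hA
  rw [h3, hk] at h4
  have h5 : k ≤ 3 := by
    by_contra l
    have := (pow_dvd_pow 2 (show 4 ≤ k by omega)).trans h4
    omega
  have h6 : 2 ^ k ≤ 2 ^ 3 := Nat.pow_le_pow_right (by decide) h5
  exact eq_of_le_of_card_ge h1 (by omega)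

section
variable {G : Type u} [Group G] [Finite G] {A N : Subgroup G} {ρ : G → Perm (Fin 7)}
  (h : Rho A N ρ)
include h

/-- `ρ` as a homomorphism -/
def hm : N →* Perm (Fin 7) := MonoidHom.mk' (fun c => ρ c) fun c d => h.mul c c.2 d d.2

theorem r_inv {c : G} (hc : c ∈ N) : ρ c⁻¹ = (ρ c)⁻¹ := map_inv (hm h) ⟨c, hc⟩

theorem r_pow {c : G} (hc : c ∈ N) (n : ℕ) : ρ (c ^ n) = ρ c ^ n := map_pow (hm h) ⟨c, hc⟩ n

theorem r_cn {x c : G} (hx : x ∈ N) (hc : c ∈ N) : ρ (cn x c) = cn (ρ x) (ρ c) := by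
  rw [h.mul _ (mul_mem (inv_mem hc) hx) _ hc, h.mul _ (inv_mem hc) _ hx, r_inv h hc]

theorem cnA {x c : G} (hx : x ∈ A) (hc : c ∈ N) : cn x c ∈ A :=
  (mem_normalizer_iff''.1 (h.nrm hc) x).1 hx

theorem triv {x : G} (hx : x ∈ A) (e : ρ x = 1) {k : ℕ} (l : x ^ 2 ^ k = 1) : x = 1 :=
  orderOf_eq_one_iff.1 (Nat.Coprime.eq_one_of_dvd
    (Nat.Coprime.pow_right k ((Nat.coprime_two_right).2 (h.odd x hx e))) (orderOf_dvd_of_pow_eq_one l))

theorem quo {x y : G} (hx : x ∈ N) (hy : y ∈ N) (e : ρ x = ρ y) : ρ (x⁻¹ * y) = 1 := by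
  rw [h.mul _ (inv_mem hx) _ hy, r_inv h hx, e, inv_mul_cancel]

/-- two involutions of `A` with the same image are equal -/
theorem uni {x y : G} (hx : x ∈ A) (hy : y ∈ A) (xx : x * x = 1) (yy : y * y = 1)
    (e : ρ x = ρ y) : x = y := by
  have m := mul_mem (inv_mem hx) hy
  have q := quo h (h.AN hx) (h.AN hy) e
  have c : x * (x⁻¹ * y) = x⁻¹ * y * x := (h.ker _ (h.AN m)).1 q x hx
  refine inv_mul_eq_one.1 (triv h m q (k := 1) ?_)
  rw [mul_inv_cancel_left, inv_eq_of_mul_eq_one_right xx] at c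
  rw [inv_eq_of_mul_eq_one_right xx, pow_one, pow_two, ← mul_assoc, ← c, yy]

theorem vv {x y c : G} (hx : x ∈ A) (hy : y ∈ A) (hc : c ∈ N) (xx : x * x = 1) (yy : y * y = 1)
    (e : cn (ρ x) (ρ c) = ρ y) : cn x c = y :=
  uni h (cnA h hx hc) hy (by
    rw [show cn x c * cn x c = c⁻¹ * (x * x) * c by simp only [cn]; group, xx]; simp) yy
    ((r_cn h (h.AN hx) hc).trans e)

theorem two_part {g : G} (hg : g ∈ N) (e : ρ g * ρ g = 1) :
    ∃ m : ℕ, ρ (g ^ m) = ρ g ∧ ∃ k : ℕ, (g ^ m) ^ 2 ^ k = 1 := by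
  obtain ⟨k, m, ⟨j, rfl⟩, l⟩ := Nat.exists_eq_two_pow_mul_odd (orderOf_pos g).ne'
  refine ⟨2 * j + 1, ?_, k, ?_⟩
  · rw [r_pow h hg, pow_succ, pow_mul, pow_two, e, one_pow, one_mul]
  · rw [← pow_mul, mul_comm, ← l, pow_orderOf_eq_one]

theorem lift2 {σ : Perm (Fin 7)} (s : Perm.sign σ = 1) (e : σ * σ = 1) :
    ∃ a ∈ A, ρ a = σ ∧ a * a = 1 := by
  obtain ⟨g, hg, rfl⟩ := h.srj σ s
  obtain ⟨m, l, k, l'⟩ := two_part h (h.AN hg) e
  have ma := pow_mem hg m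
  refine ⟨_, ma, l, triv h (mul_mem ma ma) (k := k) ?_ ?_⟩
  · rw [h.mul _ (h.AN ma) _ (h.AN ma), l, e]
  · rw [← pow_two, ← pow_mul, mul_comm, pow_mul, l', one_pow]

theorem odd3 {r : G} (hr : r ∈ A) (e : ρ r * ρ r * ρ r = 1) : Odd (orderOf r) := by
  have o := h.odd _ (pow_mem hr 3) (by rw [r_pow h (h.AN hr), pow_three', e])
  refine Odd.of_dvd_nat (Odd.mul (show Odd 3 by decide) o) (orderOf_dvd_of_pow_eq_one ?_)
  rw [pow_mul, pow_orderOf_eq_one]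

/-- a lift commuting with `c` -/
theorem lfix {σ : Perm (Fin 7)} (s : Perm.sign σ = 1) {c : G} (hc : c ∈ N)
    (cc : ρ c * ρ c = 1) (e : cn σ (ρ c) = σ) : ∃ x ∈ A, ρ x = σ ∧ Commute x c := by
  obtain ⟨x, hx, rfl⟩ := h.srj σ s
  have mw : x⁻¹ * cn x c ∈ A := mul_mem (inv_mem hx) (cnA h hx hc)
  have qw : ρ (x⁻¹ * cn x c) = 1 :=
    quo h (h.AN hx) (h.AN (cnA h hx hc)) ((r_cn h (h.AN hx) hc).trans e).symm
  have c2 : x * (c * c) = c * c * x :=
    (h.ker _ (mul_mem hc hc)).1 ((h.mul _ hc _ hc).trans cc) x hx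
  have xw : cn x c = x * (x⁻¹ * cn x c) := (mul_inv_cancel_left _ _).symm
  have iw : cn (x⁻¹ * cn x c) c = (x⁻¹ * cn x c)⁻¹ := by
    have : c⁻¹ * (c⁻¹ * x * c) * c = x := by
      rw [show c⁻¹ * (c⁻¹ * x * c) * c = (c * c)⁻¹ * (x * (c * c)) by group, c2,
        ← mul_assoc, inv_mul_cancel, one_mul]
    calc cn (x⁻¹ * cn x c) c = (c⁻¹ * x * c)⁻¹ * (c⁻¹ * (c⁻¹ * x * c) * c) := by
          simp only [cn]; group
      _ = _ := by rw [this]; simp only [cn]; group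
  obtain ⟨j, o⟩ := h.odd _ mw qw
  generalize x⁻¹ * cn x c = w at mw qw xw iw o
  refine ⟨x * w ^ (j + 1), mul_mem hx (pow_mem mw _), ?_, ?_⟩
  · rw [h.mul _ (h.AN hx) _ (h.AN (pow_mem mw _)), r_pow h (h.AN mw), qw, one_pow, mul_one]
  · have e1 : cn (w ^ (j + 1)) c = (w ^ (j + 1))⁻¹ := by
      rw [← inv_pow, ← iw]
      simpa only [inv_inv] using (conj_pow (a := c⁻¹) (b := w) (i := j + 1)).symm
    have e2 : w * (w ^ (j + 1))⁻¹ = w ^ (j + 1) := by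
      rw [mul_inv_eq_iff_eq_mul, ← pow_add, show j + 1 + (j + 1) = (2 * j + 1) + 1 by ring, ← o,
        pow_succ, pow_orderOf_eq_one, one_mul]
    have e3 : cn (x * w ^ (j + 1)) c = x * w ^ (j + 1) := by
      rw [show cn (x * w ^ (j + 1)) c = cn x c * cn (w ^ (j + 1)) c by simp only [cn]; group, xw,
        e1, mul_assoc, e2]
    rw [Commute, SemiconjBy]
    calc x * w ^ (j + 1) * c = c * cn (x * w ^ (j + 1)) c := by simp only [cn]; group
      _ = _ := by rw [e3]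

end

theorem cm {G : Type u} [Group G] {x c : G} (e : cn x c = x) : Commute x c := by
  rw [Commute, SemiconjBy]
  calc x * c = c * cn x c := by simp only [cn]; group
    _ = _ := by rw [e]

theorem pz {G : Type u} [Group G] {x : G} {k : ℕ} (e : x ^ 2 ^ k = 1) : IsPGroup 2 (zpowers x) := by
  rintro ⟨_, n, rfl⟩
  refine ⟨k, Subtype.ext ?_⟩
  change (x ^ n) ^ 2 ^ k = 1
  rw [← zpow_natCast, ← zpow_mul, mul_comm, zpow_mul, zpow_natCast, e, one_zpow]

theorem nrm {G : Type u} [Group G] [Finite G] {c : G} {Q : Subgroup G} {S : Set G}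
    (hQ : closure S = Q) (e : ∀ x ∈ S, cn x c ∈ Q) : zpowers c ≤ normalizer (Q : Set G) := by
  rw [zpowers_le, ← inv_mem_iff]
  refine mem_normalizer_fintype fun x hx => ?_
  have : closure S ≤ Q.comap (MulAut.conj c⁻¹).toMonoidHom := by
    rw [closure_le]; intro y hy; simpa using e y hy
  exact this (hQ ▸ hx)

/-- the dihedral group is a `2`-group -/
theorem pD {G : Type u} [Group G] [Finite G] {a b z : G} (aa : a * a = 1) (bb : b * b = 1)
    (zz : z * z = 1) (za : cn z a = z) (zb : cn z b = z) (ab : cn a b = a * z) :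
    IsPGroup 2 (closure {a, b}) := by
  have p : ∀ {x : G}, x * x = 1 → IsPGroup 2 (zpowers x) := fun e =>
    pz (k := 1) (by rw [pow_one, pow_two, e])
  have h1 : IsPGroup 2 (zpowers a ⊔ zpowers z : Subgroup G) :=
    (p aa).to_sup_of_normal_right' (p zz) (nrm (zpowers_eq_closure z).symm (by simp [za]))
  have h2 : IsPGroup 2 (zpowers b ⊔ (zpowers a ⊔ zpowers z) : Subgroup G) :=
    (p bb).to_sup_of_normal_right' h1 (nrm (S := {a} ∪ {z})
      (by rw [Subgroup.closure_union, zpowers_eq_closure, zpowers_eq_closure]) (by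
        rintro x (rfl | rfl)
        · rw [ab]; exact mul_mem_sup (mem_zpowers _) (mem_zpowers _)
        · rw [zb]; exact mem_sup_right (mem_zpowers _)))
  refine h2.to_le ?_
  rw [closure_le, Set.pair_subset_iff]
  exact ⟨mem_sup_right (mem_sup_left (mem_zpowers _)), mem_sup_left (mem_zpowers _)⟩

theorem frame : FrameStmt.{u} := by
  intro G _ _ h
  have R := h.rho
  obtain ⟨sz, sa, sb, sf, sr, ss⟩ := sg0
  obtain ⟨zz0, aa0, bb0, ff0, z10, za0, zb0, ab0, zf0, af0, bf0, r30, s30, zr0, ar0, zs0, bs0, rf0,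
    sf0, -⟩ := rel0
  have mH : ∀ {c : G}, c ∈ centralizer ({h.t} : Set G) ↔ Commute h.t c := fun {c} => by
    rw [mem_centralizer_iff]; simp [Commute, SemiconjBy]
  have tH : h.t ∈ centralizer ({h.t} : Set G) := mH.2 (Commute.refl _)
  have ρt : h.ρ h.t = 1 := (R.ker _ tH).2 fun x hx => (mH.1 (R.AN hx)).symm.eq
  have ρ1 : h.ρ 1 = 1 := (R.ker _ (one_mem _)).2 (one_mem _)
  obtain ⟨z, zA, ρz, zz⟩ := lift2 R sz zz0
  obtain ⟨a, aA, ρa, aa⟩ := lift2 R sa aa0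
  obtain ⟨b, bA, ρb, bb⟩ := lift2 R sb bb0
  have za : cn z a = z := vv R zA zA (R.AN aA) zz zz (by rw [ρz, ρa, za0])
  have zb : cn z b = z := vv R zA zA (R.AN bA) zz zz (by rw [ρz, ρb, zb0])
  have az2 : a * z * (a * z) = 1 := by rw [(cm za).mul_mul_mul_comm, aa, zz, one_mul]
  have bz2 : b * z * (b * z) = 1 := by rw [(cm zb).mul_mul_mul_comm, bb, zz, one_mul]
  have ρaz : h.ρ (a * z) = a0 * z0 := by rw [R.mul _ (R.AN aA) _ (R.AN zA), ρa, ρz]
  have ρbz : h.ρ (b * z) = b0 * z0 := by rw [R.mul _ (R.AN bA) _ (R.AN zA), ρb, ρz]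
  have ab : cn a b = a * z := vv R aA (mul_mem aA zA) (R.AN bA) aa az2 (by rw [ρa, ρb, ab0, ρaz])
  have z1 : z ≠ 1 := fun e => z10 (by rw [← ρz, e, ρ1])
  have pDD := pD aa bb zz za zb ab
  have aD : a ∈ closure {a, b} := subset_closure (by simp)
  have bD : b ∈ closure {a, b} := subset_closure (by simp)
  have DA : closure {a, b} ≤ h.A := by rw [closure_le, Set.pair_subset_iff]; exact ⟨aA, bA⟩
  have pt : IsPGroup 2 (zpowers h.t) := pz (k := 1) (by rw [pow_one, pow_two, h.tt])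
  have nt : centralizer ({h.t} : Set G) ≤ normalizer (zpowers h.t : Set G) := fun c hc =>
    nrm (zpowers_eq_closure h.t).symm (by
      rintro x rfl
      rw [show cn h.t c = h.t by rw [cn, mul_assoc, (mH.1 hc).eq, inv_mul_cancel_left]]
      exact mem_zpowers _) (mem_zpowers c)
  -- the odd part of `C(t) ∩ C(A)`
  have sK : IsSyl 2 (zpowers h.t) (centralizer {h.t} ⊓ centralizer (h.A : Set G)) :=
    ⟨zpowers_le.2 ⟨tH, (R.ker _ tH).1 ρt⟩, pt, fun Q pQ l1 l2 => le_antisymm (fun c hc => by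
      rcases h.two Q pQ (l2.trans inf_le_left) c hc ((R.ker _ (l2 hc).1).2 (l2 hc).2) with e | e
      · rw [e]; exact one_mem _
      · rw [e]; exact mem_zpowers _) l1⟩
  obtain ⟨O, o1, o2⟩ := H10.LT.twoNil sK fun k hk _ x hx => by
    obtain ⟨n, rfl⟩ := hx
    exact ((mH.1 hk.1).zpow_left n).eq
  have OC : O ≤ centralizer (h.A : Set G) := fun o ho => ((o1 o).1 ho).1.2
  have OH : O ≤ centralizer ({h.t} : Set G) := fun o ho => ((o1 o).1 ho).1.1
  have mL : ∀ {x : G}, x ∈ h.A ⊔ O ↔ ∃ α ∈ h.A, ∃ o ∈ O, α * o = x :=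
    mem_sup_of_le_normalizer (OC.trans (centralizer_le_normalizer _))
  have LC : h.A ⊔ O ≤ centralizer ({h.t} : Set G) := sup_le R.AN OH
  have Ln : centralizer ({h.t} : Set G) ≤ normalizer ((h.A ⊔ O : Subgroup G) : Set G) :=
    le_normalizer_sup R.nrm fun c hc => mem_normalizer_fintype fun o ho => (o1 _).2
      ⟨mem_inf.2 ⟨mul_mem (mul_mem hc (OH ho)) (inv_mem hc), (mem_normalizer_iff.1
        (normalizer_le_normalizer_centralizer _ (R.nrm hc)) o).1 (OC ho)⟩, by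
        rw [← MulAut.conj_apply, MulEquiv.orderOf_eq]; exact ((o1 o).1 ho).2⟩
  have sL : ∀ x ∈ h.A ⊔ O, Perm.sign (h.ρ x) = 1 := fun x hx => by
    obtain ⟨α, hα, o, ho, rfl⟩ := mL.1 hx
    rw [R.mul _ (R.AN hα) _ (OH ho), (R.ker _ (OH ho)).2 (OC ho), mul_one, R.sgn _ hα]
  have tL : h.t ∉ h.A ⊔ O := fun hx => by
    obtain ⟨α, hα, o, ho, e⟩ := mL.1 hx
    have e1 : h.ρ α = 1 := by
      rw [← ρt, ← e, R.mul _ (R.AN hα) _ (OH ho), (R.ker _ (OH ho)).2 (OC ho), mul_one]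
    have c : Commute α o := OC ho α hα
    have d := c.orderOf_mul_dvd_mul_orderOf
    rw [e, orderOf_eq_prime (p := 2) (by rw [pow_two, h.tt]) h.t1] at d
    exact ((R.odd α hα e1).mul ((o1 o).1 ho).2).not_two_dvd_nat d
  have CL0 : ∀ c ∈ centralizer ({h.t} : Set G), Perm.sign (h.ρ c) = 1 →
      ∃ l ∈ h.A ⊔ O, ∃ u ∈ zpowers h.t, c = l * u := fun c hc s => by
    obtain ⟨α, hα, e⟩ := R.srj _ s
    have m := mul_mem (inv_mem (R.AN hα)) hc
    obtain ⟨o, ho, u, hu, e'⟩ := o2 _ ⟨m, (R.ker _ m).1 (quo R (R.AN hα) hc e)⟩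
    exact ⟨α * o, mul_mem_sup hα ho, u, hu, by rw [mul_assoc, ← e', mul_inv_cancel_left]⟩
  -- the even part of a Sylow subgroup
  have ev : ∀ {T : Subgroup G}, IsSyl 2 T (centralizer {h.t}) → closure {a, b} ≤ T → ∀ u ∈ T,
      Perm.sign (h.ρ u) = 1 → ∃ d ∈ closure {a, b}, u = d ∨ u = d * h.t := fun {T} sT DT u hu s => by
    have e := cov8 (P := (T.subgroupOf _).map (hm R) ⊓ alternatingGroup (Fin 7))
      (sT.isPGroup.comap_subtype.map _).to_inf_left inf_le_right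
      ⟨⟨⟨a, R.AN aA⟩, DT aD, ρa⟩, sa⟩ ⟨⟨⟨b, R.AN bA⟩, DT bD, ρb⟩, sb⟩
    have l : closure {a0, b0} ≤ ((closure {a, b}).subgroupOf _).map (hm R) := by
      rw [closure_le, Set.pair_subset_iff]
      exact ⟨⟨⟨a, R.AN aA⟩, aD, ρa⟩, ⟨⟨b, R.AN bA⟩, bD, ρb⟩⟩
    obtain ⟨d, hd, e'⟩ := l (e.ge ⟨⟨⟨u, sT.le hu⟩, hu, rfl⟩, s⟩)
    refine ⟨d, hd, (h.two T sT.isPGroup sT.le _ (mul_mem (inv_mem (DT hd)) hu)
      (quo R d.2 (sT.le hu) e')).imp (fun l => (inv_mul_eq_one.1 l).symm) fun l => ?_⟩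
    exact inv_mul_eq_iff_eq_mul.1 l
  have tT : ∀ {T : Subgroup G}, IsSyl 2 T (centralizer {h.t}) → h.t ∈ T := fun sT =>
    sT.ge_of_le_normalizer pt (zpowers_le.2 tH) (sT.le.trans nt) (mem_zpowers _)
  have LiT : ∀ {T : Subgroup G}, IsSyl 2 T (centralizer {h.t}) → closure {a, b} ≤ T →
      (h.A ⊔ O) ⊓ T = closure {a, b} := fun {T} sT DT =>
    le_antisymm (fun u hu => by
      obtain ⟨d, hd, e | e⟩ := ev sT DT u hu.2 (sL u hu.1)
      · exact e ▸ hd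
      · exact (tL ((mul_mem_cancel_left (mem_sup_left (DA hd))).1 (e ▸ hu.1))).elim)
      (le_inf (DA.trans le_sup_left) DT)
  have zr : ∀ {r : G}, r ∈ h.A → h.ρ r = r0 → cn z r = a ∧ cn a r = a * z ∧ Odd (orderOf r) :=
    fun m e => ⟨vv R zA aA (R.AN m) zz aa (by rw [ρz, ρa, e, zr0]),
      vv R aA (mul_mem aA zA) (R.AN m) aa az2 (by rw [ρa, e, ar0, ρaz]), odd3 R m (e ▸ r30)⟩
  have zs : ∀ {s : G}, s ∈ h.A → h.ρ s = s0 → cn z s = b ∧ cn b s = b * z ∧ Odd (orderOf s) :=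
    fun m e => ⟨vv R zA bA (R.AN m) zz bb (by rw [ρz, ρb, e, zs0]),
      vv R bA (mul_mem bA zA) (R.AN m) bb bz2 (by rw [ρb, e, bs0, ρbz]), odd3 R m (e ▸ s30)⟩
  by_cases hev : ∀ c ∈ centralizer ({h.t} : Set G), Perm.sign (h.ρ c) = 1
  · obtain ⟨T, sT, DT⟩ := exists_isSyl_ge pDD (DA.trans R.AN)
    obtain ⟨r, rA, ρr⟩ := R.srj _ sr
    obtain ⟨s, sA, ρs⟩ := R.srj _ ss
    refine .inr ⟨{
      toBase := h, L := h.A ⊔ O, T := T, a := a, b := b, z := z, r := r, s := s, aa := aa, bb := bb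
      zz := zz, z1 := z1, ab := ab, za := cm za, zb := cm zb, ta := mH.1 (R.AN aA)
      tb := mH.1 (R.AN bA), hT := ?_, syl := sT, LC := LC, Ln := Ln, LiT := LiT sT DT, tL := tL
      CL := fun c hc => ?_, rt := (mH.1 (R.AN rA)).symm, zr := (zr rA ρr).1, ar := (zr rA ρr).2.1
      ro := (zr rA ρr).2.2, st := (mH.1 (R.AN sA)).symm, zs := (zs sA ρs).1, bs := (zs sA ρs).2.1
      so := (zs sA ρs).2.2 }, rfl⟩
    · have l : closure {a, b} ≤ closure {h.t, a, b} := closure_mono (Set.subset_insert _ _)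
      refine le_antisymm (fun u hu => ?_) ?_
      · obtain ⟨d, hd, rfl | rfl⟩ := ev sT DT u hu (hev u (sT.le hu))
        · exact l hd
        · exact mul_mem (l hd) (subset_closure (by simp))
      · rw [closure_le, Set.insert_subset_iff, Set.pair_subset_iff]
        exact ⟨tT sT, DT aD, DT bD⟩
    · obtain ⟨l, hl, u, hu, e⟩ := CL0 c hc (hev c hc)
      exact ⟨l, hl, u, zpowers_le.2 (tT sT) hu, e⟩
  push Not at hev
  obtain ⟨c, hc, sc⟩ := hev
  have sc' := (Int.units_eq_one_or _).resolve_left sc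
  obtain ⟨α, hα, ρα⟩ := R.srj (f0 * (h.ρ c)⁻¹) (by rw [map_mul, map_inv, sf, sc']; rfl)
  have ρg : h.ρ (α * c) = f0 := by rw [R.mul _ (R.AN hα) _ hc, ρα, inv_mul_cancel_right]
  obtain ⟨m, ρf, k, fk⟩ := two_part R (mul_mem (R.AN hα) hc) (by rw [ρg, ff0])
  have fH := pow_mem (mul_mem (R.AN hα) hc) m
  rw [ρg] at ρf
  generalize (α * c) ^ m = f at ρf fk fH
  have af : cn a f = a := vv R aA aA fH aa aa (by rw [ρa, ρf, af0])
  have bf : cn b f = b := vv R bA bA fH bb bb (by rw [ρb, ρf, bf0])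
  have zf : cn z f = z := vv R zA zA fH zz zz (by rw [ρz, ρf, zf0])
  obtain ⟨T, sT, l⟩ := exists_isSyl_ge ((pz fk).to_sup_of_normal_right' pDD (nrm rfl (by
    rintro x (rfl | rfl)
    · rw [af]; exact aD
    · rw [bf]; exact bD))) (sup_le (zpowers_le.2 fH) (DA.trans R.AN))
  have DT : closure {a, b} ≤ T := le_sup_right.trans l
  have fT : f ∈ T := l (mem_sup_left (mem_zpowers f))
  have ρfz : h.ρ (f * z) = f0 * z0 := by rw [R.mul _ fH _ (R.AN zA), ρf, ρz]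
  obtain ⟨r, rA, ρr, rf⟩ := lfix R sr fH (by rw [ρf, ff0]) (by rw [ρf, rf0])
  obtain ⟨s, sA, ρs, sfz⟩ := lfix R ss (mul_mem fH (R.AN zA))
    (by rw [ρfz, (cm zf0).mul_mul_mul_comm, ff0, zz0, one_mul]) (by rw [ρfz, sf0])
  have od : ∀ c ∈ centralizer ({h.t} : Set G), Perm.sign (h.ρ c) ≠ 1 →
      Perm.sign (h.ρ (c * f⁻¹)) = 1 := fun c hc sc => by
    rw [R.mul _ hc _ (inv_mem fH), r_inv R fH, ρf, map_mul, map_inv, sf,
      (Int.units_eq_one_or _).resolve_left sc]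
    rfl
  refine .inl ⟨{
    toBase := h, L := h.A ⊔ O, T := T, f := f, a := a, b := b, z := z, e := 1, r := r, s := s
    aa := aa, bb := bb, zz := zz, z1 := z1, ab := ab, za := cm za, zb := cm zb
    ta := mH.1 (R.AN aA), tb := mH.1 (R.AN bA), tf := mH.1 fH, te := Commute.one_right _
    fa := (cm af).symm, fb := (cm bf).symm
    ff' := h.two T sT.isPGroup sT.le _ (mul_mem fT fT) (by rw [R.mul _ fH _ fH, ρf, ff0])
    he' := .inl rfl, hT := ?_, syl := sT, LC := LC, Ln := Ln, LiT := LiT sT DT, tL := tL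
    fL := fun m => ?_, tfL := fun m => ?_, CL := fun c hc => ?_
    rt := (mH.1 (R.AN rA)).symm, rf := rf, zr := (zr rA ρr).1, ar := (zr rA ρr).2.1
    ro := (zr rA ρr).2.2, st := (mH.1 (R.AN sA)).symm, sf := sfz, zs := (zs sA ρs).1
    bs := (zs sA ρs).2.1, so := (zs sA ρs).2.2 }, rfl⟩
  · have l : closure {a, b} ≤ closure {h.t, f, a, b, 1} := closure_mono (by
      rw [Set.pair_subset_iff]; simp)
    have k : ∀ u ∈ T, Perm.sign (h.ρ u) = 1 → u ∈ closure {h.t, f, a, b, 1} := fun u hu s => by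
      obtain ⟨d, hd, rfl | rfl⟩ := ev sT DT u hu s
      · exact l hd
      · exact mul_mem (l hd) (subset_closure (by simp))
    refine le_antisymm (fun u hu => ?_) ?_
    · by_cases s : Perm.sign (h.ρ u) = 1
      · exact k u hu s
      · exact (mul_mem_cancel_right (inv_mem (subset_closure (by simp)))).1
          (k _ (mul_mem hu (inv_mem fT)) (od u (sT.le hu) s))
    · rw [closure_le, Set.insert_subset_iff, Set.insert_subset_iff, Set.insert_subset_iff,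
        Set.pair_subset_iff]
      exact ⟨tT sT, fT, DT aD, DT bD, one_mem T⟩
  · have := sL _ m
    rw [ρf, sf] at this
    exact absurd this (by decide)
  · have := sL _ m
    rw [R.mul _ tH _ fH, ρt, one_mul, ρf, sf] at this
    exact absurd this (by decide)
  · by_cases s : Perm.sign (h.ρ c) = 1
    · obtain ⟨l, hl, u, hu, e⟩ := CL0 c hc s
      exact ⟨l, hl, u, zpowers_le.2 (tT sT) hu, e⟩
    · obtain ⟨l, hl, u, hu, e⟩ := CL0 _ (mul_mem hc (inv_mem fH)) (od c hc s)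
      exact ⟨l, hl, u * f, mul_mem (zpowers_le.2 (tT sT) hu) fT, by
        rw [← mul_assoc, ← e, inv_mul_cancel_right]⟩

end Cfsg.Agent.H91.N7Frame
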