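import Mathlib
import Cfsg.Agent.H71.P3Defs

/-!
The lower bound for the index of a subgroup of a symplectic group that misses the unipotent
radicals of the point stabilisers and the tori of the hyperbolic lines.
-/

set_option autoImplicit false

namespace Cfsg.Agent.H91.P3K1

open Cfsg Module Cfsg.Agent.H27 Cfsg.Agent.H71.P3
open scoped Pointwise

/-- An element of prime order `r` is conjugate into each subgroup of index prime to `r`. -/
theorem conj_mem {H : Type*} [Group H] [Finite H] (A : Subgroup H) (h : H) {r : ℕ}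
    (hr : r.Prime) (ho : orderOf h = r) (hA : ¬ r ∣ A.index) : ∃ g : H, g⁻¹ * h * g ∈ A := by
  haveI := Fact.mk hr
  have hp : IsPGroup r (Subgroup.zpowers h) :=
    IsPGroup.of_card (n := 1) (by rw [Nat.card_zpowers, ho, pow_one])
  obtain ⟨y, hy⟩ := hp.nonempty_fixed_point_of_prime_not_dvd_card (H ⧸ A) hA
  obtain ⟨g, rfl⟩ := QuotientGroup.mk_surjective y
  have e := (MulAction.mem_fixedPoints.1 hy) ⟨h, Subgroup.mem_zpowers h⟩
  have e2 : ((h * g : H) : H ⧸ A) = (g : H ⧸ A) := e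
  have e3 := QuotientGroup.eq.1 e2.symm
  exact ⟨g, by simpa only [mul_assoc] using e3⟩

theorem core {H : Type*} [Group H] [Finite H] (Q C K : Subgroup H) [hQ : Q.Normal]
    (hs : Q ⊔ C = ⊤) (hc : (Nat.card Q).Coprime (Nat.card C))
    (h1 : ∀ h ∈ K, h ∈ Q → h = 1) (h2 : ∀ g d : H, d ∈ C → g * d * g⁻¹ ∈ K → d = 1) :
    K = ⊥ ∧ Nat.card Q * Nat.card C = Nat.card H := by
  have hcomp : Q.IsComplement' C := by
    refine Subgroup.isComplement'_of_disjoint_and_mul_eq_univ ?_ ?_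
    · exact disjoint_iff.2 (Subgroup.inf_eq_bot_of_coprime hc)
    · rw [← Subgroup.normal_mul, hs]; rfl
  refine ⟨?_, hcomp.card_mul⟩
  by_contra hK
  have hne : Nat.card K ≠ 1 := fun h => hK (Subgroup.card_eq_one.1 h)
  obtain ⟨r, hr, hd⟩ := Nat.exists_prime_and_dvd hne
  haveI := Fact.mk hr
  obtain ⟨⟨h, hk⟩, ho⟩ := exists_prime_orderOf_dvd_card' r hd
  rw [Subgroup.orderOf_mk] at ho
  have h0 : h ≠ 1 := fun e => by
    rw [e, orderOf_one] at ho
    exact hr.one_lt.ne ho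
  by_cases hq : r ∣ Q.index
  · have hC : ¬ r ∣ C.index := fun h' => by
      rw [hcomp.index_eq_card] at h'
      rw [hcomp.symm.index_eq_card] at hq
      exact hr.one_lt.ne' (Nat.eq_one_of_dvd_coprimes hc h' hq)
    obtain ⟨g, hg⟩ := conj_mem C h hr ho hC
    have e := h2 g _ hg (by simpa only [mul_assoc, mul_inv_cancel, mul_one, mul_inv_cancel_left] using hk)
    apply h0
    have : h = g * (g⁻¹ * h * g) * g⁻¹ := by group
    rw [this, e, mul_one, mul_inv_cancel]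
  · obtain ⟨g, hg⟩ := conj_mem Q h hr ho hq
    have := hQ.conj_mem _ hg g
    exact h0 (h1 h hk (by simpa only [mul_assoc, mul_inv_cancel, mul_one, mul_inv_cancel_left] using this))

theorem amb {Γ : Type*} [Group Γ] [Finite Γ] (G Q C K : Subgroup Γ) (hQ : Q ≤ G) (hC : C ≤ G)
    (hn : C ≤ Subgroup.normalizer (Q : Set Γ)) (hc : (Nat.card Q).Coprime (Nat.card C))
    (h1 : ∀ h ∈ K, h ∈ Q → h = 1) (h2 : ∀ g ∈ G, ∀ d ∈ C, g * d * g⁻¹ ∈ K → d = 1) :
    Nat.card Q * Nat.card C ≤ K.relIndex G := by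
  have hH : Q ⊔ C ≤ G := sup_le hQ hC
  have cQ : Nat.card (Q.subgroupOf (Q ⊔ C)) = Nat.card Q :=
    Nat.card_congr (Subgroup.subgroupOfEquivOfLe le_sup_left).toEquiv
  have cC : Nat.card (C.subgroupOf (Q ⊔ C)) = Nat.card C :=
    Nat.card_congr (Subgroup.subgroupOfEquivOfLe le_sup_right).toEquiv
  haveI : (Q.subgroupOf (Q ⊔ C)).Normal :=
    (Subgroup.normal_subgroupOf_iff_le_normalizer le_sup_left).2
      (sup_le Subgroup.le_normalizer hn)
  obtain ⟨e1, e2⟩ := core (Q.subgroupOf (Q ⊔ C)) (C.subgroupOf (Q ⊔ C)) (K.subgroupOf (Q ⊔ C))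
    (by rw [← Subgroup.subgroupOf_sup le_sup_left le_sup_right, Subgroup.subgroupOf_self])
    (by rw [cQ, cC]; exact hc)
    (fun h hk hq => Subtype.ext (h1 h hk hq))
    (fun g d hd hk => Subtype.ext (h2 g (hH g.2) d hd hk))
  rw [cQ, cC] at e2
  have e3 : K.relIndex (Q ⊔ C) = Nat.card (Q ⊔ C : Subgroup Γ) := by
    rw [Subgroup.relIndex, e1, Subgroup.index_bot]
  rw [e2, ← e3]
  exact Subgroup.relIndex_le_of_le_right hH Subgroup.index_ne_zero_of_finite

section geo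
variable {F V : Type} [Field F] [AddCommGroup V] [Module F V]

theorem exists_pair [Finite V] (S : Sp F V) :
    ∃ (x : V) (l : Submodule F V), x ≠ 0 ∧ S.Hyp l ∧ ∀ s ∈ l, S.B x s = 0 := by
  have hk := S.hk
  have hd := S.dim
  haveI : Module.Finite F V := Module.Finite.of_finite
  haveI : Nontrivial V := Module.nontrivial_of_finrank_pos (R := F) (by omega)
  obtain ⟨u, hu⟩ := exists_ne (0 : V)
  obtain ⟨w, hw⟩ : ∃ w, S.B u w ≠ 0 := by
    by_contra h
    push Not at h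
    exact hu (S.nd.1 u h)
  let f : V →ₗ[F] F × F := (S.B.flip u).prod (S.B.flip w)
  have hf : LinearMap.ker f ≠ ⊥ := LinearMap.ker_ne_bot_of_finrank_lt (by simp; omega)
  obtain ⟨x, hx, x0⟩ := (Submodule.ne_bot_iff _).1 hf
  have hx1 : S.B x u = 0 := congrArg Prod.fst (LinearMap.mem_ker.1 hx)
  have hx2 : S.B x w = 0 := congrArg Prod.snd (LinearMap.mem_ker.1 hx)
  refine ⟨x, Submodule.span F {u, (S.B u w)⁻¹ • w}, x0, ⟨u, _, ?_, rfl⟩, fun s hs => ?_⟩
  · rw [map_smul, smul_eq_mul, inv_mul_cancel₀ hw]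
  · obtain ⟨a, b, rfl⟩ := Submodule.mem_span_pair.1 hs
    simp [hx1, hx2]

theorem isJ_conj {S : Sp F V} {g h : V ≃ₗ[F] V} (hg : g ∈ S.G) {l : Submodule F V}
    (hh : S.IsJ l h) : S.IsJ (g • l) (g * h * g⁻¹) := by
  refine ⟨hh.1.conj hg, ?_⟩
  rintro _ ⟨v, hv, rfl⟩
  change g (h (g.symm (g v))) = -(g v)
  rw [g.symm_apply_apply, hh.2 v hv, map_neg]

theorem irr_conj {S : Sp F V} {g h : V ≃ₗ[F] V} (hg : g ∈ S.G) {l : Submodule F V}
    (hh : S.Irr l h) : S.Irr (g • l) (g * h * g⁻¹) := by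
  refine ⟨hh.1.conj hg, ?_⟩
  rintro _ ⟨v, hv, rfl⟩ v0 c e
  change g (h (g.symm (g v))) = c • g v at e
  rw [g.symm_apply_apply, ← map_smul] at e
  refine hh.2 v hv (fun h0 => v0 ?_) c (g.injective e)
  rw [h0, map_zero]

end geo

theorem k1 (qf : QfStmt) (tor : TorStmt) : K1Stmt := by
  intro F V _ _ _ _ _ S K _ nq nj ni
  haveI := Sp.finite_aut (F := F) (V := V)
  obtain ⟨x, l, x0, hl, hx⟩ := exists_pair S
  obtain ⟨-, -, -, -, cq, q6⟩ := qf S x x0
  obtain ⟨c, cG, cs, co, cd⟩ := tor S l hl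
  have cx : c x = x := cs x hx
  have cC : Nat.card (Subgroup.zpowers c) = Nat.card F + 1 := by rw [Nat.card_zpowers, co]
  have h := amb S.G (S.Q x) (Subgroup.zpowers c) K (fun g hg => hg.1)
    ((Subgroup.zpowers_le).2 cG)
    ((Subgroup.zpowers_le).2 (Subgroup.mem_normalizer_iff.2 fun h => by
      have := q6 c cG h
      rw [cx] at this
      exact this))
    (by
      rw [cq, cC]
      exact Nat.Coprime.pow_left _ (Nat.coprime_self_add_right.2 (Nat.coprime_one_right _)))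
    (nq x x0)
    (fun g hg d hd hk => by
      by_contra d1
      rcases cd d hd d1 with h | h
      · exact nj _ (hl.smul hg) _ hk (isJ_conj hg h)
      · exact ni _ (hl.smul hg) _ hk (irr_conj hg h))
  rw [cq, cC] at h
  have hk := S.hk
  have q0 : 0 < Nat.card F := Nat.card_pos
  have e : Nat.card F ^ (2 * S.k) = Nat.card F ^ (2 * S.k - 1) * Nat.card F := by
    rw [← pow_succ]; congr 1; omega
  rw [e]
  exact lt_of_lt_of_le (Nat.mul_lt_mul_of_pos_left (Nat.lt_succ_self _) (pow_pos q0 _)) h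

end Cfsg.Agent.H91.P3K1
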