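import Cfsg.Agent.H91.S4Stb1

/-! Translation of the mirrored data (pieces MIR, HL, COM2, type `Sp₄(q)`). -/

set_option autoImplicit false
set_option linter.unusedSectionVars false

namespace Cfsg.Agent.H91.S4Mir

open Cfsg Cfsg.Agent.H63 Cfsg.Agent.H63.SL Cfsg.Agent.H35.S4 Subgroup
open Cfsg.Agent.H91.S4Stb1 (x0 xx xi c0)
open scoped commutatorElement

universe u v

theorem sh5 : ∀ i : ZMod 8, sh (5 - i) ↔ ¬ sh i := by decide

theorem sub5 (i : ZMod 8) : 5 - (5 - i) = i := by ring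

theorem par : ∀ i : ZMod 8, (sh i → ∃ k, i = 1 + 2 * k) ∧ (¬ sh i → ∃ k, i = 2 + 2 * k) := by
  decide

section Kit

variable {F : Type v} [Field F] {G : Type u} [Group G] {L : Subgroup G} {x : ZMod 8 → F → G}
  {t : G}

theorem mir_s {i : ZMod 8} (h : sh i) (a : F) : mir x i a = x (5 - i) (a ^ 2) := by
  simp only [mir, if_pos h]

theorem mir_l {i : ZMod 8} (h : ¬ sh i) (a : F) : mir x i a = x (5 - i) a := by
  simp only [mir, if_neg h]

theorem mir_s' {i : ZMod 8} (h : ¬ sh i) (a : F) : mir x (5 - i) a = x i (a ^ 2) := by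
  rw [mir_s ((sh5 i).2 h), sub5]

theorem mir_mir (i : ZMod 8) (a : F) : mir (mir x) i a = x i (a ^ 2) := by
  by_cases h : sh i
  · rw [mir_s h, mir_l (fun h' => (sh5 i).1 h' h), sub5]
  · rw [mir_l h, mir_s' h]

variable (hr : ∀ a : F, ∃ r, r ^ 2 = a)
include hr

theorem ex_sq {p : F → Prop} : (∃ a, p (a ^ 2)) ↔ ∃ a, p a :=
  ⟨fun ⟨_, h⟩ => ⟨_, h⟩, fun ⟨a, h⟩ => by
    obtain ⟨r, rfl⟩ := hr a
    exact ⟨r, h⟩⟩

theorem XR_mir (i : ZMod 8) : XR (mir x) i = XR x (5 - i) := by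
  unfold XR
  congr 1
  ext g
  by_cases h : sh i
  · simp only [Set.mem_range, mir_s h]
    exact ex_sq hr (p := fun a => x (5 - i) a = g)
  · simp only [Set.mem_range, mir_l h]

theorem A3_mir (i : ZMod 8) : A3 (mir x) i = A3 x (5 - i) := by
  simp only [A3, XR_mir hr]
  rw [show 5 - (i - 1) = 5 - i + 1 by ring, show 5 - (i + 1) = 5 - i - 1 by ring]
  ac_rfl

theorem Zp_mir : Zp (mir x) = Zp x := by
  simp only [Zp, XR_mir hr]
  exact sup_comm _ _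

theorem Up_mir : Up (mir x) = Up x := by
  simp only [H35.S4.Up, A3_mir hr]
  exact sup_comm _ _

theorem HH_mir : HH (mir x) L = HH x L := by
  simp only [HH, XR_mir hr]
  congr 1
  exact (Equiv.subLeft (5 : ZMod 8)).iInf_comp (g := fun i => N[XR x i])

theorem TT_mir (i : ZMod 8) : TT (mir x) L i = TT x L (5 - i) := by
  simp only [TT, XR_mir hr, HH_mir hr]

theorem hat_s {i : ZMod 8} (h : sh i) (c : F) :
    HatS L (mir x) t c i = HatS L x t (c ^ 2) (5 - i) := by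
  ext p
  simp only [HatS, Set.mem_ofPred_eq, A3_mir hr, TT_mir hr, mir_s h, mul_pow]
  rw [ex_sq hr (p := fun a => p * t * p⁻¹ = t * x (5 - i) a ∧ p * p = x (5 - i) (c ^ 2 * a)),
    ex_sq hr (p := fun a => p = t * x (5 - i) a)]

theorem hat_l {i : ZMod 8} (h : ¬ sh i) (c : F) :
    HatS L (mir x) t c i = HatS L x t c (5 - i) := by
  ext p
  simp only [HatS, Set.mem_ofPred_eq, A3_mir hr, TT_mir hr, mir_l h]

/-- The doubled long root groups read off from the mirror. -/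
theorem long {c l : F} {Xh : ZMod 8 → Subgroup G} (h : HatP L (mir x) t c l Xh) {i : ZMod 8}
    (hi : ¬ sh i) :
    (∀ p, p ∈ Xh (5 - i) ↔ p ∈ HatS L x t (c ^ 2) i) ∧ (∀ a, x i a ∈ Xh (5 - i)) ∧
      (∀ a, ∃ p ∈ Xh (5 - i), p * t * p⁻¹ = t * x i a) ∧
      ∀ p ∈ Xh (5 - i), Commute p t → ∃ a, p = x i a := by
  have hs := (sh5 i).2 hi
  refine ⟨fun p => by rw [h.mem _ hs, hat_s hr hs, sub5], fun a => ?_, fun a => ?_,
    fun p hp c => ?_⟩
  · obtain ⟨r, rfl⟩ := hr a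
    exact mir_s' (x := x) hi r ▸ h.le _ hs r
  · obtain ⟨r, rfl⟩ := hr a
    exact mir_s' (x := x) hi r ▸ h.surj _ hs r
  · obtain ⟨a, e⟩ := h.fix _ hs p hp c
    exact ⟨_, e.trans (mir_s' hi a)⟩

omit hr

theorem rot (hC : Ctx L x t) (k : ZMod 8) : ∃ w : G, (∀ i a, w * x i a * w⁻¹ = x (i + 2 * k) a) ∧
    ∀ c i p, p ∈ HatS L x t c (i + 2 * k) → ∃ q ∈ HatS L x t c i, p = w * q * w⁻¹ := by
  obtain ⟨w, -, h1, h2, -⟩ := hC.kb.rot k
  refine ⟨w, h1, fun c i p hp => ⟨w⁻¹ * p * w, (h2 c i _).2 ?_, by group⟩⟩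
  rwa [show w * (w⁻¹ * p * w) * w⁻¹ = p by group]

theorem rotC (hC : Ctx L x t) {c c' : F} {i m : ZMod 8}
    (h : ∀ p ∈ HatS L x t c i, ∀ q ∈ HatS L x t c' m, Commute p q) (k : ZMod 8) :
    ∀ p ∈ HatS L x t c (i + 2 * k), ∀ q ∈ HatS L x t c' (m + 2 * k), Commute p q := by
  obtain ⟨w, -, h2⟩ := rot hC k
  intro p hp q hq
  obtain ⟨p0, hp0, rfl⟩ := h2 _ _ _ hp
  obtain ⟨q0, hq0, rfl⟩ := h2 _ _ _ hq
  exact (h p0 hp0 q0 hq0).conj w

theorem hat_sq (h0 : ∀ i, x i 0 = 1) {i : ZMod 8} {p : G} (hp : p ∈ HatS L x t 0 i) :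
    p * p = 1 := by
  obtain ⟨-, -, ⟨a, -, e⟩, -⟩ := hp
  rw [e, zero_mul, h0]

theorem c13 (h0 : ∀ i, x i 0 = 1) {Xh : ZMod 8 → Subgroup G} {Y : Subgroup G}
    (h : HatP L x t 0 0 Xh) (hR : Rad x t 0 0 0 0 Xh Y) (hY : ∀ y ∈ Y, y * y = 1) :
    ∀ p ∈ Xh 1, ∀ q ∈ Xh 3, Commute p q := by
  have s1 : sh 1 := by decide
  have s3 : sh 3 := by decide
  intro p hp q hq
  obtain ⟨-, -, ⟨b, eb, -⟩, -⟩ := (h.mem 1 s1 p).1 hp
  obtain ⟨-, -, ⟨a, ea, -⟩, -⟩ := (h.mem 3 s3 q).1 hq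
  by_cases hb : b = 0
  · rw [hb, h0, mul_one, mul_inv_eq_iff_eq_mul] at eb
    obtain ⟨s, rfl⟩ := h.fix 1 s1 p hp eb
    have := (h.act 3 s3 q hq a ea s).1
    rw [zero_mul, zero_mul, h0] at this
    exact (commutatorElement_eq_one_iff_commute.1 this).symm
  · obtain ⟨r, hr, y, hy, e1, -, e3⟩ := hR.r4 p hp b eb (a / b)
    rw [mul_div_cancel₀ _ hb, ← ea] at e1
    have p2 := hat_sq h0 ((h.mem 1 s1 p).1 hp)
    have r2 := hat_sq h0 ((h.mem 3 s3 r).1 hr)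
    have e4 : r * p * (r * p) = 1 := by
      have : r * p * y * (r * p * y) = 1 := by rw [← e3, conj_mul, p2, mul_one, mul_inv_cancel]
      rwa [((hR.r3 r hr y hy).mul_left (hR.r1 p hp y hy)).symm.mul_mul_mul_comm, hY y hy,
        mul_one] at this
    have c1 : Commute p r := by
      calc p * r = r * r * p * r * (p * p) * p⁻¹ * p⁻¹ := by rw [r2]; group
        _ = r * (r * p * (r * p)) * p⁻¹ := by group
        _ = r * p := by rw [e4, mul_one, inv_eq_of_mul_eq_one_right p2]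
    obtain ⟨s, es⟩ := h.fix 3 s3 (q⁻¹ * r) (mul_mem (inv_mem hq) hr) (by
      calc q⁻¹ * r * t = q⁻¹ * (r * t * r⁻¹) * r := by group
        _ = _ := by rw [e1]; group)
    have c2 : Commute p (q⁻¹ * r) := by
      have := (h.act 1 s1 p hp b eb s).2
      rw [zero_mul, zero_mul, h0] at this
      rw [es]
      exact commutatorElement_eq_one_iff_commute.1 this
    have := c1.mul_right c2.inv_right
    rwa [show r * (q⁻¹ * r)⁻¹ = q by group] at this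

end Kit

theorem mirS : MirStmt.{u, v} := by
  intro F _ _ G _ _ L x t hC
  have hr := hC.kb.root
  have s3 : sh 3 := by decide
  have l2 : ¬ sh 2 := by decide
  refine ⟨fun z => by simp only [Mv, Zp_mir hr, Up_mir hr], fun c l Xh h => ?_, fun c l Xh h => ?_,
    fun h => ?_⟩
  · obtain ⟨m1, m2, m3, m4⟩ := long hr h l2
    refine ⟨m2, fun p hp => ⟨((m1 p).1 hp).1, ((m1 p).1 hp).2.1⟩, fun k hk => ?_, fun p hp => ?_,
      fun a _ => m3 a, h.com 3 s3, h.odd 3 s3⟩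
    · refine mem_normalizer_iff.2 fun p => ⟨fun hp => (m1 _).2 (hC.kb.hatH k hk _ _ _
        ((m1 p).1 hp)), fun hp => ?_⟩
      have := (m1 _).2 (hC.kb.hatH _ (inv_mem hk) _ _ _ ((m1 _).1 hp))
      rwa [show k⁻¹ * (k * p * k⁻¹) * k⁻¹⁻¹ = p by group] at this
    · obtain ⟨-, -, ⟨w, e1, e2⟩, -⟩ := (h.mem 3 s3 p).1 hp
      refine ⟨w, e1, e2, fun hw => ?_, h.act 3 s3 p hp w e1⟩
      rw [hw, mir_s s3, zero_pow two_ne_zero, x0 hC, mul_one, mul_inv_eq_iff_eq_mul] at e1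
      exact (hC.kp.memX 2 p).2 (m4 p hp e1)
  · refine ⟨fun i hi p => ?_, fun i hi a => ?_, fun i hi a => ?_, fun i hi p hp c => ?_, h.com,
      h.odd, fun i hi p hp a e s => ?_, fun i hi p hp a e => ?_⟩
    · rw [hat_s hr hi, hat_l hr (fun h' => (sh5 i).1 h' hi), sub5, h.mem i hi]
    · rw [mir_mir]
      exact h.le i hi _
    · rw [mir_mir]
      exact h.surj i hi _
    · simp only [mir_mir]
      exact (ex_sq hr (p := fun a => p = x i a)).2 (h.fix i hi p hp c)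
    · simp only [mir_mir, mul_pow] at e ⊢
      exact h.act i hi p hp _ e _
    · simp only [n2, mir_mir, mul_pow, one_pow] at e ⊢
      exact h.ref i hi p hp _ e
  · have pin := hC.mod.pin
    refine ⟨fun a => (hC.kp.memX 2 _).2 ⟨a, rfl⟩, le_inf (fun p hp => ?_)
      (le_centralizer_iff.1 inf_le_right), inf_le_right.trans (iInf_le _ 2), fun p hp => ?_,
      fun a ha => ?_, fun p hp q hq => ?_, fun k hk _ _ p hp => ?_⟩
    · obtain ⟨a, rfl⟩ := (hC.kp.memX 2 p).1 hp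
      refine mem_centralizer_iff.2 fun v hv => ?_
      obtain ⟨b, c, d, rfl⟩ := (hC.kp.memA 2 v).1 hv
      exact (((pin.c1 1 b a).mul_left (c0 hC 2 c a)).mul_left (pin.c1 2 a d).symm).eq
    · obtain ⟨a, rfl⟩ := (hC.kp.memX 2 p).1 hp
      refine ⟨0, ?_, ?_, fun _ => hp, fun s => ?_⟩
      · rw [zero_pow two_ne_zero, x0 hC, ← (hC.kb.tL _ (hC.kb.xL 2 a)).eq]
        group
      · rw [xx hC, zero_mul, zero_pow two_ne_zero, x0 hC]
      · rw [zero_mul, zero_mul, x0 hC, x0 hC]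
        exact ⟨commutatorElement_eq_one_iff_commute.2 (pin.c2 2 a _),
          commutatorElement_eq_one_iff_commute.2 (pin.c2 0 _ a).symm⟩
    · refine ⟨1, one_mem _, ?_⟩
      rw [not_not.1 fun h' => h a h' ha, x0 hC]
      group
    · obtain ⟨a, rfl⟩ := (hC.kp.memX 2 p).1 hp
      obtain ⟨b, rfl⟩ := (hC.kp.memX 2 q).1 hq
      exact c0 hC 2 a b
    · obtain ⟨a, rfl⟩ := (hC.kp.memX 2 p).1 hp
      exact (mem_centralizer_iff.1 hk _ (hC.kb.xL 2 a)).symm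

theorem hl : HlStmt.{u, v} := by
  intro F _ _ G _ _ L x t hC A _ j σ y Xh Xh' hD h h' hR hR'
  have hr := hC.kb.root
  have s1 : sh 1 := by decide
  have s3 : sh 3 := by decide
  have l2 : ¬ sh 2 := by decide
  have l4 : ¬ sh 4 := by decide
  have m1 : ∀ i, ¬ sh i → ∀ p, p ∈ Xh' (5 - i) ↔ p ∈ HatS L x t 1 i := fun i hi p => by
    rw [(long hr h' hi).1, one_pow]
  have hy : ∀ i, sh i → ∀ a, y i a ∈ HatS L x t 0 i := fun i hi a => (hD.hat i hi _).2 ⟨a, rfl⟩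
  refine ⟨m1, fun i hi => (long hr h' hi).2.1, fun i hi => (long hr h' hi).2.2.1,
    fun i hi => (long hr h' hi).2.2.2, fun i hi => h'.com _ ((sh5 i).2 hi),
    fun i hi => h'.odd _ ((sh5 i).2 hi), fun i hi => ?_, fun i hi p hp a => ?_,
    fun i hi p hp q hq => ?_, fun p hp w e s => ?_⟩
  · have hs := (sh5 i).2 hi
    have e : ∀ i : ZMod 8, ¬ sh i → ¬ sh (i + 2) ∧ ¬ sh (i + 2 + 4) ∧ 5 - i - 2 = 5 - (i + 2) ∧
        5 - i + 2 = 5 - (i + 2 + 4) := by decide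
    obtain ⟨e1, e2, e3, e4⟩ := e i hi
    have z : ∀ m, mir x m 0 = 1 := fun m => by simp [mir, x0 hC]
    refine le_centralizer_iff.1 (sup_le ?_ ?_) <;>
    · intro v hv
      obtain ⟨a, rfl⟩ := (hC.kp.memX _ v).1 hv
      obtain ⟨r, rfl⟩ := hr a
      refine mem_centralizer_iff.2 fun p hp => ?_
      obtain ⟨-, -, ⟨w, ew, -⟩, -⟩ := (h'.mem _ hs p).1 hp
      have := h'.act _ hs p hp w ew r
      rw [zero_mul, zero_mul, z, z, e3, e4, mir_s' e1, mir_s' e2] at this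
      first
        | exact (commutatorElement_eq_one_iff_commute.1 this.1).eq
        | exact (commutatorElement_eq_one_iff_commute.1 this.2).eq
  · obtain ⟨k, rfl⟩ := (par i).2 hi
    have e : ∀ k : ZMod 8, sh (3 + 2 * k) ∧ sh (1 + 2 * k) := by decide
    rw [show 2 + 2 * k + 1 = 3 + 2 * k by ring, show 2 + 2 * k - 1 = 1 + 2 * k by ring]
    exact ⟨rotC hC (fun p hp q hq => (hR.r3 q ((h.mem 3 s3 q).2 hq) p ((m1 2 l2 p).2 hp)).symm) k
      p ((m1 _ hi p).1 hp) _ (hy _ (e k).1 a),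
      rotC hC (fun p hp q hq => (hR.r1 q ((h.mem 1 s1 q).2 hq) p ((m1 2 l2 p).2 hp)).symm) k
      p ((m1 _ hi p).1 hp) _ (hy _ (e k).2 a)⟩
  · obtain ⟨k, rfl⟩ := (par i).2 hi
    have e : ∀ k : ZMod 8, ¬ sh (2 + 2 * k + 2) := by decide
    obtain ⟨w, w1, w2⟩ := rot hC k
    obtain ⟨p0, hp0, rfl⟩ := w2 _ _ _ ((m1 _ hi p).1 hp)
    have hq' := (m1 _ (e k) q).1 hq
    rw [show 2 + 2 * k + 2 = 4 + 2 * k by ring] at hq'
    obtain ⟨q0, hq0, rfl⟩ := w2 _ _ _ hq'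
    have := inv_mem (hR'.r13 q0 ((m1 4 l4 q0).2 hq0) p0 ((m1 2 l2 p0).2 hp0))
    rw [XR_mir hr, commutatorElement_inv] at this
    obtain ⟨a, ea⟩ := (hC.kp.memX 3 _).1 this
    refine (hC.kp.memX _ _).2 ⟨a, ?_⟩
    rw [show 2 + 2 * k + 1 = 3 + 2 * k by ring, ← w1, ← ea, commutatorElement_def,
      commutatorElement_def]
    group
  · obtain ⟨a, rfl⟩ := hr w
    obtain ⟨p', hp', q, hq, e1, e2, e3⟩ := hR'.r4 p hp a e s
    obtain ⟨b, rfl⟩ := (hD.hat 3 s3 q).1 ((h.mem 3 s3 q).1 hq)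
    refine ⟨p', hp', b, e1.trans ?_, e2.trans ?_, e3⟩
    · rw [mir_s s3, mul_pow, mul_comm (a ^ 2)]
      rfl
    · rw [mir_l l2, add_zero, one_mul]
      rfl

theorem com2 : Com2Stmt.{u, v} := by
  intro F _ _ G _ _ L x t hC Xh Xh' h h' hR hR'
  have hr := hC.kb.root
  have s1 : sh 1 := by decide
  have s3 : sh 3 := by decide
  have l2 : ¬ sh 2 := by decide
  have l4 : ¬ sh 4 := by decide
  have z : ∀ m, mir x m 0 = 1 := fun m => by simp [mir, x0 hC]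
  have m1 : ∀ i, ¬ sh i → ∀ p, p ∈ Xh' (5 - i) ↔ p ∈ HatS L x t 0 i := fun i hi p => by
    rw [(long hr h' hi).1, zero_pow two_ne_zero]
  let Yh : ZMod 8 → Subgroup G := fun i => if sh i then Xh i else Xh' (5 - i)
  have ys : ∀ i, sh i → Yh i = Xh i := fun i hi => if_pos hi
  have yl : ∀ i, ¬ sh i → Yh i = Xh' (5 - i) := fun i hi => if_neg hi
  have mem : ∀ i p, p ∈ Yh i ↔ p ∈ HatS L x t 0 i := fun i p => by
    by_cases hi : sh i
    · rw [ys i hi, h.mem i hi]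
    · rw [yl i hi, m1 i hi]
  have q2 : ∀ y ∈ Xh' 3, y * y = 1 := fun y hy => hat_sq (x0 hC) ((m1 2 l2 y).1 hy)
  have q3 : ∀ y ∈ Xh 3, y * y = 1 := fun y hy => hat_sq (x0 hC) ((h.mem 3 s3 y).1 hy)
  have cc : ∀ (m : ZMod 8), (∀ p ∈ Yh 1, ∀ q ∈ Yh (1 + m), Commute p q) →
      (∀ p ∈ Yh 2, ∀ q ∈ Yh (2 + m), Commute p q) → ∀ i, Yh i ≤ C[Yh (i + m)] := by
    intro m a1 a2 i p hp
    refine mem_centralizer_iff.2 fun q hq => Eq.symm ?_
    have hq' := (mem _ q).1 hq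
    by_cases hi : sh i
    · obtain ⟨k, rfl⟩ := (par i).1 hi
      rw [add_right_comm] at hq'
      exact rotC hC (fun p hp q hq => a1 p ((mem _ p).2 hp) q ((mem _ q).2 hq)) k p
        ((mem _ p).1 hp) q hq'
    · obtain ⟨k, rfl⟩ := (par i).2 hi
      rw [add_right_comm] at hq'
      exact rotC hC (fun p hp q hq => a2 p ((mem _ p).2 hp) q ((mem _ q).2 hq)) k p
        ((mem _ p).1 hp) q hq'
  have d1 := c13 (x0 hC) h hR q2
  have d2 := c13 z h' hR' q3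
  refine ⟨Yh, mem, fun i => ?_, fun i => ?_, fun i => ?_, fun i => ?_,
    cc 1 hR.r1 fun p hp q hq => (hR.r3 q hq p hp).symm,
    cc 2 d1 fun p hp q hq => (d2 q hq p hp).symm,
    fun p hp a e u => ?_, fun p hp w e s => ?_⟩
  · by_cases hi : sh i
    · exact ys i hi ▸ h.le i hi
    · exact yl i hi ▸ (long hr h' hi).2.1
  · by_cases hi : sh i
    · exact ys i hi ▸ h.surj i hi
    · exact yl i hi ▸ (long hr h' hi).2.2.1
  · by_cases hi : sh i
    · exact ys i hi ▸ h.fix i hi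
    · exact yl i hi ▸ (long hr h' hi).2.2.2
  · by_cases hi : sh i
    · exact ys i hi ▸ h.odd i hi
    · exact yl i hi ▸ h'.odd _ ((sh5 i).2 hi)
  · obtain ⟨p', hp', q, hq, e1, e2, e3⟩ := hR.r4 p hp a e u
    rw [add_zero, one_mul] at e2
    refine ⟨q, hq, p', hp', e2, e1, ?_⟩
    calc ⁅p, x 4 u⁆ = p * (x 4 u * p * (x 4 u)⁻¹)⁻¹ := by rw [commutatorElement_def]; group
      _ = (p' * (p * q) * p⁻¹)⁻¹ := by rw [e3]; group
      _ = q⁻¹ * p'⁻¹ := by rw [(hR.r1 p hp q hq).eq]; group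
      _ = q * p' := by
        rw [inv_eq_of_mul_eq_one_right (q2 q hq), inv_eq_of_mul_eq_one_right (q3 p' hp')]
  · obtain ⟨a, rfl⟩ := hr w
    obtain ⟨p', hp', q, hq, e1, e2, e3⟩ := hR'.r4 p hp a e s
    refine ⟨p', hp', q, hq, e1.trans ?_, e2.trans ?_, ?_⟩
    · rw [mir_s s3, mul_pow, mul_comm (a ^ 2)]
      rfl
    · rw [mir_l l2, add_zero, one_mul, mul_comm (a ^ 2)]
      rfl
    · have e4 : x 1 s * p * (x 1 s)⁻¹ = p' * p * q := e3
      rw [commutatorElement_def, e4, mul_assoc p', (hR'.r1 p hp q hq).eq]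
      group

end Cfsg.Agent.H91.S4Mir
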