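import Mathlib
import Cfsg.Agent.H58.SWDefs
import Cfsg.Agent.H31.FieldInv

/-! Elementary facts on the linear and unitary data. -/

set_option autoImplicit false
set_option linter.unusedSectionVars false
open Matrix Cfsg

namespace Cfsg.Agent.H91.SwKa

open Cfsg.Agent.H58.SW Cfsg.Agent.H31

theorem rank_map {F : Type} [Field F] {n : ℕ} (σ : F →+* F) (x : Mt n F) :
    (x.map σ).rank = x.rank := by
  obtain ⟨V, U, e, hV, hU, h⟩ := exists_rank_normal_form x
  have h1 : V.map σ * x.map σ * U.map σ = V * x * U := by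
    rw [← Matrix.map_mul, ← Matrix.map_mul, h]
    ext i j
    rw [map_apply, submatrix_apply]
    rcases e i with a | a <;> rcases e j with b | b <;> simp [one_apply]
  have u : ∀ {A : Mt n F}, IsUnit A → IsUnit A.det := fun h => (isUnit_iff_isUnit_det _).1 h
  rw [← rank_mul_eq_right_of_isUnit_det _ (x.map σ) (u (hV.map σ.mapMatrix)),
    ← rank_mul_eq_left_of_isUnit_det _ _ (u (hU.map σ.mapMatrix))]
  refine (congrArg rank h1).trans ?_
  rw [rank_mul_eq_left_of_isUnit_det _ _ (u hU), rank_mul_eq_right_of_isUnit_det _ _ (u hV)]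

variable {F : Type} [Field F] [Fintype F] [DecidableEq F] {n : ℕ} (c : Cl F n)

theorem hF (h : c.u = true) : Fintype.card F = c.q ^ 2 := by rw [c.hq, if_pos h]

theorem qp : ∃ f : ℕ, 0 < f ∧ c.q = c.p ^ f := by
  have := c.chr
  by_cases h : c.u = true
  · obtain ⟨k, hk, -, e⟩ := exists_pow_char (hF c h)
    exact ⟨k, hk, by rwa [ringChar.eq F c.p] at e⟩
  · obtain ⟨k, -, e⟩ := FiniteField.card F c.p
    exact ⟨k, k.2, by rw [← e, c.hq, if_neg h]⟩

theorem two_le : 2 ≤ c.q := by
  obtain ⟨f, hf, e⟩ := qp c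
  exact e ▸ Nat.one_lt_pow hf.ne' c.hp.one_lt

theorem q0 : c.q ≠ 0 := by have := two_le c; omega

theorem st_eq (h : c.u = true) (x : Mt n F) : c.st x = (x.map (frobQ (hF c h)))ᵀ := rfl

theorem hf_single (i : Fin n) (v : Vc n F) : c.hf (Pi.single i 1) v = v i ^ c.q := by
  rw [Cl.hf, hermForm, Finset.sum_eq_single i (fun j _ hj => by rw [Pi.single_eq_of_ne hj, zero_mul])
    (fun h => absurd (Finset.mem_univ i) h), Pi.single_eq_same, one_mul]

theorem hf_adj (h : c.u = true) (x : Mt n F) (v w : Vc n F) :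
    c.hf (x *ᵥ v) w = c.hf v (c.st x *ᵥ w) := by
  have : ∀ j, (∑ i, x i j ^ c.q * w i) ^ c.q = ∑ i, x i j * w i ^ c.q := fun j => by
    rw [← frobQ_apply (hF c h), map_sum]
    exact Finset.sum_congr rfl fun i _ => by
      rw [map_mul, frobQ_apply, frobQ_apply, pow_q_pow_q (hF c h)]
  simp only [Cl.hf, hermForm, mulVec, dotProduct, Cl.st, transpose_apply, map_apply, this,
    Finset.sum_mul, Finset.mul_sum]
  rw [Finset.sum_comm]
  exact Finset.sum_congr rfl fun j _ => Finset.sum_congr rfl fun i _ => by ring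

theorem mem_St (x : Gl n F) : x ∈ c.St ↔ (c.u = true → c.st x * (x : Mt n F) = 1) := by
  by_cases h : c.u = true
  · rw [Cl.St, if_pos h, imp_iff_right h]
    change (∀ u v, c.hf (x.1 *ᵥ u) (x.1 *ᵥ v) = c.hf u v) ↔ _
    simp only [hf_adj c h, mulVec_mulVec]
    refine ⟨fun hx => toLin'.injective (LinearMap.ext fun v => funext fun i => ?_),
      fun e u v => by rw [e, one_mulVec]⟩
    have := hx (Pi.single i 1) v
    rw [hf_single, hf_single] at this
    rw [toLin'_apply, toLin'_apply, one_mulVec]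
    exact (frobQ (hF c h)).injective this
  · rw [Cl.St, if_neg h]
    exact ⟨fun _ e => absurd e h, fun _ => Subgroup.mem_top _⟩

theorem st_smul (a : F) (x : Mt n F) : c.st (a • x) = a ^ c.q • c.st x := by
  ext i j
  simp [Cl.st, mul_pow]

theorem st_one : c.st 1 = 1 := by
  ext i j
  simp only [Cl.st, transpose_apply, map_apply, one_apply, eq_comm (a := j)]
  split_ifs
  · exact one_pow _
  · exact zero_pow (q0 c)

/-- an index -/
def i0 : Fin n := ⟨0, by have := c.hn; omega⟩

include c in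
theorem smul_inj {a b : F} (h : a • (1 : Mt n F) = b • 1) : a = b := by
  simpa using congrFun (congrFun h (i0 c)) (i0 c)

theorem mem_cen (x : Gl n F) :
    x ∈ Subgroup.center (Gl n F) ↔ ∃ a : F, (x : Mt n F) = a • (1 : Mt n F) := by
  rw [GeneralLinearGroup.mem_center_iff_val_mem_range_scalar]
  exact exists_congr fun a => by rw [scalar_apply, smul_one_eq_diagonal, eq_comm]

theorem mem_Z (x : Gl n F) : x ∈ c.Z ↔ ∃ a, c.ZV a ∧ (x : Mt n F) = a • (1 : Mt n F) := by
  have k : ∀ a : F, (x : Mt n F) = a • (1 : Mt n F) → (x ∈ c.St ↔ c.ZV a) := fun a e => by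
    have a0 : a ≠ 0 := fun h => x.det_ne_zero (by
      have : Nonempty (Fin n) := ⟨i0 c⟩
      rw [e, h, zero_smul, det_zero])
    rw [mem_St, e, st_smul, st_one, smul_mul_smul_comm, one_mul, ← pow_succ, Cl.ZV, and_iff_right a0]
    exact forall_congr' fun _ => ⟨fun h => smul_inj c (by rw [h, one_smul]),
      fun h => by rw [h, one_smul]⟩
  rw [Cl.Z, Subgroup.mem_inf, mem_cen]
  exact ⟨fun ⟨h, a, e⟩ => ⟨a, (k a e).1 h, e⟩, fun ⟨a, h, e⟩ => ⟨(k a e).2 h, a, e⟩⟩

theorem ex_Z (a : F) (h : c.ZV a) : ∃ z ∈ c.Z, (z : Mt n F) = a • (1 : Mt n F) :=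
  ⟨GeneralLinearGroup.mkOfDetNeZero (a • 1) (by
    rw [det_smul, det_one, mul_one]; exact pow_ne_zero _ h.1), (mem_Z c _).2 ⟨a, h, rfl⟩, rfl⟩

theorem card_ZV : Nat.card {a : F // c.ZV a} = c.zc := by
  by_cases h : c.u = true
  · rw [Cl.zc, if_pos h, ← card_pow_succ_eq_one (hF c h)]
    refine Nat.card_congr (Equiv.subtypeEquivRight fun a => ⟨fun e => e.2 h, fun e => ⟨?_, fun _ => e⟩⟩)
    rintro rfl
    simp at e
  · have := c.hq
    rw [if_neg h] at this
    rw [Cl.zc, if_neg h, ← this, ← Nat.card_eq_fintype_card, ← Nat.card_units]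
    exact Nat.card_congr ((Equiv.subtypeEquivRight fun a =>
      ⟨fun e => e.1, fun e => ⟨e, fun e' => absurd e' h⟩⟩).trans unitsEquivNeZero.symm)

theorem Z_eq (z : c.Z) : c.ZV (z.1.1 (i0 c) (i0 c)) ∧ z.1.1 = z.1.1 (i0 c) (i0 c) • (1 : Mt n F) := by
  obtain ⟨a, h, e⟩ := (mem_Z c _).1 z.2
  have : z.1.1 (i0 c) (i0 c) = a := by rw [e]; simp
  rw [this]
  exact ⟨h, e⟩

theorem Z_inj {z w : c.Z} (h : z.1.1 (i0 c) (i0 c) = w.1.1 (i0 c) (i0 c)) : z = w :=
  Subtype.ext (Units.ext (by rw [(Z_eq c z).2, h, ← (Z_eq c w).2]))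

theorem card_Z : Nat.card c.Z = c.zc := by
  rw [← card_ZV]
  refine Nat.card_congr (Equiv.ofBijective (fun z => ⟨_, (Z_eq c z).1⟩)
    ⟨fun z w h => Z_inj c (congrArg Subtype.val h), fun a => ?_⟩)
  obtain ⟨z, hz, e⟩ := ex_Z c a.1 a.2
  exact ⟨⟨z, hz⟩, Subtype.ext (by change z.1 _ _ = _; rw [e]; simp)⟩

theorem cyc : IsCyclic c.Z :=
  isCyclic_of_injective_ringHom (R := F)
    { toFun z := z.1.1 (i0 c) (i0 c)
      map_one' := one_apply_eq _
      map_mul' := fun z w => by
        change (z.1.1 * w.1.1) _ _ = _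
        conv_lhs => rw [(Z_eq c z).2, smul_mul_assoc, one_mul]
        rfl } fun _ _ h => Z_inj c h

theorem conj_one (a : Gl n F) :
    (MulAut.conj a : Au n F) = 1 ↔ a ∈ Subgroup.center (Gl n F) := by
  rw [Subgroup.mem_center_iff, MulEquiv.ext_iff]
  exact forall_congr' fun x => by
    rw [MulAut.conj_apply, MulAut.one_apply, mul_inv_eq_iff_eq_mul, eq_comm]

theorem st_det (h : c.u = true) (x : Mt n F) : (c.st x).det = x.det ^ c.q := by
  rw [st_eq c h, det_transpose, ← frobQ_apply (hF c h), RingHom.map_det]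
  rfl

theorem ka : KAStmt := fun F _ _ _ n c =>
  { qp := qp c
    two_le := two_le c
    mem_St := mem_St c
    mem_S := fun x => and_congr_right fun _ => Units.ext_iff
    mem_Z := mem_Z c
    ex_Z := ex_Z c
    card_Z := card_Z c
    card_ZV := card_ZV c
    cyc := cyc c
    zcomm := fun z hz x => (Subgroup.mem_center_iff.1 hz.2 x).symm
    conj_one := fun a ha => (conj_one a).trans (and_iff_right ha).symm
    z_hat := fun H z hz => ⟨hz.1, by
      change MulAut.conj z ∈ H
      rw [(conj_one z).2 hz.2]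
      exact one_mem H⟩
    mem_hat := fun _ _ => Iff.rfl
    det_zv := fun x hx => ⟨x.det_ne_zero, fun h => by
      rw [pow_succ, ← st_det c h, ← det_mul, (mem_St c x).1 hx h, det_one]⟩
    pz := fun h => by
      obtain ⟨f, hf, e⟩ := qp c
      have h1 : c.p ∣ c.q := e ▸ dvd_pow_self _ hf.ne'
      have h2 := two_le c
      refine c.hp.one_lt.ne' (Nat.dvd_one.1 ?_)
      rw [Cl.zc] at h
      split_ifs at h
      · exact (Nat.dvd_add_right h1).1 h
      · have := Nat.dvd_sub h1 h
        rwa [show c.q - (c.q - 1) = 1 by omega] at this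
    fr_add := fun h => add_pow_q (hF c h)
    fr_fr := fun h => pow_q_pow_q (hF c h)
    fr_ne := fun h => exists_pow_q_ne (hF c h)
    st_add := fun h x y => by ext i j; exact map_add (frobQ (hF c h)) _ _
    st_sub := fun h x y => by ext i j; exact map_sub (frobQ (hF c h)) _ _
    st_mul := fun h x y => by rw [st_eq c h, Matrix.map_mul, transpose_mul]; rfl
    st_smul := st_smul c
    st_one := st_one c
    st_st := fun h x => by ext i j; exact pow_q_pow_q (hF c h) _
    st_rank := fun h x => by rw [st_eq c h, rank_transpose, rank_map]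
    st_det := st_det c
    hf_adj := hf_adj c
    hf_symm := fun h v w => by
      rw [Cl.hf, Cl.hf, hermForm, hermForm, ← frobQ_apply (hF c h), map_sum]
      exact Finset.sum_congr rfl fun i _ => by
        rw [map_mul, frobQ_apply, frobQ_apply, pow_q_pow_q (hF c h), mul_comm]
    hf_nd := fun v h => funext fun i => (pow_eq_zero_iff (q0 c)).1 ((hf_single c i v).symm.trans (h _))
    hf_add := fun v v' w => by simp [Cl.hf, hermForm, add_mul, Finset.sum_add_distrib]
    hf_smul := fun a v w => by simp [Cl.hf, hermForm, Finset.mul_sum, mul_assoc]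
    hf_add' := fun h v w w' => by
      simp [Cl.hf, hermForm, add_pow_q (hF c h), mul_add, Finset.sum_add_distrib]
    hf_smul' := fun a v w => by
      simp [Cl.hf, hermForm, Finset.mul_sum, mul_pow, mul_left_comm]
    st_vec := fun h v w => by
      ext i j
      simp [Cl.st, Cl.bar, vecMulVec_apply, mul_pow, pow_q_pow_q (hF c h), mul_comm]
    vec_ap := fun v w x => by
      ext i
      simp only [mulVec, dotProduct, vecMulVec_apply, Cl.bar, Cl.hf, hermForm, Pi.smul_apply,
        smul_eq_mul, Finset.sum_mul]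
      exact Finset.sum_congr rfl fun j _ => by ring
    nsurj := fun h a ha _ => exists_pow_succ_eq (hF c h) ha
    h90 := fun h a ha => by
      obtain ⟨b, b0, e⟩ := (isInvol_frobQ (hF c h)).exists_div_eq (a := a) (by
        rw [frobQ_apply, ← pow_succ', ha])
      refine ⟨b ^ c.q, pow_ne_zero _ b0, ?_⟩
      rw [pow_q_pow_q (hF c h), e, frobQ_apply, div_mul_cancel₀ _ (pow_ne_zero _ b0)]
    tz := fun h => by
      refine (Nat.card_congr (Equiv.subtypeEquivRight fun a => ?_)).trans
        (card_trace_eq (σ := frobQ (hF c h)) (hF c h) (fun _ => rfl) (map_zero _))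
      rw [frobQ_apply, add_comm, add_eq_zero_iff_eq_neg]
    fx := fun h => ⟨fixedField (frobQ (hF c h)), card_pow_q_eq_self (hF c h), fun _ => Iff.rfl⟩
    th := fun h => (isInvol_frobQ (hF c h)).exists_trace_eq (map_one _) }

end Cfsg.Agent.H91.SwKa
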