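import Mathlib
import Cfsg.Agent.H91.SwKa

/-! Field automorphisms of odd order centralizing an extraspecial type subgroup. -/

set_option autoImplicit false
set_option linter.unusedSectionVars false
open Matrix Cfsg
open scoped commutatorElement

namespace Cfsg.Agent.H91.SwDn1

open Cfsg.Agent.H58.SW Cfsg.Agent.H31 Cfsg.Agent.H91.SwKa

theorem mul_pow_c {G : Type*} [Group G] {x y c : G} (hc : c ∈ Subgroup.center G)
    (h : y * x = c * (x * y)) (n : ℕ) : (x * y) ^ n = c ^ n.choose 2 * (x ^ n * y ^ n) := by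
  have hcc : ∀ (k : ℕ) (g : G), g * c ^ k = c ^ k * g := fun k g =>
    Subgroup.mem_center_iff.1 (pow_mem hc k) g
  have h1 : ∀ k : ℕ, y ^ k * x = c ^ k * (x * y ^ k) := fun k => by
    induction k with
    | zero => simp
    | succ k ih =>
      calc y ^ (k + 1) * x = y * (y ^ k * x) := by rw [pow_succ', mul_assoc]
        _ = c ^ k * (y * x) * y ^ k := by rw [ih, ← mul_assoc, hcc k y]; simp only [mul_assoc]
        _ = _ := by rw [h, pow_succ, pow_succ']; simp only [mul_assoc]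
  induction n with
  | zero => simp
  | succ n ih =>
    rw [pow_succ, ih, Nat.choose_succ_succ' n 1, Nat.choose_one_right, add_comm n, pow_add]
    calc _ = c ^ n.choose 2 * (x ^ n * (y ^ n * x) * y) := by simp only [mul_assoc]
      _ = _ := by rw [h1, ← mul_assoc (x ^ n), hcc n, pow_succ, pow_succ]; simp only [mul_assoc]

theorem arith {s q : ℕ} (hq : 2 ≤ q) (h : s ^ 3 = q ^ 2) (hd : s - 1 ∣ 3 * (q - 1)) : q ^ 2 ≤ 81 := by
  obtain ⟨k, rfl⟩ : s ∣ q := (Nat.pow_dvd_pow_iff two_ne_zero).1 ⟨s, by rw [← h]; ring⟩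
  have s0 : s ≠ 0 := by rintro rfl; simp at hq
  obtain rfl : s = k ^ 2 := Nat.eq_of_mul_eq_mul_left (pow_pos (Nat.pos_of_ne_zero s0) 2) (by
    rw [← mul_pow, ← h]; ring)
  obtain ⟨m, rfl⟩ : ∃ m, k = m + 2 := ⟨k - 2, by
    rcases k with _ | _ | k <;> simp at hq ⊢⟩
  rw [show (m + 2) ^ 2 - 1 = (m + 1) * (m + 3) from Nat.sub_eq_of_eq_add (by ring),
    show (m + 2) ^ 2 * (m + 2) - 1 = (m + 1) * (m + 3) * (m + 2) + (m + 1) from
      Nat.sub_eq_of_eq_add (by ring), mul_add 3,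
    Nat.dvd_add_right ((dvd_mul_right _ _).mul_left 3)] at hd
  have := Nat.le_of_dvd (by omega) hd
  obtain rfl : m = 0 := by nlinarith
  norm_num

variable {F : Type} [Field F] [Fintype F] [DecidableEq F] {n : ℕ}

theorem fixed {σ : F ≃+* F} (h3 : σ ^ 3 = 1) (h1 : σ ≠ 1) :
    ∃ s, s ^ 3 = Fintype.card F ∧ ∀ m, (∀ b : F, b ≠ 0 → σ b = b → b ^ m = 1) → s - 1 ∣ m := by
  classical
  have o : orderOf σ = 3 := orderOf_eq_prime h3 h1
  have : Finite (F ≃+* F) := Finite.of_injective (fun f : F ≃+* F => (f : F → F)) DFunLike.coe_injective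
  let _ := Fintype.ofFinite (Subgroup.zpowers σ)
  let K := FixedPoints.subfield (Subgroup.zpowers σ) F
  have hr : Module.finrank K F = 3 := by
    rw [FixedPoints.finrank_eq_card, ← Nat.card_eq_fintype_card, Nat.card_zpowers, o]
  refine ⟨Fintype.card K, by rw [Module.card_eq_pow_finrank (K := K) (V := F), hr], fun m hm => ?_⟩
  refine (FiniteField.forall_pow_eq_one_iff K m).1 fun b => Units.ext (Subtype.ext ?_)
  exact hm b.1.1 (fun e => b.ne_zero (Subtype.ext e)) (b.1.2 ⟨σ, Subgroup.mem_zpowers σ⟩)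

/-- the average of the powers -/
def av (r : ℕ) (M : Mt n F) : Mt n F := (r : F)⁻¹ • ∑ k ∈ Finset.range r, M ^ k

theorem mul_av {r : ℕ} {M : Mt n F} (h : M ^ r = 1) : M * av r M = av r M := by
  have := mul_geom_sum M r
  rw [h, sub_self, sub_mul, one_mul, sub_eq_zero] at this
  rw [av, mul_smul_comm, this]

theorem av_mul {r : ℕ} {M : Mt n F} (h : M ^ r = 1) : av r M * M = av r M := by
  have := geom_sum_mul M r
  rw [h, sub_self, mul_sub, mul_one, sub_eq_zero] at this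
  rw [av, smul_mul_assoc, this]

theorem av_left {r : ℕ} (hr : (r : F) ≠ 0) {M N : Mt n F} (h : M * N = N) : av r M * N = N := by
  have : ∀ k, M ^ k * N = N := fun k => by
    induction k with
    | zero => rw [pow_zero, one_mul]
    | succ k ih => rw [pow_succ, mul_assoc, h, ih]
  simp only [av, smul_mul_assoc, Finset.sum_mul, this, Finset.sum_const, Finset.card_range]
  rw [← Nat.cast_smul_eq_nsmul F, inv_smul_smul₀ hr]

theorem av_right {r : ℕ} (hr : (r : F) ≠ 0) {M N : Mt n F} (h : N * M = N) : N * av r M = N := by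
  have : ∀ k, N * M ^ k = N := fun k => by
    induction k with
    | zero => rw [pow_zero, mul_one]
    | succ k ih => rw [pow_succ', ← mul_assoc, h, ih]
  simp only [av, mul_smul_comm, Finset.mul_sum, this, Finset.sum_const, Finset.card_range]
  rw [← Nat.cast_smul_eq_nsmul F, inv_smul_smul₀ hr]

theorem av_vec {r : ℕ} (hr : (r : F) ≠ 0) {M : Mt n F} (hM : M ^ r = 1) {μ : F} {ξ : Vc n F}
    (h : M *ᵥ ξ = μ • ξ) : av r M *ᵥ ξ = if μ = 1 then ξ else 0 := by
  split_ifs with e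
  · rw [e, one_smul] at h
    have : ∀ k, M ^ k *ᵥ ξ = ξ := fun k => by
      induction k with
      | zero => rw [pow_zero, one_mulVec]
      | succ k ih => rw [pow_succ, ← mulVec_mulVec, h, ih]
    simp only [av, smul_mulVec, sum_mulVec, this, Finset.sum_const, Finset.card_range]
    rw [← Nat.cast_smul_eq_nsmul F, inv_smul_smul₀ hr]
  · have : (μ - 1) • (av r M *ᵥ ξ) = 0 := by
      rw [sub_smul, ← mulVec_smul, ← h, mulVec_mulVec, av_mul hM, one_smul, sub_self]
    exact (smul_eq_zero.1 this).resolve_left (sub_ne_zero.2 e)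

theorem idem_mul {e : Mt n F} (h : e * e = e) {a b : F} (hab : a * b = 1) :
    (1 + (a - 1) • e) * (1 + (b - 1) • e) = 1 := by
  have : (a - 1) + (b - 1) + (a - 1) * (b - 1) = 0 := by linear_combination hab
  rw [add_mul, mul_add, mul_add, one_mul, one_mul, mul_one, smul_mul_smul_comm, h, add_assoc,
    ← add_smul, ← add_smul, ← add_assoc, add_comm (b - 1), this, zero_smul, add_zero]

/-- `h` is a function of `x` -/
def Ev (x h : Gl n F) (φ : F → F) : Prop :=
  ∀ (μ : F) (ξ : Vc n F), x.1 *ᵥ ξ = μ • ξ → h.1 *ᵥ ξ = φ μ • ξ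

theorem Ev.mul {x h h' : Gl n F} {φ φ' : F → F} (a : Ev x h φ) (b : Ev x h' φ') :
    Ev x (h * h') fun μ => φ μ * φ' μ := fun μ ξ e => by
  rw [Units.val_mul, ← mulVec_mulVec, b μ ξ e, mulVec_smul, a μ ξ e, smul_smul, mul_comm]

theorem inv_vec (h : Gl n F) (ξ : Vc n F) : (h⁻¹).1 *ᵥ (h.1 *ᵥ ξ) = ξ := by
  rw [mulVec_mulVec, Units.inv_mul, one_mulVec]

theorem Ev.inv {x h : Gl n F} {φ : F → F} (a : Ev x h φ) : Ev x h⁻¹ fun μ => (φ μ)⁻¹ :=
  fun μ ξ e => by
    have := inv_vec h ξ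
    rw [a μ ξ e, mulVec_smul] at this
    by_cases h0 : φ μ = 0
    · rw [← this, h0, zero_smul, mulVec_zero, smul_zero]
    · conv_rhs => rw [← this, inv_smul_smul₀ h0]

theorem shift {x y : Gl n F} {ζ : F} (hz : (⁅y, x⁆).1 = ζ • 1) {μ : F} {ξ : Vc n F}
    (e : x.1 *ᵥ ξ = μ • ξ) : x.1 *ᵥ ((y⁻¹).1 *ᵥ ξ) = (ζ * μ) • ((y⁻¹).1 *ᵥ ξ) := by
  have : x * y⁻¹ = y⁻¹ * (⁅y, x⁆ * x) := by rw [commutatorElement_def]; group
  rw [mulVec_mulVec, ← Units.val_mul, this, Units.val_mul, Units.val_mul, hz, smul_mul_assoc,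
    one_mul, ← mulVec_mulVec, smul_mulVec, e, smul_smul, mulVec_smul]

theorem Ev.conj {x y h : Gl n F} {ζ : F} (hz : (⁅y, x⁆).1 = ζ • 1) {φ : F → F} (a : Ev x h φ) :
    Ev x (y * h * y⁻¹) fun μ => φ (ζ * μ) := fun μ ξ e => by
  rw [Units.val_mul, Units.val_mul, ← mulVec_mulVec, ← mulVec_mulVec, a _ _ (shift hz e),
    mulVec_smul, mulVec_mulVec, Units.mul_inv, one_mulVec]

theorem eig [Nonempty (Fin n)] {r : ℕ} (hr : r ≠ 0) {x y : Gl n F} {ζ : F}
    (hζ : IsPrimitiveRoot ζ r) (hz : (⁅y, x⁆).1 = ζ • 1) (hx : x.1 ^ r = 1) {μ : F}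
    (hμ : μ ^ r = 1) : ∃ ξ : Vc n F, ξ ≠ 0 ∧ x.1 *ᵥ ξ = μ • ξ := by
  have : NeZero r := ⟨hr⟩
  let f : Module.End F (Vc n F) := toLin' x.1
  have d : minpoly F f ∣ Polynomial.X ^ r - Polynomial.C 1 := minpoly.dvd F f (by
    rw [map_sub, map_pow, Polynomial.aeval_X, map_one, map_one, ← toLin'_pow, hx, toLin'_one]
    exact sub_self _)
  obtain ⟨a, ha⟩ := ((Polynomial.X_pow_sub_one_splits hζ).of_dvd
    (Polynomial.X_pow_sub_C_ne_zero (Nat.pos_of_ne_zero hr) 1) d).exists_eval_eq_zero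
    (minpoly.degree_pos (Algebra.IsIntegral.isIntegral f)).ne'
  have a1 : a ^ r = 1 := by
    simpa [sub_eq_zero] using Polynomial.eval_eq_zero_of_dvd_of_eval_eq_zero d ha
  obtain ⟨ξ, hξ⟩ := (Module.End.hasEigenvalue_of_isRoot ha).exists_hasEigenvector
  have k : ∀ k, ∃ ξ : Vc n F, ξ ≠ 0 ∧ x.1 *ᵥ ξ = (ζ ^ k * a) • ξ := fun k => by
    induction k with
    | zero => exact ⟨ξ, hξ.2, by rw [pow_zero, one_mul]; exact hξ.apply_eq_smul⟩
    | succ k ih =>
      obtain ⟨η, h0, e⟩ := ih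
      refine ⟨_, fun e' => h0 ?_, by rw [pow_succ', mul_assoc]; exact shift hz e⟩
      rw [← inv_vec y⁻¹ η, e', mulVec_zero]
  have a0 : a ≠ 0 := by rintro rfl; simp [hr] at a1
  obtain ⟨i, -, e⟩ := hζ.eq_pow_of_pow_eq_one (ξ := μ * a⁻¹) (by rw [mul_pow, inv_pow, hμ, a1]; simp)
  simpa [e, a0] using k i

theorem prim (c : Cl F n) {r : ℕ} (hr : r.Prime) {z : Gl n F} {a : F} (e : z.1 = a • 1)
    (h : z ^ r = 1) : a ^ r = 1 ∧ (z ≠ 1 → IsPrimitiveRoot a r) := by
  have : Fact r.Prime := ⟨hr⟩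
  have h1 : a ^ r = 1 := smul_inj c (by
    rw [one_smul, ← one_pow r, ← smul_pow, ← e, ← Units.val_pow_eq_pow_val, h, one_pow]; rfl)
  refine ⟨h1, fun ne => ?_⟩
  rw [← orderOf_eq_prime h1 fun e' => ne (Units.ext (by rw [e, e', one_smul]; rfl))]
  exact IsPrimitiveRoot.orderOf a

theorem dn1 (hKT : KTStmt) (hD : DelKStmt) (h1 : Ext1Stmt) (h2 : Ext2Stmt) : Dn1Stmt := by
  intro F _ _ _ n c r H Q loc rp δ A del mq nab r2
  have ka := ka F n c
  have kt := hKT F n c
  have hr := loc.prime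
  have := c.chr
  have r0 : (r : F) ≠ 0 := fun e =>
    rp ((Nat.prime_dvd_prime_iff_eq c.hp hr).1 ((CharP.cast_eq_zero_iff F c.p r).1 e)).symm
  obtain ⟨t, ht⟩ := loc.std δ del.dH
  obtain ⟨d1, d2, d3, -⟩ := hD F n c r H δ t hr del ht
  have tn : t.neg = false := by
    by_contra h
    exact r2 (d1 (by simpa using h))
  have dap : ∀ x : Gl n F, (δ x).1 = t.ap x.1 := fun x => by simpa [tn] using ht.2.2 x
  obtain ⟨nd, e1⟩ := h1 F n c r H Q loc A mq nab
  replace e1 := e1 (Or.inl r2)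
  obtain ⟨-, -, e2, -⟩ := h2 F n c r A hr nd
  have ZA : c.Z ≤ A := mq.zlt.le
  have cen : ∀ a ∈ A, ∃ z ∈ c.Z, δ a = z * a := fun a ha =>
    ⟨_, del.cen a (loc.qh (mq.le ha)), (inv_mul_cancel_right _ _).symm⟩
  obtain ⟨x, xA, xZ, xr, dx⟩ : ∃ x ∈ A, x ∉ c.Z ∧ x ^ r = 1 ∧ δ x = x := by
    obtain ⟨a, aA, b, bA, ar, br, ab⟩ : ∃ a ∈ A, ∃ b ∈ A, a ^ r = 1 ∧ b ^ r = 1 ∧ ¬ Commute a b := by
      unfold H58.SW.Ab at nab
      push Not at nab
      obtain ⟨a, ha, b, hb, h⟩ := nab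
      obtain ⟨z, hz, e⟩ := e1 a ha
      obtain ⟨w, hw, e'⟩ := e1 b hb
      refine ⟨_, mul_mem ha (ZA hz), _, mul_mem hb (ZA hw), e, e', fun h' => h ?_⟩
      have p := h'.mul_left (ka.zcomm z hz _).inv_left
      rw [mul_inv_cancel_right] at p
      simpa using p.mul_right (ka.zcomm w hw _).symm.inv_right
    have pw : ∀ a z, z ∈ c.Z → a ^ r = 1 → δ a = z * a → z ^ r = 1 := fun a z hz ar e => by
      have := congrArg (· ^ r) e
      simp only [← map_pow, ar, map_one, (ka.zcomm z hz a).mul_pow, mul_one] at this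
      exact this.symm
    obtain ⟨z, hz, da⟩ := cen a aA
    obtain ⟨w, hw, db⟩ := cen b bA
    by_cases z1 : z = 1
    · exact ⟨a, aA, fun h => ab (ka.zcomm a h b), ar, by rw [da, z1, one_mul]⟩
    obtain ⟨α, -, eα⟩ := (ka.mem_Z z).1 hz
    obtain ⟨β, -, eβ⟩ := (ka.mem_Z w).1 hw
    have : NeZero r := ⟨hr.ne_zero⟩
    obtain ⟨k, -, ek⟩ := ((prim c hr eα (pw a z hz ar da)).2 z1).eq_pow_of_pow_eq_one
      (prim c hr eβ (pw b w hw br db)).1
    have zw : w = z ^ k := Units.ext (by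
      rw [Units.val_pow_eq_pow_val, eα, eβ, smul_pow, one_pow, ek])
    have a' : (a ^ k)⁻¹ ∈ A := inv_mem (pow_mem aA k)
    refine ⟨(a ^ k)⁻¹ * b, mul_mem a' bA, fun h => ab ?_, ?_, ?_⟩
    · simpa using ((Commute.refl a).pow_right k).mul_right (ka.zcomm _ h a).symm
    · obtain ⟨m, hm⟩ := hr.dvd_choose_self two_ne_zero (lt_of_le_of_ne hr.two_le (Ne.symm r2))
      rw [mul_pow_c (nd.cm b bA _ a').2 (by rw [commutatorElement_def]; group), hm, pow_mul,
        e2 b bA _ a', one_pow, inv_pow, ← pow_mul, mul_comm k, pow_mul, ar, br]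
      simp
    · rw [map_mul, map_inv, map_pow, da, db, zw, (ka.zcomm z hz a).mul_pow, _root_.mul_inv_rev,
        mul_assoc, inv_mul_cancel_left]
  obtain ⟨y, yA, xy⟩ := nd.nd x xA xZ
  obtain ⟨ζ, ζv, hz⟩ := (ka.mem_Z _).1 (nd.cm y yA x xA)
  have hζ := (prim c hr hz (e2 y yA x xA)).2 fun e =>
    xy (commutatorElement_eq_one_iff_commute.1 e).symm
  obtain ⟨zy, hzy, dy⟩ := cen y yA
  have dc : ∀ g, δ g = g → δ (y * g * y⁻¹) = y * g * y⁻¹ := fun g e => by
    rw [map_mul, map_mul, map_inv, e, dy]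
    calc zy * y * g * (zy * y)⁻¹ = zy * (y * g * y⁻¹) * zy⁻¹ := by group
      _ = _ := by rw [(ka.zcomm zy hzy _).eq, mul_inv_cancel_right]
  have sζ : t.σ ζ = ζ := by
    have : δ ⁅y, x⁆ = ⁅y, x⁆ := by rw [commutatorElement_def, map_mul, dc x dx, map_inv, dx]
    have e := dap ⁅y, x⁆
    rw [this, hz, kt.smul, kt.one] at e
    exact (smul_inj c e).symm
  have xr' : x.1 ^ r = 1 := by rw [← Units.val_pow_eq_pow_val, xr, Units.val_one]
  have ee : av r x.1 * av r x.1 = av r x.1 := av_left r0 (mul_av xr')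
  have z1 : ζ ≠ 1 := hζ.ne_one hr.one_lt
  have z0 : ζ ≠ 0 := ζv.1
  have z2 : ζ * ζ ≠ 1 := fun e => r2 ((Nat.prime_dvd_prime_iff_eq hr Nat.prime_two).1
    (hζ.dvd_of_pow_eq_one 2 (by rw [sq, e])))
  have main : ∀ l, t.σ l = l → c.ZV l → (if ζ * (ζ * ζ) = 1 then l else 1) = l ^ 4 := fun l sl lv => by
    let u : Gl n F := ⟨1 + (l - 1) • av r x.1, 1 + (l⁻¹ - 1) • av r x.1,
      idem_mul ee (mul_inv_cancel₀ lv.1), idem_mul ee (inv_mul_cancel₀ lv.1)⟩
    have hu : u.1 = 1 + (l - 1) • av r x.1 := rfl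
    have uS : u ∈ c.St := (ka.mem_St u).2 fun h => by
      have sx := (ka.mem_St x).1 (nd.le xA) h
      have s1 : c.st (av r x.1) = av r (c.st x.1) := by
        rw [av, av, ka.st_smul, ← frobQ_apply (hF c h), map_inv₀, map_natCast, st_eq c h, st_eq c h,
          ← RingHom.mapMatrix_apply, map_sum, transpose_sum]
        simp only [map_pow, transpose_pow, RingHom.mapMatrix_apply]
      have s2 : c.st x.1 ^ r = 1 := by
        have := (Commute.mul_pow (show Commute (c.st x.1) x.1 from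
          sx.trans (mul_eq_one_comm.1 sx).symm) r).symm
        rwa [sx, xr', one_pow, mul_one] at this
      have s3 : c.st (av r x.1) = av r x.1 := by
        rw [s1, ← av_right r0 (M := x.1) (N := av r (c.st x.1)) (by
          conv_lhs => rw [← av_mul s2, mul_assoc, sx, mul_one]
          )]
        exact av_left r0 (by conv_lhs => rw [← mul_av xr', ← mul_assoc, sx, one_mul])
      rw [hu, ka.st_add h, ka.st_one, ka.st_smul, s3, ← frobQ_apply (hF c h), map_sub, map_one,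
        frobQ_apply]
      exact idem_mul ee (by rw [← pow_succ, lv.2 h])
    have du : δ u = u := Units.ext (by
      have : t.ap (∑ k ∈ Finset.range r, x.1 ^ k) = ∑ k ∈ Finset.range r, x.1 ^ k :=
        (map_sum (AddMonoidHom.mk' t.ap (kt.add t)) _ _).trans (Finset.sum_congr rfl fun k _ => by
          change t.ap _ = _
          rw [← Units.val_pow_eq_pow_val, ← dap, map_pow, dx])
      rw [dap, hu, kt.add, kt.one, kt.smul, map_sub, map_one, sl, av, kt.smul, map_inv₀, map_natCast,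
        this])
    have yS := nd.le yA
    have vH : u * (y * u * y⁻¹)⁻¹ ∈ c.hat H := del.fix _
      ⟨c.St.mul_mem uS (c.St.inv_mem (c.St.mul_mem (c.St.mul_mem yS uS) (c.St.inv_mem yS))), by
        change GeneralLinearGroup.det _ = 1
        rw [map_mul, map_inv, map_mul, map_mul, map_inv, mul_inv_cancel_comm, mul_inv_cancel]⟩
      (by rw [map_mul, map_inv, dc u du, du, mul_inv_cancel]; exact one_mem _)
    have eu : Ev x u fun μ => if μ = 1 then l else 1 := fun μ ξ e => by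
      rw [hu, add_mulVec, one_mulVec, smul_mulVec, av_vec r0 xr' e]
      dsimp only
      split_ifs
      · rw [sub_smul, one_smul, add_sub_cancel]
      · rw [smul_zero, add_zero, one_smul]
    have ev := eu.mul (eu.conj hz).inv
    generalize u * (y * u * y⁻¹)⁻¹ = v at vH ev
    have wA : v * (y * v⁻¹ * y⁻¹) ∈ A := by
      simpa [mul_assoc] using mul_mem (kt.hatG H A mq.inv v vH y yA) (inv_mem yA)
    have ew := ev.mul (ev.inv.conj hz)
    generalize v * (y * v⁻¹ * y⁻¹) = w at wA ew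
    obtain ⟨a, -, ha⟩ := (ka.mem_Z _).1 (nd.cm y yA w wA)
    have ec := (ew.conj hz).mul ew.inv
    have : Nonempty (Fin n) := ⟨i0 c⟩
    have key := fun μ (hμ : μ ^ r = 1) => (eig hr.ne_zero hζ hz xr' hμ).elim fun ξ h =>
      smul_left_injective F h.1 ((ec μ ξ h.2).symm.trans (show _ = a • ξ by
        rw [← commutatorElement_def, ha, smul_mulVec, one_mulVec]))
    have k1 := (key 1 (one_pow r)).trans (key ζ⁻¹ (by rw [inv_pow, hζ.pow_eq_one, inv_one])).symm
    have l0 := lv.1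
    simp only [mul_one, mul_inv_cancel₀ z0, z1, z2, inv_eq_one, if_true, if_false, inv_one,
      one_mul, inv_inv] at k1
    field_simp at k1
    rwa [show ζ * (ζ * ζ) = ζ ^ 3 by ring]
  have z3 : ζ * (ζ * ζ) = 1 := by
    by_contra h
    have := main ζ sζ ζv
    rw [if_neg h] at this
    exact r2 ((Nat.prime_dvd_prime_iff_eq hr Nat.prime_two).1 (hr.dvd_of_dvd_pow (n := 2)
      (hζ.dvd_of_pow_eq_one 4 this.symm)))
  obtain rfl : r = 3 := (Nat.prime_dvd_prime_iff_eq hr Nat.prime_three).1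
    (hζ.dvd_of_pow_eq_one 3 (by rw [← z3]; ring))
  have m3 : ∀ l, t.σ l = l → c.ZV l → l ^ 3 = 1 := fun l sl lv => by
    have := main l sl lv
    rw [if_pos z3, pow_succ] at this
    exact (mul_eq_right₀ lv.1).1 this.symm
  obtain ⟨s, hs, hm⟩ := fixed d2 (d3 tn)
  refine ⟨rfl, ?_⟩
  by_cases h : c.u = true
  · rw [hF c h] at hs ⊢
    refine arith ka.two_le hs (hm _ fun b b0 sb => ?_)
    rw [mul_comm, pow_mul]
    refine m3 _ (by rw [map_pow, sb]) ⟨pow_ne_zero _ b0, fun _ => ?_⟩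
    rw [← pow_mul, mul_comm, ← sq_sub_one_eq (by have := ka.two_le; omega), ← hF c h,
      FiniteField.pow_card_sub_one_eq_one b b0]
  · have := Nat.le_of_dvd (by norm_num) (hm 3 fun b b0 sb => m3 b sb ⟨b0, fun e => absurd e h⟩)
    rw [← hs]
    exact (Nat.pow_le_pow_left (show s ≤ 4 by omega) 3).trans (by norm_num)

end Cfsg.Agent.H91.SwDn1
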