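import Cfsg.Agent.H53.TCDefs

/-! Project TC: a `2`-group of symplectic type is normal in the ambient group. -/

set_option autoImplicit false
set_option linter.unusedSectionVars false

namespace Cfsg.Agent.H91.TcN2

open Cfsg.Agent.H53.TC Cfsg.Agent.H53.MW

universe u

variable {L V K W : Type u} [Group L] [Finite L] [AddCommGroup V] [Finite V] [Nontrivial V]
  [DistribMulAction L V] [Field K] [Finite K] [Module K V] [AddCommGroup W] [Finite W]
  {σ : L →* RingAut K} {G T : Subgroup L} {π : L → W} {b : W → W → Kˣ}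
  (a : Amb L V K W σ G T π b 2)

theorem scal_eq {c d : K} (h : ∀ v : V, c • v = d • v) : c = d := by
  obtain ⟨v, hv⟩ := exists_ne (0 : V)
  exact smul_left_injective K hv (h v)

theorem sm_ne (f : L) {v : V} (hv : v ≠ 0) : f • v ≠ 0 := by
  rwa [Ne, smul_eq_zero_iff_eq]

include a

theorem lin {f : L} (hf : σ f = 1) (c : K) (v : V) : f • c • v = c • f • v := by
  rw [a.semi, hf]; rfl

theorem linT {t : L} (ht : t ∈ T) (c : K) (v : V) : t • c • v = c • t • v := lin a (a.σT t ht) c v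

theorem ww (w : W) : w + w = 0 := by rw [← two_nsmul, a.rW]

theorem bsq (x y : W) : (b x y : K) * b x y = 1 := by
  rw [← Units.val_mul, ← a.alt.l, ww a, a.alt.zero_left, Units.val_one]

theorem bpm (x y : W) : (b x y : K) = 1 ∨ (b x y : K) = -1 := mul_self_eq_one_iff.1 (bsq a x y)

theorem bsymm (x y : W) : (b y x : K) = b x y := by
  rw [a.alt.swap, Units.val_inv_eq_inv_val]
  exact (eq_inv_of_mul_eq_one_left (bsq a x y)).symm

theorem ex_neg {x : W} (hx : x ≠ 0) : ∃ y, b x y ≠ 1 ∧ (b x y : K) = -1 := by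
  by_contra h
  push Not at h
  refine hx (a.alt.nd x fun y => ?_)
  by_contra h1
  exact h y h1 ((bpm a x y).resolve_left fun h2 => h1 (Units.ext h2))

theorem two_ne : (1 : K) ≠ -1 := by
  obtain ⟨w, hw⟩ := a.nt
  obtain ⟨y, h1, h2⟩ := ex_neg a hw
  exact fun h => h1 (Units.ext (h2.trans h.symm))

theorem neg_self {v : V} (h : v = -v) : v = 0 := by
  by_contra hv
  exact two_ne a (smul_left_injective K hv (by simpa using h))

theorem ext {f g : L} (h : ∀ v : V, f • v = g • v) : f = g :=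
  (inv_mul_eq_one.1 (a.faith (g⁻¹ * f) fun v => by rw [mul_smul, h, inv_smul_smul])).symm

theorem pi_one : π 1 = 0 := (a.ker 1 T.one_mem).2 ⟨1, fun v => by simp⟩

theorem pi_inv {t : L} (ht : t ∈ T) : π t⁻¹ = π t := by
  have := a.mul _ (T.inv_mem ht) _ ht
  rw [inv_mul_cancel, pi_one a] at this
  rw [eq_neg_of_add_eq_zero_left this.symm, neg_eq_of_add_eq_zero_left (ww a _)]

theorem ex_z : ∃ z ∈ T, ∀ v : V, z • v = -v := by
  obtain ⟨w, hw⟩ := a.nt
  obtain ⟨y, -, h2⟩ := ex_neg a hw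
  obtain ⟨s, hs, rfl⟩ := a.surj w
  obtain ⟨t, ht, rfl⟩ := a.surj y
  refine ⟨s * t * (t * s)⁻¹, mul_mem (mul_mem hs ht) (inv_mem (mul_mem ht hs)), fun v => ?_⟩
  rw [mul_smul, mul_smul, a.hb s hs t ht, h2, ← mul_smul t, smul_inv_smul, neg_one_smul]

theorem cen_pm {t : L} (ht : t ∈ T) (h : π t = 0) :
    (∀ v : V, t • v = v) ∨ ∀ v : V, t • v = -v := by
  obtain ⟨c, hc⟩ := (a.ker t ht).1 h
  have h2 : c * c = 1 := scal_eq (V := V) fun v => by
    rw [mul_smul, ← hc, ← hc, ← mul_smul, ← pow_two, a.two rfl t ht h, one_smul, one_smul]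
  rcases mul_self_eq_one_iff.1 h2 with rfl | rfl
  · exact Or.inl fun v => by simp [hc]
  · exact Or.inr fun v => by simp [hc]

theorem mem_of_pm {f : L} (h : (∀ v : V, f • v = v) ∨ ∀ v : V, f • v = -v) : f ∈ T := by
  rcases h with h | h
  · rw [a.faith f h]; exact T.one_mem
  · obtain ⟨z, hz, h2⟩ := ex_z a
    rwa [ext a fun v => (h v).trans (h2 v).symm]

theorem same_pm {s t : L} (hs : s ∈ T) (ht : t ∈ T) (h : π s = π t) :
    (∀ v : V, s • v = t • v) ∨ ∀ v : V, s • v = -(t • v) := by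
  have := cen_pm a (mul_mem (inv_mem ht) hs) (by rw [a.mul _ (inv_mem ht) _ hs, pi_inv a ht, h, ww a])
  refine this.imp (fun h v => ?_) fun h v => ?_
  · rw [← smul_inv_smul t (s • v), ← mul_smul t⁻¹, h]
  · rw [← smul_inv_smul t (s • v), ← mul_smul t⁻¹, h, smul_neg]

theorem ex_Q : ∃ Q : W → K, (∀ w, Q w = 1 ∨ Q w = -1) ∧
    (∀ t ∈ T, ∀ v : V, t • t • v = Q (π t) • v) ∧ ∀ x y, Q (x + y) = b x y * Q x * Q y := by
  have h1 : ∀ w : W, ∃ c : K, (c = 1 ∨ c = -1) ∧ ∀ t ∈ T, π t = w → ∀ v : V, t • t • v = c • v :=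
    fun w => by
      obtain ⟨s, hs, rfl⟩ := a.surj w
      have h2 : ∀ t ∈ T, π t = π s → ∀ v : V, t • t • v = s • s • v := fun t ht h v => by
        rcases same_pm a ht hs h with h | h <;> simp [h]
      rcases cen_pm a (mul_mem hs hs) (by rw [a.mul _ hs _ hs, ww a]) with h | h
      · exact ⟨1, Or.inl rfl, fun t ht e v => by rw [h2 t ht e, ← mul_smul, h, one_smul]⟩
      · exact ⟨-1, Or.inr rfl, fun t ht e v => by rw [h2 t ht e, ← mul_smul, h, neg_one_smul]⟩
  choose Q hQ hQ' using h1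
  refine ⟨Q, hQ, fun t ht => hQ' _ t ht rfl, fun x y => ?_⟩
  obtain ⟨s, hs, rfl⟩ := a.surj x
  obtain ⟨t, ht, rfl⟩ := a.surj y
  refine scal_eq (V := V) fun v => ?_
  rw [← hQ' _ _ (mul_mem hs ht) (a.mul s hs t ht), mul_smul, mul_smul, a.hb t ht s hs,
    linT a hs, hQ' _ s hs rfl, hQ' _ t ht rfl, smul_smul, smul_smul, bsymm a]

omit a in
/-- Linear elements preserving the `T`-orbits. -/
def TT (σ : L →* RingAut K) (T : Subgroup L) (V : Type u) [MulAction L V] (f : L) : Prop :=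
  σ f = 1 ∧ ∀ v : V, ∃ t ∈ T, f • v = t • v

omit a in
/-- `t` and `f` commute up to a scalar. -/
def Gd (K V : Type u) [Field K] [AddCommGroup V] [Module K V] [MulAction L V] (f t : L) : Prop :=
  ∃ κ : Kˣ, ∀ v : V, t • f • v = (κ : K) • f • t • v

variable {f : L}

theorem gd_cen {t : L} (ht : t ∈ T) (h : π t = 0) : Gd K V f t := by
  rcases cen_pm a ht h with h | h <;> exact ⟨1, fun v => by simp [h]⟩

theorem gd_mul {s t : L} (hs : s ∈ T) (h1 : Gd K V f s) (h2 : Gd K V f t) : Gd K V f (s * t) := by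
  obtain ⟨κ, h1⟩ := h1
  obtain ⟨κ', h2⟩ := h2
  exact ⟨κ' * κ, fun v => by rw [mul_smul, h2, linT a hs, h1, smul_smul, mul_smul s]; rfl⟩

theorem side (hf : TT σ T V f) {t : L} (ht : t ∈ T) (μ : K) :
    (∀ u : V, t • u = μ • u → t • f • u = μ • f • u) ∨
      ∀ u : V, t • u = μ • u → t • f • u = -(μ • f • u) := by
  have h1 : ∀ u : V, t • u = μ • u → t • f • u = μ • f • u ∨ t • f • u = -(μ • f • u) :=
    fun u hu => by
      obtain ⟨τ, hτ, e⟩ := hf.2 u
      rw [e, a.hb t ht τ hτ, hu, linT a hτ]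
      rcases bpm a (π t) (π τ) with h | h <;> simp [h]
  by_cases h : ∀ u : V, t • u = μ • u → t • f • u = μ • f • u
  · exact Or.inl h
  · push Not at h
    obtain ⟨u1, h2, h3⟩ := h
    have h4 := (h1 u1 h2).resolve_left h3
    refine Or.inr fun u hu => (h1 u hu).elim (fun h5 => ?_) id
    have h6 := h1 (u + u1) (by rw [smul_add, smul_add, hu, h2])
    simp only [smul_add, neg_add] at h6
    rcases h6 with h6 | h6
    · rw [h5] at h6
      exact absurd (add_left_cancel h6) h3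
    · rw [h4] at h6
      exact add_right_cancel h6

theorem gd_of_sq (hf : TT σ T V f) {t : L} (ht : t ∈ T) {l : K} (hl : l ≠ 0)
    (h : ∀ v : V, t • t • v = (l * l) • v) : Gd K V f t := by
  by_cases h0 : π t = 0
  · exact gd_cen a ht h0
  have h2 : (2 : K) ≠ 0 := fun h => two_ne a (by linear_combination h)
  have dec : ∀ v : V, ∃ u u' : V, v = u + u' ∧ t • u = l • u ∧ t • u' = (-l) • u' := fun v =>
    ⟨(2 * l)⁻¹ • (l • v + t • v), (2 * l)⁻¹ • (l • v - t • v), by
      generalize t • v = y; match_scalars <;> field_simp <;> ring, by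
      rw [linT a ht, smul_add, linT a ht, h]; generalize t • v = y; module, by
      rw [linT a ht, smul_sub, linT a ht, h]; generalize t • v = y; module⟩
  have sc : ∀ c : K, (∀ v : V, t • f • v = c • f • v) → False := fun c hc =>
    h0 ((a.ker t ht).2 ⟨c, fun v => by simpa using hc (f⁻¹ • v)⟩)
  rcases side a hf ht l with h3 | h3 <;> rcases side a hf ht (-l) with h4 | h4
  · refine ⟨1, fun v => ?_⟩
    obtain ⟨u, u', rfl, e, e'⟩ := dec v
    simp only [smul_add, h3 u e, h4 u' e', e, e', lin a hf.1, Units.val_one, one_smul]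
  · refine (sc l fun v => ?_).elim
    obtain ⟨u, u', rfl, e, e'⟩ := dec v
    simp only [smul_add, h3 u e, h4 u' e', neg_smul, neg_neg]
  · refine (sc (-l) fun v => ?_).elim
    obtain ⟨u, u', rfl, e, e'⟩ := dec v
    simp only [smul_add, h3 u e, h4 u' e', neg_smul]
  · refine ⟨-1, fun v => ?_⟩
    obtain ⟨u, u', rfl, e, e'⟩ := dec v
    simp only [smul_add, h3 u e, h4 u' e', e, e', lin a hf.1, Units.val_neg, Units.val_one,
      neg_smul, one_smul, smul_neg, neg_neg]

theorem sing_split {Q : W → K} (h1 : ∀ w, Q w = 1 ∨ Q w = -1)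
    (h2 : ∀ x y, Q (x + y) = b x y * Q x * Q y) {w : W} (hw : w ≠ 0) (hQ : Q w = 1) {p : W}
    (hp0 : p ≠ 0) (hp : Q p = -1) : ∃ s, Q s = 1 ∧ Q (s + p) = 1 := by
  suffices h : ∃ s, Q s = 1 ∧ (b s p : K) = -1 by
    obtain ⟨s, h3, h4⟩ := h
    exact ⟨s, h3, by rw [h2, h3, h4, hp]; ring⟩
  by_contra hn
  have hn' : ∀ s, Q s = 1 → (b s p : K) = 1 := fun s hs =>
    (bpm a s p).resolve_right fun h => hn ⟨s, hs, h⟩
  obtain ⟨c, hc, hcQ⟩ : ∃ c, (b w c : K) = -1 ∧ Q c = 1 := by
    obtain ⟨c, -, hc⟩ := ex_neg a hw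
    rcases h1 c with h | h
    · exact ⟨c, hc, h⟩
    · exact ⟨w + c, by rw [a.alt.r, a.alt.self, one_mul, hc], by rw [h2, hc, hQ, h]; ring⟩
  obtain ⟨u, -, hu⟩ := ex_neg a hp0
  rw [← bsymm a] at hu
  have e1 := hn' w hQ
  have e2 := hn' c hcQ
  rcases h1 u with h | h
  · exact hn ⟨u, h, hu⟩
  rcases bpm a u w with h3 | h3
  · rcases bpm a u c with h4 | h4
    · refine hn ⟨u + w + c, ?_, ?_⟩
      · rw [h2, h2, a.alt.l, Units.val_mul, h, h3, h4, hc, hQ, hcQ]; ring
      · rw [a.alt.l, a.alt.l, Units.val_mul, Units.val_mul, hu, e1, e2]; ring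
    · exact hn ⟨u + c, by rw [h2, h, h4, hcQ]; ring, by rw [a.alt.l, Units.val_mul, hu, e2]; ring⟩
  · exact hn ⟨u + w, by rw [h2, h, h3, hQ]; ring, by rw [a.alt.l, Units.val_mul, hu, e1]; ring⟩

theorem ex_cent (hg : ∀ t ∈ T, Gd K V f t) : ∃ s ∈ T, ∀ t ∈ T, Commute (s * f) t := by
  have h1 : ∀ w : W, ∃ κ : Kˣ, ∀ t ∈ T, π t = w → ∀ v : V, t • f • v = (κ : K) • f • t • v :=
    fun w => by
      obtain ⟨s, hs, rfl⟩ := a.surj w
      obtain ⟨κ, hκ⟩ := hg s hs
      refine ⟨κ, fun t ht e v => ?_⟩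
      rcases same_pm a ht hs e with h | h <;> simp [h, hκ]
  choose χ hχ using h1
  obtain ⟨x, hx⟩ := a.alt.exists_eq χ fun x y => by
    obtain ⟨s, hs, rfl⟩ := a.surj x
    obtain ⟨t, ht, rfl⟩ := a.surj y
    refine Units.ext (scal_eq (V := V) fun v => ?_)
    have := hχ _ _ (mul_mem hs ht) (a.mul s hs t ht) ((f * s * t)⁻¹ • v)
    rw [mul_smul, hχ _ t ht rfl, linT a hs, hχ _ s hs rfl, smul_smul, mul_smul s] at this
    simpa only [← mul_smul f, ← mul_smul (f * s), smul_inv_smul, Units.val_mul, mul_comm]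
      using this.symm
  obtain ⟨s, hs, rfl⟩ := a.surj x
  refine ⟨s, hs, fun t ht => (ext a fun v => ?_ : s * f * t = t * (s * f))⟩
  simp only [mul_smul]
  rw [a.hb t ht s hs, hχ _ t ht rfl, linT a hs, smul_smul (b _ _ : K), ← hx, bsymm a, bsq a,
    one_smul]

omit a in
theorem perp_perp (h : Alt b) (D : AddSubgroup W) : h.perp (h.perp D) = D := by
  refine (AddSubgroup.eq_of_le_of_card_ge (fun x hx y hy => ?_) ?_).symm
  · rw [h.swap, hy x hx, inv_one]
  · have h1 := h.card_mul D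
    have h2 := h.card_mul (h.perp D)
    rw [← h1, mul_comm] at h2
    exact (Nat.eq_of_mul_eq_mul_right Nat.card_pos h2).le

theorem no_root {γ : K} (hγ : γ * γ = -1) (h : ∀ v : V, ∃ s ∈ T, s • v = γ • v) {t : L}
    (ht : t ∈ T) (h0 : π t ≠ 0) (h1 : ∀ v : V, t • t • v = v) : False := by
  have γ0 : γ ≠ 0 := fun e => by simp [e] at hγ
  obtain ⟨y, hy⟩ : ∃ y : V, y + t • y ≠ 0 := by
    by_contra hn
    push Not at hn
    exact h0 ((a.ker t ht).2 ⟨-1, fun v => by
      rw [neg_one_smul, eq_neg_of_add_eq_zero_right (hn v)]⟩)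
  have hx : t • (y + t • y) = y + t • y := by rw [smul_add, h1, add_comm]
  generalize y + t • y = x at hy hx
  obtain ⟨s0, hs0, e0⟩ := h x
  let D : AddSubgroup W :=
    { carrier := {w | ∃ d ∈ T, d • x = x ∧ π d = w}
      add_mem' := by
        rintro _ _ ⟨d, hd, e, rfl⟩ ⟨d', hd', e', rfl⟩
        exact ⟨d * d', mul_mem hd hd', by rw [mul_smul, e', e], a.mul _ hd _ hd'⟩
      zero_mem' := ⟨1, T.one_mem, one_smul _ _, pi_one a⟩
      neg_mem' := by
        rintro _ ⟨d, hd, e, rfl⟩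
        exact ⟨d, hd, e, (neg_eq_of_add_eq_zero_left (ww a _)).symm⟩ }
  have hs0D : π s0 ∉ a.alt.perp (a.alt.perp D) := by
    rw [perp_perp]
    rintro ⟨d, hd, e, e'⟩
    have : γ = 1 ∨ γ = -1 := (same_pm a hs0 hd e'.symm).imp
      (fun h => smul_left_injective K hy (by simpa [e0, e] using h x))
      fun h => smul_left_injective K hy (by simpa [e0, e] using h x)
    rcases this with rfl | rfl <;> exact two_ne a (by simpa using hγ)
  simp only [a.alt.mem_perp, not_forall] at hs0D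
  obtain ⟨w, hw, hw'⟩ := hs0D
  obtain ⟨j, hj, rfl⟩ := a.surj w
  have hjs : (b (π s0) (π j) : K) = -1 := by
    rw [bsymm a]
    exact (bpm a _ _).resolve_left fun e => hw' (Units.ext e)
  have fix : ∀ d ∈ T, d • x = x → d • (x + j • x) = x + j • x := fun d hd e => by
    rw [smul_add, a.hb d hd j hj, hw _ ⟨d, hd, e, rfl⟩, e, Units.val_one, one_smul]
  have N : ∀ c : K, c = 1 ∨ c = -1 → s0 • (x + j • x) ≠ c • γ • (x + j • x) := fun c hc e => by
    rw [smul_add, a.hb s0 hs0 j hj, hjs, e0, linT a hj, smul_comm c, ← smul_comm γ, ← smul_add,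
      smul_right_inj γ0] at e
    rcases hc with rfl | rfl
    · simp only [neg_smul, one_smul, add_right_inj] at e
      exact sm_ne j hy (neg_self a e.symm)
    · simp only [neg_smul, one_smul, neg_add, add_left_inj] at e
      exact hy (neg_self a e)
  have fx := fix t ht hx
  generalize x + j • x = x' at fix N fx
  obtain ⟨w1, -, hw1⟩ := ex_neg a h0
  obtain ⟨s1, hs1, rfl⟩ := a.surj w1
  have e1 : t • s1 • x' = -(s1 • x') := by rw [a.hb t ht s1 hs1, hw1, fx, neg_one_smul]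
  obtain ⟨s, hs, e⟩ := h (x + s1 • x')
  have e2 := congrArg (t • ·) e
  simp only [smul_add, a.hb t ht s hs, linT a ht, hx, e1, smul_neg] at e e2
  have h2 : (2 : K) ≠ 0 := fun h => two_ne a (by linear_combination h)
  rcases bpm a (π t) (π s) with hb | hb <;> rw [hb] at e2
  · have e3 : s • x = γ • x := smul_right_injective V h2 (by
      change (2 : K) • _ = (2 : K) • _
      generalize s1 • x' = y3 at e e2 ⊢
      generalize s • x = y1, s • y3 = y2 at e e2 ⊢
      linear_combination (norm := module) e + e2)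
    have e4 : s • s1 • x' = γ • s1 • x' := by rwa [e3, add_right_inj] at e
    have e5 := fix (s0⁻¹ * s) (mul_mem (inv_mem hs0) hs) (by
      rw [mul_smul, e3, ← e0, inv_smul_smul])
    rw [mul_smul, inv_smul_eq_iff] at e5
    refine N _ (bpm a (π s) (π s1)) ?_
    rw [a.hb s hs s1 hs1, ← linT a hs1, ← linT a hs1, smul_left_cancel_iff, e5] at e4
    rw [← e4, smul_smul, bsq a, one_smul]
  · have e3 : s • x = γ • s1 • x' := smul_right_injective V h2 (by
      change (2 : K) • _ = (2 : K) • _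
      generalize s1 • x' = y3 at e e2 ⊢
      generalize s • x = y1, s • y3 = y2 at e e2 ⊢
      linear_combination (norm := module) e - e2)
    have e4 : (s1⁻¹ * s) • x = γ • x' := by rw [mul_smul, e3, ← linT a hs1, inv_smul_smul]
    refine N _ (bpm a (π s0) (π (s1⁻¹ * s))) (smul_right_injective V γ0 ?_)
    change γ • s0 • x' = γ • _ • γ • x'
    rw [← linT a hs0, ← e4, a.hb s0 hs0 _ (mul_mem (inv_mem hs1) hs), e0,
      linT a (mul_mem (inv_mem hs1) hs), smul_comm]

theorem card_le {Q : W → K} (h2 : ∀ x y, Q (x + y) = b x y * Q x * Q y)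
    (h3 : ∀ w, w ≠ 0 → Q w = -1) : Nat.card T ≤ 8 := by
  classical
  obtain ⟨p, hp⟩ := a.nt
  obtain ⟨c, -, hc⟩ := ex_neg a hp
  have key : ∀ u, (b u p : K) = 1 → (b u c : K) = 1 → u = 0 := fun u e1 e2 => by
    by_contra hu
    have h4 : u + p = 0 := by
      by_contra h
      have := h3 _ h
      rw [h2, e1, h3 u hu, h3 p hp] at this
      exact two_ne a (by linear_combination this)
    rw [eq_neg_of_add_eq_zero_left h4, neg_eq_of_add_eq_zero_left (ww a _), hc] at e2
    exact two_ne a e2.symm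
  choose l hl hl' using a.surj
  have := Nat.card_le_card_of_injective (fun t : T => (decide ((b (π t) p : K) = 1),
    decide ((b (π t) c : K) = 1), decide (t.1 = l (π t)))) fun s t h => ?_
  · simpa using this
  simp only [Prod.mk.injEq, decide_eq_decide] at h
  obtain ⟨e1, e2, e3⟩ := h
  have e : ∀ y, ((b (π s) y : K) = 1 ↔ (b (π t) y : K) = 1) → (b (π s + π t) y : K) = 1 :=
    fun y h => by
      rw [a.alt.l, Units.val_mul]
      rcases bpm a (π s) y with h1 | h1
      · rw [h1, h.1 h1, one_mul]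
      · rw [h1, (bpm a (π t) y).resolve_left fun h' => two_ne a ((h.2 h').symm.trans h1)]
        ring
  have e4 : π s = π t := by
    rw [eq_neg_of_add_eq_zero_left (key _ (e _ e1) (e _ e2)), neg_eq_of_add_eq_zero_left (ww a _)]
  rw [e4] at e3
  refine Subtype.ext ?_
  by_cases h : t.1 = l (π t)
  · exact (e3.2 h).trans h.symm
  · have h5 := (same_pm a t.2 (hl _) (hl' _).symm).resolve_left fun h' => h (ext a h')
    have h6 := (same_pm a s.2 (hl _) (e4.trans (hl' _).symm)).resolve_left fun h' =>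
      h (e3.1 (ext a h'))
    exact ext a fun v => (h6 v).trans (h5 v).symm

theorem quat (hf : TT σ T V f) (hsq : ∀ γ : K, γ * γ ≠ -1) (hff : ∀ v : V, f • f • v = -v)
    (h1 : ∀ t ∈ T, π t ≠ 0 → ∀ v : V, t • t • v = -v) (h8 : Nat.card T ≤ 8) : f ∈ T := by
  by_contra hn
  have free : ∀ s ∈ T, ∀ t ∈ T, ∀ v : V, v ≠ 0 → s • v = t • v → s = t := fun s hs t ht v hv e => by
    have hm := mul_mem (inv_mem ht) hs
    have e' : (t⁻¹ * s) • v = v := by rw [mul_smul, e, inv_smul_smul]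
    by_cases h : π (t⁻¹ * s) = 0
    · rcases cen_pm a hm h with h | h
      · exact (inv_mul_eq_one.1 (a.faith _ h)).symm
      · exact absurd (neg_self a (e'.symm.trans (h v))) hv
    · have := h1 _ hm h v
      rw [e', e'] at this
      exact absurd (neg_self a this) hv
  obtain ⟨x, hx⟩ := exists_ne (0 : V)
  obtain ⟨τ, hτ, e⟩ := hf.2 x
  have ind : ∀ c : K, τ • x ≠ c • x := fun c h => hsq c (smul_left_injective K hx (by
    change (c * c) • x = (-1 : K) • x
    rw [mul_smul, ← h, ← e, ← lin a hf.1, ← h, ← e, hff, neg_one_smul]))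
  have hτ0 : π τ ≠ 0 := fun h => by
    obtain ⟨c, hc⟩ := (a.ker τ hτ).1 h
    exact ind c (hc x)
  have e' : f • τ • x = τ • τ • x := by rw [h1 τ hτ hτ0, ← e, hff]
  obtain ⟨v, hv⟩ : ∃ v : V, f • v ≠ τ • v := by
    by_contra h
    push Not at h
    exact hn (ext a h ▸ hτ)
  have h2 : (2 : K) ≠ 0 := fun h => two_ne a (by linear_combination h)
  have h12 : (1 : K) ≠ 2 := fun h => one_ne_zero (by linear_combination -h : (1 : K) = 0)
  have hi : ∀ i j : Fin 3, ((i : ℕ) : K) = ((j : ℕ) : K) → i = j := fun i j h => by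
    fin_cases i <;> fin_cases j <;> simp_all [h2.symm, h12.symm]
  choose ρ hρ hρ' using hf.2
  let u : Fin 3 × Fin 3 → V := fun i => ((i.1 : ℕ) : K) • x + ((i.2 : ℕ) : K) • τ • x
  have hu : ∀ i, f • u i = τ • u i := fun i => by
    simp only [u, smul_add, lin a hf.1, linT a hτ, e, e']
  have := Nat.card_le_card_of_injective (fun i => (⟨ρ (v + u i), hρ _⟩ : T)) fun i j h => ?_
  · simp at this
    omega
  have h3 : ρ (v + u i) = ρ (v + u j) := congrArg Subtype.val h
  have h4 : u i = u j := by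
    by_contra hne
    have h5 : ρ (v + u i) • (u i - u j) = τ • (u i - u j) := by
      rw [show u i - u j = (v + u i) - (v + u j) by abel, smul_sub, ← hρ', h3, ← hρ', ← smul_sub,
        add_sub_add_left_eq_sub, smul_sub, smul_sub, hu, hu]
    have h6 := hρ' (v + u i)
    rw [free _ (hρ _) _ hτ _ (sub_ne_zero.2 hne) h5, smul_add f, smul_add τ, hu,
      add_left_inj] at h6
    exact hv h6
  have h7 : i.2 = j.2 := hi _ _ (by
    by_contra hne
    refine ind ((((i.2 : ℕ) : K) - (j.2 : ℕ))⁻¹ * (((j.1 : ℕ) : K) - (i.1 : ℕ))) ?_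
    rw [mul_smul, eq_inv_smul_iff₀ (sub_ne_zero.2 hne)]
    simp only [u] at h4
    generalize τ • x = y at h4 ⊢
    linear_combination (norm := module) h4)
  refine Prod.ext (hi _ _ (smul_left_injective K hx ?_)) h7
  simpa only [u, h7, add_left_inj] using h4

omit a in
theorem normTwo (csc : CscStmt.{u}) : NormTwoStmt.{u} := by
  intro L V K W _ _ _ _ _ _ _ _ _ _ _ σ G T π b r a hr
  classical
  subst hr
  refine ⟨fun t0 ht0 g => ?_⟩
  obtain ⟨Q, hQ1, hQ2, hQ3⟩ := ex_Q a
  have hf : TT σ T V (g * t0 * g⁻¹) := ⟨by simp [a.σT t0 ht0], fun v => by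
    obtain ⟨k, hk, e1, e2⟩ := a.cl g (g⁻¹ • v) (t0 • g⁻¹ • v)
    refine ⟨_, a.Tn k hk t0 ht0, ?_⟩
    rw [smul_inv_smul] at e1
    rw [mul_smul, mul_smul, ← e2, mul_smul, mul_smul, inv_smul_eq_iff.2 e1.symm]⟩
  by_cases h0 : π t0 = 0
  · exact mem_of_pm a ((cen_pm a ht0 h0).imp (fun h v => by simp [mul_smul, h])
      fun h v => by simp [mul_smul, h])
  have hsc : ∀ c : K, ¬ ∀ v : V, (g * t0 * g⁻¹) • v = c • v := fun c h =>
    h0 ((a.ker t0 ht0).2 ⟨σ g⁻¹ c, fun v => by
      have := congrArg (g⁻¹ • ·) (h (g • v))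
      simpa [mul_smul, a.semi] using this⟩)
  have hff : ∀ v : V, (g * t0 * g⁻¹) • (g * t0 * g⁻¹) • v = Q (π t0) • v := fun v => by
    simp only [mul_smul, inv_smul_smul, hQ2 t0 ht0]
    rcases hQ1 (π t0) with h | h <;> simp [h]
  generalize g * t0 * g⁻¹ = f at hf hsc hff
  have Q0 : Q 0 = 1 := scal_eq (V := V) fun v => by rw [← pi_one a, ← hQ2 1 T.one_mem]; simp
  have g1 : ∀ t ∈ T, Q (π t) = 1 → Gd K V f t := fun t ht h =>
    gd_of_sq a hf ht one_ne_zero fun v => by rw [hQ2 t ht, h, mul_one]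
  have fin : (∀ t ∈ T, Gd K V f t) → f ∈ T := fun hg => by
    obtain ⟨s, hs, hc⟩ := ex_cent a hg
    have hcc : ∀ v : V, (s * f) • (s * f) • v = (Q (π s) * Q (π t0)) • v := fun v => by
      have e : f * s = s * f := mul_left_cancel (a := s) (by rw [← mul_assoc, (hc s hs).eq])
      rw [mul_smul, mul_smul, ← mul_smul f s, e, mul_smul, hff, hQ2 s hs, mul_smul]
    have hpm : Q (π s) * Q (π t0) = 1 ∨ Q (π s) * Q (π t0) = -1 := by
      rcases hQ1 (π s) with h | h <;> rcases hQ1 (π t0) with h' | h' <;> simp [h, h']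
    have horb : ∀ v : V, ∃ t ∈ T, (s * f) • v = t • v := fun v => by
      obtain ⟨t, ht, e⟩ := hf.2 v
      exact ⟨s * t, mul_mem hs ht, by rw [mul_smul, e, mul_smul]⟩
    obtain ⟨γ, hγ⟩ := csc L V K W σ G T π b 2 a (s * f) (by simp [a.σT s hs, hf.1]) hc horb
      (hpm.imp (fun h => a.faith _ fun v => by rw [pow_two, mul_smul, hcc, h, one_smul])
        fun h => ⟨rfl, fun v => by rw [hcc, h, neg_one_smul]⟩)
    have hγ2 : γ * γ = Q (π s) * Q (π t0) := scal_eq (V := V) fun v => by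
      rw [← hcc, hγ, hγ, mul_smul]
    rcases hpm with h | h
    · refine (T.mul_mem_cancel_left hs).1 (mem_of_pm a ?_)
      exact (mul_self_eq_one_iff.1 (hγ2.trans h)).imp (fun e v => by simp [hγ, e])
        fun e v => by simp [hγ, e]
    · have nr : ∀ t ∈ T, π t ≠ 0 → Q (π t) = -1 := fun t ht h1 =>
        (hQ1 _).resolve_left fun h2 => no_root a (hγ2.trans h)
          (fun v => (horb v).imp fun t h => ⟨h.1, h.2.symm.trans (hγ v)⟩) ht h1
          fun v => by rw [hQ2 t ht, h2, one_smul]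
      have hs0 : π s = 0 := by
        by_contra h1
        rw [nr s hs h1, nr t0 ht0 h0] at h
        exact two_ne a (by linear_combination h)
      refine absurd (fun v => ?_) (hsc (γ * Q (π s) * if ∀ v : V, s • v = v then 1 else -1))
      have h3 := hγ v
      rw [mul_smul] at h3
      rw [hs0, Q0, mul_one]
      split_ifs with h4
      · rw [mul_one, ← h3, h4]
      · rw [(cen_pm a hs hs0).resolve_left h4] at h3
        rw [mul_neg_one, neg_smul, ← h3, neg_neg]
  by_cases hA : ∃ w, w ≠ 0 ∧ Q w = 1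
  · obtain ⟨w, hw, hw1⟩ := hA
    refine fin fun t ht => (hQ1 (π t)).elim (g1 t ht) fun h => ?_
    obtain ⟨y, h1, h2⟩ := sing_split a hQ1 hQ3 hw hw1
      (fun e => two_ne a (Q0.symm.trans (e ▸ h))) h
    obtain ⟨s, hs, rfl⟩ := a.surj y
    have := gd_mul a (inv_mem hs) (g1 _ (inv_mem hs) (by rwa [pi_inv a hs]))
      (g1 _ (mul_mem hs ht) (by rwa [a.mul s hs t ht]))
    rwa [inv_mul_cancel_left] at this
  have hB : ∀ w, w ≠ 0 → Q w = -1 := fun w hw => (hQ1 w).resolve_left fun h => hA ⟨w, hw, h⟩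
  by_cases hS : ∃ γ : K, γ * γ = -1
  · obtain ⟨γ, hγ⟩ := hS
    refine fin fun t ht => (hQ1 (π t)).elim (g1 t ht) fun h => ?_
    exact gd_of_sq a hf ht (l := γ) (fun e => by simp [e] at hγ) fun v => by rw [hQ2 t ht, h, hγ]
  · exact quat a hf (fun γ h => hS ⟨γ, h⟩) (fun v => by rw [hff, hB _ h0, neg_one_smul])
      (fun t ht h v => by rw [hQ2 t ht, hB _ h, neg_one_smul]) (card_le a hQ3 hB)

end Cfsg.Agent.H91.TcN2
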